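import Cfsg.Agent.K35.Loc
import Cfsg.Agent.Solv.ClassSize

/-! A subgroup of 3-power index. -/

set_option autoImplicit false

namespace Cfsg.Lib.K35

open Cfsg Subgroup Cfsg.Lib.Trans Cfsg.Lib.Gold
open Cfsg.Lib.P8 (A5 A6 S5 O2 Om Jt Phi EA SR4 Ch E9 Pj Ty Sec SecOK Mx)
open scoped commutatorElement

universe u

theorem a3 : StA3.{u} := by
  intro G _ _ gl M S hM hS syl h5
  have := gl.sim
  have : Fact (Nat.Prime 2) := ⟨Nat.prime_two⟩
  have fac : ∀ R : Subgroup G, IsSylowIn 3 R ⊤ → ∀ g, ∃ m ∈ M, ∃ r ∈ R, g = m * r := fun R hR => by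
    refine Solv.ClassSize.forall_mul_of_coprime_index (Nat.coprime_of_dvd fun p pp h1 h2 => ?_)
    obtain ⟨b, a, -, e⟩ := gl.ord
    have h3 := e ▸ h1.trans M.index_dvd_card
    rcases (Nat.Prime.dvd_mul pp).1 h3 with h | h
    · rcases (Nat.Prime.dvd_mul pp).1 h with h | h
      · obtain rfl := (Nat.prime_dvd_prime_iff_eq pp Nat.prime_two).1 (pp.dvd_of_dvd_pow h)
        exact syl.not_dvd_relIndex_of_le hS (by rwa [relIndex_top_right])
      · obtain rfl := (Nat.prime_dvd_prime_iff_eq pp Nat.prime_three).1 (pp.dvd_of_dvd_pow h)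
        exact hR.not_dvd (by rwa [relIndex_top_right])
    · obtain rfl := (Nat.prime_dvd_prime_iff_eq pp Nat.prime_five).1 h
      have h4 := mul_dvd_mul h5 h1
      rw [M.card_mul_index, e, Nat.mul_dvd_mul_iff_right (by norm_num)] at h4
      rcases (Nat.Prime.dvd_mul pp).1 h4 with h | h <;> exact absurd (pp.dvd_of_dvd_pow h) (by norm_num)
  have core : ∀ R : Subgroup G, IsSylowIn 3 R ⊤ → ∀ x, (∀ r ∈ R, r * x * r⁻¹ ∈ M) → x = 1 :=
    fun R hR x hx => by
      have h : x ∈ M.normalCore := fun g => by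
        obtain ⟨m, hm, r, hr, rfl⟩ := fac R hR g
        rw [show m * r * x * (m * r)⁻¹ = m * (r * x * r⁻¹) * m⁻¹ by group]
        exact mul_mem (mul_mem hm (hx r hr)) (inv_mem hm)
      rcases M.normalCore_normal.eq_bot_or_eq_top with e | e
      · exact mem_bot.1 (e ▸ h)
      · exact absurd (top_unique (e ▸ M.normalCore_le)) hM
  refine ⟨fun R X hR hX hN => eq_bot_iff.2 fun x hx => mem_bot.2 (core R hR x fun r hr => ?_),
    fun r hr ho R hR hC => ?_⟩
  · obtain ⟨g, -, hg⟩ := syl.exists_cj_le hX le_top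
    obtain ⟨m, hm, ρ, hρ, rfl⟩ := fac R hR g
    have := hS (hg (conj_mem_cj.2 (mem_normalizer_conj (hN (mul_mem (inv_mem hρ) hr)) hx)))
    rw [show m * ρ * (ρ⁻¹ * r * x * (ρ⁻¹ * r)⁻¹) * (m * ρ)⁻¹ = m * (r * x * r⁻¹) * m⁻¹ by group] at this
    exact (mul_mem_cancel_left hm).1 ((mul_mem_cancel_right (inv_mem hm)).1 this)
  · have := core R hR r fun ρ hρ => by rwa [mem_centralizer_singleton_iff.1 (hC hρ), mul_inv_cancel_right]
    rw [this, orderOf_one] at ho
    omega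

end Cfsg.Lib.K35
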