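import Cfsg.Agent.K35.Defs
import Cfsg.Agent.PrimeOne.Brauer1
import Cfsg.Agent.Char.Galois

/-!
# The principal 3-block when the Sylow 3-subgroups have order three
-/

set_option autoImplicit false

namespace Cfsg.Lib.K35

open Cfsg Subgroup Cfsg.Lib.Char Cfsg.Lib.PrimeOne Cfsg.Lib.Block Cfsg.Lib.Block.Princ

universe u

namespace B3

variable {G : Type u} [Group G] [Finite G]

theorem mk' (hG : commutator G = ⊤) {χ ψ : IrrCharacter G} (h1 : χ ≠ triv G) (h2 : ψ ≠ triv G)
    (hs : ∀ g : G, 3 ∣ orderOf g → (χ : G → ℂ) g = 1 ∧ (ψ : G → ℂ) g = -1)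
    (hr : ∀ g : G, ¬ 3 ∣ orderOf g → 1 + (χ : G → ℂ) g - (ψ : G → ℂ) g = 0)
    (hm : (deg χ : ℤ) ≡ 1 [ZMOD 3]) : B3 χ ψ (deg χ) := by
  classical
  have := Fintype.ofFinite G
  have h3 : (ψ : G → ℂ) 1 = deg χ + 1 := by
    rw [deg_cast]; linear_combination -hr 1 (by simp)
  have h4 : deg ψ = deg χ + 1 := by exact_mod_cast (deg_cast ψ).trans h3
  have h5 : ∀ g, ∃ n : ℤ, (χ : G → ℂ) g - (ψ : G → ℂ) g = n := fun g => by
    by_cases hg : 3 ∣ orderOf g
    · exact ⟨2, by rw [(hs g hg).1, (hs g hg).2]; norm_num⟩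
    · exact ⟨-1, by push_cast; linear_combination hr g hg⟩
  have h6 : Rat (χ : G → ℂ) := fun g =>
    exists_int_of_forall_ringEquiv (χ.2.isGeneralizedCharacter.isIntegral g) fun σ => by
      have h7 : ((galoisPerm G σ χ : IrrCharacter G) : G → ℂ) - (galoisPerm G σ ψ : IrrCharacter G) =
          (χ : G → ℂ) - ψ := funext fun g => by
        obtain ⟨n, hn⟩ := h5 g
        rw [Pi.sub_apply, Pi.sub_apply, galoisPerm_apply, galoisPerm_apply, ← map_sub, hn,
          map_intCast]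
      replace h7 := congrArg (classInner · (χ : G → ℂ)) h7
      simp only [classInner_sub_left, classInner_irr, if_true] at h7
      rw [if_neg (show ψ ≠ χ by rintro rfl; omega)] at h7
      rw [← galoisPerm_apply, show galoisPerm G σ χ = χ by
        by_contra h8
        rw [if_neg h8] at h7
        split_ifs at h7 <;> norm_num at h7]
  refine ⟨fun e => h1 (eq_triv_iff.2 e), fun e => h2 (eq_triv_iff.2 e), (deg_cast χ).symm, h3, hs,
    hr, h6, fun g => ?_, lt_of_le_of_ne (deg_pos χ) fun h => h1 (eq_triv_of_deg_one hG h.symm),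
    by rw [Int.ModEq] at hm; omega, deg_dvd_card χ, h4 ▸ deg_dvd_card ψ⟩
  obtain ⟨n, hn⟩ := h5 g
  obtain ⟨m, hm⟩ := h6 g
  exact ⟨m - n, by push_cast; linear_combination hm - hn⟩

end B3

theorem b3 : StB3.{u} := by
  intro G _ _ _ hG h3 h9
  classical
  have : Fact (Nat.Prime 3) := ⟨Nat.prime_three⟩
  have hc : commutator G = ⊤ := (IsSimpleGroup.eq_bot_or_eq_top_of_normal _ inferInstance).resolve_left
    fun e => hG ⟨⟨fun a b => commutatorElement_eq_one_iff_mul_comm.1 (mem_bot.1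
      (e ▸ commutator_mem_commutator (mem_top a) (mem_top b)))⟩⟩
  obtain ⟨P⟩ : Nonempty (Sylow 3 G) := inferInstance
  have hP := PS.card_sylow_eq h3 h9 P
  obtain ⟨I, hI⟩ := exists_isPModular Nat.prime_three
  obtain ⟨t, X, Y, δ, ε, h⟩ := exists_B0 hI P hP
  have h1 := two_le_relIndex hP hc
  generalize Subgroup.relIndex (G := G) _ _ = e at h h1
  have h2 := h.card_eq
  rw [factorization_eq_one hP] at h2
  have h4 := h.t_pos
  obtain ⟨rfl, rfl⟩ : e = 2 ∧ t = 1 := by constructor <;> nlinarith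
  obtain ⟨θ, rfl⟩ := Finset.card_eq_one.1 h.card_Y
  have hθ := Finset.mem_singleton_self θ
  obtain ⟨φ, hφ⟩ := Finset.card_eq_one.1
    ((Finset.card_erase_of_mem h.triv_mem).trans (by rw [h.card_X]))
  have h5 := Finset.mem_erase.1 (hφ ▸ Finset.mem_singleton_self φ)
  have h6 : ∀ {A : Type} [AddCommMonoid A] (f : IrrCharacter G → A),
      ∑ χ ∈ X, f χ = f (triv G) + f φ := fun f => by
    rw [← Finset.add_sum_erase _ _ h.triv_mem, hφ, Finset.sum_singleton]
  have r1 := h.deg_rel hθ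
  have r2 := h.rel θ hθ
  have r3 := h.sum_Y
  have r4 := h.val_X φ h5.2
  have r5 := h.deg_X_modEq' h5.2
  have r6 := h.deg_Y_modEq' hθ
  simp only [h6, h.δ_triv, deg_triv, triv_apply, Finset.sum_singleton] at r1 r2 r3
  have p1 : 1 < deg φ :=
    lt_of_le_of_ne (deg_pos φ) fun e => h5.1 (eq_triv_of_deg_one hc e.symm)
  have p2 := deg_pos θ
  rcases h.sign_X φ h5.2 with s | s <;> rw [s] at r1 r2 r4 r5
  · obtain rfl : ε = 1 := h.sign.resolve_right (by rintro rfl; omega)
    exact ⟨φ, θ, _, B3.mk' hc h5.1 (h.ne_triv hθ) (fun g hg => ⟨by simpa using r4 g hg,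
      by simpa using r3 g hg⟩) (fun g hg => by
        have := r2 g hg; push_cast at this; linear_combination -this) r5⟩
  · obtain rfl : ε = -1 := h.sign.resolve_left (by rintro rfl; omega)
    exact ⟨θ, φ, _, B3.mk' hc (h.ne_triv hθ) h5.1 (fun g hg => ⟨by simpa using r3 g hg,
      by simpa using r4 g hg⟩) (fun g hg => by
        have := r2 g hg; push_cast at this; linear_combination -this) (r6.trans (by decide))⟩

end Cfsg.Lib.K35
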