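import Cfsg.Agent.K35.Loc

/-! Finite facts on involutions of `S₆`. -/

set_option autoImplicit false

namespace Cfsg.Lib.K35.B6d

open Equiv Equiv.Perm

theorem f5 : ∀ a : S6, a * a = 1 → a ≠ 1 → sign a = 1 → ∃ i j k : Fin 6, i ≠ j ∧ i ≠ k ∧
    (a * (swap i j * swap i k * a * (swap i j * swap i k)⁻¹)) ^ 5 = 1 ∧
    a * (swap i j * swap i k * a * (swap i j * swap i k)⁻¹) ≠ 1 := by decide +kernel

theorem f2 : ∀ a : S6, a * a = 1 → sign a = -1 → ∃ i j k l : Fin 6, i ≠ j ∧ k ≠ l ∧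
    (a * (swap i j * swap k l * a * (swap i j * swap k l)⁻¹)) ^ 2 = 1 ∧
    a * (swap i j * swap k l * a * (swap i j * swap k l)⁻¹) ≠ 1 := by decide +kernel

theorem f12 : ∀ a : S6, a * a = 1 → a ≠ 1 → sign a = 1 →
    (Finset.univ.filter fun g : S6 => g * g = 1 ∧ g * a = a * g).card ≤ 12 := by decide +kernel

end Cfsg.Lib.K35.B6d
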