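import Cfsg.Agent.K35.Defs
import Cfsg.Agent.Char.BrauerApps
import Cfsg.Agent.Char.Burnside
import Cfsg.Agent.Char.Galois
import Cfsg.Agent.Char.Linear
import Cfsg.Agent.Char.CharCenter
import Cfsg.Agent.Char.Cyclo

/-! Simple groups of order `2 ^ a * 3 * 5 * q ^ b`: small character tools. -/

set_option autoImplicit false
set_option linter.unusedSectionVars false
set_option linter.unusedVariables false

namespace Cfsg.Lib.K35

open Cfsg Subgroup Cfsg.Lib.Char
open scoped commutatorElement ComplexConjugate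

universe u

namespace ChK

variable {G : Type u} [Group G] [Finite G] {χ : G → ℂ}

/-- the restriction to an abelian subgroup is a sum of linear characters -/
theorem exists_lin (hχ : IsCharacter G χ) (A : Subgroup G) (hA : ∀ a b : A, a * b = b * a) :
    ∃ (ι : Type u) (_ : Fintype ι) (lam : ι → A →* ℂˣ), ∀ a : A, χ a = ∑ i, (lam i a : ℂ) := by
  classical
  obtain ⟨c, hc⟩ := (hχ.res A).exists_nat_coeff
  choose lam hlam using fun ψ : IrrCharacter A => ψ.2.exists_monoidHom_of_comm hA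
  refine ⟨Σ ψ : IrrCharacter A, Fin (c ψ), inferInstance, fun i => lam i.1, fun a => ?_⟩
  have := congrFun hc a
  simp only [Finset.sum_apply, Pi.smul_apply, smul_eq_mul] at this
  rw [this, Fintype.sum_sigma]
  refine Finset.sum_congr rfl fun ψ _ => ?_
  simp [hlam ψ]

/-- common eigenvalues of two commuting elements -/
theorem exists_two (hχ : IsCharacter G χ) {g h : G} (e : g * h = h * g) :
    ∃ (ι : Type u) (_ : Fintype ι) (ε η : ι → ℂ), (∀ i, ε i ^ orderOf g = 1) ∧
      (∀ i, η i ^ orderOf h = 1) ∧ ∀ a b : ℕ, χ (g ^ a * h ^ b) = ∑ i, ε i ^ a * η i ^ b := by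
  have hc : ∀ x ∈ ({g, h} : Set G), ∀ y ∈ ({g, h} : Set G), x * y = y * x := by
    rintro x (rfl | rfl) y (rfl | rfl) <;> simp [e]
  have hA : ∀ a b : closure ({g, h} : Set G), a * b = b * a := fun a b =>
    (closureCommGroupOfComm hc).mul_comm a b
  obtain ⟨ι, _, lam, hl⟩ := exists_lin hχ _ hA
  have mg : g ∈ closure ({g, h} : Set G) := subset_closure (by simp)
  have mh : h ∈ closure ({g, h} : Set G) := subset_closure (by simp)
  have k : ∀ (i : ι) (x : G) (hx : x ∈ closure ({g, h} : Set G)),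
      (lam i ⟨x, hx⟩ : ℂ) ^ orderOf x = 1 := fun i x hx => by
    rw [← Units.val_pow_eq_pow_val, ← map_pow,
      show (⟨x, hx⟩ : closure ({g, h} : Set G)) ^ orderOf x = 1 from
        Subtype.ext (pow_orderOf_eq_one x), map_one, Units.val_one]
  refine ⟨ι, inferInstance, fun i => lam i ⟨g, mg⟩, fun i => lam i ⟨h, mh⟩, fun i => k i g mg,
    fun i => k i h mh, fun a b => ?_⟩
  have := hl (⟨g, mg⟩ ^ a * ⟨h, mh⟩ ^ b)
  simp only [map_mul, map_pow, Units.val_mul, Units.val_pow_eq_pow_val] at this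
  exact this

theorem geom {q : ℕ} {ε : ℂ} (h : ε ^ q = 1) :
    ∑ k ∈ Finset.range q, ε ^ k = if ε = 1 then (q : ℂ) else 0 := by
  split_ifs with e
  · simp [e]
  · have := geom_sum_mul ε q
    rw [h, sub_self] at this
    exact (mul_eq_zero.1 this).resolve_right (sub_ne_zero.2 e)

/-- congruence of integer character values -/
theorem cong (hχ : IsCharacter G χ) {p k : ℕ} (hp : p.Prime) {g h : G} (hg : g ^ p ^ k = 1)
    (e : g * h = h * g) {m n : ℤ} (hm : χ (g * h) = m) (hn : χ h = n) : (p : ℤ) ∣ m - n := by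
  obtain ⟨ι, _, ε, η, h1, h2, h3⟩ := exists_two hχ e
  have o : ∀ x : G, orderOf x ≠ 0 := fun x => (orderOf_pos x).ne'
  let E : ι → integralClosure ℤ ℂ := fun i => ⟨ε i, isIntegral_of_pow_eq_one (o g) (h1 i)⟩
  let H : ι → integralClosure ℤ ℂ := fun i => ⟨η i, isIntegral_of_pow_eq_one (o h) (h2 i)⟩
  let I : Ideal (integralClosure ℤ ℂ) := (Ideal.span {(p : integralClosure ℤ ℂ)}).radical
  have hE : ∀ i, E i - 1 ∈ I := fun i => by
    obtain ⟨r, hr⟩ := exists_add_pow_prime_pow_eq hp (E i - 1) 1 k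
    have h4 : E i ^ p ^ k = 1 := Subtype.ext (by
      obtain ⟨c, hc⟩ := orderOf_dvd_of_pow_eq_one hg
      change ε i ^ p ^ k = 1
      rw [hc, pow_mul, h1, one_pow])
    rw [sub_add_cancel, h4, one_pow] at hr
    refine ⟨p ^ k, Ideal.mem_span_singleton'.2 ⟨-((E i - 1) * 1 * r), ?_⟩⟩
    linear_combination hr
  have hI : ((m - n : ℤ) : integralClosure ℤ ℂ) ∈ I := by
    have : ((m - n : ℤ) : integralClosure ℤ ℂ) = ∑ i, H i * (E i - 1) := Subtype.ext (by
      have a1 := h3 1 1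
      have a2 := h3 0 1
      simp only [pow_one, pow_zero, one_mul] at a1 a2
      simp only [SubringClass.coe_intCast, Int.cast_sub, AddSubmonoidClass.coe_finset_sum,
        MulMemClass.coe_mul, AddSubgroupClass.coe_sub, OneMemClass.coe_one, E, H]
      rw [← hm, ← hn, a1, a2, ← Finset.sum_sub_distrib]
      exact Finset.sum_congr rfl fun i _ => by ring)
    rw [this]
    exact Ideal.sum_mem _ fun i _ => Ideal.mul_mem_left _ _ (hE i)
  obtain ⟨j, hj⟩ := hI
  obtain ⟨z, hz⟩ := Ideal.mem_span_singleton'.1 hj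
  have p0 : (p : ℂ) ≠ 0 := Nat.cast_ne_zero.2 hp.ne_zero
  have h5 : (z : ℂ) = (((m - n) ^ j : ℤ) : ℂ) / ((p : ℤ) : ℂ) := by
    have := congrArg Subtype.val hz
    simp only [MulMemClass.coe_mul, SubringClass.coe_natCast, SubmonoidClass.coe_pow,
      SubringClass.coe_intCast] at this
    rw [Int.cast_pow, ← this, Int.cast_natCast, mul_div_cancel_right₀ _ p0]
  exact (Nat.prime_iff_prime_int.1 hp).dvd_of_dvd_pow
    (int_dvd_of_isIntegral_div (by exact_mod_cast hp.ne_zero) (h5 ▸ z.2))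

theorem eq_one_of_norm [IsSimpleGroup G] (hna : ¬ IsMulCommutative G) (hχ : IsIrrCharacter G χ)
    (h1 : χ ≠ fun _ => 1) {g : G} (e : ‖χ g‖ = ‖χ 1‖) : g = 1 := by
  by_contra hg
  exact hna ⟨⟨comm_of_simple_of_norm_eq hχ h1 hg e⟩⟩

theorem defect_zero (hχ : IsIrrCharacter G χ) {p d : ℕ} (hp : p.Prime) (hd : χ 1 = d) (hpd : p ∣ d)
    (h2 : ¬ p ^ 2 ∣ Nat.card G) {g : G} (hg : p ∣ orderOf g) : χ g = 0 := by
  obtain ⟨t, ht⟩ := irr_degree_dvd_card hχ hd
  refine Brauer.irr_apply_eq_zero_of_defect_zero hχ hp hd ht (fun h => h2 ?_) hg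
  rw [ht, sq]
  exact mul_dvd_mul hpd h

end ChK

end Cfsg.Lib.K35
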