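import Cfsg.Agent.K35.Loc

/-! Simple groups of order `2 ^ b * 3 ^ a * 5`: no rank one form. -/

set_option autoImplicit false
set_option linter.unusedSectionVars false
set_option linter.unusedVariables false

namespace Cfsg.Lib.K35

open Cfsg Subgroup Cfsg.Lib.Trans Cfsg.Lib.Gold
open Cfsg.Lib.P8 (A5 A6 S5 O2 Om Jt Phi EA SR4 Ch E9 Pj Ty Sec SecOK Mx)
open scoped commutatorElement

universe u

namespace R1

/-- A five-cycle. -/
def sg : A5 := ⟨finRotate 5, Equiv.Perm.mem_alternatingGroup.2 (by decide)⟩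

theorem sg5 : sg * sg * sg * sg * sg = 1 := by decide

theorem sg_ord : orderOf sg = 5 := by
  haveI : Fact (Nat.Prime 5) := ⟨by norm_num⟩
  apply orderOf_eq_prime
  · decide
  · decide

variable {M : Type u} [AddCommGroup M] [DistribMulAction A5 M]

theorem five (m : M) : sg • sg • sg • sg • sg • m = m := by
  rw [← mul_smul, ← mul_smul, ← mul_smul, ← mul_smul, sg5, one_smul]

theorem nrm (h : M5 A5 M) (m : M) :
    m + sg • m + sg • sg • m + sg • sg • sg • m + sg • sg • sg • sg • m = 0 := by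
  apply h.fp sg sg_ord
  simp only [smul_add, five]
  abel

theorem nrm' (h : M5 A5 M) (l : M →+ ZMod 2) (m : M) :
    l m + l (sg • m) + l (sg • sg • m) + l (sg • sg • sg • m) + l (sg • sg • sg • sg • m) = 0 := by
  rw [← map_add, ← map_add, ← map_add, ← map_add, nrm h, map_zero]

set_option synthInstance.maxSize 4000 in
set_option synthInstance.maxHeartbeats 200000 in
set_option maxRecDepth 100000 in
theorem fin : ∀ x0 x1 x2 x3 x4 y0 y1 y2 y3 y4 : ZMod 2, x0 ≠ 0 → y0 ≠ 0 →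
    x0 + x1 + x2 + x3 + x4 = 0 → y0 + y1 + y2 + y3 + y4 = 0 →
    x0 * y0 + x1 * y1 + x2 * y2 + x3 * y3 + x4 * y4 = 0 →
    x1 * y0 + x2 * y1 + x3 * y2 + x4 * y3 + x0 * y4 = 0 →
    x2 * y0 + x3 * y1 + x4 * y2 + x0 * y3 + x1 * y4 = 0 →
    x3 * y0 + x4 * y1 + x0 * y2 + x1 * y3 + x2 * y4 = 0 →
    x4 * y0 + x0 * y1 + x1 * y2 + x2 * y3 + x3 * y4 = 0 → False := by decide +kernel

end R1

open R1 in
theorem r1 : StR1.{u} := by
  intro A B C _ _ _ _ _ _ β hA hB hC he l μ ν h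
  by_contra hc
  push Not at hc
  obtain ⟨hμ, hν⟩ := hc
  obtain ⟨a, ha⟩ : ∃ a, μ a ≠ 0 := by
    by_contra hh; push Not at hh; exact hμ (AddMonoidHom.ext hh)
  obtain ⟨b, hb⟩ : ∃ b, ν b ≠ 0 := by
    by_contra hh; push Not at hh; exact hν (AddMonoidHom.ext hh)
  have key : ∀ a : A, μ a * ν b + μ (sg • a) * ν (sg • b) + μ (sg • sg • a) * ν (sg • sg • b) +
      μ (sg • sg • sg • a) * ν (sg • sg • sg • b) +
      μ (sg • sg • sg • sg • a) * ν (sg • sg • sg • sg • b) = 0 := by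
    intro a
    have := nrm' hC l (β a b)
    simp only [← h, he sg]
    exact this
  have k0 := key a
  have k1 := key (sg • a)
  have k2 := key (sg • sg • a)
  have k3 := key (sg • sg • sg • a)
  have k4 := key (sg • sg • sg • sg • a)
  simp only [five] at k1 k2 k3 k4
  exact fin _ _ _ _ _ _ _ _ _ _ ha hb (nrm' hA μ a) (nrm' hB ν b) k0 k1 k2 k3 k4

end Cfsg.Lib.K35
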