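import Cfsg.Agent.K35.Loc
import Cfsg.Agent.K35.R1

/-! Simple groups of order `2 ^ b * 3 ^ a * 5`: the core of an invariant hyperplane. -/

set_option autoImplicit false
set_option linter.unusedSectionVars false
set_option linter.unusedVariables false

namespace Cfsg.Lib.K35

open Cfsg Subgroup Cfsg.Lib.Trans Cfsg.Lib.Gold
open Cfsg.Lib.P8 (A5 A6 S5 O2 Om Jt Phi EA SR4 Ch E9 Pj Ty Sec SecOK Mx)
open scoped commutatorElement

universe u

namespace Core
open R1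

variable {B : Type u} [AddCommGroup B] [DistribMulAction A5 B]

theorem ex_nu {H : AddSubgroup B} (h : H.index = 2) :
    ∃ ν : B →+ ZMod 2, ∀ τ, ν τ = 0 ↔ τ ∈ H := by
  classical
  refine ⟨AddMonoidHom.mk' (fun τ => if τ ∈ H then 0 else 1) (fun a b => ?_), fun τ => ?_⟩
  · have := AddSubgroup.add_mem_iff_of_index_two h (a := a) (b := b)
    by_cases ha : a ∈ H <;> by_cases hb : b ∈ H <;> simp_all
    decide
  · by_cases ha : τ ∈ H <;> simp [ha]

theorem z2 : ∀ a b : ZMod 2, (a = 0 ↔ b = 0) → a = b := by decide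

theorem x0_ord : orderOf x0 = 3 := by
  haveI : Fact (Nat.Prime 3) := ⟨by norm_num⟩
  apply orderOf_eq_prime
  · decide
  · decide

theorem tr4 : ∀ j : Fin 5, j ≠ 4 → ∃ g : A5, (g : S5) 4 = 4 ∧ (g : S5) 0 = j := by decide +kernel

theorem cos (g : A5) : ∃ h : A5, (h : S5) 4 = 4 ∧ (g = h ∨ g = h * sg ∨ g = h * sg * sg ∨
    g = h * sg * sg * sg ∨ g = h * sg * sg * sg * sg) := by
  revert g; decide +kernel

theorem sgv : (sg : S5) 0 = 1 ∧ (sg : S5) 1 = 2 ∧ (sg : S5) 2 = 3 ∧ (sg : S5) 3 = 4 ∧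
    (sg : S5) 4 = 0 := by decide

theorem dec4 : ∀ v : ZMod 2 × ZMod 2 × ZMod 2 × ZMod 2, v = v.1.val • ((1, 0, 0, 0) :
    ZMod 2 × ZMod 2 × ZMod 2 × ZMod 2) + v.2.1.val • (0, 1, 0, 0) + v.2.2.1.val • (0, 0, 1, 0) +
      v.2.2.2.val • (0, 0, 0, 1) := by decide

theorem dbl : ∀ v : ZMod 2 × ZMod 2 × ZMod 2 × ZMod 2, v + v = 0 := by decide

end Core

open R1 Core in
theorem core : StCore.{u} := by
  intro B _ _ _ hB H K hH hI hK
  obtain ⟨ν, hν⟩ := ex_nu hH
  have inv : ∀ g : A5, (g : S5) 4 = 4 → ∀ τ, ν (g • τ) = ν τ := by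
    intro g hg τ
    apply z2
    rw [hν, hν]
    refine ⟨fun h => ?_, hI g hg τ⟩
    have := hI g⁻¹ (by
      change (g : S5)⁻¹ 4 = 4
      rw [Equiv.Perm.inv_eq_iff_eq, hg]) _ h
    rwa [inv_smul_smul] at this
  have hN : ∀ τ, InN τ → τ ∈ H := by
    intro τ h
    have h1 := congrArg ν (h x0 x0_ord)
    have h4 : (x0 : S5) 4 = 4 := by decide
    rw [map_add, map_add, inv _ h4, inv _ h4, inv _ h4, map_zero] at h1
    rw [← hν]
    generalize ν τ = a at h1
    revert a; decide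
  -- a family
  obtain ⟨i, o, ho, hoH⟩ : ∃ (i : Fin 5) (o : B), FB i o ∧ o ∉ H := by
    by_contra hc
    push Not at hc
    have : H = ⊤ := by
      rw [eq_top_iff]
      intro τ _
      obtain ⟨n, o, hn, ho, rfl⟩ := hB.dec τ
      refine H.add_mem (hN n hn) ?_
      refine (AddSubgroup.closure_le H).2 (fun o ho => ?_) ho
      obtain ⟨i, hi⟩ := ho
      exact hc i o hi
    rw [this, AddSubgroup.index_top] at hH
    omega
  obtain ⟨z, hz, hzi⟩ := hB.fam i o ho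
  have e : ∀ j : Fin 5, j ≠ 4 → ν (z j) = ν (z 0) := by
    intro j hj
    obtain ⟨g, g4, g0⟩ := tr4 j hj
    rw [← g0, ← hz g 0, inv g g4]
  have e4 : ν (z 4) = 0 := by
    have h1 := congrArg ν (hB.sum z hz)
    rw [Fin.sum_univ_five] at h1
    simp only [map_add, map_zero] at h1
    rw [e 1 (by decide), e 2 (by decide), e 3 (by decide)] at h1
    generalize ν (z 0) = a at h1
    generalize ν (z 4) = b at h1
    revert a b; decide
  have e0 : ν (z 0) = 1 := by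
    have h1 : ν (z i) ≠ 0 := by rw [hzi, Ne, hν]; exact hoH
    have hi : i ≠ 4 := by rintro rfl; exact h1 e4
    rw [e i hi] at h1
    generalize ν (z 0) = a at h1
    revert a; decide
  have e1 : ν (z 1) = 1 := (e 1 (by decide)).trans e0
  have e2 : ν (z 2) = 1 := (e 2 (by decide)).trans e0
  have e3 : ν (z 3) = 1 := (e 3 (by decide)).trans e0
  let s : B →+ B := DistribSMul.toAddMonoidHom B sg
  let φ : B →+ ZMod 2 × ZMod 2 × ZMod 2 × ZMod 2 :=
    ν.prod ((ν.comp s).prod ((ν.comp (s.comp s)).prod (ν.comp (s.comp (s.comp s)))))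
  have hφ : ∀ τ, φ τ = (ν τ, ν (sg • τ), ν (sg • sg • τ), ν (sg • sg • sg • τ)) := fun τ => rfl
  have hker : K = φ.ker := by
    ext τ
    rw [hK, AddMonoidHom.mem_ker, hφ]
    constructor
    · intro h
      have a0 := (hν _).2 (h 1)
      have a1 := (hν _).2 (h sg)
      have a2 := (hν _).2 (h (sg * sg))
      have a3 := (hν _).2 (h (sg * sg * sg))
      simp only [one_smul, mul_smul] at a0 a1 a2 a3
      rw [a0, a1, a2, a3]; rfl
    · intro h g
      simp only [Prod.mk_eq_zero] at h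
      obtain ⟨a0, a1, a2, a3⟩ := h
      have a4 := nrm' hB.m5 ν τ
      rw [a0, a1, a2, a3] at a4
      simp only [zero_add] at a4
      rw [← hν]
      obtain ⟨h, h4, rfl | rfl | rfl | rfl | rfl⟩ := cos g
      all_goals simp only [mul_smul, inv _ h4]; assumption
  obtain ⟨s0, s1, s2, s3, s4⟩ := sgv
  have p0 : φ (z 0) = (1, 1, 1, 1) := by
    simp only [hφ, hz sg, s0, s1, s2, s3, s4, e0, e1, e2, e3, e4]
  have p1 : φ (z 1) = (1, 1, 1, 0) := by
    simp only [hφ, hz sg, s0, s1, s2, s3, s4, e0, e1, e2, e3, e4]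
  have p2 : φ (z 2) = (1, 1, 0, 1) := by
    simp only [hφ, hz sg, s0, s1, s2, s3, s4, e0, e1, e2, e3, e4]
  have p3 : φ (z 3) = (1, 0, 1, 1) := by
    simp only [hφ, hz sg, s0, s1, s2, s3, s4, e0, e1, e2, e3, e4]
  have p4 : φ (z 4) = (0, 1, 1, 1) := by
    simp only [hφ, hz sg, s0, s1, s2, s3, s4, e0, e1, e2, e3, e4]
  have sur : ∀ v, v ∈ (AddSubgroup.closure (Set.range z)).map φ := by
    have m : ∀ j, φ (z j) ∈ (AddSubgroup.closure (Set.range z)).map φ := fun j =>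
      ⟨z j, AddSubgroup.subset_closure ⟨j, rfl⟩, rfl⟩
    set L := (AddSubgroup.closure (Set.range z)).map φ
    have m1 := L.add_mem (m 0) (m 1)
    have m2 := L.add_mem (m 0) (m 2)
    have m3 := L.add_mem (m 0) (m 3)
    have m4 := L.add_mem (m 0) (m 4)
    rw [p0, p1, show ((1, 1, 1, 1) + (1, 1, 1, 0) : ZMod 2 × ZMod 2 × ZMod 2 × ZMod 2) =
      (0, 0, 0, 1) by decide] at m1
    rw [p0, p2, show ((1, 1, 1, 1) + (1, 1, 0, 1) : ZMod 2 × ZMod 2 × ZMod 2 × ZMod 2) =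
      (0, 0, 1, 0) by decide] at m2
    rw [p0, p3, show ((1, 1, 1, 1) + (1, 0, 1, 1) : ZMod 2 × ZMod 2 × ZMod 2 × ZMod 2) =
      (0, 1, 0, 0) by decide] at m3
    rw [p0, p4, show ((1, 1, 1, 1) + (0, 1, 1, 1) : ZMod 2 × ZMod 2 × ZMod 2 × ZMod 2) =
      (1, 0, 0, 0) by decide] at m4
    intro v
    rw [dec4 v]
    exact L.add_mem (L.add_mem (L.add_mem (L.nsmul_mem m4 _) (L.nsmul_mem m3 _)) (L.nsmul_mem m2 _))
      (L.nsmul_mem m1 _)
  refine ⟨?_, fun τ h => (hK τ).2 fun g => hN _ (hB.nSm g τ h), z, hz, ?_, fun τ => ?_⟩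
  · have : φ.range = ⊤ := by
      rw [eq_top_iff]
      intro v _
      obtain ⟨c, -, rfl⟩ := sur v
      exact ⟨c, rfl⟩
    rw [hker, AddSubgroup.index_ker, this]
    simp
  · rw [← hν, e0]; decide
  · obtain ⟨c, hc, he⟩ := sur (φ τ)
    refine ⟨c, hc, ?_⟩
    rw [hker, AddMonoidHom.mem_ker, map_add, he, dbl]

end Cfsg.Lib.K35
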