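import Cfsg.Agent.K35.Defs
import Cfsg.Agent.K35.ChK

/-! Simple groups of order `2 ^ a * 3 * 5 * q ^ b`: characters of prime degree and defect zero. -/

set_option autoImplicit false
set_option linter.unusedSectionVars false
set_option linter.unusedVariables false

namespace Cfsg.Lib.K35

open Cfsg Subgroup Cfsg.Lib.Char
open scoped commutatorElement ComplexConjugate

universe u

namespace DZ

open ChK

variable {G : Type u} [Group G] [Finite G]

theorem norm_eq {χ : G → ℂ} (hχ : IsCharacter G χ) {q : ℕ} (hq : q.Prime) (hd : χ 1 = q)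
    (h0 : ∀ g, q ∣ orderOf g → χ g = 0) {u w : G} (hu : orderOf u = q) (e : u * w = w * u)
    (hw : ¬ q ∣ orderOf w) : ‖χ w‖ = ‖χ 1‖ := by
  classical
  obtain ⟨ι, _, ε, η, h1, h2, h3⟩ := exists_two hχ e
  rw [hu] at h1
  have q0 : (q : ℂ) ≠ 0 := Nat.cast_ne_zero.2 hq.ne_zero
  have key : ∀ b : ℕ, χ (w ^ b) = q * ∑ i ∈ Finset.univ.filter (fun i => ε i = 1), η i ^ b := by
    intro b
    have a1 : ∑ k ∈ Finset.range q, χ (u ^ k * w ^ b) = χ (w ^ b) := by
      rw [Finset.sum_eq_single 0]
      · simp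
      · intro k hk k0
        refine h0 _ ?_
        by_contra hn
        have c : Commute (u ^ k) (w ^ b) := (show Commute u w from e).pow_pow k b
        have a2 : (u ^ k * w ^ b) ^ (orderOf (u ^ k * w ^ b) * orderOf w) = 1 := by
          rw [pow_mul, pow_orderOf_eq_one, one_pow]
        rw [c.mul_pow, ← pow_mul w, mul_comm b, mul_assoc, mul_comm (orderOf (u ^ k * w ^ b)) (_ * _),
          mul_assoc, pow_mul w, pow_orderOf_eq_one, one_pow, mul_one, ← pow_mul] at a2
        have a3 := orderOf_dvd_of_pow_eq_one a2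
        rw [hu] at a3
        rcases (Nat.Prime.dvd_mul hq).1 a3 with a | a
        · exact k0 (Nat.eq_zero_of_dvd_of_lt a (Finset.mem_range.1 hk))
        · exact ((Nat.Prime.dvd_mul hq).1 a).elim hn hw
      · intro h
        exact (h (Finset.mem_range.2 hq.pos)).elim
    rw [← a1]
    simp only [h3]
    rw [Finset.sum_comm, Finset.sum_filter, Finset.mul_sum]
    refine Finset.sum_congr rfl fun i _ => ?_
    rw [← Finset.sum_mul, geom (h1 i)]
    split_ifs <;> simp
  have k0 := key 0
  simp only [pow_zero, Finset.sum_const, nsmul_eq_mul, mul_one, hd] at k0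
  have k1 : (Finset.univ.filter (fun i => ε i = 1)).card = 1 := by
    have : ((Finset.univ.filter (fun i => ε i = 1)).card : ℂ) = 1 :=
      mul_left_cancel₀ q0 (by rw [← k0, mul_one])
    exact_mod_cast this
  obtain ⟨i, hi⟩ := Finset.card_eq_one.1 k1
  have k2 := key 1
  rw [hi, Finset.sum_singleton, pow_one, pow_one] at k2
  rw [k2, norm_mul, norm_eq_one_of_pow_eq_one' (orderOf_pos w).ne' (h2 i), mul_one, hd]

end DZ

open ChK in
theorem dz : StDZ.{u} := by
  intro G _ _ _ hna ξ q hq hd h2 u hu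
  have := Fact.mk hq
  have h1 : (ξ : G → ℂ) ≠ fun _ => 1 := fun e => by
    rw [e] at hd
    exact hq.one_lt.ne (by exact_mod_cast (show (1 : ℂ) = q from hd))
  have h0 : ∀ g, q ∣ orderOf g → (ξ : G → ℂ) g = 0 := fun g hg =>
    defect_zero ξ.2 hq hd dvd_rfl h2 hg
  have hP : IsPGroup q (centralizer ({u} : Set G)) := fun v => by
    obtain ⟨a, n, hn, e⟩ := Nat.exists_eq_pow_mul_and_not_dvd (orderOf_pos (v : G)).ne' q hq.ne_one
    refine ⟨a, Subtype.ext ?_⟩
    have c : u * v = v * u := mem_centralizer_iff.1 v.2 u rfl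
    refine eq_one_of_norm hna ξ.2 h1 (DZ.norm_eq ξ.2.isCharacter hq hd h0 hu
      ((show Commute u v from c).pow_right _) fun h => hn (h.trans ?_))
    refine orderOf_dvd_of_pow_eq_one ?_
    rw [SubmonoidClass.coe_pow, ← pow_mul, ← e, pow_orderOf_eq_one]
  obtain ⟨k, hk⟩ := hP.exists_card_eq
  have le : zpowers u ≤ centralizer ({u} : Set G) :=
    zpowers_le.2 (mem_centralizer_iff.2 fun _ h => by rw [Set.mem_singleton_iff.1 h])
  have k1 : k ≤ 1 := by
    by_contra h
    exact h2 ((pow_dvd_pow q (by omega)).trans (hk ▸ card_subgroup_dvd_card _))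
  refine (eq_of_le_of_card_ge le ?_).symm
  rw [hk, Nat.card_zpowers, hu]
  calc q ^ k ≤ q ^ 1 := Nat.pow_le_pow_right hq.pos k1
    _ = q := pow_one q

end Cfsg.Lib.K35
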