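import Cfsg.Prelude.Def_Classical
import Cfsg.Prelude.Def_Sz
import Cfsg.Prelude.Def_Exceptional
import Cfsg.Prelude.Def_Blocks
import Cfsg.Prelude.Def_CaseTheorems
import Cfsg.Prelude.Def_Involutions
import Cfsg.Prelude.Def_ClassificationK
import Cfsg.Prelude.Def_OddOrderLocal
import Cfsg.Prelude.Def_SporadicB
import Mathlib.LinearAlgebra.Matrix.ProjectiveSpecialLinearGroup
import Mathlib.GroupTheory.SpecificGroups.Alternating

/-!
# Simple groups of order `2 ^ a * 3 * 5 * q ^ b`: definitions and steps, part one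

The known families, the cited classification lists, and the character theory for `q ≠ 3`.
-/

set_option autoImplicit false

namespace Cfsg.Lib.K35

open Cfsg Subgroup

universe u

/-- The projective special linear group. -/
abbrev PSL (n : ℕ) (F : Type) [Field F] : Type := Matrix.ProjectiveSpecialLinearGroup (Fin n) F

/-- The alternating group. -/
abbrev Alt (n : ℕ) : Type := ↥(alternatingGroup (Fin n))

/-- The conclusion. -/
def Concl (G : Type u) [Group G] : Prop :=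
  (∃ (F : Type) (_ : Field F) (_ : Fintype F),
      (Fintype.card F = 5 ∨ Fintype.card F = 9 ∨ Fintype.card F = 11 ∨ Fintype.card F = 16 ∨
        Fintype.card F = 31) ∧ Nonempty (G ≃* Matrix.ProjectiveSpecialLinearGroup (Fin 2) F)) ∨
    (∃ (F : Type) (_ : Field F) (_ : Fintype F), Fintype.card F = 4 ∧ Nonempty (G ≃* Cfsg.PSU 4 F 2))

/-- The order condition. -/
def Ord (G : Type u) [Group G] (q : ℕ) : Prop := ∃ a b : ℕ, Nat.card G = 2 ^ a * 3 * 5 * q ^ b

/-- What is known when the group belongs to one of the infinite families. -/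
structure Fam (G : Type u) [Group G] : Prop where
  l2 : ∀ (F : Type) [Field F] [Fintype F], Nonempty (G ≃* PSL 2 F) → Concl G
  l3 : ∀ (F : Type) [Field F] [Fintype F], Nonempty (G ≃* PSL 3 F) → False
  u3 : ∀ (F : Type) [Field F] [Fintype F] (r : ℕ), Fintype.card F = r ^ 2 →
    Nonempty (G ≃* PSU 3 F r) → False
  s4 : ∀ (F : Type) [Field F] [Fintype F], Fintype.card F ≠ 2 → Nonempty (G ≃* PSp 2 F) → Concl G
  sz : ¬ Lie.IsoSuzuki G
  sz' : ¬ IsSuzuki G
  alt : ∀ n : ℕ, 5 ≤ n → Nonempty (G ≃* Alt n) → Concl G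

/-! ### The families -/

def StFL2 : Prop := ∀ (G : Type u) [Group G] [Finite G] [IsSimpleGroup G] (q : ℕ), q.Prime → Ord G q →
  ∀ (F : Type) [Field F] [Fintype F], Nonempty (G ≃* PSL 2 F) → Concl G

def StFL3 : Prop := ∀ (G : Type u) [Group G] [Finite G] [IsSimpleGroup G] (q : ℕ), q.Prime → Ord G q →
  ∀ (F : Type) [Field F] [Fintype F], Nonempty (G ≃* PSL 3 F) → False

def StFU3 : Prop := ∀ (G : Type u) [Group G] [Finite G] [IsSimpleGroup G] (q : ℕ), q.Prime → Ord G q →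
  ∀ (F : Type) [Field F] [Fintype F] (r : ℕ), Fintype.card F = r ^ 2 →
    Nonempty (G ≃* PSU 3 F r) → False

def StFS4 : Prop := ∀ (G : Type u) [Group G] [Finite G] [IsSimpleGroup G] (q : ℕ), q.Prime → Ord G q →
  ∀ (F : Type) [Field F] [Fintype F], Fintype.card F ≠ 2 → Nonempty (G ≃* PSp 2 F) → Concl G

def StFSA : Prop := ∀ (G : Type u) [Group G] [Finite G] [IsSimpleGroup G] (q : ℕ), q.Prime → Ord G q →
  ¬ Lie.IsoSuzuki G ∧ ¬ IsSuzuki G ∧ ∀ n : ℕ, 5 ≤ n → Nonempty (G ≃* Alt n) → Concl G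

/-! ### The cited lists -/

/-- A 2-central involution with 2-closed centralizer. -/
def StL3223 : Prop := ∀ (G : Type u) [Group G] [Finite G] [IsSimpleGroup G], ¬ IsMulCommutative G →
  Fam G → ∀ (t : G) (S : Sylow 2 G), orderOf t = 2 → (S : Subgroup G) ≤ centralizer {t} →
    centralizer ({t} : Set G) ≤ normalizer ((S : Subgroup G) : Set G) → Concl G

/-- A faithful character of small degree. -/
def StL4904 : Prop := ∀ (G : Type u) [Group G] [Finite G] [IsSimpleGroup G], ¬ IsMulCommutative G →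
  Fam G → ∀ (ξ : IrrCharacter G) (d p : ℕ), (ξ : G → ℂ) ≠ (fun _ => 1) → (ξ : G → ℂ) 1 = d →
    d < 27 → p.Prime → d + 1 < p → p ∣ Nat.card G → Concl G

/-- Order `3 * 5 * 2 ^ a`. -/
def StL4501 : Prop := ∀ (G : Type u) [Group G] [Finite G] [IsSimpleGroup G], Fam G →
  ∀ a : ℕ, Nat.card G = 2 ^ a * 3 * 5 → Concl G

/-- Small rank, strongly embedded subgroup, solvable 2-locals, Sylow 5-normalizer of order ten. -/
def StLA : Prop := ∀ (G : Type u) [Group G] [Finite G] [IsSimpleGroup G], Fam G → Ord G 3 →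
  (PRankLE 2 2 G ∨ (∃ H : Subgroup G, IsStronglyEmbedded H) ∨
    (∀ N : Subgroup G, IsTwoLocal N → Group.IsSolvable N) ∨
    ∃ P : Sylow 5 G, (P : Subgroup G).relIndex (normalizer ((P : Subgroup G) : Set G)) = 2) → Concl G

/-- No normal elementary subgroup of order eight in a Sylow 2-subgroup. -/
def StL3272 : Prop := ∀ (G : Type u) [Group G] [Finite G] [IsSimpleGroup G], Fam G → Ord G 3 →
  (∀ t : G, orderOf t = 2 → Group.IsSolvable (centralizer ({t} : Set G))) →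
  ∀ S : Sylow 2 G, (∃ A : Subgroup G, IsSCN (S : Subgroup G) A ∧ ¬ PRankLE 2 2 A) ∨ Concl G

/-- An involution centralizer whose 2-core `Q` is self-centralizing and extraspecial of order 32. -/
def StL1759 : Prop := ∀ (G : Type u) [Group G] [Finite G] [IsSimpleGroup G], Fam G → Ord G 3 →
  ∀ (z : G) (Q : Subgroup G), orderOf z = 2 → Q ≤ centralizer {z} →
    centralizer ({z} : Set G) ≤ normalizer (Q : Set G) → centralizer (Q : Set G) ≤ Q →
    (∀ R : Subgroup G, IsPGroup 2 R → R ≤ centralizer {z} →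
      centralizer ({z} : Set G) ≤ normalizer (R : Set G) → R ≤ Q) →
    IsExtraspecial 2 Q → Nat.card Q = 32 → Concl G

/-- Sectional 2-rank at most four. -/
def StL3114 : Prop := ∀ (G : Type u) [Group G] [Finite G] [IsSimpleGroup G], Fam G → Ord G 3 →
  IsCharacteristicTwoType G →
  (∀ t : G, orderOf t = 2 → Group.IsSolvable (centralizer ({t} : Set G))) →
  (∃ N : Subgroup G, IsTwoLocal N ∧ ¬ Group.IsSolvable N) → SectionalPRankLE 2 4 G → Concl G

/-- Characteristic 2 and 3 type with an elementary subgroup of order nine in a 2-local subgroup. -/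
def StL3248 : Prop := ∀ (G : Type u) [Group G] [Finite G] [IsSimpleGroup G], Fam G → Ord G 3 →
  IsCharacteristicTwoType G → ∀ (S : Sylow 2 G) (A : Subgroup G), IsSCN (S : Subgroup G) A →
  ¬ PRankLE 2 2 A → ∀ (R : Sylow 3 G) (B : Subgroup G), IsSCN (R : Subgroup G) B → ¬ PRankLE 3 2 B →
  (∀ X : Subgroup G, IsPGroup 2 X → (R : Subgroup G) ≤ normalizer (X : Set G) → X = ⊥) →
  (∀ X : Subgroup G, IsPGroup 3 X → X ≠ ⊥ → IsPConstrained 3 (normalizer (X : Set G))) →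
  (∃ T E : Subgroup G, IsPGroup 2 T ∧ T ≠ ⊥ ∧ E ≤ normalizer (T : Set G) ∧
    IsElementaryAbelian 3 E ∧ Nat.card E = 9) → Concl G

/-! ### Characters -/

/-- The character takes integer values. -/
def Rat {G : Type u} (χ : G → ℂ) : Prop := ∀ g, ∃ n : ℤ, χ g = n

/-- The principal 3-block when the Sylow 3-subgroups have order three. -/
structure B3 {G : Type u} [Group G] (χ ψ : IrrCharacter G) (x : ℕ) : Prop where
  ne₁ : (χ : G → ℂ) ≠ fun _ => 1
  ne₂ : (ψ : G → ℂ) ≠ fun _ => 1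
  deg₁ : (χ : G → ℂ) 1 = x
  deg₂ : (ψ : G → ℂ) 1 = x + 1
  sing : ∀ g : G, 3 ∣ orderOf g → (χ : G → ℂ) g = 1 ∧ (ψ : G → ℂ) g = -1
  reg : ∀ g : G, ¬ 3 ∣ orderOf g → 1 + (χ : G → ℂ) g - (ψ : G → ℂ) g = 0
  rat₁ : Rat (χ : G → ℂ)
  rat₂ : Rat (ψ : G → ℂ)
  two_le : 2 ≤ x
  mod : x % 3 = 1
  dvd₁ : x ∣ Nat.card G
  dvd₂ : x + 1 ∣ Nat.card G

def StB3 : Prop := ∀ (G : Type u) [Group G] [Finite G] [IsSimpleGroup G], ¬ IsMulCommutative G →
  3 ∣ Nat.card G → ¬ 9 ∣ Nat.card G → ∃ (χ ψ : IrrCharacter G) (x : ℕ), B3 χ ψ x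

/-- The possible degrees. -/
def StDeg : Prop := ∀ a b q x : ℕ, q.Prime → 5 ≤ q → 2 ≤ x → x % 3 = 1 →
  x ∣ 2 ^ a * 3 * 5 * q ^ b → x + 1 ∣ 2 ^ a * 3 * 5 * q ^ b →
  x = 4 ∨ (7 ≤ q ∧ ((∃ i, (x = 2 ^ i ∧ x + 1 = q) ∨ (x = q ∧ x + 1 = 2 ^ i)) ∨
    (∃ i, (x = 5 * 2 ^ i ∧ x + 1 = q) ∨ (x = q ∧ x + 1 = 5 * 2 ^ i)) ∨ (x = 64 ∧ q = 13)))

/-- A rational character of small degree bounds the Sylow subgroup. -/
def StR2 : Prop := ∀ (G : Type u) [Group G] [Finite G] [IsSimpleGroup G]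
  (ξ : IrrCharacter G) (d q : ℕ), (ξ : G → ℂ) ≠ (fun _ => 1) → (ξ : G → ℂ) 1 = d → Rat (ξ : G → ℂ) →
    q.Prime → q ≠ 2 → (d + 1 < q → ¬ q ∣ Nat.card G) ∧ (d + 2 < 2 * q → ¬ q ^ 2 ∣ Nat.card G)

/-- A character of prime degree and defect zero. -/
def StDZ : Prop := ∀ (G : Type u) [Group G] [Finite G] [IsSimpleGroup G], ¬ IsMulCommutative G →
  ∀ (ξ : IrrCharacter G) (q : ℕ), q.Prime → (ξ : G → ℂ) 1 = q → ¬ q ^ 2 ∣ Nat.card G →
    ∀ u : G, orderOf u = q → centralizer ({u} : Set G) = zpowers u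

/-- Burnside's vanishing lemma, and congruences of character values. -/
def StVan : Prop := ∀ (G : Type u) [Group G] [Finite G] [IsSimpleGroup G], ¬ IsMulCommutative G →
  ∀ ξ : IrrCharacter G, (ξ : G → ℂ) ≠ (fun _ => 1) →
    (∀ (d : ℕ) (g : G), (ξ : G → ℂ) 1 = d → g ≠ 1 → (centralizer ({g} : Set G)).index.Coprime d →
      (ξ : G → ℂ) g = 0) ∧
    (∀ (p : ℕ) (g h : G) (m n : ℤ), p.Prime → orderOf g = p → g * h = h * g →
      (ξ : G → ℂ) (g * h) = m → (ξ : G → ℂ) h = n → (p : ℤ) ∣ m - n) ∧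
    ∀ (p d : ℕ) (g : G), p.Prime → (ξ : G → ℂ) 1 = d → p ∣ d → ¬ p ^ 2 ∣ Nat.card G →
      p ∣ orderOf g → (ξ : G → ℂ) g = 0

/-- Counting pairs of involutions: an element of order fifteen. -/
def StP1a : Prop := ∀ (G : Type u) [Group G] [Finite G] [IsSimpleGroup G]
  (χ ψ : IrrCharacter G) (x : ℕ), B3 χ ψ x → ¬ 9 ∣ Nat.card G → 5 ∣ Nat.card G → ¬ 25 ∣ Nat.card G →
    ¬ 5 ∣ x * (x + 1) → 2 ∣ Nat.card G → ∃ g : G, orderOf g = 15

/-- The principal 5-block: no element of order ten centralizing a 2-central involution. -/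
def StP1b : Prop := ∀ (G : Type u) [Group G] [Finite G] [IsSimpleGroup G] (q : ℕ), q.Prime → 7 ≤ q →
  Ord G q → (∃ g : G, orderOf g = 15) → ∀ s : G, IsTwoCentralInvolution s →
    ¬ 5 ∣ Nat.card (centralizer ({s} : Set G))

/-- Degrees `2 ^ i` and `q`. -/
def StP1 : Prop := ∀ (G : Type u) [Group G] [Finite G] [IsSimpleGroup G] (q : ℕ), q.Prime → 7 ≤ q →
  Ord G q → Fam G → ∀ (χ ψ : IrrCharacter G) (x i : ℕ), B3 χ ψ x →
    ((x = 2 ^ i ∧ x + 1 = q) ∨ (x = q ∧ x + 1 = 2 ^ i)) → Concl G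

/-- No character of degree fifteen when `q = 11`. -/
def StP4a : Prop := ∀ (G : Type u) [Group G] [Finite G] (χ ξ : IrrCharacter G) (u : G),
  orderOf u = 11 → centralizer ({u} : Set G) = zpowers u → (χ : G → ℂ) 1 = 10 →
    (∀ k : ℕ, ¬ 11 ∣ k → (χ : G → ℂ) (u ^ k) = -1) → (ξ : G → ℂ) 1 = 15 → False

/-- Degrees `5 * 2 ^ i` and `q`. -/
def StP4 : Prop := ∀ (G : Type u) [Group G] [Finite G] [IsSimpleGroup G] (q : ℕ), q.Prime → 7 ≤ q →
  Ord G q → Fam G → ∀ (χ ψ : IrrCharacter G) (x i : ℕ), B3 χ ψ x →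
    ((x = 5 * 2 ^ i ∧ x + 1 = q) ∨ (x = q ∧ x + 1 = 5 * 2 ^ i)) → Concl G

/-- A faithful rational character of degree 64 forces elementary abelian 13-subgroups. -/
def StP3a : Prop := ∀ (G : Type u) [Group G] [Finite G] (χ : G → ℂ), IsCharacter G χ → χ 1 = 64 →
  Rat χ → (∀ g, χ g = χ 1 → g = 1) → ∀ Q : Subgroup G, IsPGroup 13 Q → IsElementaryAbelian 13 Q

/-- An element of order 13 acting on a 2-group with a faithful character of degree 64 in which no
involution is scalar moves a central involution. -/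
def StP3b : Prop := ∀ (G : Type u) [Group G] [Finite G] (χ : G → ℂ), IsCharacter G χ → χ 1 = 64 →
  (∀ g, ‖χ g‖ = 64 → g = 1) → ∀ (T : Subgroup G) (u : G), IsPGroup 2 T → orderOf u = 13 →
    u ∈ normalizer (T : Set G) → (∀ z ∈ T, z * z = 1 → (∀ t ∈ T, z * t = t * z) → u * z = z * u) →
    ∀ t ∈ T, u * t = t * u

/-- Fixed points of a 2-group on a module for an elementary abelian 13-group. -/
def StP3c : Prop := ∀ (G : Type u) [Group G] [Finite G] (E Q S : Subgroup G),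
  IsElementaryAbelian 2 E → E ≠ ⊥ → IsElementaryAbelian 13 Q → IsPGroup 2 S →
    Q ≤ normalizer (E : Set G) → S ≤ normalizer (E : Set G) →
    S ≤ normalizer ((Q ⊔ centralizer (E : Set G) : Subgroup G) : Set G) →
    E ⊓ centralizer (Q : Set G) = ⊥ → 8 ≤ Nat.card ↥(E ⊓ centralizer (S : Set G))

/-- The fixed space of an elementary abelian 2-group with a fixed-point-free 13-group. -/
def StP3d : Prop := ∀ (G : Type u) [Group G] [Finite G] (χ : G → ℂ), IsCharacter G χ → χ 1 = 64 →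
  ∀ E Q Z : Subgroup G, IsElementaryAbelian 2 E → IsPGroup 13 Q → Q ≤ normalizer (E : Set G) →
    E ⊓ centralizer (Q : Set G) = ⊥ → Z ≤ E → (∀ z ∈ Z, z ≠ 1 → χ z = 0) → Nat.card Z < 8

/-- Degrees 64 and 65. -/
def StP3 : Prop := ∀ (G : Type u) [Group G] [Finite G] [IsSimpleGroup G],
  Ord G 13 → Fam G → ∀ χ ψ : IrrCharacter G, B3 χ ψ 64 → Concl G

/-- The case `q ≠ 3`. -/
def StQ : Prop := ∀ (G : Type u) [Group G] [Finite G] [IsSimpleGroup G] (q : ℕ), q.Prime → q ≠ 3 →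
  Ord G q → Fam G → Concl G

/-- The case `q = 3`. -/
def StQ3 : Prop := ∀ (G : Type u) [Group G] [Finite G] [IsSimpleGroup G], Ord G 3 → Concl G

theorem Concl_eq_1' : type_of% @Concl.eq_1 := @Concl.eq_1
theorem Ord_eq_1' : type_of% @Ord.eq_1 := @Ord.eq_1
theorem Rat_eq_1' : type_of% @Rat.eq_1 := @Rat.eq_1

end Cfsg.Lib.K35
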