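import Cfsg.Agent.K35.Defs

/-!
# Simple groups of order `2 ^ a * 3 * 5 * q ^ b`: the possible degrees
-/

set_option autoImplicit false

namespace Cfsg.Lib.K35

namespace Deg

/-- A number prime to `3` dividing `2 ^ a * 3 * 5 * q ^ b` has the shape `2 ^ i * 5 ^ e * q ^ j`. -/
theorem shape {a b q n : ℕ} (hq : q.Prime) (h3 : ¬ 3 ∣ n) (h : n ∣ 2 ^ a * 3 * 5 * q ^ b) :
    ∃ i e j, e ≤ 1 ∧ n = 2 ^ i * 5 ^ e * q ^ j := by
  have hc : Nat.Coprime n 3 := ((Nat.Prime.coprime_iff_not_dvd Nat.prime_three).2 h3).symm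
  have h' : n ∣ 2 ^ a * 5 * q ^ b :=
    hc.dvd_of_dvd_mul_left (by
      have e : 3 * (2 ^ a * 5 * q ^ b) = 2 ^ a * 3 * 5 * q ^ b := by ring
      rw [e]; exact h)
  obtain ⟨u, w, hu, hw, rfl⟩ := Nat.dvd_mul.1 h'
  obtain ⟨u1, u2, hu1, hu2, rfl⟩ := Nat.dvd_mul.1 hu
  obtain ⟨i, -, rfl⟩ := (Nat.dvd_prime_pow Nat.prime_two).1 hu1
  obtain ⟨j, -, rfl⟩ := (Nat.dvd_prime_pow hq).1 hw
  rcases (Nat.dvd_prime Nat.prime_five).1 hu2 with rfl | rfl
  · exact ⟨i, 0, j, by norm_num, by ring⟩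
  · exact ⟨i, 1, j, le_rfl, by ring⟩

/-- An odd divisor of `2 ^ i * 5 ^ e` with `e ≤ 1` is `1` or `5`. -/
theorem odd_dvd {i e m : ℕ} (he : e ≤ 1) (hm : m % 2 = 1) (h : m ∣ 2 ^ i * 5 ^ e) :
    m = 1 ∨ m = 5 := by
  have hc : Nat.Coprime m (2 ^ i) := Nat.Coprime.pow_right _ (by
    rw [Nat.coprime_two_right]; exact Nat.odd_iff.2 hm)
  have h1 : m ∣ 5 ^ e := hc.dvd_of_dvd_mul_left h
  have h2 : m ∣ 5 := by
    interval_cases e
    · exact dvd_trans h1 (by norm_num)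
    · simpa using h1
  exact (Nat.dvd_prime Nat.prime_five).1 h2

/-- `q ^ j + 1 = (q + 1) * m` for odd `j = 2 k + 1`, with `m` odd and large when `k ≥ 1`. -/
theorem odd_add {q : ℕ} (hq : q % 2 = 1) (h7 : 5 ≤ q) (k : ℕ) :
    ∃ m, q ^ (2 * k + 1) + 1 = (q + 1) * m ∧ m % 2 = 1 ∧ (1 ≤ k → 6 ≤ m) := by
  induction k with
  | zero => exact ⟨1, by ring, rfl, by omega⟩
  | succ k ih =>
    obtain ⟨m, hm, ho, -⟩ := ih
    obtain ⟨r, rfl⟩ : ∃ r, q = 2 * r + 1 := ⟨q / 2, by omega⟩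
    refine ⟨m + 2 * r * (2 * r + 1) ^ (2 * k + 1), ?_, ?_, fun _ => ?_⟩
    · have : (2 * r + 1) ^ (2 * (k + 1) + 1) + 1 = ((2 * r + 1) ^ (2 * k + 1) + 1) +
          (2 * r + 1 + 1) * (2 * r * (2 * r + 1) ^ (2 * k + 1)) := by ring
      rw [this, hm]; ring
    · rw [mul_assoc]; omega
    · have h1 : 2 * r + 1 ≤ (2 * r + 1) ^ (2 * k + 1) := Nat.le_self_pow (by omega) _
      nlinarith

/-- `q ^ j - 1 = (q - 1) * m` for odd `j = 2 k + 1`, with `m` odd and large when `k ≥ 1`. -/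
theorem odd_sub {r : ℕ} (h7 : 2 ≤ r) (k : ℕ) :
    ∃ m, (2 * r + 1) ^ (2 * k + 1) = 2 * r * m + 1 ∧ m % 2 = 1 ∧ (1 ≤ k → 6 ≤ m) := by
  induction k with
  | zero => exact ⟨1, by ring, rfl, by omega⟩
  | succ k ih =>
    obtain ⟨m, hm, ho, -⟩ := ih
    refine ⟨m + 2 * ((r + 1) * (2 * r + 1) ^ (2 * k + 1)), ?_, by omega, fun _ => ?_⟩
    · have : (2 * r + 1) ^ (2 * (k + 1) + 1) = (2 * r + 1) ^ (2 * k + 1) +
          2 * r * (2 * ((r + 1) * (2 * r + 1) ^ (2 * k + 1))) := by ring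
      rw [this]
      nth_rewrite 1 [hm]
      ring
    · have h1 : 2 * r + 1 ≤ (2 * r + 1) ^ (2 * k + 1) := Nat.le_self_pow (by omega) _
      nlinarith

/-- `q ^ j + 1 = 2 ^ i * 5 ^ e` forces `j ≤ 1`. -/
theorem pow_add_one {q j i e : ℕ} (hq : q % 2 = 1) (h5 : 5 ≤ q) (he : e ≤ 1)
    (h : q ^ j + 1 = 2 ^ i * 5 ^ e) : j ≤ 1 := by
  rcases Nat.even_or_odd' j with ⟨k, rfl | rfl⟩
  · by_contra hk
    have hk1 : 1 ≤ k := by omega
    have hQ : q ^ k % 2 = 1 := by
      rw [Nat.pow_mod, hq]; simp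
    have hQ5 : 5 ≤ q ^ k := le_trans h5 (Nat.le_self_pow (by omega) _)
    obtain ⟨s, hs⟩ : ∃ s, q ^ k = 2 * s + 1 := ⟨q ^ k / 2, by omega⟩
    have e1 : q ^ (2 * k) + 1 = 2 * (2 * s * s + 2 * s + 1) := by
      rw [mul_comm 2 k, pow_mul, hs]; ring
    have hd : 2 * s * s + 2 * s + 1 ∣ 2 ^ i * 5 ^ e := by
      rw [← h, e1]; exact Dvd.intro_left _ rfl
    have ho : (2 * s * s + 2 * s + 1) % 2 = 1 := by rw [mul_assoc]; omega
    rcases odd_dvd he ho hd with h1 | h1 <;> nlinarith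
  · obtain ⟨m, hm, ho, hl⟩ := odd_add hq h5 k
    have hd : m ∣ 2 ^ i * 5 ^ e := by rw [← h, hm]; exact Dvd.intro_left _ rfl
    rcases odd_dvd he ho hd with h1 | h1 <;> omega

/-- `q ^ j = 2 ^ i * 5 ^ e + 1` forces `j ≤ 1`. -/
theorem pow_sub_one {q j i e : ℕ} (hqp : q.Prime) (h5 : 5 ≤ q) (he : e ≤ 1)
    (h : q ^ j = 2 ^ i * 5 ^ e + 1) : j ≤ 1 := by
  have hq : q % 2 = 1 := Nat.odd_iff.1 (hqp.odd_of_ne_two (by omega))
  rcases Nat.even_or_odd' j with ⟨k, rfl | rfl⟩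
  · by_contra hk
    have hk1 : 1 ≤ k := by omega
    have hQ : q ^ k % 2 = 1 := by
      rw [Nat.pow_mod, hq]; simp
    have hQ5 : 5 ≤ q ^ k := le_trans h5 (Nat.le_self_pow (by omega) _)
    obtain ⟨s, hs⟩ : ∃ s, q ^ k = 2 * s + 1 := ⟨q ^ k / 2, by omega⟩
    have e1 : 4 * (s * (s + 1)) = 2 ^ i * 5 ^ e := by
      have : q ^ (2 * k) = 4 * (s * (s + 1)) + 1 := by
        rw [mul_comm 2 k, pow_mul, hs]; ring
      omega
    have hd1 : s ∣ 2 ^ i * 5 ^ e := by rw [← e1]; exact ⟨4 * (s + 1), by ring⟩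
    have hd2 : s + 1 ∣ 2 ^ i * 5 ^ e := by rw [← e1]; exact ⟨4 * s, by ring⟩
    rcases Nat.mod_two_eq_zero_or_one s with h0 | h0
    · rcases odd_dvd he (by omega) hd2 with h1 | h1
      · omega
      · have h9 : q ^ k = 9 := by omega
        have h3 : 3 ∣ q := Nat.prime_three.dvd_of_dvd_pow (n := k) (by rw [h9]; norm_num)
        have := (Nat.prime_dvd_prime_iff_eq Nat.prime_three hqp).1 h3
        omega
    · rcases odd_dvd he h0 hd1 with h1 | h1
      · omega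
      · subst h1
        have h3 : 3 ∣ 2 ^ i * 5 ^ e := dvd_trans (by norm_num) hd2
        rcases (Nat.Prime.dvd_mul Nat.prime_three).1 h3 with h4 | h4
        · have := Nat.prime_three.dvd_of_dvd_pow h4
          omega
        · have := Nat.prime_three.dvd_of_dvd_pow h4
          omega
  · obtain ⟨r, rfl⟩ : ∃ r, q = 2 * r + 1 := ⟨q / 2, by omega⟩
    obtain ⟨m, hm, ho, hl⟩ := odd_sub (r := r) (by omega) k
    have hd : m ∣ 2 ^ i * 5 ^ e := ⟨2 * r, by rw [hm] at h; rw [mul_comm m]; omega⟩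
    rcases odd_dvd he ho hd with h1 | h1 <;> omega

theorem two_pow_mod (i : ℕ) : ∃ k r, r < 4 ∧ i = 4 * k + r ∧ 2 ^ i % 15 = 2 ^ r := by
  refine ⟨i / 4, i % 4, Nat.mod_lt _ (by norm_num), by omega, ?_⟩
  have h : i = 4 * (i / 4) + i % 4 := by omega
  have h4 : i % 4 < 4 := Nat.mod_lt _ (by norm_num)
  generalize i % 4 = r at h h4
  rw [h, pow_add, pow_mul, Nat.mul_mod, Nat.pow_mod]
  interval_cases r <;> simp

/-- `2 ^ i + 1 = 5 * q ^ j` with `j ≥ 1` forces `i = 6`. -/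
theorem aurif {q i j : ℕ} (hq : q.Prime) (h7 : 7 ≤ q) (hj : 1 ≤ j) (h : 2 ^ i + 1 = 5 * q ^ j) :
    i = 6 := by
  obtain ⟨k, r, hr, rfl, hm⟩ := two_pow_mod i
  have hr2 : r = 2 := by
    interval_cases r <;> omega
  subst hr2
  have hq7 : 7 ≤ q ^ j := le_trans h7 (Nat.le_self_pow (by omega) _)
  rcases Nat.lt_or_ge k 2 with hk | hk
  · interval_cases k
    · omega
    · rfl
  exfalso
  obtain ⟨t, ht⟩ : ∃ t, 2 ^ k = t + 4 := ⟨2 ^ k - 4, by
    have : 2 ^ 2 ≤ 2 ^ k := Nat.pow_le_pow_right (by norm_num) hk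
    omega⟩
  have hte : t % 2 = 0 := by
    have : 2 ∣ 2 ^ k := dvd_pow_self 2 (by omega)
    omega
  have e1 : 2 ^ (4 * k + 2) + 1 = (2 * t * t + 14 * t + 25) * (2 * t * t + 18 * t + 41) := by
    rw [pow_add, mul_comm 4 k, pow_mul, ht]; ring
  have hA : 2 * t * t + 14 * t + 25 ∣ 5 * q ^ j := by rw [← h, e1]; exact Dvd.intro _ rfl
  have hB : 2 * t * t + 18 * t + 41 ∣ 5 * q ^ j := by rw [← h, e1]; exact Dvd.intro_left _ rfl
  have key : ∀ n, 25 ≤ n → n ∣ 5 * q ^ j → q ∣ n := by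
    intro n hn hd
    by_contra hnd
    have hc : Nat.Coprime n (q ^ j) :=
      Nat.Coprime.pow_right _ ((hq.coprime_iff_not_dvd).2 hnd).symm
    have := Nat.le_of_dvd (by norm_num) (hc.dvd_of_dvd_mul_right hd)
    omega
  have qA := key _ (by omega) hA
  have qB := key _ (by omega) hB
  have qd : q ∣ 2 ^ (k + 2) := by
    have e2 : 2 * t * t + 18 * t + 41 = (2 * t * t + 14 * t + 25) + 2 ^ (k + 2) := by
      rw [pow_add, ht]; ring
    rw [e2] at qB
    exact (Nat.dvd_add_right qA).1 qB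
  have := Nat.le_of_dvd (by norm_num) (hq.dvd_of_dvd_pow qd)
  omega

end Deg

open Deg in
theorem deg : StDeg := by
  intro a b q x hq hq5 hx2 hx3 hd1 hd2
  obtain ⟨i, e, j, he, hx⟩ := shape hq (by omega) hd1
  obtain ⟨i', e', j', he', hx'⟩ := shape hq (by omega) hd2
  have hqo : q % 2 = 1 := Nat.odd_iff.1 (hq.odd_of_ne_two (by omega))
  have cop : ∀ p : ℕ, 2 ≤ p → p ∣ x → p ∣ x + 1 → False := fun p hp h1 h2 => by
    have := Nat.le_of_dvd one_pos ((Nat.dvd_add_right h1).1 h2)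
    omega
  have hi : i = 0 ∨ i' = 0 := by
    by_contra hh
    exact cop 2 le_rfl (hx ▸ ((dvd_pow_self 2 (by omega)).mul_right _).mul_right _)
      (hx' ▸ ((dvd_pow_self 2 (by omega)).mul_right _).mul_right _)
  have hee : e = 0 ∨ e' = 0 := by
    by_contra hh
    exact cop 5 (by norm_num) (hx ▸ ((dvd_pow_self 5 (by omega)).mul_left _).mul_right _)
      (hx' ▸ ((dvd_pow_self 5 (by omega)).mul_left _).mul_right _)
  have hj : j = 0 ∨ j' = 0 := by
    by_contra hh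
    exact cop q (by omega) (hx ▸ (dvd_pow_self q (by omega)).mul_left _)
      (hx' ▸ (dvd_pow_self q (by omega)).mul_left _)
  have oddp : ∀ e j : ℕ, (5 ^ e * q ^ j) % 2 = 1 := fun e j => by
    rw [Nat.mul_mod, Nat.pow_mod, Nat.pow_mod q, hqo]; simp
  by_cases h5 : q = 5
  · subst h5
    left
    have hx5 : x = 2 ^ i * 5 ^ (e + j) := by rw [hx]; ring
    have hx5' : x + 1 = 2 ^ i' * 5 ^ (e' + j') := by rw [hx']; ring
    have hn : e + j = 0 ∨ e' + j' = 0 := by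
      by_contra hh
      exact cop 5 (by norm_num) (hx5 ▸ (dvd_pow_self 5 (by omega)).mul_left _)
        (hx5' ▸ (dvd_pow_self 5 (by omega)).mul_left _)
    generalize e + j = n at hx5 hn
    generalize e' + j' = n' at hx5' hn
    rcases hi with rfl | rfl
    · rcases hn with rfl | rfl
      · omega
      · have h1 : 5 ^ n + 1 = 2 ^ i' * 5 ^ 0 := by omega
        have hn1 := pow_add_one (q := 5) rfl le_rfl (by norm_num) h1
        interval_cases n
        · omega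
        · omega
    · rcases hn with rfl | rfl
      · have h1 : 5 ^ n' = 2 ^ i * 5 ^ 0 + 1 := by omega
        have hn1 := pow_sub_one Nat.prime_five le_rfl (by norm_num) h1
        interval_cases n'
        · omega
        · omega
      · omega
  have hq7 : 7 ≤ q := by
    have : q ≠ 6 := by rintro rfl; exact absurd hq (by norm_num)
    omega
  rcases hi with rfl | rfl
  · -- `x` is odd
    have hxo : x = 5 ^ e * q ^ j := by rw [hx]; ring
    rcases hj with rfl | rfl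
    · rw [pow_zero, mul_one] at hxo
      interval_cases e <;> omega
    have hx2' : x + 1 = 2 ^ i' * 5 ^ e' := by rw [hx']; ring
    rcases Nat.eq_zero_or_pos e with rfl | he1
    · have hxq : x = q ^ j := by rw [hxo]; ring
      have hj1 := pow_add_one hqo hq5 he' (j := j) (i := i') (by omega)
      have hj1' : j = 1 := by
        rcases Nat.eq_zero_or_pos j with rfl | h
        · rw [pow_zero] at hxq; omega
        · omega
      subst hj1'
      rw [pow_one] at hxq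
      refine Or.inr ⟨hq7, ?_⟩
      interval_cases e'
      · exact Or.inl ⟨i', Or.inr ⟨by omega, by omega⟩⟩
      · exact Or.inr (Or.inl ⟨i', Or.inr ⟨by omega, by omega⟩⟩)
    · have he0 : e' = 0 := by omega
      have he1' : e = 1 := by omega
      subst he0; subst he1'
      obtain ⟨k, r, hr, -, hm⟩ := two_pow_mod i'
      exfalso
      interval_cases r <;> omega
  · -- `x + 1` is odd
    have hxo : x + 1 = 5 ^ e' * q ^ j' := by rw [hx']; ring
    rcases hj with rfl | rfl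
    swap
    · left
      rw [pow_zero, mul_one] at hxo
      interval_cases e' <;> omega
    have hx2' : x = 2 ^ i * 5 ^ e := by rw [hx]; ring
    rcases Nat.eq_zero_or_pos e' with rfl | he1
    · have hxq : x + 1 = q ^ j' := by rw [hxo]; ring
      have hj1 := pow_sub_one hq hq5 he (j := j') (i := i) (by omega)
      have hj1' : j' = 1 := by
        rcases Nat.eq_zero_or_pos j' with rfl | h
        · rw [pow_zero] at hxq; omega
        · omega
      subst hj1'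
      rw [pow_one] at hxq
      refine Or.inr ⟨hq7, ?_⟩
      interval_cases e
      · exact Or.inl ⟨i, Or.inl ⟨by omega, by omega⟩⟩
      · exact Or.inr (Or.inl ⟨i, Or.inl ⟨by omega, by omega⟩⟩)
    · have he0 : e = 0 := by omega
      have he1' : e' = 1 := by omega
      subst he0; subst he1'
      rcases Nat.eq_zero_or_pos j' with rfl | hj1
      · left; rw [pow_zero] at hxo; omega
      have h6 := aurif hq hq7 hj1 (i := i) (by omega)
      subst h6
      have h13 : q ^ j' = 13 := by omega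
      have hq13 : q ∣ 13 := h13 ▸ dvd_pow_self q (by omega)
      exact Or.inr ⟨hq7, Or.inr (Or.inr ⟨by omega,
        (Nat.prime_dvd_prime_iff_eq hq (by norm_num)).1 hq13⟩)⟩

end Cfsg.Lib.K35
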