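import Cfsg.Agent.K35.Defs

/-!
# Simple groups of order `2 ^ a * 3 * 5 * q ^ b`: arithmetic for the families
-/

set_option autoImplicit false

namespace Cfsg.Lib.K35.FAr

theorem prime_cases {a b q t : ℕ} (hq : q.Prime) (ht : t.Prime) (h : t ∣ 2 ^ a * 3 * 5 * q ^ b) :
    t = 2 ∨ t = 3 ∨ t = 5 ∨ t = q := by
  rcases (Nat.Prime.dvd_mul ht).1 h with h1 | h1
  · rcases (Nat.Prime.dvd_mul ht).1 h1 with h2 | h2
    · rcases (Nat.Prime.dvd_mul ht).1 h2 with h3 | h3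
      · exact Or.inl ((Nat.prime_dvd_prime_iff_eq ht Nat.prime_two).1 (ht.dvd_of_dvd_pow h3))
      · exact Or.inr (Or.inl ((Nat.prime_dvd_prime_iff_eq ht Nat.prime_three).1 h3))
    · exact Or.inr (Or.inr (Or.inl ((Nat.prime_dvd_prime_iff_eq ht Nat.prime_five).1 h2)))
  · exact Or.inr (Or.inr (Or.inr ((Nat.prime_dvd_prime_iff_eq ht hq).1 (ht.dvd_of_dvd_pow h1))))

/-- An odd divisor prime to `q` of `c * 2 ^ a * q ^ b` divides `c`. -/
theorem dvd_of_odd {a b c q m : ℕ} (hq : q.Prime) (ho : m % 2 = 1) (hm : ¬ q ∣ m)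
    (h : m ∣ c * 2 ^ a * q ^ b) : m ∣ c := by
  have c1 : Nat.Coprime m (q ^ b) := Nat.Coprime.pow_right _ ((hq.coprime_iff_not_dvd).2 hm).symm
  have c2 : Nat.Coprime m (2 ^ a) := Nat.Coprime.pow_right _ (by
    rw [Nat.coprime_two_right]; exact Nat.odd_iff.2 ho)
  exact c2.dvd_of_dvd_mul_right (c1.dvd_of_dvd_mul_right h)

theorem not_nine {a b q : ℕ} (hq : q.Prime) (h3 : q ≠ 3) : ¬ 9 ∣ 2 ^ a * 3 * 5 * q ^ b := by
  intro h
  have h9 : ¬ q ∣ 9 := fun e => h3 ((Nat.prime_dvd_prime_iff_eq hq Nat.prime_three).1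
    (hq.dvd_of_dvd_pow (n := 2) e))
  have := dvd_of_odd (a := a) (b := b) (c := 15) hq (by norm_num) h9 (by
    rw [show 15 * 2 ^ a * q ^ b = 2 ^ a * 3 * 5 * q ^ b by ring]; exact h)
  omega

/-- The common argument for `PSL₃` and `PSU₃`. -/
theorem rank_three {a b q d r A C : ℕ} (hq : q.Prime) (hd : d ∣ 3)
    (h : d * (2 ^ a * 3 * 5 * q ^ b) = r ^ 3 * A * C) (hr : 2 ≤ r) (ho : C % 2 = 1)
    (h5 : ¬ 5 ∣ C) (h9 : ¬ 9 ∣ C) (h3 : 3 < C)
    (cop : ∀ t : ℕ, t.Prime → t ∣ C → t ≠ 3 → ¬ t ∣ r ∧ ¬ t ∣ A) :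
    q ≠ 3 ∧ r % 2 = 0 ∧ (A % 2 = 1 → A ∣ 45) := by
  have hN : r ^ 3 * A * C ∣ 45 * 2 ^ a * q ^ b := by
    rw [← h, show 45 * 2 ^ a * q ^ b = 3 * (2 ^ a * 3 * 5 * q ^ b) by ring]
    exact Nat.mul_dvd_mul_right hd _
  have hqC : q ∣ C ∧ q ≠ 3 := by
    by_contra hh
    by_cases e : q ∣ C
    · have e3 : q = 3 := by tauto
      subst e3
      have c5 : Nat.Coprime C 5 := ((Nat.prime_five.coprime_iff_not_dvd).2 h5).symm
      have c2 : Nat.Coprime C (2 ^ a) := Nat.Coprime.pow_right _ (by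
        rw [Nat.coprime_two_right]; exact Nat.odd_iff.2 ho)
      have h1 : C ∣ 3 ^ (b + 2) * 5 * 2 ^ a := by
        rw [show 3 ^ (b + 2) * 5 * 2 ^ a = 45 * 2 ^ a * 3 ^ b by ring]
        exact dvd_trans (Dvd.intro_left _ rfl) hN
      obtain ⟨j, -, rfl⟩ := (Nat.dvd_prime_pow Nat.prime_three).1
        (c5.dvd_of_dvd_mul_right (c2.dvd_of_dvd_mul_right h1))
      rcases Nat.lt_or_ge j 2 with hj | hj
      · interval_cases j <;> omega
      · exact h9 (pow_dvd_pow 3 hj)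
    · have h45 := dvd_of_odd hq ho e (dvd_trans (Dvd.intro_left _ rfl) hN)
      have := Nat.le_of_dvd (by norm_num) h45
      interval_cases C <;> omega
  obtain ⟨c1, c2⟩ := cop q hq hqC.1 hqC.2
  refine ⟨hqC.2, ?_, fun hA => dvd_of_odd hq hA c2
    (dvd_trans ((Dvd.intro_left _ rfl).mul_right _) hN)⟩
  by_contra hro
  have h1 : r ^ 3 % 2 = 1 := by
    rw [Nat.pow_mod, show r % 2 = 1 by omega]
  have h2 := dvd_of_odd hq h1 (fun e => c1 (hq.dvd_of_dvd_pow e))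
    (dvd_trans ((Dvd.intro _ rfl).mul_right _) hN)
  have h4 := Nat.le_of_dvd (by norm_num) h2
  have h6 : r < 4 := by
    by_contra h7
    have : 4 ^ 3 ≤ r ^ 3 := Nat.pow_le_pow_left (by omega) 3
    omega
  interval_cases r <;> omega

end Cfsg.Lib.K35.FAr
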