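import Cfsg.Agent.K35.FSA
import Cfsg.Agent.Class.PGL2Sub
import Cfsg.Agent.S0252

/-!
# Simple groups of order `2 ^ a * 3 * 5 * q ^ b`: the groups `PSL₂(r)`
-/

set_option autoImplicit false

namespace Cfsg.Lib.K35

open Cfsg Subgroup

universe u

namespace FL2

theorem arith {a b q s d p k : ℕ} (hq : q.Prime) (hp : p.Prime) (hk : s + 1 = p ^ k) (hs : 1 ≤ s)
    (hd : d ∣ 2) (h : d * (2 ^ a * 3 * 5 * q ^ b) = (s + 1) * s * (s + 2)) :
    s = 3 ∨ s = 4 ∨ s = 8 ∨ s = 10 ∨ s = 15 ∨ s = 30 := by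
  have hN : (s + 1) * s * (s + 2) ∣ 15 * 2 ^ (a + 1) * q ^ b := by
    rw [← h, show 15 * 2 ^ (a + 1) * q ^ b = 2 * (2 ^ a * 3 * 5 * q ^ b) by ring]
    exact Nat.mul_dvd_mul_right hd _
  have h5 : 5 ∣ (s + 1) * s * (s + 2) := by
    rw [← h]; exact ⟨d * 2 ^ a * 3 * q ^ b, by ring⟩
  have key : ∀ m, m % 2 = 1 → ¬ q ∣ m → m ∣ (s + 1) * s * (s + 2) →
      m = 1 ∨ m = 3 ∨ m = 5 ∨ m = 15 := fun m h1 h2 h3 => by
    have h15 := FAr.dvd_of_odd hq h1 h2 (dvd_trans h3 hN)
    have := Nat.le_of_dvd (by norm_num) h15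
    interval_cases m <;> omega
  have pp : ∀ t t' : ℕ, t.Prime → t'.Prime → t ∣ s + 1 → t' ∣ s + 1 → t = t' := by
    intro t t' ht ht' h1 h2
    rw [hk] at h1 h2
    rw [(Nat.prime_dvd_prime_iff_eq ht hp).1 (ht.dvd_of_dvd_pow h1),
      (Nat.prime_dvd_prime_iff_eq ht' hp).1 (ht'.dvd_of_dvd_pow h2)]
  have n6 : s ≠ 5 := by
    rintro rfl
    exact absurd (pp 2 3 Nat.prime_two Nat.prime_three (by norm_num) (by norm_num)) (by norm_num)
  have n14 : s ≠ 13 := by
    rintro rfl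
    exact absurd (pp 2 7 Nat.prime_two (by norm_num) (by norm_num) (by norm_num)) (by norm_num)
  have n15 : s ≠ 14 := by
    rintro rfl
    exact absurd (pp 3 5 Nat.prime_three Nat.prime_five (by norm_num) (by norm_num)) (by norm_num)
  have n1 : s ≠ 1 := by rintro rfl; omega
  have n2 : s ≠ 2 := by rintro rfl; omega
  have n7 : s ≠ 6 := by rintro rfl; omega
  have d1 : s ∣ (s + 1) * s * (s + 2) := (Dvd.intro_left _ rfl).mul_right _
  have d2 : s + 2 ∣ (s + 1) * s * (s + 2) := Dvd.intro_left _ rfl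
  have d0 : s + 1 ∣ (s + 1) * s * (s + 2) := (Dvd.intro _ rfl).mul_right _
  rcases Nat.mod_two_eq_zero_or_one s with hs2 | hs2
  · by_cases hqr : q ∣ s + 1
    · obtain ⟨t, rfl⟩ : ∃ t, s = 2 * t := ⟨s / 2, by omega⟩
      have one : ¬ q ∣ 1 := hq.not_dvd_one
      have q1 : ¬ q ∣ t := fun e => one ((Nat.dvd_add_right (e.mul_left 2)).1 hqr)
      have q2 : ¬ q ∣ t + 1 := fun e => one (by
        have := e.mul_left 2
        rw [show 2 * (t + 1) = 2 * t + 1 + 1 by ring] at this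
        exact (Nat.dvd_add_right hqr).1 this)
      have n29 : t ≠ 14 := by
        rintro rfl
        have hq29 : q = 29 := (Nat.prime_dvd_prime_iff_eq hq (by norm_num)).1 hqr
        have := FAr.prime_cases (a := a + 1) (b := b) hq (by norm_num : Nat.Prime 7) (by
          rw [show 2 ^ (a + 1) * 3 * 5 * q ^ b = 15 * 2 ^ (a + 1) * q ^ b by ring]
          exact dvd_trans (by norm_num) hN)
        omega
      rcases Nat.mod_two_eq_zero_or_one t with ht | ht
      · have := key (t + 1) (by omega) q2 (dvd_trans ⟨2, by ring⟩ d2)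
        omega
      · have := key t ht q1 (dvd_trans ⟨2, by ring⟩ d1)
        omega
    · have := key (s + 1) (by omega) hqr d0
      omega
  · by_cases hqs : q ∣ s
    · have q2 : ¬ q ∣ s + 2 := fun e => by
        have h2 := (Nat.prime_dvd_prime_iff_eq hq Nat.prime_two).1 ((Nat.dvd_add_right hqs).1 e)
        subst h2
        omega
      have := key (s + 2) (by omega) q2 d2
      omega
    · have := key s hs2 hqs d1
      omega

end FL2

theorem fl2 : StFL2.{u} := by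
  rintro G _ _ _ q hq ⟨a, b, hc⟩ F _ _ ⟨e⟩
  have h := Class.gcd_mul_card_PSL2 (F := F)
  rw [← Nat.card_congr e.toEquiv, hc, Nat.card_eq_fintype_card] at h
  obtain ⟨p, _, k, hp, hk⟩ := FiniteField.card' F
  have hr : 2 ≤ Fintype.card F := Fintype.one_lt_card
  obtain ⟨s, hs⟩ : ∃ s, Fintype.card F = s + 1 := ⟨Fintype.card F - 1, by omega⟩
  rw [hs, Nat.add_sub_cancel] at h
  have := FL2.arith hq hp (hs.symm.trans hk) (by omega) (Nat.gcd_dvd_left 2 s) h
  by_cases h4 : s = 3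
  · obtain ⟨f⟩ := Agent.S0252.result (F := F) (by omega)
    exact FSA.concl_five (e.trans f)
  · exact Or.inl ⟨F, inferInstance, inferInstance, by omega, ⟨e⟩⟩

end Cfsg.Lib.K35
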