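import Cfsg.Agent.K35.FAr
import Cfsg.Agent.S0245
import Cfsg.Agent.S0246
import Cfsg.Agent.S0822

/-!
# Simple groups of order `2 ^ a * 3 * 5 * q ^ b`: the groups `PSp₄(r)`
-/

set_option autoImplicit false

namespace Cfsg.Lib.K35

open Cfsg Subgroup

universe u

namespace FS4

theorem arith {a b q s d : ℕ} (hq : q.Prime) (hs : 1 ≤ s) (hd : d ∣ 2)
    (h : (2 ^ a * 3 * 5 * q ^ b) * d =
      (s + 1) ^ 4 * (s * (s + 2)) * (s * (s + 2)) * (s * s + 2 * s + 2)) : s ≤ 2 := by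
  have hN : (s + 1) ^ 4 * (s * (s + 2)) * (s * (s + 2)) * (s * s + 2 * s + 2) ∣
      2 ^ (a + 1) * 3 * 5 * q ^ b := by
    rw [← h, show 2 ^ (a + 1) * 3 * 5 * q ^ b = (2 ^ a * 3 * 5 * q ^ b) * 2 by ring]
    exact Nat.mul_dvd_mul_left _ hd
  have h9 : 9 ∣ (s + 1) ^ 4 * (s * (s + 2)) * (s * (s + 2)) := by
    have : 3 ∣ s + 1 ∨ 3 ∣ s ∨ 3 ∣ s + 2 := by omega
    rcases this with e | e | e
    · exact ((dvd_trans (by norm_num) (pow_dvd_pow_of_dvd e 4)).mul_right _).mul_right _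
    · rw [mul_assoc]
      exact (Nat.mul_dvd_mul (e.mul_right _) (e.mul_right _)).mul_left _
    · rw [mul_assoc]
      exact (Nat.mul_dvd_mul (e.mul_left _) (e.mul_left _)).mul_left _
  have hq3 : q = 3 := by
    by_contra h3
    exact FAr.not_nine hq h3 (dvd_trans (h9.mul_right _) hN)
  subst hq3
  have hC : s * s + 2 * s + 2 ∣ 5 * 2 ^ (a + 1) * 3 ^ (b + 1) := by
    rw [show 5 * 2 ^ (a + 1) * 3 ^ (b + 1) = 2 ^ (a + 1) * 3 * 5 * 3 ^ b by ring]
    exact dvd_trans (Dvd.intro_left _ rfl) hN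
  have m3 : ¬ 3 ∣ s * s + 2 * s + 2 := by
    rw [Nat.dvd_iff_mod_eq_zero]
    have : s % 3 < 3 := Nat.mod_lt _ (by norm_num)
    rw [Nat.add_mod, Nat.add_mod (s * s), Nat.mul_mod s s, Nat.mul_mod 2 s]
    generalize s % 3 = t at *
    interval_cases t <;> simp
  rcases Nat.even_or_odd' s with ⟨t, rfl | rfl⟩
  · have e : 2 * t * (2 * t) + 2 * (2 * t) + 2 = 2 * (2 * (t * t + t) + 1) := by ring
    rw [e] at hC m3
    have := Nat.le_of_dvd (by norm_num) (FAr.dvd_of_odd Nat.prime_three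
      (m := 2 * (t * t + t) + 1) (by omega) (fun e => m3 (e.mul_left _))
      (dvd_trans (Dvd.intro_left _ rfl) hC))
    nlinarith
  · have e : (2 * t + 1) * (2 * t + 1) + 2 * (2 * t + 1) + 2 = 2 * (2 * (t * t) + 4 * t + 2) + 1 := by
      ring
    rw [e] at hC m3
    have := Nat.le_of_dvd (by norm_num) (FAr.dvd_of_odd Nat.prime_three (by omega) m3 hC)
    omega

end FS4

theorem fs4 : StFS4.{u} := by
  rintro G _ _ _ q hq ⟨a, b, hc⟩ F _ _ hF2 ⟨e⟩
  have h1 := card_eq_card_quotient_mul_card_subgroup (center (Matrix.symplecticGroup (Fin 2) F))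
  rw [Agent.S0245.result rfl, Agent.S0246.result rfl 2 (by omega)] at h1
  change _ = Nat.card (PSp 2 F) * _ at h1
  rw [← Nat.card_congr e.toEquiv, hc] at h1
  have hr : 2 ≤ Fintype.card F := Fintype.one_lt_card
  obtain ⟨s, hs⟩ : ∃ s, Fintype.card F = s + 1 := ⟨Fintype.card F - 1, by omega⟩
  rw [hs] at h1
  have e1 : (s + 1) ^ (2 * (0 + 1)) - 1 = s * (s + 2) := Nat.sub_eq_of_eq_add (by ring)
  have e2 : (s + 1) ^ (2 * (1 + 1)) - 1 = s * (s + 2) * (s * s + 2 * s + 2) :=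
    Nat.sub_eq_of_eq_add (by ring)
  rw [Finset.prod_range_succ, Finset.prod_range_succ, Finset.prod_range_zero, e1, e2] at h1
  have hle := FS4.arith (a := a) (b := b) (s := s) hq (by omega) (Nat.gcd_dvd_left 2 _)
    (h1.symm.trans (by ring))
  have hF3 : Fintype.card F = 3 := by omega
  have : Fact (Nat.Prime 2) := ⟨Nat.prime_two⟩
  have := Fintype.ofFinite (GaloisField 2 2)
  have hK : Fintype.card (GaloisField 2 2) = 4 := by
    rw [← Nat.card_eq_fintype_card, GaloisField.card 2 2 (by norm_num)]; norm_num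
  obtain ⟨f⟩ := Agent.S0822.result hK hF3
  exact Or.inr ⟨GaloisField 2 2, inferInstance, this, hK, ⟨e.trans f.symm⟩⟩

end Cfsg.Lib.K35
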