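import Cfsg.Agent.K35.FAr
import Cfsg.Agent.Gold.ReeReal
import Cfsg.Agent.S0253
import Cfsg.Agent.S0254

/-!
# Simple groups of order `2 ^ a * 3 * 5 * q ^ b`: Suzuki and alternating groups
-/

set_option autoImplicit false

namespace Cfsg.Lib.K35

open Cfsg Subgroup

universe u

namespace FSA

theorem two_pow_mod (m : ℕ) : 2 ^ (2 * m + 1) % 3 = 2 := by
  induction m with
  | zero => norm_num
  | succ k ih => rw [show 2 * (k + 1) + 1 = 2 * k + 1 + 2 by ring, pow_add]; omega

theorem concl_five {G : Type u} [Group G] (e : G ≃* Alt 5) : Concl G := by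
  have : Fact (Nat.Prime 5) := ⟨Nat.prime_five⟩
  have hK : Fintype.card (ZMod 5) = 5 := ZMod.card 5
  obtain ⟨f⟩ := Agent.S0253.result hK
  exact Or.inl ⟨ZMod 5, inferInstance, inferInstance, Or.inl hK, ⟨e.trans f.symm⟩⟩

theorem concl_six {G : Type u} [Group G] (e : G ≃* Alt 6) : Concl G := by
  have : Fact (Nat.Prime 3) := ⟨Nat.prime_three⟩
  have := Fintype.ofFinite (GaloisField 3 2)
  have hK : Fintype.card (GaloisField 3 2) = 9 := by
    rw [← Nat.card_eq_fintype_card, GaloisField.card 3 2 (by norm_num)]; norm_num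
  obtain ⟨f⟩ := Agent.S0254.result hK
  exact Or.inl ⟨GaloisField 3 2, inferInstance, this, Or.inr (Or.inl hK), ⟨e.trans f.symm⟩⟩

end FSA

theorem fsa : StFSA.{u} := by
  rintro G _ _ _ q hq ⟨a, b, hc⟩
  have h3 : 3 ∣ Nat.card G := ⟨2 ^ a * 5 * q ^ b, by rw [hc]; ring⟩
  refine ⟨fun h => Gold.not_three_dvd_of_isoSuzuki h h3, ?_, ?_⟩
  · rintro ⟨-, m, -, hm⟩
    rw [hm] at h3
    have h2 := FSA.two_pow_mod m
    generalize 2 ^ (2 * m + 1) = Q at *
    have hQ : Q ^ 2 % 3 = 1 := by rw [Nat.pow_mod, h2]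
    rcases (Nat.Prime.dvd_mul Nat.prime_three).1 h3 with h | h
    · rcases (Nat.Prime.dvd_mul Nat.prime_three).1 h with h | h <;> omega
    · omega
  · rintro n hn ⟨e⟩
    by_cases h5 : n = 5
    · subst h5; exact FSA.concl_five e
    by_cases h6 : n = 6
    · subst h6; exact FSA.concl_six e
    exfalso
    have : Nontrivial (Fin n) := Fin.nontrivial_iff_two_le.2 (by omega)
    have h2 : 2 * Nat.card G = n.factorial := by
      rw [Nat.card_congr e.toEquiv, two_mul_nat_card_alternatingGroup, Nat.card_perm,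
        Nat.card_eq_fintype_card, Fintype.card_fin]
    have h7 : (7 : ℕ).factorial ∣ 2 * Nat.card G := h2 ▸ Nat.factorial_dvd_factorial (by omega)
    have h7' : 5040 ∣ 2 * Nat.card G := by simpa [Nat.factorial] using h7
    have hq3 : q = 3 := by
      by_contra hh
      exact FAr.not_nine (a := a) (b := b) hq hh (by rw [← hc]; omega)
    have := FAr.prime_cases (a := a) (b := b) hq (by norm_num : Nat.Prime 7) (by rw [← hc]; omega)
    omega

end Cfsg.Lib.K35
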