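import Cfsg.Agent.K35.FAr
import Cfsg.Agent.S0280

/-!
# Simple groups of order `2 ^ a * 3 * 5 * q ^ b`: the groups `PSU₃(r)` do not occur
-/

set_option autoImplicit false

namespace Cfsg.Lib.K35

open Cfsg Subgroup

universe u

namespace FU3

theorem arith {a b q s : ℕ} (hq : q.Prime) (hr : 1 ≤ s)
    (h : Nat.gcd 3 (s + 1 + 1) * (2 ^ a * 3 * 5 * q ^ b) =
      (s + 1) ^ 3 * (s * (s + 2) * (s + 2)) * (s * s + s + 1)) : False := by
  have h5 : 5 ∣ 2 ^ a * 3 * 5 * q ^ b := ⟨2 ^ a * 3 * q ^ b, by ring⟩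
  by_cases hs1 : s = 1
  · subst hs1
    generalize 2 ^ a * 3 * 5 * q ^ b = N at *
    simp at h
    omega
  have m2 : (s * s + s + 1) % 2 = 1 := by
    rcases Nat.mod_two_eq_zero_or_one s with e | e <;> simp [Nat.add_mod, Nat.mul_mod, e]
  have m5 : ¬ 5 ∣ s * s + s + 1 := by
    rw [Nat.dvd_iff_mod_eq_zero]
    have : s % 5 < 5 := Nat.mod_lt _ (by norm_num)
    rw [Nat.add_mod, Nat.add_mod (s * s), Nat.mul_mod s s]
    generalize s % 5 = t at *
    interval_cases t <;> simp
  have m9 : ¬ 9 ∣ s * s + s + 1 := by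
    rw [Nat.dvd_iff_mod_eq_zero]
    have : s % 9 < 9 := Nat.mod_lt _ (by norm_num)
    rw [Nat.add_mod, Nat.add_mod (s * s), Nat.mul_mod s s]
    generalize s % 9 = t at *
    interval_cases t <;> simp
  obtain ⟨-, hre, hA⟩ := FAr.rank_three hq (Nat.gcd_dvd_left 3 _) h (by omega) m2 m5 m9
    (by nlinarith [show 2 ≤ s by omega])
    (fun t ht hC h3 => by
      have one : ¬ t ∣ 1 := ht.not_dvd_one
      have k2 : ¬ t ∣ s + 2 := fun e => by
        obtain ⟨s', rfl⟩ : ∃ s', s = s' + 1 := ⟨s - 1, by omega⟩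
        rw [show (s' + 1) * (s' + 1) + (s' + 1) + 1 = (s' + 1 + 2) * s' + 3 by ring] at hC
        exact h3 ((Nat.prime_dvd_prime_iff_eq ht Nat.prime_three).1
          ((Nat.dvd_add_right (e.mul_right _)).1 hC))
      refine ⟨fun e => one ?_, fun e => ?_⟩
      · rw [show s * s + s + 1 = (s + 1) * s + 1 by ring] at hC
        exact (Nat.dvd_add_right (e.mul_right _)).1 hC
      · rcases (Nat.Prime.dvd_mul ht).1 e with e | e
        · rcases (Nat.Prime.dvd_mul ht).1 e with e | e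
          · rw [show s * s + s + 1 = s * (s + 1) + 1 by ring] at hC
            exact one ((Nat.dvd_add_right (e.mul_right _)).1 hC)
          · exact k2 e
        · exact k2 e)
  have hs : s % 2 = 1 := by omega
  have h45 := hA (by simp [Nat.add_mod, Nat.mul_mod, hs])
  have hle := Nat.le_of_dvd (by norm_num) h45
  have : 3 * 5 * 5 ≤ s * (s + 2) * (s + 2) :=
    Nat.mul_le_mul (Nat.mul_le_mul (by omega) (by omega)) (by omega)
  omega

end FU3

theorem fu3 : StFU3.{u} := by
  rintro G _ _ _ q hq ⟨a, b, hc⟩ F _ _ r hF ⟨e⟩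
  have h := Cfsg.Agent.S0280.result hF 3 (by norm_num)
  rw [← Nat.card_congr e.toEquiv, hc] at h
  have hr : 2 ≤ r := by
    have h1 : 1 < Fintype.card F := Fintype.one_lt_card
    by_contra h2
    have : r ^ 2 ≤ 1 ^ 2 := Nat.pow_le_pow_left (by omega) 2
    omega
  obtain ⟨s, rfl⟩ : ∃ s, r = s + 1 := ⟨r - 1, by omega⟩
  have e1 : (s + 1) ^ (1 + 1) - 1 = s * (s + 2) := Nat.sub_eq_of_eq_add (by ring)
  rw [Finset.prod_range_succ, Finset.prod_range_succ, Finset.prod_range_succ, Finset.prod_range_zero,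
    if_pos (by decide), if_neg (by decide), if_pos (by decide), e1] at h
  refine FU3.arith (a := a) (b := b) (s := s) hq (by omega) ?_
  apply Nat.eq_of_mul_eq_mul_left (show 0 < s + 1 + 1 by omega)
  rw [mul_left_comm, h]
  norm_num
  ring

end Cfsg.Lib.K35
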