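import Cfsg.Agent.K35.Loc
import Cfsg.Agent.Solv.NilpotentHall
import Cfsg.Agent.Solv.PGroupNormal

/-! A solvable group with a noncyclic Sylow 3-subgroup. -/

set_option autoImplicit false

namespace Cfsg.Lib.K35

open Cfsg Subgroup Cfsg.Lib.Trans Cfsg.Lib.Gold
open Cfsg.Lib.P8 (A5 A6 S5 O2 Om Jt Phi EA SR4 Ch E9 Pj Ty Sec SecOK Mx)
open scoped commutatorElement

universe u

theorem k0e : StK0e.{u} := by
  intro X _ _ sol pr h2 S x syl hS ox hx
  have : Fact (Nat.Prime 3) := ⟨Nat.prime_three⟩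
  have : Fact (Nat.Prime 2) := ⟨Nat.prime_two⟩
  by_contra! no
  have ne : ∀ a b : X, orderOf a = 3 → orderOf b = 3 → a * b = b * a → b ∈ zpowers a :=
    fun a b h1 h2 h3 => by_contra fun h4 => no a b ⟨h1, h2, h3, h4⟩
  have h3 : pPrimeCore 3 X = ⊥ := by
    refine eq_bot_iff.2 (h2 ▸ Solv.le_pCore inferInstance (IsPGroup.iff_card.2 ⟨_,
      Nat.eq_prime_pow_of_unique_prime_dvd Nat.card_pos.ne' fun {p} pp hp => ?_⟩))
    exact (pr p pp (hp.trans (card_subgroup_dvd_card _))).resolve_right fun e =>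
      Solv.not_dvd_card_pPrimeCore 3 X (e ▸ hp)
  have hc := Solv.centralizer_fitting_le X
  rw [Solv.fitting_eq_pCore_of_pPrimeCore_eq_bot h3] at hc
  have hF := Solv.pCore_isPGroup 3 X
  generalize hFe : pCore 3 X = F at hc hF
  have nF : F.Normal := hFe ▸ inferInstance
  obtain ⟨s, hs, os⟩ := Solv.PG.exists_orderOf_eq_prime syl.isPGroup hS
  have s2 : s * s = 1 := by rw [← pow_two, ← os, pow_orderOf_eq_one]
  have dis : ∀ y ∈ S, y ∈ F → y = 1 := fun y h1 h2 =>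
    mem_bot.1 ((IsPGroup.disjoint_of_ne 2 3 (by norm_num) S F syl.isPGroup hF).le_bot ⟨h1, h2⟩)
  have s1 : s ∉ F := fun h => by
    rw [dis s hs h, orderOf_one] at os
    omega
  have hP : IsPGroup 3 ↥(zpowers x ⊔ F) :=
    (IsPGroup.iff_card.2 ⟨1, by rw [Nat.card_zpowers, ox, pow_one]⟩).to_sup_of_normal_right hF
  obtain ⟨⟨c, cP⟩, cF, cc, oc⟩ := Solv.PG.exists_mem_center_orderOf_eq hP (F.subgroupOf _) fun e => by
    rw [subgroupOf_eq_bot, disjoint_iff, inf_eq_left.2 le_sup_right] at e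
    exact s1 (hc (by rw [e]; simp [mem_centralizer_iff]))
  rw [← orderOf_coe] at oc
  have cm : ∀ y ∈ zpowers x ⊔ F, y * c = c * y := fun y hy =>
    congrArg Subtype.val (mem_center_iff.1 cc ⟨y, hy⟩)
  have xc := ne x c ox oc (cm x (mem_sup_left (mem_zpowers x)))
  have xF : x ∈ F := zpowers_le.2 (show c ∈ F from cF) (ne c x oc ox (cm x (mem_sup_left (mem_zpowers x))).symm)
  have sx : Commute s x := by
    have := dis (s * (x * s⁻¹ * x⁻¹)) (mul_mem hs (mem_normalizer_conj hx (inv_mem hs))) (by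
      rw [show s * (x * s⁻¹ * x⁻¹) = s * x * s⁻¹ * x⁻¹ by group]
      exact mul_mem (nF.conj_mem x xF s) (inv_mem xF))
    exact commutatorElement_eq_one_iff_commute.1 (by rw [← this, commutatorElement_def]; group)
  refine s1 (hc (mem_centralizer_iff.2 fun f hf => ?_))
  by_contra n
  have wF : f⁻¹ * (s * f * s⁻¹) ∈ F := mul_mem (inv_mem hf) (nF.conj_mem f hf s)
  have wi : s * (f⁻¹ * (s * f * s⁻¹)) * s⁻¹ = (f⁻¹ * (s * f * s⁻¹))⁻¹ :=
    calc _ = s * f⁻¹ * s⁻¹ * (s * s) * f * (s * s)⁻¹ := by group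
      _ = _ := by rw [s2]; group
  have w1 : f⁻¹ * (s * f * s⁻¹) ≠ 1 := fun e => n (by
    rw [inv_mul_eq_one, eq_mul_inv_iff_mul_eq] at e; exact e)
  generalize f⁻¹ * (s * f * s⁻¹) = w at wF wi w1
  obtain ⟨y, hy, oy⟩ := Solv.PG.exists_orderOf_eq_prime (hF.to_le (zpowers_le.2 wF))
    (zpowers_eq_bot.not.2 w1)
  have y1 := zpowers_le.2 xc (ne c y oc oy (cm y (mem_sup_right (zpowers_le.2 wF hy))).symm)
  obtain ⟨k, rfl⟩ := mem_zpowers_iff.1 hy
  obtain ⟨l, hl⟩ := mem_zpowers_iff.1 y1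
  have e := congrArg (· ^ k) wi
  simp only [conj_zpow, inv_zpow] at e
  rw [← hl, (sx.zpow_right l).eq, mul_inv_cancel_right, hl, eq_inv_iff_mul_eq_one, ← pow_two] at e
  have := orderOf_dvd_of_pow_eq_one e
  rw [oy] at this
  omega

end Cfsg.Lib.K35
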