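import Cfsg.Agent.K35.KCk

/-! Finite facts on involutions of `S₆` and on the stabilizer of a syntheme. -/

set_option autoImplicit false

namespace Cfsg.Lib.K35.KC0

open Equiv KCk

theorem rel : ∀ τ : S6, R (τ 0) (τ 1) (τ 2) (τ 3) (τ 4) (τ 5) := by decide +kernel

theorem cls : ∀ a : S6, a * a = 1 → a ≠ 1 → ∃ i j k l : Fin 6,
    (swap 0 i * swap 1 j * swap 2 k * swap 3 l)⁻¹ * a * (swap 0 i * swap 1 j * swap 2 k * swap 3 l) ∈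
      [swap (0 : Fin 6) 1, swap 0 1 * swap 2 3, swap 0 1 * swap 2 3 * swap 4 5] := by
  decide +kernel

theorem fx : ∀ a ∈ [swap (0 : Fin 6) 1 * swap 2 3, swap 0 1 * swap 2 3 * swap 4 5],
    (∀ i j, D (a i) (a j) i j → D i j 0 0 ∨ D i j 0 1 ∨ D i j 2 3 ∨ D i j 4 5) ∧
    R 0 2 (a 0) (a 2) 4 5 ∧ (∃ i, R i 4 (a i) (a 4) 0 1) ∧ ∃ i, R i 4 (a i) (a 4) 2 3 := by
  decide +kernel

set_option synthInstance.maxSize 4096 in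
theorem four : ∀ a ∈ [swap (0 : Fin 6) 1 * swap 2 3, swap 0 1 * swap 2 3 * swap 4 5], ∀ b : S6,
    D (b 0) (b 1) 0 1 → D (b 2) (b 3) 2 3 → D (b 4) (b 5) 4 5 → b ≠ 1 → b ≠ a →
    [1, a, b, a * b].toFinset.card = 4 ∧
    ∃ τ ∈ [(1 : S6), swap 0 2 * swap 1 3, swap 2 4 * swap 3 5, swap 0 4 * swap 1 5],
      ∃ l ∈ [[(1 : S6), swap 0 1, swap 2 3, swap 0 1 * swap 2 3],
        [1, swap 4 5, swap 0 1 * swap 2 3, swap 0 1 * swap 2 3 * swap 4 5],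
        [1, swap 0 1 * swap 2 3, swap 0 1 * swap 4 5, swap 2 3 * swap 4 5]],
      (∀ σ ∈ l, τ * σ * τ⁻¹ ∈ [1, a, b, a * b]) ∧ ∀ σ ∈ [1, a, b, a * b], τ⁻¹ * σ * τ ∈ l := by
  decide +kernel

end Cfsg.Lib.K35.KC0
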