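import Cfsg.Agent.K35.KCk

/-!
# End game: the conjugate `V ^ g` does not induce a transvection group
-/

set_option autoImplicit false

namespace Cfsg.Lib.K35

open Cfsg Subgroup Cfsg.Lib.Trans Cfsg.Lib.Gold
open Cfsg.Lib.P8 (A5 A6 S5 O2 Om Jt Phi EA SR4 Ch E9 Pj Ty Sec SecOK Mx)
open scoped commutatorElement
open KCk Equiv

universe u

namespace KC1

theorem d1 : ∀ i j : Fin 6, (∀ σ ∈ [(1 : S6), swap 0 1], D (σ i) (σ j) i j) →
    ∃ p ∈ [((0 : Fin 6), (0 : Fin 6)), (0, 1), (2, 3), (2, 4), (2, 5), (3, 4), (3, 5), (4, 5)],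
      D i j p.1 p.2 := by decide +kernel

theorem d2 : ∀ σ ∈ [(1 : S6), swap 0 1], ∀ i j : Fin 6,
    R i j (σ i) (σ j) 0 0 ∨ R i j (σ i) (σ j) 0 1 := by decide +kernel

set_option synthInstance.maxSize 4096 in
theorem d3 : ∀ i j k l : Fin 6, D (swap 0 1 i) (swap 0 1 j) i j → D (swap 0 1 k) (swap 0 1 l) k l →
    i ≠ j → k ≠ l → ¬ D i j 0 1 → ¬ D k l 0 1 → ¬ D i j k l → ¬ R i j k l 0 1 →
    ∃ a b c : Fin 6, a ≠ b ∧ b ≠ c ∧ a ≠ c ∧ D i j a b ∧ D k l b c := by decide +kernel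

end KC1

theorem kc1 (hKT : StKT.{u}) : StKC1.{u} := by
  intro G _ _ M V S₀ π e g h hg hI
  have hc := fun i j => cnt h hg hI _ KC1.d1 (by decide) (i := i) (j := j)
  obtain ⟨a, ha, hπa⟩ := (hI (swap 0 1)).2 (by simp)
  have haM := W_leM h hg ha
  -- `g` fixes `e 0 1`
  have hfix : g * e 0 1 * g⁻¹ = e 0 1 := by
    have h1 : e 0 2 * a * (e 0 2)⁻¹ * a⁻¹ = e 0 1 := by
      rw [comm_eq h haM, hπa]
      exact mul_eq h (by decide)
    obtain ⟨i, j, hij⟩ := (h.cd.mem _).1 (conj_W h hg ha)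
    have hv : g * e 0 2 * g⁻¹ ∈ cj g V := conj_mem_cj.2 (mem h 0 2)
    have h2 := comm_eq h (W_leM h hg hv) i j
    have h3 : g * e 0 1 * g⁻¹ = (e i j * (g * e 0 2 * g⁻¹) * (e i j)⁻¹ * (g * e 0 2 * g⁻¹)⁻¹)⁻¹ := by
      rw [← hij, ← h1]; group
    rcases KC1.d2 _ ((hI _).1 ⟨_, hv, rfl⟩) i j with h4 | h4
    · rw [h2, mul_eq h h4, h.cd.dia, inv_one, conj_eq_one_iff, eq_one_iff h] at h3
      exact absurd h3 (by decide)
    · rw [h3, h2, mul_eq h h4, inv_eq h (mem h 0 1)]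
  have key : ∀ k l : Fin 6, e k l ∈ cj g V → k ≠ l → ¬ D k l 0 1 → ∃ i j, g * e i j * g⁻¹ = e k l ∧
      D (swap 0 1 i) (swap 0 1 j) i j ∧ i ≠ j ∧ ¬ D i j 0 1 := by
    intro k l hkl hne hD
    obtain ⟨i, j, hij⟩ := (h.cd.mem _).1 (mem_cj.1 hkl)
    have h1 : g * e i j * g⁻¹ = e k l := by rw [← hij]; group
    refine ⟨i, j, h1, ?_, ?_, ?_⟩
    · rw [← hπa, ← comm_iff h haM, ← hij]
      exact commW h ha (conj_V' h hg (mem h k l))
    · rintro rfl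
      rw [h.cd.dia, mul_one, mul_inv_cancel, eq_comm, eq_one_iff h] at h1
      exact hne h1
    · intro h2
      rw [(eq_iff h).2 h2, hfix, eq_comm, eq_iff h] at h1
      exact hD h1
  obtain ⟨i, j, h1, h2, h3, h4⟩ := key 2 3 (hc 2 3 (by decide +kernel)) (by decide) (by decide)
  obtain ⟨k, l, h5, h6, h7, h8⟩ := key 3 4 (hc 3 4 (by decide +kernel)) (by decide) (by decide)
  obtain ⟨a, b, c, hab, hbc, hac, h9, h10⟩ := KC1.d3 i j k l h2 h6 h3 h7 h4 h8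
    (fun hD => by
      rw [(eq_iff h).2 hD, h5, eq_iff h] at h1
      exact absurd h1 (by decide))
    (fun hR => by
      have h11 : e 2 3 * e 3 4 = g * (e i j * e k l) * g⁻¹ := by rw [← h1, ← h5]; group
      rw [mul_eq h hR, hfix, h.cd.tri, eq_iff h] at h11
      exact absurd h11 (by decide))
  have k1 := hKT G M V π e h a b c hab hbc hac
  have k2 := hKT G M V π e h 2 3 4 (by decide) (by decide) (by decide)
  rw [← (eq_iff h).2 h9, ← (eq_iff h).2 h10] at k1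
  rw [← h1, ← h5, ← cj_C1, ← cj_C1, ← cj_inf, O2, Cfsg.Lib.Local.MSS.pCoreOf_cj] at k2
  rw [O2] at k1
  rw [k1] at k2
  exact hg.out (h.nor ▸ cj_eq_self_iff.1 k2)

end Cfsg.Lib.K35
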