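import Cfsg.Agent.K35.KCk

/-!
# End game: the conjugate `V ^ g` does not induce `⟨(01), (23)⟩`
-/

set_option autoImplicit false

namespace Cfsg.Lib.K35

open Cfsg Subgroup Cfsg.Lib.Trans Cfsg.Lib.Gold
open Cfsg.Lib.P8 (A5 A6 S5 O2 Om Jt Phi EA SR4 Ch E9 Pj Ty Sec SecOK Mx)
open scoped commutatorElement
open KCk Equiv

universe u

namespace KC2

theorem d1 : ∀ i j : Fin 6,
    (∀ σ ∈ [(1 : S6), swap 0 1, swap 2 3, swap 0 1 * swap 2 3], D (σ i) (σ j) i j) →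
    ∃ p ∈ [((0 : Fin 6), (0 : Fin 6)), (0, 1), (2, 3), (4, 5)], D i j p.1 p.2 := by decide +kernel

theorem d2 : ∀ i j : Fin 6, D (swap 0 1 i) (swap 0 1 j) i j ∨
    R i j (swap 0 1 i) (swap 0 1 j) 0 1 := by decide +kernel

theorem d3 : ∀ i j : Fin 6, D (swap 2 3 i) (swap 2 3 j) i j ∨
    R i j (swap 2 3 i) (swap 2 3 j) 2 3 := by decide +kernel

theorem d4 : ∀ i j : Fin 6, D (swap 0 1 i) (swap 0 1 j) i j →
    i = j ∨ D i j 0 1 ∨ (i ≠ 0 ∧ i ≠ 1 ∧ j ≠ 0 ∧ j ≠ 1) := by decide +kernel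

theorem d5 : ∀ i j : Fin 6, D (swap 0 1 i) (swap 0 1 j) i j → D (swap 2 3 i) (swap 2 3 j) i j →
    ∀ σ ∈ [(1 : S6), swap 0 1, swap 2 3, swap 0 1 * swap 2 3], D (σ i) (σ j) i j := by
  decide +kernel

end KC2

theorem kc2 (hKZ : StKZ.{u}) : StKC2.{u} := by
  intro G _ _ M V S₀ π e g h hg hI
  have hc := fun i j => cnt h hg hI _ KC2.d1 (by decide) (i := i) (j := j)
  obtain ⟨a, ha, hπa⟩ := (hI (swap 0 1)).2 (by simp)
  obtain ⟨b, hb, hπb⟩ := (hI (swap 2 3)).2 (by simp)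
  have haM := W_leM h hg ha
  have hbM := W_leM h hg hb
  have hZ := (hKZ G M V π e h 0 1 (by decide)).1
  have hO : ∀ i j, D (swap 0 1 i) (swap 0 1 j) i j → e i j ∈ O2 (C1 (e 0 1)) := by
    intro i j hij
    rcases KC2.d4 i j hij with rfl | h1 | ⟨h1, h2, h3, h4⟩
    · rw [h.cd.dia]; exact one_mem _
    · have h2 := mul_mem (hZ 2 3 (by decide) (by decide) (by decide) (by decide))
        (hZ 4 5 (by decide) (by decide) (by decide) (by decide))
      rw [mul_eq h (p := 0) (q := 1) (by decide)] at h2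
      rw [(eq_iff h).2 h1]; exact h2
    · exact hZ i j h1 h2 h3 h4
  obtain ⟨i, j, hij⟩ := (h.cd.mem _).1 (conj_W h hg ha)
  -- the action of `v = e i j` on `V ^ g`
  have key : ∀ w ∈ cj g V, (w * e i j = e i j * w ∧ w ∈ O2 (C1 (g * e 0 1 * g⁻¹))) ∨
      e i j * w * (e i j)⁻¹ * w⁻¹ = g * e 0 1 * g⁻¹ := by
    intro w hw
    obtain ⟨k, l, hkl⟩ := (h.cd.mem _).1 (mem_cj.1 hw)
    have hw' : w = g * e k l * g⁻¹ := by rw [← hkl]; group
    rcases KC2.d2 k l with h1 | h1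
    · left
      refine ⟨?_, ?_⟩
      · have h2 := (comm_iff h haM (i := k) (j := l)).2 (by rw [hπa]; exact h1)
        rw [hw', ← hij]
        calc g * e k l * g⁻¹ * (g * a * g⁻¹) = g * (e k l * a) * g⁻¹ := by group
          _ = _ := by rw [← h2]; group
      · rw [← cj_C1, O2, Cfsg.Lib.Local.MSS.pCoreOf_cj, hw', conj_mem_cj]
        exact hO k l h1
    · right
      have h2 := comm_eq h haM k l
      rw [hπa, mul_eq h h1] at h2
      rw [hw', ← hij, ← inv_eq h (mem h 0 1), ← h2]; group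
  have hv : e i j ∉ cj g V := fun hv => by
    rw [← hij, conj_mem_cj, ← h.p6.ker a haM, hπa] at hv
    exact absurd hv (by decide)
  have hz : g * e 0 1 * g⁻¹ ≠ 1 := by
    rw [Ne, conj_eq_one_iff, eq_one_iff h]; decide
  have ea := comm_eq h haM i j
  have eb := comm_eq h hbM i j
  rw [hπa] at ea
  rw [hπb] at eb
  have ca : e i j * a * (e i j)⁻¹ * a⁻¹ = g * e 0 1 * g⁻¹ → g * e 0 1 * g⁻¹ = e 0 1 := by
    intro h1
    rcases KC2.d2 i j with h2 | h2
    · rw [ea, (eq_iff h).2 h2, sq h (mem h i j)] at h1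
      exact absurd h1.symm hz
    · rw [← h1, ea, mul_eq h h2]
  have cb : e i j * b * (e i j)⁻¹ * b⁻¹ = g * e 0 1 * g⁻¹ → g * e 0 1 * g⁻¹ = e 2 3 := by
    intro h1
    rcases KC2.d3 i j with h2 | h2
    · rw [eb, (eq_iff h).2 h2, sq h (mem h i j)] at h1
      exact absurd h1.symm hz
    · rw [← h1, eb, mul_eq h h2]
  rcases key a ha with ⟨h1, h2⟩ | h1 <;> rcases key b hb with ⟨h3, h4⟩ | h3
  · rw [comm_iff h haM, hπa] at h1
    rw [comm_iff h hbM, hπb] at h3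
    exact hv (hc i j (KC2.d5 i j h1 h3))
  · rw [cb h3] at h2
    rcases ((hKZ G M V π e h 2 3 (by decide)).2 a ⟨h2, haM⟩).2.2 with h5 | h5
    · exact absurd (h5 0 (by decide) (by decide)) (by rw [hπa]; decide)
    · exact h5 4 (by decide) (by decide) (by rw [hπa]; decide)
  · rw [ca h1] at h4
    rcases ((hKZ G M V π e h 0 1 (by decide)).2 b ⟨h4, hbM⟩).2.2 with h5 | h5
    · exact absurd (h5 2 (by decide) (by decide)) (by rw [hπb]; decide)
    · exact h5 4 (by decide) (by decide) (by rw [hπb]; decide)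
  · have h5 := (ca h1).symm.trans (cb h3)
    rw [eq_iff h] at h5
    exact absurd h5 (by decide)

end Cfsg.Lib.K35
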