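import Cfsg.Agent.K35.KCk

/-!
# End game: the conjugate `V ^ g` does not induce `⟨(45), (01)(23)⟩`
-/

set_option autoImplicit false

namespace Cfsg.Lib.K35

open Cfsg Subgroup Cfsg.Lib.Trans Cfsg.Lib.Gold
open Cfsg.Lib.P8 (A5 A6 S5 O2 Om Jt Phi EA SR4 Ch E9 Pj Ty Sec SecOK Mx)
open scoped commutatorElement
open KCk Equiv

universe u

namespace KC3

theorem d1 : ∀ i j : Fin 6, (∀ σ ∈ [(1 : S6), swap 4 5, swap 0 1 * swap 2 3,
      swap 0 1 * swap 2 3 * swap 4 5], D (σ i) (σ j) i j) →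
    ∃ p ∈ [((0 : Fin 6), (0 : Fin 6)), (0, 1), (2, 3), (4, 5)], D i j p.1 p.2 := by decide +kernel

theorem d2 : ∀ i j : Fin 6, D ((swap 0 1 * swap 2 3 * swap 4 5 : S6) i)
      ((swap 0 1 * swap 2 3 * swap 4 5 : S6) j) i j →
    ∀ σ ∈ [(1 : S6), swap 4 5, swap 0 1 * swap 2 3, swap 0 1 * swap 2 3 * swap 4 5],
      D (σ i) (σ j) i j := by decide +kernel

theorem d3 (ρ : S6) (h1 : D (ρ 0) (ρ 1) 0 1) (h2 : D (ρ 2) (ρ 3) 2 3) (h3 : D (ρ 4) (ρ 5) 4 5) :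
    ρ * ρ = 1 := by
  have k : ∀ a b : Fin 6, a ≠ b → D (ρ a) (ρ b) a b → ρ (ρ a) = a ∧ ρ (ρ b) = b := by
    rintro a b hab (⟨-, h⟩ | ⟨h, h'⟩ | ⟨h, h'⟩)
    · exact absurd h hab
    · rw [h, h, h', h']; exact ⟨rfl, rfl⟩
    · rw [h, h', h]; exact ⟨rfl, rfl⟩
  obtain ⟨k0, k1⟩ := k 0 1 (by decide) h1
  obtain ⟨k2, k3⟩ := k 2 3 (by decide) h2
  obtain ⟨k4, k5⟩ := k 4 5 (by decide) h3
  ext i
  fin_cases i <;> simp [k0, k1, k2, k3, k4, k5]

end KC3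

theorem kc3 : StKC3.{u} := by
  intro G _ _ M V S₀ π e g h hg hI
  haveI : Fact (Nat.Prime 2) := ⟨Nat.prime_two⟩
  have hc := fun i j => cnt h hg hI _ KC3.d1 (by decide) (i := i) (j := j)
  obtain ⟨a, ha, hπa⟩ := (hI (swap 4 5)).2 (by simp)
  obtain ⟨t, ht, hπt⟩ := (hI (swap 0 1 * swap 2 3 * swap 4 5)).2 (by simp)
  have haM := W_leM h hg ha
  have htM := W_leM h hg ht
  obtain ⟨x, hxM, hπx⟩ := h.p6.alt (swap 0 2 * swap 2 4 * (swap 1 3 * swap 3 5)) (by decide)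
  -- elements of `V` commuting with an element over `τ`
  have hF : ∀ s ∈ M, π s = π t → ∀ v ∈ V, s * v = v * s → v ∈ cj g V := by
    intro s hs hst v hv hsv
    obtain ⟨i, j, rfl⟩ := (h.cd.mem _).1 hv
    rw [comm_iff h hs, hst, hπt] at hsv
    exact hc i j (KC3.d2 i j hsv)
  -- conjugation by elements centralizing `τ`
  have hN : ∀ y ∈ M, π y * π t * (π y)⁻¹ = π t →
      (∀ f ∈ V, f ∈ cj g V → y * f * y⁻¹ ∈ cj g V) ∧
        ∃ f ∈ V, f ∈ cj g V ∧ y * t * y⁻¹ = t * f := by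
    intro y hy hyt
    have h1 : y * t * y⁻¹ ∈ M := M.mul_mem (M.mul_mem hy htM) (M.inv_mem hy)
    have h2 : π (y * t * y⁻¹) = π t := by rw [pi_conj h hy htM, hyt]
    refine ⟨fun f hf hf' => hF _ h1 h2 _ (mem_normalizer_conj (h.nor.ge hy) hf) ?_, ?_⟩
    · calc y * t * y⁻¹ * (y * f * y⁻¹) = y * (t * f) * y⁻¹ := by group
        _ = _ := by rw [commW h ht hf']; group
    · have h3 := mem_of_pi_eq h htM h1 h2.symm
      refine ⟨_, h3, hF t htM rfl _ h3 ?_, by group⟩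
      have h4 := sqW h ht
      have h5 := inv_eq h h3
      have h6 : t⁻¹ = t := inv_eq_of_mul_eq_one_right h4
      rw [mul_inv_rev, inv_inv, mul_inv_rev, mul_inv_rev, inv_inv, h6, ← mul_assoc] at h5
      rw [h6, ← h5]
      calc t * (y * t * y⁻¹ * t) = t * (y * t * y⁻¹) * t := by group
        _ = y * t * y⁻¹ * t * t := by rw [← h5]
  have hxi := M.inv_mem hxM
  obtain ⟨n1, f1, hf1, hf1', e1⟩ := hN x hxM (by rw [hπx, hπt]; decide)
  obtain ⟨n2, f2, hf2, hf2', e2⟩ := hN x⁻¹ hxi (by rw [pi_inv h hxM, hπx, hπt]; decide)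
  -- conjugates of elements of `V ^ g` centralize `F` and `t`
  have hK : ∀ y ∈ M, (∀ f ∈ V, f ∈ cj g V → y⁻¹ * f * y⁻¹⁻¹ ∈ cj g V) →
      (∃ f ∈ V, f ∈ cj g V ∧ y * t * y⁻¹ = t * f) → ∀ w ∈ cj g V,
      (∀ f ∈ V, f ∈ cj g V → y * w * y⁻¹ * f = f * (y * w * y⁻¹)) ∧
        y * w * y⁻¹ * t = t * (y * w * y⁻¹) := by
    rintro y hy hn ⟨f, hf, hf', ef⟩ w hw
    have k1 : ∀ f ∈ V, f ∈ cj g V → y * w * y⁻¹ * f = f * (y * w * y⁻¹) := fun f hf hf' => by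
      calc y * w * y⁻¹ * f = y * (w * (y⁻¹ * f * y⁻¹⁻¹)) * y⁻¹ := by group
        _ = _ := by rw [commW h hw (hn f hf hf')]; group
    refine ⟨k1, ?_⟩
    have k2 : y * w * y⁻¹ * (t * f) = t * f * (y * w * y⁻¹) := by
      rw [← ef]
      calc y * w * y⁻¹ * (y * t * y⁻¹) = y * (w * t) * y⁻¹ := by group
        _ = _ := by rw [commW h hw ht]; group
    rw [mul_assoc t, ← k1 f hf hf', ← mul_assoc, ← mul_assoc] at k2
    exact mul_right_cancel k2
  obtain ⟨c1, c1t⟩ := hK x hxM n2 ⟨f1, hf1, hf1', e1⟩ a ha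
  obtain ⟨c2, c2t⟩ := hK x⁻¹ hxi (by rw [inv_inv]; exact n1) ⟨f2, hf2, hf2', e2⟩ _ (mul_mem ha ht)
  set a1 := x * a * x⁻¹ with ha1
  set a2 := x⁻¹ * (a * t) * x⁻¹⁻¹ with ha2
  have hatM := M.mul_mem haM htM
  have a1M : a1 ∈ M := M.mul_mem (M.mul_mem hxM haM) hxi
  have a2M : a2 ∈ M := M.mul_mem (M.mul_mem hxi hatM) (M.inv_mem hxi)
  have p1 : π a1 = swap 0 1 := by rw [ha1, pi_conj h hxM haM, hπx, hπa]; decide
  have p2 : π a2 = π (a * a1) := by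
    rw [ha2, pi_conj h hxi hatM, pi_inv h hxM, h.p6.mul _ haM _ htM, h.p6.mul _ haM _ a1M, p1, hπx,
      hπa, hπt]
    decide
  have w1 := mem_of_pi_eq h a2M (M.mul_mem haM a1M) p2
  have w2 : a2⁻¹ * (a * a1) ∈ cj g V := by
    refine hF t htM rfl _ w1 ?_
    have k1 : Commute t a2 := c2t.symm
    have k2 : Commute t a1 := c1t.symm
    have k3 : Commute t a := commW h ht ha
    exact (k1.inv_right.mul_right (k3.mul_right k2)).eq
  have w3 : x * (a * a1) * x⁻¹ ∈ cj g V := by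
    have := mul_mem (mul_mem ha ht) (n1 _ w1 w2)
    convert this using 1
    rw [ha2]; group
  have w4 : a * a1 = a1 * a := by
    have k1 := sqW h w3
    have k2 : a * a1 * (a * a1) = 1 := by
      calc a * a1 * (a * a1) = x⁻¹ * (x * (a * a1) * x⁻¹ * (x * (a * a1) * x⁻¹)) * x := by group
        _ = 1 := by rw [k1]; group
    have k3 := sqW h ha
    have k4 : a1 * a1 = 1 := by
      calc a1 * a1 = x * (a * a) * x⁻¹ := by rw [ha1]; group
        _ = 1 := by rw [k3]; group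
    calc a * a1 = (a * a1)⁻¹ := eq_inv_of_mul_eq_one_left k2
      _ = a1 * a := by
        rw [mul_inv_rev, inv_eq_of_mul_eq_one_right k3, inv_eq_of_mul_eq_one_right k4]
  -- `a1` centralizes `V ^ g`
  have w5 : ∀ w ∈ cj g V, a1 * w = w * a1 := by
    intro w hw
    have hwM := W_leM h hg hw
    have k : ∀ y ∈ cj g V, π y = π w → Commute a1 y → a1 * w = w * a1 := fun y hy hyw hc' => by
      have k1 : Commute a1 (y⁻¹ * w) :=
        c1 _ (mem_of_pi_eq h (W_leM h hg hy) hwM hyw) (mul_mem (inv_mem hy) hw)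
      have := (hc'.mul_right k1).eq
      rwa [mul_inv_cancel_left] at this
    have ca : Commute a1 a := w4.symm
    have ct : Commute a1 t := c1t
    have k0 := (hI _).1 ⟨w, hw, rfl⟩
    simp only [List.mem_cons, List.not_mem_nil, or_false] at k0
    rcases k0 with k0 | k0 | k0 | k0
    · exact k 1 (one_mem _) (by rw [k0, pi_one h]) (Commute.one_right _)
    · exact k a ha (by rw [k0, hπa]) ca
    · exact k _ (mul_mem ha ht) (by rw [k0, h.p6.mul _ haM _ htM, hπa, hπt]; decide)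
        (ca.mul_right ct)
    · exact k t ht (by rw [k0, hπt]) ct
  -- `a1 ∈ S₀`
  let U : Subgroup G := M ⊓ Cs (V ⊓ cj g V)
  have hU : IsPGroup 2 U := by
    rintro ⟨y, hyM, hy⟩
    refine ⟨2, Subtype.ext ?_⟩
    have k : ∀ i j, e i j ∈ cj g V → D (π y i) (π y j) i j := fun i j hij =>
      (comm_iff h hyM).1 (mem_centralizer_iff.1 hy _ ⟨mem h i j, hij⟩).symm
    have k1 := KC3.d3 _ (k 0 1 (hc 0 1 (by decide +kernel))) (k 2 3 (hc 2 3 (by decide +kernel)))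
      (k 4 5 (hc 4 5 (by decide +kernel)))
    rw [← h.p6.mul _ hyM _ hyM, h.p6.ker _ (M.mul_mem hyM hyM)] at k1
    have k2 := sq h k1
    change y ^ 2 ^ 2 = 1
    rw [← k2]; simp only [pow_succ, pow_zero, one_mul, Nat.reduceMul, mul_assoc]
  have hSU : S₀ ≤ Ns U := fun s hs => by
    refine cj_eq_self_iff.1 ?_
    rw [cj_inf, cj_centralizer, cj_inf, cj_eq_of_mem (hg.syl.le hs),
      cj_eq_of_mem_normalizer (h.nor.ge (hg.syl.le hs)), cj_eq_of_mem_normalizer (nor_W h hg hs)]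
  have hUS : U ≤ S₀ := (hg.syl.mono (K := M ⊓ Ns U) (le_inf hg.syl.le hSU) inf_le_left).le_of_normal
    hU (le_inf inf_le_left le_normalizer) inf_le_right
  have w6 : a1 ∈ S₀ := hUS ⟨a1M, mem_centralizer_iff.2 fun f hf => (w5 f hf.2).symm⟩
  have w7 := (hI _).1 ⟨a1, cent_W h hg w6 w5, rfl⟩
  rw [p1] at w7
  exact absurd w7 (by decide)

end Cfsg.Lib.K35
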