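import Cfsg.Agent.K35.Loc
import Cfsg.Agent.Local.PCoreOf

/-!
# Calculus of duads and of the conjugate `V ^ g` in the end game
-/

set_option autoImplicit false

namespace Cfsg.Lib.K35.KCk

open Cfsg Subgroup Cfsg.Lib.Trans Cfsg.Lib.Gold
open Cfsg.Lib.P8 (A5 A6 S5 O2 Om Jt Phi EA SR4 Ch E9 Pj Ty Sec SecOK Mx)
open scoped commutatorElement

universe u

/-- Equality of duads. -/
abbrev D (i j k l : Fin 6) : Prop := (i = j ∧ k = l) ∨ (i = k ∧ j = l) ∨ (i = l ∧ j = k)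

/-- Coordinates. -/
abbrev uu (i : Fin 6) (t : Fin 4) : ℕ := if i = 5 ∨ i.1 = t.1 + 1 then 1 else 0

/-- The product rule. -/
abbrev R (i j k l p q : Fin 6) : Prop :=
  ∀ t : Fin 4, (uu i t + uu j t + (uu k t + uu l t)) % 2 = (uu p t + uu q t) % 2

variable {G : Type u} [Group G] {M V S₀ : Subgroup G} {π : G → S6} {e : Fin 6 → Fin 6 → G} {g : G}

theorem mem (h : EG M V π e) (i j : Fin 6) : e i j ∈ V := (h.cd.mem _).2 ⟨i, j, rfl⟩

theorem comm (h : EG M V π e) {a b : G} (ha : a ∈ V) (hb : b ∈ V) : a * b = b * a :=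
  congrArg Subtype.val (h.ea.1.is_comm.comm (⟨a, ha⟩ : V) ⟨b, hb⟩)

theorem sq (h : EG M V π e) {a : G} (ha : a ∈ V) : a * a = 1 := by
  rw [← pow_two]; exact h.ea.2 a ha

theorem inv_eq (h : EG M V π e) {a : G} (ha : a ∈ V) : a⁻¹ = a :=
  inv_eq_of_mul_eq_one_right (sq h ha)

theorem eq_iff (h : EG M V π e) {i j k l : Fin 6} : e i j = e k l ↔ D i j k l := by
  constructor
  · intro h1
    by_cases hij : i = j
    · by_cases hkl : k = l
      · exact Or.inl ⟨hij, hkl⟩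
      · rcases h.cd.inj k l i j hkl h1.symm with ⟨h2, h3⟩ | ⟨h2, h3⟩
        · exact absurd (h2.trans (hij.trans h3.symm)) hkl
        · exact absurd (h2.trans (hij.symm.trans h3.symm)) hkl
    · exact Or.inr (h.cd.inj i j k l hij h1)
  · rintro (⟨rfl, rfl⟩ | ⟨rfl, rfl⟩ | ⟨rfl, rfl⟩)
    · rw [h.cd.dia, h.cd.dia]
    · rfl
    · exact h.cd.sym _ _

theorem eq_one_iff (h : EG M V π e) {i j : Fin 6} : e i j = 1 ↔ i = j := by
  rw [← h.cd.dia 0, eq_iff h]
  constructor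
  · rintro (⟨h1, -⟩ | ⟨h1, h2⟩ | ⟨h1, h2⟩)
    · exact h1
    · exact h1.trans h2.symm
    · exact h1.trans h2.symm
  · exact fun h1 => Or.inl ⟨h1, rfl⟩

theorem mul_eq (h : EG M V π e) {i j k l p q : Fin 6} (hR : R i j k l p q) :
    e i j * e k l = e p q := by
  letI : CommGroup V := { (inferInstance : Group V) with mul_comm := h.ea.1.is_comm.comm }
  let x : Fin 6 → Fin 6 → V := fun i j => ⟨e i j, mem h i j⟩
  have hsq : ∀ v : V, v ^ 2 = 1 := fun v => Subtype.ext (h.ea.2 v v.2)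
  let E : (Fin 4 → ℕ) → V := fun n => ∏ t : Fin 4, x 0 (t.castSucc.succ) ^ n t
  have hadd : ∀ n m : Fin 4 → ℕ, E (fun t => n t + m t) = E n * E m := fun n m => by
    simp only [E, pow_add, Finset.prod_mul_distrib]
  have hmod : ∀ n m : Fin 4 → ℕ, (∀ t, n t % 2 = m t % 2) → E n = E m := fun n m hnm => by
    refine Finset.prod_congr rfl fun t _ => ?_
    rw [pow_eq_pow_mod (n t) (hsq _), pow_eq_pow_mod (m t) (hsq _), hnm t]
  have htri : ∀ i j, x i j = x 0 i * x 0 j := fun i j => Subtype.ext (by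
    change e i j = e 0 i * e 0 j
    rw [h.cd.sym 0 i, h.cd.tri])
  have h5 : x 0 5 = x 0 1 * x 0 2 * x 0 3 * x 0 4 := by
    have h1 : x 0 1 * x 2 3 * x 4 5 = 1 := Subtype.ext h.cd.rel
    rw [htri 2 3, htri 4 5] at h1
    have h2 : x 0 5 * x 0 5 = 1 := by rw [← pow_two]; exact hsq _
    calc x 0 5 = x 0 1 * (x 0 2 * x 0 3) * (x 0 4 * x 0 5) * x 0 5 := by rw [h1, one_mul]
      _ = x 0 1 * x 0 2 * x 0 3 * x 0 4 * (x 0 5 * x 0 5) := by simp only [mul_assoc]
      _ = _ := by rw [h2, mul_one]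
  have h0 : x 0 0 = 1 := Subtype.ext (h.cd.dia 0)
  have hu : ∀ i, x 0 i = E (uu i) := by
    intro i
    fin_cases i <;> simp [E, uu, Fin.prod_univ_four, h0, h5] <;> rfl
  have key : x i j * x k l = x p q := by
    rw [htri i j, htri k l, htri p q, hu i, hu j, hu k, hu l, hu p, hu q, ← hadd, ← hadd, ← hadd,
      ← hadd]
    exact hmod _ _ hR
  exact congrArg Subtype.val key

theorem pi_one (h : EG M V π e) : π 1 = 1 := (h.p6.ker 1 M.one_mem).2 V.one_mem

theorem pi_inv (h : EG M V π e) {a : G} (ha : a ∈ M) : π a⁻¹ = (π a)⁻¹ := by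
  refine eq_inv_of_mul_eq_one_left ?_
  rw [← h.p6.mul _ (M.inv_mem ha) _ ha, inv_mul_cancel, pi_one h]

theorem pi_conj (h : EG M V π e) {a b : G} (ha : a ∈ M) (hb : b ∈ M) :
    π (a * b * a⁻¹) = π a * π b * (π a)⁻¹ := by
  rw [h.p6.mul _ (M.mul_mem ha hb) _ (M.inv_mem ha), h.p6.mul _ ha _ hb, pi_inv h ha]

theorem mem_of_pi_eq (h : EG M V π e) {a b : G} (ha : a ∈ M) (hb : b ∈ M) (hab : π a = π b) :
    a⁻¹ * b ∈ V := by
  rw [← h.p6.ker _ (M.mul_mem (M.inv_mem ha) hb), h.p6.mul _ (M.inv_mem ha) _ hb, pi_inv h ha, hab,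
    inv_mul_cancel]

theorem comm_iff (h : EG M V π e) {a : G} (ha : a ∈ M) {i j : Fin 6} :
    a * e i j = e i j * a ↔ D (π a i) (π a j) i j := by
  rw [← eq_iff h, ← h.cd.eqv a ha, mul_inv_eq_iff_eq_mul]

/-- The commutator of a duad with an element of `M`. -/
theorem comm_eq (h : EG M V π e) {a : G} (ha : a ∈ M) (i j : Fin 6) :
    e i j * a * (e i j)⁻¹ * a⁻¹ = e i j * e (π a i) (π a j) := by
  rw [← h.cd.eqv a ha, inv_eq h (mem h i j)]; group

theorem cj_C1 (g a : G) : cj g (C1 a) = C1 (g * a * g⁻¹) := by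
  rw [cj_centralizer_set]; simp

variable [Finite G]

theorem V_le (h : EG M V π e) (hg : Gg M S₀ g) : V ≤ S₀ :=
  haveI : Fact (Nat.Prime 2) := ⟨Nat.prime_two⟩
  hg.syl.le_of_normal h.p6.two h.p6.le h.nor.ge

theorem W_le (h : EG M V π e) (hg : Gg M S₀ g) : cj g V ≤ S₀ := by
  have := cj_mono g (V_le h hg)
  rwa [cj_eq_of_mem_normalizer hg.nor] at this

theorem W_leM (h : EG M V π e) (hg : Gg M S₀ g) : cj g V ≤ M := (W_le h hg).trans hg.syl.le

omit [Finite G] in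
theorem cj_W (h : EG M V π e) (hg : Gg M S₀ g) : cj g (cj g V) = V := by
  rw [cj_cj]
  exact cj_eq_of_mem_normalizer (h.nor.ge (hg.syl.le hg.sq))

omit [Finite G] in
theorem conj_W (h : EG M V π e) (hg : Gg M S₀ g) {a : G} (ha : a ∈ cj g V) : g * a * g⁻¹ ∈ V := by
  rw [← cj_W h hg]; exact conj_mem_cj.2 ha

omit [Finite G] in
theorem conj_V' (h : EG M V π e) (hg : Gg M S₀ g) {a : G} (ha : a ∈ V) : g⁻¹ * a * g ∈ cj g V := by
  rw [← cj_W h hg] at ha; exact mem_cj.1 ha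

omit [Finite G] in
theorem commW (h : EG M V π e) {a b : G} (ha : a ∈ cj g V) (hb : b ∈ cj g V) : a * b = b * a := by
  have := comm h (mem_cj.1 ha) (mem_cj.1 hb)
  calc a * b = g * (g⁻¹ * a * g * (g⁻¹ * b * g)) * g⁻¹ := by group
    _ = b * a := by rw [this]; group

omit [Finite G] in
theorem sqW (h : EG M V π e) {a : G} (ha : a ∈ cj g V) : a * a = 1 := by
  have := sq h (mem_cj.1 ha)
  calc a * a = g * (g⁻¹ * a * g * (g⁻¹ * a * g)) * g⁻¹ := by group
    _ = 1 := by rw [this]; group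

omit [Finite G] in
theorem nor_W (h : EG M V π e) (hg : Gg M S₀ g) : S₀ ≤ Ns (cj g V) := by
  have := cj_mono g (hg.syl.le.trans h.nor.ge)
  rwa [cj_eq_of_mem_normalizer hg.nor, cj_normalizer] at this

omit [Finite G] in
theorem cent_W (h : EG M V π e) (hg : Gg M S₀ g) {s : G} (hs : s ∈ S₀)
    (hc : ∀ w ∈ cj g V, s * w = w * s) : s ∈ cj g V := by
  refine mem_cj.2 (h.p6.ch ⟨hg.syl.le (mem_normalizer_conj' hg.nor hs), ?_⟩)
  refine mem_centralizer_iff.2 fun v hv => ?_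
  have := hc _ (conj_mem_cj.2 hv)
  calc v * (g⁻¹ * s * g) = g⁻¹ * (g * v * g⁻¹ * s) * g := by group
    _ = g⁻¹ * s * g * v := by rw [← this]; group

/-- The intersection `V ∩ V ^ g` is the full centralizer when the count is right. -/
theorem cnt (h : EG M V π e) (hg : Gg M S₀ g) {l : List S6} (hI : Im π (cj g V) l)
    (L : List (Fin 6 × Fin 6))
    (hL : ∀ i j, (∀ σ ∈ l, D (σ i) (σ j) i j) → ∃ p ∈ L, D i j p.1 p.2)
    (hlen : L.length * l.length ≤ 16) {i j : Fin 6} (hij : ∀ σ ∈ l, D (σ i) (σ j) i j) :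
    e i j ∈ cj g V := by
  classical
  let φ : cj g V →* S6 := MonoidHom.mk' (fun v => π v) fun a b =>
    h.p6.mul _ (W_leM h hg a.2) _ (W_leM h hg b.2)
  have h1 : Nat.card φ.ker * Nat.card φ.range = 16 := by
    rw [← Subgroup.index_ker, Subgroup.card_mul_index, card_cj, h.card]
  have h2 : Nat.card φ.range ≤ l.length := by
    refine le_trans ?_ (List.toFinset_card_le l)
    rw [← Nat.card_eq_finsetCard]
    refine Nat.card_le_card_of_injective
      (fun σ => ⟨σ.1, List.mem_toFinset.2 ((hI _).1 (by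
        obtain ⟨v, hv⟩ := σ.2
        exact ⟨v, v.2, hv⟩))⟩) fun a b hab => Subtype.ext (Subtype.mk.inj hab)
  have h3 : 0 < Nat.card φ.range := Nat.card_pos
  by_contra hn
  let T : Finset G := (L.map fun p => e p.1 p.2).toFinset
  have hT : T.card ≤ L.length := (List.toFinset_card_le _).trans (by simp)
  have hmem : ∀ k l', (∀ σ ∈ l, D (σ k) (σ l') k l') → e k l' ∈ T := fun k l' hk => by
    obtain ⟨p, hp, hd⟩ := hL k l' hk
    exact List.mem_toFinset.2 (List.mem_map.2 ⟨p, hp, ((eq_iff h).2 hd).symm⟩)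
  have h4 : Nat.card φ.ker ≤ (T.erase (e i j)).card := by
    rw [← Nat.card_eq_finsetCard]
    refine Nat.card_le_card_of_injective (fun v => ⟨v.1.1, Finset.mem_erase.2 ⟨?_, ?_⟩⟩)
      fun a b hab => Subtype.ext (Subtype.ext (Subtype.mk.inj hab))
    · intro h5
      exact hn (h5 ▸ v.1.2)
    · have hv : (v.1.1 : G) ∈ V := (h.p6.ker _ (W_leM h hg v.1.2)).1 v.2
      obtain ⟨k, l', hk⟩ := (h.cd.mem _).1 hv
      rw [hk]
      refine hmem k l' fun σ hσ => ?_
      obtain ⟨w, hw, rfl⟩ := (hI σ).2 hσ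
      rw [← comm_iff h (W_leM h hg hw), ← hk]
      exact commW h hw v.1.2
  rw [Finset.card_erase_of_mem (hmem i j hij)] at h4
  have h6 : 0 < T.card := Finset.card_pos.2 ⟨_, hmem i j hij⟩
  have h7 : Nat.card φ.ker + 1 ≤ L.length := by omega
  have h8 := Nat.mul_le_mul h7 h2
  nlinarith

theorem D_eq_1' : type_of% @D.eq_1 := @D.eq_1
theorem R_eq_1' : type_of% @R.eq_1 := @R.eq_1
theorem uu_eq_1' : type_of% @uu.eq_1 := @uu.eq_1

end Cfsg.Lib.K35.KCk
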