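import Cfsg.Agent.K35.Loc

/-!
# The conjugate `V ^ g` does not lie in `V (O₂(C z) ∩ M)`
-/

set_option autoImplicit false

namespace Cfsg.Lib.K35

open Cfsg Subgroup Cfsg.Lib.Trans Cfsg.Lib.Gold
open Cfsg.Lib.P8 (A5 A6 S5 O2 Om Jt Phi EA SR4 Ch E9 Pj Ty Sec SecOK Mx)
open scoped commutatorElement

universe u

namespace KN

/-- The condition on the image of an element of the 2-core. -/
def Ok (σ : S6) (i j : Fin 6) : Prop :=
  ((σ i = i ∧ σ j = j) ∨ (σ i = j ∧ σ j = i)) ∧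
    ((∀ k, k ≠ i → k ≠ j → σ k = k) ∨ ∀ k, k ≠ i → k ≠ j → σ k ≠ k)

instance decOk (σ : S6) (i j : Fin 6) : Decidable (Ok σ i j) := by
  unfold Ok; infer_instance

open Equiv in
theorem not_ok : ∀ i j : Fin 6, i ≠ j → Ok (swap 0 1 * swap 2 3) i j →
    Ok (swap 0 1 * swap 4 5) i j → False := by
  decide

open Pointwise in
theorem lift {G : Type u} [Group G] {M V R : Subgroup G} {π : G → S6} (h : P6 M V π)
    (hN : Ns V = M) (hR : R ≤ M) {v : G} (hv : v ∈ V ⊔ R) : ∃ r ∈ R, π r = π v := by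
  have hc : ((V ⊔ R : Subgroup G) : Set G) = (V : Set G) * (R : Set G) :=
    coe_mul_of_right_le_normalizer_left V R (by rw [← hN] at hR; exact hR)
  have hv' : v ∈ (V : Set G) * (R : Set G) := hc ▸ hv
  obtain ⟨a, ha, r, hr, rfl⟩ := hv'
  refine ⟨r, hr, ?_⟩
  have h1 : π a = 1 := (h.ker a (h.le ha)).2 ha
  simp only []
  rw [h.mul a (h.le ha) r (hR hr), h1, one_mul]

theorem Ok_eq_1' : type_of% @Ok.eq_1 := @Ok.eq_1

end KN

theorem kn (hKC0 : StKC0.{u}) (hKC1 : StKC1.{u}) (hKC2 : StKC2.{u}) (hKC3 : StKC3.{u})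
    (hKZ : StKZ.{u}) : StKN.{u} := by
  intro G _ _ M V S₀ π e g hE hg z hz hz1 _ hle
  obtain ⟨π', e', hE', h⟩ := hKC0 G M V S₀ π e g hE hg
  rcases h with h | h | h | h
  · exact hKC1 G M V S₀ π' e' g hE' hg h
  · exact hKC2 G M V S₀ π' e' g hE' hg h
  · exact hKC3 G M V S₀ π' e' g hE' hg h
  obtain ⟨i, j, rfl⟩ := (hE'.cd.mem z).1 hz
  have hij : i ≠ j := by
    rintro rfl
    exact hz1 (hE'.cd.dia i)
  have key : ∀ σ : S6, (∃ v ∈ cj g V, π' v = σ) → KN.Ok σ i j := by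
    rintro σ ⟨v, hv, rfl⟩
    obtain ⟨r, hr, hrv⟩ := KN.lift hE'.p6 hE'.nor inf_le_right (hle hv)
    rw [← hrv]
    exact ((hKZ G M V π' e' hE' i j hij).2 r hr).2
  exact KN.not_ok i j hij (key _ ((h _).2 (by simp))) (key _ ((h _).2 (by simp)))

end Cfsg.Lib.K35
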