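import Cfsg.Agent.K35.Defs
import Cfsg.Agent.Char.Burnside
import Cfsg.Agent.S0243
import Cfsg.Agent.S1059
import Cfsg.Agent.SporChar.U43Model

/-! Simple groups of order `2 ^ a * 3 * 5 * q ^ b`: orders. -/

set_option autoImplicit false

namespace Cfsg.Lib.K35.LK

open Cfsg Subgroup

universe u

variable {G : Type u} [Group G] {q : ℕ}

theorem ncomm [Finite G] [IsSimpleGroup G] (h : Ord G q) : ¬ IsMulCommutative G := fun k => by
  obtain ⟨a, b, e⟩ := h
  have h1 := @IsSimpleGroup.prime_card G { (inferInstance : Group G) with mul_comm := k.is_comm.comm }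
    ‹_›
  have h2 : 3 * 5 ∣ Nat.card G := ⟨2 ^ a * q ^ b, by rw [e]; ring⟩
  rcases (Nat.dvd_prime h1).1 h2 with k | k
  · omega
  · rw [← k] at h1
    norm_num at h1

theorem nd (h : Ord G 3) {p : ℕ} (hp : p.Prime) (h7 : 7 ≤ p) : ¬ p ∣ Nat.card G := fun k => by
  obtain ⟨a, b, e⟩ := h
  rw [e, hp.dvd_mul, hp.dvd_mul, hp.dvd_mul] at k
  rcases k with ((k | k) | k) | k
  · have := Nat.le_of_dvd two_pos (hp.dvd_of_dvd_pow k); omega
  · have := Nat.le_of_dvd three_pos k; omega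
  · have := Nat.le_of_dvd (by norm_num) k; omega
  · have := Nat.le_of_dvd three_pos (hp.dvd_of_dvd_pow k); omega

theorem ne (h : Ord G 3) {n : ℕ} (e : Nat.card G = n) (h1 : 7 ∣ n ∨ 11 ∣ n ∨ 13 ∣ n ∨ 17 ∣ n) :
    False := by
  rw [← e] at h1
  rcases h1 with k | k | k | k <;> exact nd h (by norm_num) (by norm_num) k

theorem ni (h : Ord G 3) {X : Type*} [Group X] {n : ℕ} (e : Nat.card X = n)
    (h1 : 7 ∣ n ∨ 11 ∣ n ∨ 13 ∣ n ∨ 17 ∣ n) (f : Nonempty (G ≃* X)) : False :=
  f.elim fun f => ne h ((Nat.card_congr f.toEquiv).trans e) h1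

theorem l43 (h : Ord G 3) {F : Type} [Field F] [Fintype F] (e : Fintype.card F = 3)
    (f : Nonempty (G ≃* PSL 4 F)) : False := by
  refine ni h (n := 6065280) ?_ (by decide) f
  have := Agent.S0243.result e 4 (by decide)
  simp [Fin.prod_univ_succ] at this
  change 2 * (2 * Nat.card (PSL 4 F)) = _ at this
  omega

theorem g23 (h : Ord G 3) {F : Type} [Field F] [Fintype F] (e : Fintype.card F = 3)
    (f : Nonempty (G ≃* Lie.chevG2.group F)) : False :=
  ni h (Agent.S1059.result e) (by norm_num) f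

theorem u43 (h : Ord G 3) {F : Type} [Field F] [Fintype F] (e : Fintype.card F = 9)
    (f : Nonempty (G ≃* PSU 4 F 3)) : False :=
  ni h (SporChar.U4.card_PSU43 e) (by norm_num) f

theorem top [IsSimpleGroup G] {H : Subgroup G} (h : H.Normal) (h1 : H ≠ ⊥) : Nonempty (G ≃* H) :=
  ⟨(topEquiv.symm.trans (MulEquiv.subgroupCongr
    ((IsSimpleGroup.eq_bot_or_eq_top_of_normal H h).resolve_left h1).symm))⟩

end Cfsg.Lib.K35.LK
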