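import Cfsg.Agent.K35.Defs
import Cfsg.Agent.P8.Defs

/-!
# Simple groups of order `2 ^ b * 3 ^ a * 5`: definitions and steps of the local analysis
-/

set_option autoImplicit false

namespace Cfsg.Lib.K35

open Cfsg Subgroup Cfsg.Lib.Trans Cfsg.Lib.Gold
open Cfsg.Lib.P8 (A5 A6 S5 O2 Om Jt Phi EA SR4 Ch E9 Pj Ty Sec SecOK Mx)
open scoped commutatorElement

universe u v

abbrev S6 : Type := Equiv.Perm (Fin 6)

/-- `X ≅ U₄(2)`. -/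
def U42 (X : Type*) [Group X] : Prop :=
  ∃ (F : Type) (_ : Field F) (_ : Fintype F), Fintype.card F = 4 ∧ Nonempty (X ≃* PSU 4 F 2)

/-- The proper non-abelian simple sections are `A₅`, `A₆` or `U₄(2)`. -/
def Sc (G : Type u) [Group G] : Prop :=
  ∀ (H : Subgroup G) (N : Subgroup H) [N.Normal], H ≠ ⊤ → IsSimpleGroup (H ⧸ N) →
    ¬ IsMulCommutative (H ⧸ N) → Nonempty (H ⧸ N ≃* A5) ∨ Nonempty (H ⧸ N ≃* A6) ∨ U42 (H ⧸ N)

/-- The global properties of a minimal counterexample. -/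
structure Gl (G : Type u) [Group G] : Prop where
  sim : IsSimpleGroup G
  ord : ∃ b a : ℕ, Even b ∧ Nat.card G = 2 ^ b * 3 ^ a * 5
  c5 : ∀ y : G, orderOf y = 5 → C1 y = zpowers y
  c2 : IsCharacteristicTwoType G
  sc : Sc G
  n1 : ∀ (t : G) (S : Subgroup G), orderOf t = 2 → IsSylowIn 2 S ⊤ → S ≤ C1 t → ¬ C1 t ≤ Ns S
  n2 : ∀ z : G, orderOf z = 2 → IsExtraspecial 2 (O2 (C1 z)) → Nat.card (O2 (C1 z)) ≠ 32
  n3 : ∀ R : Subgroup G, IsSylowIn 3 R ⊤ → (∀ X : Subgroup G, IsPGroup 2 X → R ≤ Ns X → X = ⊥) →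
    ∀ (T : Subgroup G) (a b : G), IsPGroup 2 T → T ≠ ⊥ → a ∈ Ns T → b ∈ Ns T → E9 a b → PRankLE 3 2 G
  n4 : ¬ SR4 G
  ns : ∃ N : Subgroup G, IsTwoLocal N ∧ ¬ Group.IsSolvable N

section
variable {G : Type u} [Group G]

/-- The types of non-solvable subgroups of characteristic 2. -/
def Typ (H : Subgroup G) : Prop :=
  (∃ π : G → A5, Ty H (O2 H) π) ∨ (∃ π : G → S5, Ty H (O2 H) π) ∨
    ∃ (X : Type u) (_ : Group X) (_ : Finite X) (π : G → X) (L : Subgroup X), Ty H (O2 H) π ∧ L.Normal ∧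
      Cs L = ⊥ ∧ (Nonempty (L ≃* A6) ∨ U42 L)

/-- Elements of order 5 of `M` act without fixed points on `T`. -/
def Fp5 (M T : Subgroup G) : Prop := ∀ y ∈ M, orderOf y = 5 → T ⊓ C1 y = ⊥

/-- The 2-local subgroups containing `N(S₀)` are solvable. -/
def NC (S₀ : Subgroup G) : Prop :=
  ∀ C : Subgroup G, IsPGroup 2 C → C ≠ ⊥ → Ns S₀ ≤ Ns C → Group.IsSolvable (Ns C)

/-- `S₀` lies in a unique maximal subgroup of `H`. -/
def Um (S₀ H : Subgroup G) : Prop := ∃ Y < H, ∀ K : Subgroup G, S₀ ≤ K → K < H → K ≤ Y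

/-- `M / T` is `A₆` or `S₆`. -/
structure P6 (M T : Subgroup G) (π : G → S6) : Prop where
  le : T ≤ M
  two : IsPGroup 2 T
  mul : ∀ a ∈ M, ∀ b ∈ M, π (a * b) = π a * π b
  ker : ∀ a ∈ M, π a = 1 ↔ a ∈ T
  alt : ∀ σ : S6, Equiv.Perm.sign σ = 1 → ∃ m ∈ M, π m = σ
  ch : M ⊓ Cs T ≤ T
  ne : T ≠ ⊥
  fp : Fp5 M T

/-- Coordinates for the natural module (`e i j` is the duad `{i, j}`). -/
structure Cd (M V : Subgroup G) (π : G → S6) (e : Fin 6 → Fin 6 → G) : Prop where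
  tri : ∀ i j k, e i j * e j k = e i k
  dia : ∀ i, e i i = 1
  sym : ∀ i j, e i j = e j i
  rel : e 0 1 * e 2 3 * e 4 5 = 1
  eqv : ∀ h ∈ M, ∀ i j, h * e i j * h⁻¹ = e (π h i) (π h j)
  mem : ∀ v, v ∈ V ↔ ∃ i j, v = e i j
  inj : ∀ i j k l, i ≠ j → e i j = e k l → (i = k ∧ j = l) ∨ (i = l ∧ j = k)

/-- The end game: `V ≅ 2⁴` with normalizer `V.A₆` or `V.S₆`. -/
structure EG (M V : Subgroup G) (π : G → S6) (e : Fin 6 → Fin 6 → G) : Prop where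
  p6 : P6 M V π
  cd : Cd M V π e
  ea : EA V
  card : Nat.card V = 16
  nor : Ns V = M
  c2 : IsCharacteristicTwoType G

/-- The element `g` normalizes a Sylow 2-subgroup of `M` but not `V`. -/
structure Gg (M S₀ : Subgroup G) (g : G) : Prop where
  syl : IsSylowIn 2 S₀ M
  nor : g ∈ Ns S₀
  sq : g * g ∈ S₀
  out : g ∉ M

/-- The image of `W` under `π` is the given list. -/
def Im (π : G → S6) (W : Subgroup G) (l : List S6) : Prop := ∀ σ, (∃ v ∈ W, π v = σ) ↔ σ ∈ l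

/-- The three-cycle `(1 2 3)`. -/
def x0 : A5 := ⟨Equiv.swap 1 2 * Equiv.swap 2 3, Equiv.Perm.mem_alternatingGroup.2 (by decide)⟩

/-- `M / T ≅ A₅`, `S / T` is the four-group fixing `4`, and `x` maps to `x0`. -/
structure SA (M T S : Subgroup G) (π : G → A5) (x : G) : Prop where
  ty : Ty M T π
  memS : ∀ g, g ∈ S ↔ g ∈ M ∧ π g * π g = 1 ∧ (π g : S5) 4 = 4
  xM : x ∈ M
  ox : orderOf x = 3
  px : π x = x0
  fp : Fp5 M T

/-- First consequences of `SA`. -/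
structure SB (M T S : Subgroup G) (x : G) : Prop where
  syl : IsSylowIn 2 S M
  le : T ≤ S
  idx : T.relIndex S = 4
  sq : ∀ s ∈ S, s * s ∈ T
  xN : x ∈ Ns S
  nT : M ≤ Ns T
  cV : M ⊓ Cs (Om T) = T
  neV : Om T ≠ ⊥
  nsol : ¬ Group.IsSolvable M
  ovr : ∀ H : Subgroup G, S ≤ H → H ≤ M → H ≤ S ⊔ zpowers x ∨ H = M
  inv : ∀ Y : Subgroup G, Y ≤ S → x ∈ Ns Y → Y ≤ T ∨ Y ⊔ T = S
  d10 : ∀ a ∈ S, a ∉ T → ∃ m ∈ M, ∃ y ∈ closure ({a, m * a * m⁻¹} : Set G), orderOf y = 5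
  wb : ∃ W : Subgroup G, (∀ w, w ∈ W ↔ w ∈ T ∧ w * w ∈ Om T ∧ ∀ t ∈ T, ⁅w, t⁆ ∈ Om T) ∧
    SecOK M T (Om T) W ∧ SecOK M T (T ⊓ Cs W) T ∧ SecOK M T ⊥ (Om T)

/-- The 3-structure when `M` has 3-power index. -/
structure A3 (M : Subgroup G) : Prop where
  no2 : ∀ R X : Subgroup G, IsSylowIn 3 R ⊤ → IsPGroup 2 X → R ≤ Ns X → X = ⊥
  nc : ∀ r ∈ M, orderOf r = 3 → ∀ R : Subgroup G, IsSylowIn 3 R ⊤ → ¬ R ≤ C1 r

/-- The second member of the amalgam. -/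
structure KK (M S K : Subgroup G) (x : G) : Prop where
  le : S ≤ K
  xK : x ∈ K
  ch : Ch K
  leQ : O2 K ≤ S
  nn : ∀ C : Subgroup G, IsPGroup 2 C → M ≤ Ns C → K ≤ Ns C → C = ⊥

/-- `K / O₂(K) ≅ 3 × S₃`. -/
structure TZ (S K : Subgroup G) (x u : G) : Prop where
  uK : u ∈ K
  ou : orderOf u = 3
  ux : u * x = x * u
  idx : (O2 K).relIndex S = 2
  inv : ∀ t ∈ S, t ∉ O2 K → t * u * t⁻¹ * u ∈ O2 K
  gen : ∀ k ∈ K, ∃ s ∈ S, ∃ i j : ℕ, k = s * x ^ i * u ^ j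

/-- `K / O₂(K) ≅ 3² : SL₂(3)`. -/
structure TQ (S K : Subgroup G) (x a b : G) : Prop where
  aK : a ∈ K
  bK : b ∈ K
  e9 : E9 a b
  nor : K ≤ Ns (closure {a, b} ⊔ O2 K)
  q8 : ∃ f : S →* QuaternionGroup 2, Function.Surjective f ∧ f.ker = (O2 K).subgroupOf S
  xn : ¬ ⁅S, zpowers x⁆ ≤ O2 K
  fr : ∀ s ∈ S, s ∉ O2 K → ∀ e ∈ closure ({a, b} : Set G), ⁅s, e⁆ ∈ O2 K → e = 1
  gen : ∀ k ∈ K, ∃ s ∈ S, ∃ i : ℕ, ∃ e ∈ closure ({a, b} : Set G), k = s * x ^ i * e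

/-- One of the two types. -/
def TZQ (S K : Subgroup G) (x : G) : Prop := (∃ u, TZ S K x u) ∨ ∃ a b, TQ S K x a b

/-- The conjugates of `V = Ω₁(Z(T))` under `K` commute. -/
structure KA (T S K : Subgroup G) : Prop where
  le : Om T ≤ O2 K
  com : ∀ k ∈ K, cj k (Om T) ≤ Cs (Om T)
  sup : O2 K ⊔ T = S
  zn : K ≤ Ns (Om T ⊓ Cs S)

/-- The top of `T` in the case `3 × S₃`. -/
structure Top (M T K A E : Subgroup G) : Prop where
  mem : ∀ g, g ∈ A ↔ g ∈ T ∧ ∀ m ∈ M, m * g * m⁻¹ ∈ O2 K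
  ne : A ≠ ⊥
  le : A ≤ E
  leD : E ≤ T ⊓ O2 K
  idx : A.relIndex E = 2
  nK : K ≤ Ns E

end

/-- A module of exponent 2 on which the elements of order 5 act without fixed points. -/
structure M5 (X : Type v) (M : Type u) [Group X] [AddCommGroup M] [DistribMulAction X M] : Prop where
  two : ∀ m : M, m + m = 0
  fp : ∀ g : X, orderOf g = 5 → ∀ m : M, g • m = m → m = 0

/-- An equivariant biadditive map. -/
def Eqv (X : Type v) [Group X] {A B C : Type u} [AddCommGroup A] [AddCommGroup B] [AddCommGroup C]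
    [DistribMulAction X A] [DistribMulAction X B] [DistribMulAction X C] (β : A →+ B →+ C) : Prop :=
  ∀ (g : X) (a : A) (b : B), β (g • a) (g • b) = g • β a b

/-- The commutator map on three sections. -/
structure Bl {G : Type u} [Group G] {X : Type v} [Group X] {A B C : Type u} [AddCommGroup A]
    [AddCommGroup B] [AddCommGroup C] [DistribMulAction X A] [DistribMulAction X B]
    [DistribMulAction X C] (M W₁ W₂ T₁ T₂ V₁ V₂ : Subgroup G) (π : G → X) (p₁ : G → A) (p₂ : G → B)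
    (p₃ : G → C) (β : A →+ B →+ C) : Prop where
  s1 : Sec M W₁ W₂ π p₁
  s2 : Sec M T₁ T₂ π p₂
  s3 : Sec M V₁ V₂ π p₃
  m1 : M5 X A
  m2 : M5 X B
  m3 : M5 X C
  eqv : Eqv X β
  com : ∀ w ∈ W₂, ∀ t ∈ T₂, β (p₁ w) (p₂ t) = p₃ ⁅w, t⁆

section
variable {M : Type u} [AddCommGroup M] [DistribMulAction A5 M]

/-- Fixed by the stabilizer of `i`. -/
def FB (i : Fin 5) (m : M) : Prop := ∀ g : A5, (g : S5) i = i → g • m = m

/-- Fixed by the four-group fixing `4`. -/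
def FS (m : M) : Prop := ∀ g : A5, g * g = 1 → (g : S5) 4 = 4 → g • m = m

/-- The part on which the elements of order 3 act without fixed points. -/
def InN (m : M) : Prop := ∀ g : A5, orderOf g = 3 → m + g • m + g • g • m = 0

/-- The part spanned by the vectors fixed by a point stabilizer. -/
def InO (m : M) : Prop := m ∈ AddSubgroup.closure {o : M | ∃ i, FB i o}

/-- A family of vectors permuted like the points. -/
def Fam5 (z : Fin 5 → M) : Prop := ∀ (g : A5) (i : Fin 5), g • z i = z ((g : S5) i)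

/-- Invariant under the stabilizer of `4`. -/
def Inv4 (H : AddSubgroup M) : Prop := ∀ g : A5, (g : S5) 4 = 4 → ∀ m ∈ H, g • m ∈ H

end

/-- The structure of the modules for `A₅`. -/
structure MA (M : Type u) [AddCommGroup M] [DistribMulAction A5 M] : Prop where
  m5 : M5 A5 M
  dec : ∀ m : M, ∃ n o, InN n ∧ InO o ∧ m = n + o
  dis : ∀ m : M, InN m → InO m → m = 0
  nAdd : ∀ m m' : M, InN m → InN m' → InN (m + m')
  nSm : ∀ (g : A5) (m : M), InN m → InN (g • m)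
  oSm : ∀ (g : A5) (m : M), InO m → InO (g • m)
  decS : ∀ n o : M, InN n → InO o → FS (n + o) → FS n ∧ FB 4 o
  decK : ∀ K : AddSubgroup M, (∀ g : A5, ∀ m ∈ K, g • m ∈ K) → ∀ m ∈ K, ∃ n ∈ K, InN n ∧
    ∃ o ∈ AddSubgroup.closure {o : M | o ∈ K ∧ ∃ i, FB i o}, m = n + o
  fam : ∀ (i : Fin 5) (m : M), FB i m → ∃ z : Fin 5 → M, Fam5 z ∧ z i = m
  sum : ∀ z : Fin 5 → M, Fam5 z → ∑ i, z i = 0
  ind : ∀ z : Fin 5 → M, Fam5 z → z 0 ≠ 0 → ∀ s : Finset (Fin 5), ∑ i ∈ s, z i = 0 →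
    s = ∅ ∨ s = Finset.univ
  cx : ∀ m : M, x0 • m = m → ∃ p q, FB 0 p ∧ FB 4 q ∧ m = p + q
  quad : ∀ m : M, InN m → ∀ s : A5, s * s = 1 → (s : S5) 4 = 4 →
    FS (m + s • m) ∧ (s ≠ 1 → s • m = m → FS m)
  cnt : Nat.card {m : M // x0 • m = m} ^ 2 = Nat.card M → ∀ m : M, InO m

/-- Equivariant biadditive maps of modules for `A₅`. -/
structure MB {A B C : Type u} [AddCommGroup A] [AddCommGroup B] [AddCommGroup C]
    [DistribMulAction A5 A] [DistribMulAction A5 B] [DistribMulAction A5 C] (β : A →+ B →+ C) :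
    Prop where
  nn : ∀ a b, InN a → InN b → InO (β a b)
  on : ∀ a b, InO a → InN b → InN (β a b)
  no : ∀ a b, InN a → InO b → InN (β a b)
  oo : ∀ a b, InO a → InO b → InO (β a b)
  o4 : ∀ a b, FB 4 a → InN b → FS (β a b)
  n4 : ∀ a (z : Fin 5 → B), FS a → InN a → Fam5 z → (∀ i, FS (β a (z i))) → ∀ i, β a (z i) = 0
  ooo : ∀ (z : Fin 5 → A) (z' : Fin 5 → B), Fam5 z → Fam5 z' → β (z 4) (z' 4) = 0 →
    ∀ i j, β (z i) (z' j) = 0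

/-! ### Global steps -/

def StEven : Prop := ∀ (G : Type u) [Group G] [Finite G] [IsSimpleGroup G] (b a : ℕ), 0 < a →
  Nat.card G = 2 ^ b * 3 ^ a * 5 → IsCharacteristicTwoType G →
  (∀ P : Sylow 5 G, (P : Subgroup G).relIndex (normalizer ((P : Subgroup G) : Set G)) ≠ 2) → Even b

def StC3 : Prop := ∀ (G : Type u) [Group G] [Finite G], ¬ 25 ∣ Nat.card G →
  (∀ p : ℕ, p.Prime → p ∣ Nat.card G → p = 2 ∨ p = 3 ∨ p = 5) →
  (∀ y : G, orderOf y = 5 → C1 y = zpowers y) →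
  ∀ X : Subgroup G, IsPGroup 3 X → X ≠ ⊥ → IsPConstrained 3 (normalizer (X : Set G))

def StGl : Prop := ∀ (G : Type u) [Group G] [Finite G] [IsSimpleGroup G], Ord G 3 → Fam G → Sc G →
  ¬ Concl G → Gl G

def StNo : Prop := ∀ (G : Type u) [Group G] [Finite G], Gl G → False

def StTyp : Prop := ∀ (G : Type u) [Group G] [Finite G], Gl G → ∀ H : Subgroup G, Ch H → O2 H ≠ ⊥ →
  ¬ Group.IsSolvable H → Typ H

def StNC : Prop := ∀ (G : Type u) [Group G] [Finite G], Gl G → ∃ M S₀ : Subgroup G, Mx M (O2 M) ∧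
  ¬ Group.IsSolvable M ∧ IsSylowIn 2 S₀ M ∧ (IsSylowIn 2 S₀ ⊤ ∨ NC S₀)

/-! ### Tools -/

def StPhi : Prop := ∀ (G : Type u) [Group G] [Finite G] (T V D : Subgroup G) (y w : G), IsPGroup 2 T →
  orderOf y = 5 → y ∈ Ns T → T ⊓ C1 y = ⊥ → V ≤ T → T ≤ Ns V → y ∈ Ns V → w ∈ T → w * w ∈ V →
  D ≤ T → D.relIndex T ≤ 2 → (∀ d ∈ D, ⁅w, d⁆ ∈ V) → ∀ t ∈ T, ⁅w, t⁆ ∈ V

def StD10 : Prop := ∀ (G : Type u) [Group G] [Finite G] (M U₁ U₂ : Subgroup G) (y : G), IsPGroup 2 U₂ →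
  U₁ ≤ U₂ → U₂ ≤ M → M ≤ Ns U₁ → M ≤ Ns U₂ → y ∈ M → orderOf y = 5 → U₂ ⊓ C1 y = ⊥ →
  (∃ k, U₁.relIndex U₂ = 16 ^ k) ∧ (U₁.relIndex U₂ = 16 → ⁅U₂, U₂⁆ ≤ U₁) ∧
    ∀ (n : ℕ) (a : G) (m : Fin n → G), a ∈ M → (∀ i, m i ∈ M) →
      y ∈ closure (Set.range fun i => m i * a * (m i)⁻¹) →
      ∀ D : Subgroup G, U₁ ≤ D → D ≤ U₂ → (∀ d ∈ D, ⁅d, a⁆ ∈ U₁) → U₁.relIndex U₂ ≤ D.relIndex U₂ ^ n

def StBil : Prop := ∀ (G : Type u) [Group G] [Finite G] (X : Type) [Group X] (M T : Subgroup G) (π : G → X),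
  Pj M T π → Fp5 M T → ∀ W₁ W₂ T₁ T₂ V₁ V₂ : Subgroup G, SecOK M T W₁ W₂ → SecOK M T T₁ T₂ →
    SecOK M T V₁ V₂ → ⁅W₂, T₂⁆ ≤ V₂ → ⁅W₁, T₂⁆ ≤ V₁ → ⁅W₂, T₁⁆ ≤ V₁ →
    ∃ (A B C : Type u) (_ : AddCommGroup A) (_ : AddCommGroup B) (_ : AddCommGroup C) (_ : Finite A)
      (_ : Finite B) (_ : Finite C) (_ : DistribMulAction X A) (_ : DistribMulAction X B)
      (_ : DistribMulAction X C) (p₁ : G → A) (p₂ : G → B) (p₃ : G → C) (β : A →+ B →+ C),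
      Bl M W₁ W₂ T₁ T₂ V₁ V₂ π p₁ p₂ p₃ β

def StMA : Prop := ∀ (M : Type u) [AddCommGroup M] [Finite M] [DistribMulAction A5 M], M5 A5 M → MA M

def StMB : Prop := ∀ (A B C : Type u) [AddCommGroup A] [AddCommGroup B] [AddCommGroup C]
  [DistribMulAction A5 A] [DistribMulAction A5 B] [DistribMulAction A5 C] (β : A →+ B →+ C),
  MA A → MA B → MA C → Eqv A5 β → MB β

def StR1 : Prop := ∀ (A B C : Type u) [AddCommGroup A] [AddCommGroup B] [AddCommGroup C]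
  [DistribMulAction A5 A] [DistribMulAction A5 B] [DistribMulAction A5 C] (β : A →+ B →+ C),
  M5 A5 A → M5 A5 B → M5 A5 C → Eqv A5 β → ∀ (l : C →+ ZMod 2) (μ : A →+ ZMod 2) (ν : B →+ ZMod 2),
    (∀ a b, l (β a b) = μ a * ν b) → μ = 0 ∨ ν = 0

/-- The core of an invariant hyperplane. -/
def StCore : Prop := ∀ (B : Type u) [AddCommGroup B] [Finite B] [DistribMulAction A5 B], MA B →
  ∀ H K : AddSubgroup B, H.index = 2 → Inv4 H → (∀ τ, τ ∈ K ↔ ∀ g : A5, g • τ ∈ H) →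
    K.index = 16 ∧ (∀ τ, InN τ → τ ∈ K) ∧ ∃ z : Fin 5 → B, Fam5 z ∧ z 0 ∉ H ∧
      ∀ τ, ∃ c ∈ AddSubgroup.closure (Set.range z), τ + c ∈ K

def StZM : Prop := ∀ (A B C : Type u) [AddCommGroup A] [AddCommGroup B] [AddCommGroup C] [Finite A]
  [Finite B] [Finite C] [DistribMulAction A5 A] [DistribMulAction A5 B] [DistribMulAction A5 C]
  (β : A →+ B →+ C), MA A → MA B → MA C → Eqv A5 β → MB β →
  ∀ (Ψ : AddSubgroup A) (H : AddSubgroup B) (C₀ : AddSubgroup C), H.index = 2 → Inv4 H →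
    (∀ c, FS c → c ∈ C₀) → (∀ w ∈ Ψ, FS w ∧ x0 • w ∈ Ψ) →
    (∀ w ∈ Ψ, w ≠ 0 → ∀ τ, τ ∉ H → β w τ ∉ C₀) → (∀ w ∈ Ψ, Nat.card (H.map (β w)) ≤ 4) →
    ∀ w ∈ Ψ, w ≠ 0 → Nat.card (H.map (β w)) = 4 ∧ ∀ τ, (∀ g : A5, g • τ ∈ H) → β w τ = 0

def StQM : Prop := ∀ (A B C : Type u) [AddCommGroup A] [AddCommGroup B] [AddCommGroup C] [Finite A]
  [Finite B] [Finite C] [DistribMulAction A5 A] [DistribMulAction A5 B] [DistribMulAction A5 C]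
  (β : A →+ B →+ C), MA A → MA B → MA C → Eqv A5 β → MB β →
  ∀ (w : A) (H₁ H₃ : AddSubgroup B) (C₀ : AddSubgroup C), H₁ ≤ H₃ → H₃.index = 2 → H₁.index = 4 →
    Inv4 H₁ → (∀ τ, τ + x0 • τ ∈ H₁ → τ ∈ H₁) → Inv4 C₀ → (∀ c, FS c → c ∈ C₀) → FS w →
    (∀ τ ∈ H₃, β w τ ∈ C₀) → ∀ τ, β w τ ∈ C₀

/-- Free modules for the quaternion group. -/
def StFQ8 : Prop := ∀ (G : Type u) [Group G] [Finite G] (S K U₁ U₂ : Subgroup G) (x a b : G), S ≤ K →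
  O2 K ≤ S → IsPGroup 2 S → TQ S K x a b → SecOK K (O2 K) U₁ U₂ → ¬ ⁅U₂, closure {a, b}⁆ ≤ U₁ →
  64 ≤ U₁.relIndex (⁅U₂, zpowers a⁆ ⊔ U₁) ∧
    ∀ S₃ : Subgroup G, O2 K ≤ S₃ → S₃ ≤ S → S₃.relIndex S = 2 →
      ∃ w ∈ U₂, (∀ s ∈ S₃, ⁅w, s⁆ ∈ U₁) ∧ ∀ t ∈ S, t ∉ S₃ → ⁅w, t⁆ ∉ U₁

/-- Solvable `{2,3}`-subgroups of `GL₅(2)`. -/
def StBd : Prop := ∀ (G : Type u) [Group G] [Finite G] (N S : Subgroup G), Ch N → Group.IsSolvable N →
  (∀ p : ℕ, p.Prime → p ∣ Nat.card N → p = 2 ∨ p = 3) → (Phi (O2 N)).relIndex (O2 N) ≤ 32 →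
  IsSylowIn 2 S N → (O2 N).relIndex S ≤ 8

/-! ### No Sylow 2-subgroup of `G` in `M` -/

def StB5 : Prop := ∀ (G : Type u) [Group G] [Finite G], Gl G → ∀ M S₀ : Subgroup G, Mx M (O2 M) →
  ((∃ π : G → A5, Ty M (O2 M) π) ∨ ∃ π : G → S5, Ty M (O2 M) π) → IsSylowIn 2 S₀ M → IsSylowIn 2 S₀ ⊤

def StUm : Prop := ∀ (G : Type u) [Group G] [Finite G] (H S₀ : Subgroup G),
  ((∃ π : G → A5, Ty H (O2 H) π) ∨ ∃ π : G → S5, Ty H (O2 H) π) → IsSylowIn 2 S₀ H → Um S₀ H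

def StPU : Prop := ∀ (G : Type u) [Group G] [Finite G], Gl G → ∀ H S₀ : Subgroup G, Typ H →
  IsSylowIn 2 S₀ H → NC S₀ → Um S₀ H → Nat.card (O2 H) = 16 ∧ ¬ 9 ∣ Nat.card H

def StU27 : Prop := ∀ (X : Type u) [Group X] [Finite X] (L S : Subgroup X), L.Normal → Cs L = ⊥ → U42 L →
  IsPGroup 2 S → Nat.card X ∣ 51840 ∧ 25920 ∣ Nat.card X ∧ ∃ Y : Subgroup X, S ≤ Y ∧ Y.index = 27

def StBU : Prop := ∀ (G : Type u) [Group G] [Finite G], Gl G → ∀ (M S₀ : Subgroup G) (X : Type u) [Group X]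
  [Finite X] (π : G → X) (L : Subgroup X), Ty M (O2 M) π → L.Normal → Cs L = ⊥ → U42 L →
    IsSylowIn 2 S₀ M → NC S₀ → False

def StT6 : Prop := ∀ (X : Type u) [Group X] [Finite X] (L : Subgroup X), L.Normal → Cs L = ⊥ →
  Nonempty (L ≃* A6) → (∃ f : X →* S6, Function.Injective f ∧ alternatingGroup (Fin 6) ≤ f.range) ∨
    ∀ S : Subgroup X, IsSylowIn 2 S ⊤ → IsCoatom S

def StOut : Prop := ∃ α : S6 ≃* S6, ∀ σ : S6, orderOf σ = 3 → ((∃ i, σ i = i) ↔ ∀ i, α σ i ≠ i)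

def StM6a : Prop := ∀ (M : Type u) [AddCommGroup M] [Finite M] [DistribMulAction A6 M], M5 A6 M →
  Nontrivial M → ∃ K : AddSubgroup M, K ≠ ⊥ ∧ (∀ g : A6, ∀ m ∈ K, g • m ∈ K) ∧
    ((∀ g : A6, orderOf g = 3 → (∃ i, (g : S6) i = i) → ∀ m ∈ K, g • m = m → m = 0) ∨
      ∀ g : A6, orderOf g = 3 → (∀ i, (g : S6) i ≠ i) → ∀ m ∈ K, g • m = m → m = 0)

def StM6b : Prop := ∀ (A B C : Type u) [AddCommGroup A] [AddCommGroup B] [AddCommGroup C] [Finite A]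
  [Finite B] [Finite C] [DistribMulAction A6 A] [DistribMulAction A6 B] [DistribMulAction A6 C]
  (β : A →+ B →+ C), M5 A6 A → M5 A6 B → M5 A6 C → Eqv A6 β → β = 0

def StB6c : Prop := ∀ (G : Type u) [Group G] [Finite G] (M T : Subgroup G) (π : G → S6), P6 M T π →
  IsMulCommutative T

def StB6d : Prop := ∀ (G : Type u) [Group G] [Finite G] (M T S₀ : Subgroup G) (π : G → S6), P6 M T π →
  IsMulCommutative T → IsSylowIn 2 S₀ M → ¬ Jt S₀ ≤ T → EA T ∧ Nat.card T = 16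

def StB6e : Prop := ∀ (G : Type u) [Group G] [Finite G] (M V : Subgroup G) (π : G → S6), P6 M V π →
  EA V → Nat.card V = 16 → ∃ (π' : G → S6) (e : Fin 6 → Fin 6 → G), P6 M V π' ∧ Cd M V π' e

def StKT : Prop := ∀ (G : Type u) [Group G] [Finite G] (M V : Subgroup G) (π : G → S6)
  (e : Fin 6 → Fin 6 → G), EG M V π e → ∀ i j k : Fin 6, i ≠ j → j ≠ k → i ≠ k →
    O2 (C1 (e i j) ⊓ C1 (e j k)) = V

def StKZ : Prop := ∀ (G : Type u) [Group G] [Finite G] (M V : Subgroup G) (π : G → S6)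
  (e : Fin 6 → Fin 6 → G), EG M V π e → ∀ i j : Fin 6, i ≠ j →
    (∀ k l : Fin 6, k ≠ i → k ≠ j → l ≠ i → l ≠ j → e k l ∈ O2 (C1 (e i j))) ∧
    ∀ r ∈ O2 (C1 (e i j)) ⊓ M, π r * π r = 1 ∧ ((π r i = i ∧ π r j = j) ∨ (π r i = j ∧ π r j = i)) ∧
      ((∀ k, k ≠ i → k ≠ j → π r k = k) ∨ ∀ k, k ≠ i → k ≠ j → π r k ≠ k)

open Equiv in
def StKC0 : Prop := ∀ (G : Type u) [Group G] [Finite G] (M V S₀ : Subgroup G) (π : G → S6)
  (e : Fin 6 → Fin 6 → G) (g : G), EG M V π e → Gg M S₀ g →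
    ∃ (π' : G → S6) (e' : Fin 6 → Fin 6 → G), EG M V π' e' ∧
      (Im π' (cj g V) [1, swap 0 1] ∨
        Im π' (cj g V) [1, swap 0 1, swap 2 3, swap 0 1 * swap 2 3] ∨
        Im π' (cj g V) [1, swap 4 5, swap 0 1 * swap 2 3, swap 0 1 * swap 2 3 * swap 4 5] ∨
        Im π' (cj g V) [1, swap 0 1 * swap 2 3, swap 0 1 * swap 4 5, swap 2 3 * swap 4 5])

open Equiv in
def StKC1 : Prop := ∀ (G : Type u) [Group G] [Finite G] (M V S₀ : Subgroup G) (π : G → S6)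
  (e : Fin 6 → Fin 6 → G) (g : G), EG M V π e → Gg M S₀ g → Im π (cj g V) [1, swap 0 1] → False

open Equiv in
def StKC2 : Prop := ∀ (G : Type u) [Group G] [Finite G] (M V S₀ : Subgroup G) (π : G → S6)
  (e : Fin 6 → Fin 6 → G) (g : G), EG M V π e → Gg M S₀ g →
    Im π (cj g V) [1, swap 0 1, swap 2 3, swap 0 1 * swap 2 3] → False

open Equiv in
def StKC3 : Prop := ∀ (G : Type u) [Group G] [Finite G] (M V S₀ : Subgroup G) (π : G → S6)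
  (e : Fin 6 → Fin 6 → G) (g : G), EG M V π e → Gg M S₀ g →
    Im π (cj g V) [1, swap 4 5, swap 0 1 * swap 2 3, swap 0 1 * swap 2 3 * swap 4 5] → False

def StKN : Prop := ∀ (G : Type u) [Group G] [Finite G] (M V S₀ : Subgroup G) (π : G → S6)
  (e : Fin 6 → Fin 6 → G) (g : G), EG M V π e → Gg M S₀ g → ∀ z ∈ V, z ≠ 1 → S₀ ≤ C1 z →
    ¬ cj g V ≤ V ⊔ (O2 (C1 z) ⊓ M)

/-- The 2-core of the centralizer when it lies in `M` and does not contain `V`. -/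
def StKX : Prop := ∀ (G : Type u) [Group G] [Finite G] (M V : Subgroup G) (π : G → S6)
  (e : Fin 6 → Fin 6 → G), EG M V π e → ∀ z ∈ V, z ≠ 1 → O2 (C1 z) ≤ M → ¬ V ≤ O2 (C1 z) →
    Nat.card (O2 (C1 z)) ≤ 64 ∧ (Phi (O2 (C1 z))).relIndex (O2 (C1 z)) ≤ 32 ∧
      ((∀ m ∈ M, Equiv.Perm.sign (π m) = 1) → Nat.card (O2 (C1 z)) ≤ 32 ∧
        (Nat.card (O2 (C1 z)) = 32 → IsExtraspecial 2 (O2 (C1 z))))

def StKE : Prop := ∀ (G : Type u) [Group G] [Finite G], Gl G → ∀ (M V S₀ : Subgroup G) (π : G → S6)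
  (e : Fin 6 → Fin 6 → G), EG M V π e → IsSylowIn 2 S₀ M → IsSylowIn 2 S₀ ⊤

def StB : Prop := ∀ (G : Type u) [Group G] [Finite G], Gl G → ∀ M S₀ : Subgroup G, Mx M (O2 M) →
  ¬ Group.IsSolvable M → IsSylowIn 2 S₀ M → NC S₀ → IsSylowIn 2 S₀ ⊤

/-! ### A Sylow 2-subgroup of `G` in `M` -/

def StA3 : Prop := ∀ (G : Type u) [Group G] [Finite G], Gl G → ∀ M S : Subgroup G, M ≠ ⊤ → S ≤ M →
  IsSylowIn 2 S ⊤ → 5 ∣ Nat.card M → A3 M

def StA0 : Prop := ∀ (G : Type u) [Group G] [Finite G], Gl G → ∀ M S : Subgroup G, Mx M (O2 M) →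
  ¬ Group.IsSolvable M → S ≤ M → IsSylowIn 2 S ⊤ →
    A3 M ∧ ∃ (π : G → A5) (x : G), SA M (O2 M) S π x

def StSB : Prop := ∀ (G : Type u) [Group G] [Finite G] (M T S : Subgroup G) (π : G → A5) (x : G),
  SA M T S π x → SB M T S x

def StK0b : Prop := ∀ (G : Type u) [Group G] [Finite G], Gl G → ∀ (S : Subgroup G) (x : G),
  IsSylowIn 2 S ⊤ → orderOf x = 3 → x ∈ Ns S →
    ∃ U : Subgroup G, IsPGroup 2 U ∧ U ≠ ⊥ ∧ S ≤ Ns U ∧ x ∈ Ns U ∧ ¬ Ns U ≤ Ns S ∧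
      Group.IsSolvable (Ns U)

def StK0e : Prop := ∀ (X : Type u) [Group X] [Finite X], Group.IsSolvable X →
  (∀ p : ℕ, p.Prime → p ∣ Nat.card X → p = 2 ∨ p = 3) → pCore 2 X = ⊥ →
  ∀ (S : Subgroup X) (x : X), IsSylowIn 2 S ⊤ → S ≠ ⊥ → orderOf x = 3 → x ∈ Ns S → ∃ a b : X, E9 a b

def StK0d : Prop := ∀ (X : Type u) [Group X] [Finite X], Group.IsSolvable X →
  (∀ p : ℕ, p.Prime → p ∣ Nat.card X → p = 2 ∨ p = 3) → pCore 2 X = ⊥ → PRankLE 3 2 X →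
  ∀ (S : Subgroup X) (x : X), IsSylowIn 2 S ⊤ → S ≠ ⊥ → orderOf x = 3 → x ∈ Ns S →
    (∀ H : Subgroup X, S ≤ H → x ∈ H → H ≤ Ns S ∨ H = ⊤) →
    (∀ a b : X, a ^ 3 = 1 → b ^ 3 = 1 → a * x = x * a → b * x = x * b → ⁅a, b⁆ ≠ x) → TZQ S ⊤ x

def StK0 : Prop := ∀ (G : Type u) [Group G] [Finite G], Gl G → ∀ (M T S : Subgroup G) (x : G), Mx M T →
  IsSylowIn 2 S ⊤ → SB M T S x → x ∈ M → orderOf x = 3 → A3 M → ∃ K, KK M S K x ∧ TZQ S K x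

def StKB1 : Prop := ∀ (G : Type u) [Group G] [Finite G] (M T S K : Subgroup G) (π : G → A5) (x : G),
  SA M T S π x → SB M T S x → KK M S K x → TZQ S K x → ¬ Om T ≤ O2 K → SR4 S

def StKB2 : Prop := ∀ (G : Type u) [Group G] [Finite G] (M T S K : Subgroup G) (π : G → A5) (x : G),
  SA M T S π x → SB M T S x → KK M S K x → TZQ S K x → Om T ≤ O2 K →
    ∀ k ∈ K, cj k (Om T) ≤ Cs (Om T)

def StKU : Prop := ∀ (G : Type u) [Group G] [Finite G] (M T S K : Subgroup G) (π : G → A5) (x : G),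
  SA M T S π x → SB M T S x → KK M S K x → TZQ S K x → Om T ≤ O2 K →
    O2 K ⊔ T = S ∧ K ≤ Ns (Om T ⊓ Cs S)

def StKZa : Prop := ∀ (G : Type u) [Group G] [Finite G] (M T S K : Subgroup G) (π : G → A5) (x u : G),
  SA M T S π x → SB M T S x → KK M S K x → TZ S K x u → KA T S K → ∃ A E, Top M T K A E

def StKZb : Prop := ∀ (G : Type u) [Group G] [Finite G] (M T S K A E : Subgroup G) (π : G → A5) (x u : G),
  SA M T S π x → SB M T S x → KK M S K x → TZ S K x u → O2 K ⊔ T = S → Top M T K A E → False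

def StKQ : Prop := ∀ (G : Type u) [Group G] [Finite G] (M T S K : Subgroup G) (π : G → A5) (x a b : G),
  SA M T S π x → SB M T S x → KK M S K x → TQ S K x a b → KA T S K → False

theorem U42_eq_1' : type_of% @U42.eq_1 := @U42.eq_1
theorem x0_eq_1' : type_of% @x0.eq_1 := @x0.eq_1
theorem InO_eq_1' : type_of% @InO.eq_1 := @InO.eq_1
theorem Typ_eq_1' : type_of% @Typ.eq_1 := @Typ.eq_1
theorem TZQ_eq_1' : type_of% @TZQ.eq_1 := @TZQ.eq_1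
theorem Um_eq_1' : type_of% @Um.eq_1 := @Um.eq_1

end Cfsg.Lib.K35
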