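import Cfsg.Agent.K35.Loc

/-! Equivariant biadditive maps of modules for `A₆` vanish. -/

set_option autoImplicit false

namespace Cfsg.Lib.K35

open Cfsg Subgroup Cfsg.Lib.Trans Cfsg.Lib.Gold
open Cfsg.Lib.P8 (A5 A6 S5 O2 Om Jt Phi EA SR4 Ch E9 Pj Ty Sec SecOK Mx)
open scoped commutatorElement

universe u

namespace M6b

open Equiv

section
variable {X : Type} [Group X] {M Q : Type u} [AddCommGroup M] [DistribMulAction X M]

/-- The action on an invariant subgroup. -/
@[reducible] def sub {K : AddSubgroup M} (h : ∀ g : X, ∀ m ∈ K, g • m ∈ K) : DistribMulAction X K where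
  smul g w := ⟨g • w.1, h g _ w.2⟩
  one_smul w := Subtype.ext (one_smul X w.1)
  mul_smul g h w := Subtype.ext (mul_smul g h w.1)
  smul_zero g := Subtype.ext (smul_zero g)
  smul_add g v w := Subtype.ext (smul_add g v.1 w.1)

theorem sub_eq_1' : type_of% @sub.eq_1 := @sub.eq_1

/-- The action on the quotient. -/
@[reducible] def quo {K : AddSubgroup M} (h : ∀ g : X, ∀ m ∈ K, g • m ∈ K) : DistribMulAction X (M ⧸ K) where
  smul g := QuotientAddGroup.map K K (DistribSMul.toAddMonoidHom M g) (h g)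
  one_smul q := QuotientAddGroup.induction_on q fun v => congrArg QuotientAddGroup.mk (one_smul X v)
  mul_smul g h q := QuotientAddGroup.induction_on q fun v => congrArg QuotientAddGroup.mk (mul_smul g h v)
  smul_zero _ := map_zero (QuotientAddGroup.map K K _ _)
  smul_add _ := map_add (QuotientAddGroup.map K K _ _)

theorem quo_eq_1' : type_of% @quo.eq_1 := @quo.eq_1

theorem m5_quo [AddCommGroup Q] [DistribMulAction X Q] (h : M5 X M) (q : M →+ Q) (h1 : Function.Surjective q)
    (h2 : ∀ (g : X) m, q (g • m) = g • q m) : M5 X Q := by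
  have t : ∀ x : Q, x + x = 0 := fun x => by obtain ⟨m, rfl⟩ := h1 x; rw [← map_add, h.two, map_zero]
  refine ⟨t, fun g hg x e => ?_⟩
  obtain ⟨m, rfl⟩ := h1 x
  have k : g • g • g • g • g • m = m := by
    simpa only [pow_succ, pow_zero, one_mul, mul_smul, one_smul] using
      congrArg (· • m) (hg ▸ pow_orderOf_eq_one g : g ^ 5 = 1)
  have := congrArg q (h.fp g hg (m + g • m + g • g • m + g • g • g • m + g • g • g • g • m)
    (by simp only [smul_add, k]; abel))
  simp only [map_add, h2, e, t, map_zero, zero_add] at this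
  exact this

theorem m5_comp {Y : Type} [Group Y] (f : Y →* X) (hf : Function.Injective f) (h : M5 X M) :
    @M5 Y M _ _ (DistribMulAction.compHom M f) :=
  @M5.mk Y M _ _ (DistribMulAction.compHom M f) h.two fun g hg => h.fp (f g) ((orderOf_injective f hf g).trans hg)

theorem nrm {x : X} (h : orderOf x = 3) (k : ∀ m : M, x • m = m → m = 0) (m : M) : m + x • m + x • x • m = 0 :=
  k _ (by
    rw [smul_add, smul_add, show x • x • x • m = m by
      simpa only [pow_succ, pow_zero, one_mul, mul_smul, one_smul] using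
        congrArg (· • m) (h ▸ pow_orderOf_eq_one x : x ^ 3 = 1)]; abel)

theorem split (h : M5 X M) {a b : X} {n : M} (c : a * b = b * a) (b3 : b * b * b = 1)
    (h1 : n + (a * b) • n + (a * b) • (a * b) • n = 0) (h2 : n + (a * b * b) • n + (a * b * b) • (a * b * b) • n = 0)
    (h3 : n + a • n + a • a • n = 0) : b • n = n := by
  have c' : ∀ m : M, a • b • m = b • a • m := fun m => by rw [← mul_smul, c, mul_smul]
  have d : ∀ m : M, b • b • b • m = m := fun m => by rw [← mul_smul, ← mul_smul, b3, one_smul]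
  have e : a • a • n = n + a • n := by linear_combination (norm := abel1) h3 - h.two n - h.two (a • n)
  simp only [mul_smul, c', d, e, smul_add] at h1 h2
  refine smul_left_cancel b ?_
  linear_combination (norm := abel1) h1 + h2 - h.two n - h.two (b • a • n) - h.two (b • b • a • n) - h.two (b • n)

end

/-- One class of elements of order three acts without fixed points. -/
def Pu (e : Prop) (M : Type u) [AddCommGroup M] [DistribMulAction A6 M] : Prop :=
  ∀ g : A6, orderOf g = 3 → ((∃ i, (g : S6) i = i) ↔ e) → ∀ m : M, g • m = m → m = 0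

theorem Pu_eq_1' : type_of% @Pu.eq_1 := @Pu.eq_1

theorem ind (hM6a : StM6a.{u}) (P : ∀ (M : Type u) [AddCommGroup M] [DistribMulAction A6 M], Prop)
    (h0 : ∀ (M : Type u) [AddCommGroup M] [DistribMulAction A6 M], Subsingleton M → P M)
    (h1 : ∀ (M : Type u) [AddCommGroup M] [Finite M] [DistribMulAction A6 M] (K : AddSubgroup M)
      (hK : ∀ g : A6, ∀ m ∈ K, g • m ∈ K) (e : Prop), @M5 A6 K _ _ (sub hK) → @Pu e K _ (sub hK) →
        @P (M ⧸ K) _ (quo hK) → P M)
    (n : ℕ) : ∀ (M : Type u) [AddCommGroup M] [Finite M] [DistribMulAction A6 M], Nat.card M < n → M5 A6 M → P M := by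
  induction n with
  | zero => exact fun _ _ _ _ h => absurd h (Nat.not_lt_zero _)
  | succ n ih =>
    intro M _ _ _ hn h
    obtain l | l := subsingleton_or_nontrivial M
    · exact h0 M l
    obtain ⟨K, K0, hK, k⟩ := hM6a M h l
    have p : @P (M ⧸ K) _ (quo hK) := @ih _ _ _ (quo hK) (by
      have := K.card_eq_card_quotient_mul_card_addSubgroup
      have := K.one_lt_card_iff_ne_bot.2 K0
      have := Nat.card_pos (α := M ⧸ K)
      nlinarith) (@m5_quo _ _ _ _ _ _ _ (quo hK) h (QuotientAddGroup.mk' K) (QuotientAddGroup.mk'_surjective K)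
        fun _ _ => rfl)
    have q : @M5 A6 K _ _ (sub hK) := @M5.mk _ _ _ _ (sub hK) (fun m => Subtype.ext (h.two m))
      fun g hg m e => Subtype.ext (h.fp g hg m (congrArg Subtype.val e))
    obtain k | k := k
    · exact h1 M K hK True q (fun g hg e m l => Subtype.ext (k g hg (e.2 trivial) m m.2 (congrArg Subtype.val l))) p
    · exact h1 M K hK False q (fun g hg e m l =>
        Subtype.ext (k g hg (fun i hi => e.1 ⟨i, hi⟩) m m.2 (congrArg Subtype.val l))) p

/-- The point stabilizer. -/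
def j5 : A5 →* A6 :=
  ((Perm.extendDomainHom (finSuccAboveEquiv 5)).comp (alternatingGroup _).subtype).codRestrict _ fun g =>
    Perm.mem_alternatingGroup.2 ((Perm.sign_extendDomain ..).trans g.2)

theorem j5_eq_1' : type_of% @j5.eq_1 := @j5.eq_1

theorem j5_inj : Function.Injective j5 := fun _ _ e =>
  Subtype.ext (Perm.extendDomainHom_injective _ (congrArg Subtype.val e))

variable {A B C : Type u} [AddCommGroup A] [AddCommGroup B] [AddCommGroup C] [Finite A]
  [Finite B] [Finite C] [DistribMulAction A6 A] [DistribMulAction A6 B] [DistribMulAction A6 C]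

omit [Finite A] in
theorem inN (h : Pu True A) (m : A) : @InN A _ (DistribMulAction.compHom A j5) m := fun g hg =>
  have o := (orderOf_injective j5 j5_inj g).trans hg
  nrm o (h _ o (iff_true_intro ⟨5, Perm.extendDomain_apply_not_subtype _ _ (by simp)⟩)) m

theorem inO (hMA : StMA.{u}) (hA : M5 A6 A) (h : Pu False A) (m : A) :
    @InO A _ (DistribMulAction.compHom A j5) m := by
  let _ := DistribMulAction.compHom A j5
  have : Fact (Nat.Prime 3) := ⟨by decide⟩
  have : Fact (Nat.Prime 5) := ⟨by decide⟩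
  obtain ⟨n, o, hn, ho, rfl⟩ := (hMA A (m5_comp j5 j5_inj hA)).dec m
  have p : ∀ (a : A5) (b : A6), a ^ 3 = 1 ∧ a ≠ 1 ∧ j5 a * b = b * j5 a ∧ b * b * b = 1 ∧ (j5 a * b) ^ 3 = 1 ∧
      (j5 a * b * b) ^ 3 = 1 ∧ (∀ i, (j5 a * b).1 i ≠ i) ∧ (∀ i, (j5 a * b * b).1 i ≠ i) → b • n = n :=
    fun a b ⟨a3, a1, c, b3, c3, d3, c1, d1⟩ => by
      have q : ∀ {g : A6}, g ^ 3 = 1 → (∀ i, g.1 i ≠ i) → n + g • n + g • g • n = 0 := fun g3 g1 =>
        have o := orderOf_eq_prime g3 fun e => g1 0 (by rw [e]; rfl)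
        nrm o (h _ o (iff_false_intro fun ⟨i, hi⟩ => g1 i hi)) n
      exact split hA c b3 (q c3 c1) (q d3 d1) (hn a (orderOf_eq_prime a3 a1))
  let b1 : A6 := ⟨swap 0 1 * swap 1 5, Perm.mem_alternatingGroup.2 (by decide)⟩
  let b2 : A6 := ⟨swap 2 3 * swap 3 5, Perm.mem_alternatingGroup.2 (by decide)⟩
  rw [hA.fp (b1 * b2) (orderOf_eq_prime (by decide +kernel) (by decide +kernel)) n (by
    rw [mul_smul, p ⟨swap 0 1 * swap 1 4, Perm.mem_alternatingGroup.2 (by decide)⟩ b2 (by decide +kernel),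
      p ⟨swap 2 3 * swap 3 4, Perm.mem_alternatingGroup.2 (by decide)⟩ b1 (by decide +kernel)]), zero_add]
  exact ho

theorem base1 (hMA : StMA.{u}) (hMB : StMB.{u}) {β : A →+ B →+ C} (hA : M5 A6 A) (hB : M5 A6 B) (hC : M5 A6 C)
    (h : Eqv A6 β) {a b c : Prop} (pa : Pu a A) (pb : Pu b B) (pc : Pu c C) (e : (a ↔ b) ↔ c) : β = 0 := by
  let _ := DistribMulAction.compHom A j5
  let _ := DistribMulAction.compHom B j5
  let _ := DistribMulAction.compHom C j5
  have mc := hMA C (m5_comp j5 j5_inj hC)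
  have k := hMB A B C β (hMA A (m5_comp j5 j5_inj hA)) (hMA B (m5_comp j5 j5_inj hB)) mc fun g => h (j5 g)
  ext x y
  obtain rfl | rfl := Classical.propComplete a <;> obtain rfl | rfl := Classical.propComplete b <;>
    obtain rfl | rfl := Classical.propComplete c <;> simp only [iff_true, iff_false, not_true] at e
  · exact mc.dis _ (inN pc _) (k.nn _ _ (inN pa x) (inN pb y))
  · exact mc.dis _ (k.no _ _ (inN pa x) (inO hMA hB pb y)) (inO hMA hC pc _)
  · exact mc.dis _ (k.on _ _ (inO hMA hA pa x) (inN pb y)) (inO hMA hC pc _)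
  · exact mc.dis _ (inN pc _) (k.oo _ _ (inO hMA hA pa x) (inO hMA hB pb y))

theorem out (hOut : StOut) : ∃ f : A6 →* A6, Function.Injective f ∧
    ∀ g : A6, orderOf g = 3 → ((∃ i, (g : S6) i = i) ↔ ¬ ∃ i, (f g : S6) i = i) := by
  obtain ⟨α, h⟩ := hOut
  have e := Perm.eq_alternatingGroup_of_index_eq_two ((index_comap_of_surjective (alternatingGroup (Fin 6))
    (f := α.toMonoidHom) α.surjective).trans alternatingGroup.index_eq_two)
  exact ⟨(α.toMonoidHom.comp (alternatingGroup _).subtype).codRestrict _ fun g => (e.ge g.2 :),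
    fun _ _ l => Subtype.ext (α.injective (congrArg Subtype.val l)),
    fun g hg => (h g ((orderOf_coe g).trans hg)).trans not_exists.symm⟩

theorem base (hMA : StMA.{u}) (hMB : StMB.{u}) (hOut : StOut) {β : A →+ B →+ C} (hA : M5 A6 A) (hB : M5 A6 B)
    (hC : M5 A6 C) (h : Eqv A6 β) {a b c : Prop} (pa : Pu a A) (pb : Pu b B) (pc : Pu c C) : β = 0 := by
  by_cases e : (a ↔ b) ↔ c
  · exact base1 hMA hMB hA hB hC h pa pb pc e
  obtain ⟨f, hf, k⟩ := out hOut
  have p : ∀ {M : Type u} [AddCommGroup M] [DistribMulAction A6 M] {a : Prop}, Pu a M →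
      @Pu (¬ a) M _ (DistribMulAction.compHom M f) := fun pa g hg l =>
    pa (f g) ((orderOf_injective f hf g).trans hg) (not_iff_not.1 ((k g hg).symm.trans l))
  exact @base1 A B C _ _ _ _ _ _ (.compHom A f) (.compHom B f) (.compHom C f) hMA hMB β (m5_comp f hf hA)
    (m5_comp f hf hB) (m5_comp f hf hC) (fun g => h (f g)) _ _ _ (p pa) (p pb) (p pc) (by tauto)

omit [Finite B] [Finite C] in
theorem left (hM6a : StM6a.{u}) (H : ∀ (A : Type u) [AddCommGroup A] [Finite A] [DistribMulAction A6 A] (e : Prop),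
    M5 A6 A → Pu e A → ∀ β : A →+ B →+ C, Eqv A6 β → β = 0) (hA : M5 A6 A) :
    ∀ β : A →+ B →+ C, Eqv A6 β → β = 0 := by
  refine ind hM6a (fun A _ _ => ∀ β : A →+ B →+ C, Eqv A6 β → β = 0)
    (fun M _ _ _ β _ => AddMonoidHom.ext fun a => by rw [Subsingleton.elim a 0, map_zero, map_zero])
    (fun M _ _ _ K hK e h1 h2 h3 β h => ?_) _ A (Nat.lt_succ_self _) hA
  have k := @H K _ _ (sub hK) e h1 h2 (β.comp K.subtype) fun g a => h g a
  have := h3 (QuotientAddGroup.lift K β fun a ha => (DFunLike.congr_fun k ⟨a, ha⟩ :)) fun g a =>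
    QuotientAddGroup.induction_on a fun a => h g a
  exact AddMonoidHom.ext fun a => DFunLike.congr_fun this (a : M ⧸ K)

end M6b

open M6b in
theorem m6b (hMA : StMA.{u}) (hMB : StMB.{u}) (hM6a : StM6a.{u}) (hOut : StOut) : StM6b.{u} := by
  intro A B C _ _ _ _ _ _ _ _ _ β hA hB hC
  revert β
  refine ind hM6a (fun C _ _ => ∀ β : A →+ B →+ C, Eqv A6 β → β = 0)
    (fun M _ _ _ β _ => by ext; exact Subsingleton.elim _ _) (fun M _ _ _ K hK e h1 h2 h3 β h => ?_) _ C (Nat.lt_succ_self _) hC
  let _ := sub hK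
  have k := h3 (β.compr₂ (QuotientAddGroup.mk' K)) fun g a b => congrArg QuotientAddGroup.mk (h g a b)
  have k' : ∀ a b, β a b ∈ K := fun a b =>
    (QuotientAddGroup.eq_zero_iff _).1 (DFunLike.congr_fun (DFunLike.congr_fun k a) b)
  have := left hM6a (B := B) (C := K) (fun A _ _ _ a hA pa β h => by
    have := left hM6a (B := A) (C := K) (fun B _ _ _ b hB pb β h => base hMA hMB hOut hB hA h1 h pb pa h2) hB
      β.flip fun g b a => h g a b
    exact AddMonoidHom.ext fun a => AddMonoidHom.ext fun b => DFunLike.congr_fun (DFunLike.congr_fun this b) a) hA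
    (AddMonoidHom.mk' (fun a => (β a).codRestrict K (k' a)) fun a a' => by ext b; simp)
    fun g a b => Subtype.ext (h g a b)
  ext a b
  exact congrArg Subtype.val (DFunLike.congr_fun (DFunLike.congr_fun this a) b)

end Cfsg.Lib.K35
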