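import Cfsg.Agent.K35.Loc

/-!
# The structure of the modules for `A₅`
-/

set_option autoImplicit false
set_option maxHeartbeats 400000
set_option synthInstance.maxSize 4000

namespace Cfsg.Lib.K35

open Cfsg Subgroup Cfsg.Lib.Trans Cfsg.Lib.Gold
open Cfsg.Lib.P8 (A5 A6 S5 O2 Om Jt Phi EA SR4 Ch E9 Pj Ty Sec SecOK Mx)
open scoped commutatorElement

universe u

namespace MAH

def p (a b c d : Fin 5) : A5 :=
  if h : a ≠ b ∧ c ≠ d then ⟨Equiv.swap a b * Equiv.swap c d, by simp [h.1, h.2]⟩ else 1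

def nl (q : A5 × A5) : List A5 :=
  [q.2, q.1 * q.2, q.1 * (q.1 * q.2), q.1 * (q.1 * (q.1 * q.2)), q.1 * (q.1 * (q.1 * (q.1 * q.2)))]

def st (i : Fin 5) : Finset A5 := Finset.univ.filter fun g : A5 => (g : S5) i = i

def ee : Multiset A5 := Finset.univ.val.bind fun i => (st i).val

def n1 : List (A5 × A5) := [(p 0 1 1 2 * p 2 3 3 4, 1)]

def n2 : List (A5 × A5) :=
  [(p 0 1 1 2 * p 2 3 3 4, p 0 1 0 2), (p 0 1 1 2 * p 1 3 1 4, p 0 1 0 1),
    (p 0 1 1 2 * p 2 3 3 4, p 0 1 0 3), (p 0 1 1 2 * p 2 3 2 4, p 0 1 0 1),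
    (p 0 1 1 2 * p 2 3 3 4, p 0 1 1 2)]

theorem p_eq_1' : type_of% @p.eq_1 := @p.eq_1
theorem nl_eq_1' : type_of% @nl.eq_1 := @nl.eq_1
theorem st_eq_1' : type_of% @st.eq_1 := @st.eq_1
theorem ee_eq_1' : type_of% @ee.eq_1 := @ee.eq_1
theorem n1_eq_1' : type_of% @n1.eq_1 := @n1.eq_1
theorem n2_eq_1' : type_of% @n2.eq_1 := @n2.eq_1

theorem o1 : ∀ q ∈ n1, q.1 ^ 5 = 1 ∧ q.1 ≠ 1 := by decide +kernel

theorem o2 : ∀ q ∈ n2, q.1 ^ 5 = 1 ∧ q.1 ≠ 1 := by decide +kernel

theorem c1 : ∀ j k : Fin 5,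
    2 ∣ ((1 ::ₘ ee + (n1.flatMap nl : List A5)).map fun g : A5 => (g : S5) j).count k := by
  decide +kernel

theorem c2 : ∀ k : Fin 5 × Fin 5, 2 ∣ ((1 ::ₘ ee + (n2.flatMap nl : List A5)).map
    fun g : A5 => ((g : S5) 0, (g : S5) 4)).count k := by
  decide +kernel

theorem stab : ∀ g : A5, (g : S5) 0 = 0 → (g : S5) 4 = 4 → g = 1 ∨ g = x0 ∨ g = x0 * x0 := by
  decide +kernel

theorem cj3 : ∀ x : A5, x ^ 3 = 1 → x ≠ 1 → ∃ g : A5, g * x = x0 * g := by decide +kernel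

theorem fx3 : ∀ i : Fin 5, ∃ x : A5, (x ^ 3 = 1 ∧ x ≠ 1) ∧ (x : S5) i = i := by decide +kernel

theorem tr1 : ∀ i k : Fin 5, ∃ g : A5, (g : S5) i = k := by decide +kernel

theorem tr2 : ∀ i j : Fin 5, i ≠ j → ∃ g h : A5, (h ^ 5 = 1 ∧ h ≠ 1) ∧ (g : S5) i = 0 ∧
    (g : S5) j = (h : S5) 0 := by decide +kernel

theorem sw : ∀ s : Finset (Fin 5), s = ∅ ∨ s = Finset.univ ∨ ∃ i ∈ s, ∃ j ∉ s, ∃ g : A5,
    s.image (g : S5) = insert j (s.erase i) := by decide +kernel

theorem s4 : ∀ s : A5, s * s = 1 → (s : S5) 4 = 4 → s ≠ 1 → ((x0 * s) ^ 3 = 1 ∧ x0 * s ≠ 1) ∧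
    ∀ t : A5, t * t = 1 → (t : S5) 4 = 4 →
      t = 1 ∨ t = s ∨ t = x0⁻¹ * s * x0 ∨ t = s * (x0⁻¹ * s * x0) := by decide +kernel

theorem r4 : ∀ i : Fin 5, i ≠ 4 → ∃ s : A5, s * s = 1 ∧ (s : S5) 4 = 4 ∧ (s : S5) 0 = i := by
  decide +kernel

theorem g5 : ∃ g : A5, (x0 * (g * x0 * g⁻¹)) ^ 5 = 1 ∧ x0 * (g * x0 * g⁻¹) ≠ 1 := by
  decide +kernel

theorem x0_1 : (x0 : S5) 1 = 2 := by decide +kernel

theorem x0_2 : (x0 : S5) 2 = 3 := by decide +kernel

theorem ord3 {x : A5} (h : x ^ 3 = 1 ∧ x ≠ 1) : orderOf x = 3 :=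
  haveI : Fact (Nat.Prime 3) := ⟨by decide⟩
  orderOf_eq_prime h.1 h.2

theorem ord5 {x : A5} (h : x ^ 5 = 1 ∧ x ≠ 1) : orderOf x = 5 :=
  haveI : Fact (Nat.Prime 5) := ⟨by decide⟩
  orderOf_eq_prime h.1 h.2

theorem x0_ord : orderOf x0 = 3 := ord3 (by decide +kernel)

variable {M : Type u} [AddCommGroup M] [DistribMulAction A5 M]

def tr (i : Fin 5) (m : M) : M := ∑ g ∈ st i, g • m

def pe (m : M) : M := ∑ i, tr i m

theorem tr_eq_1' : type_of% @tr.eq_1.{u} := @tr.eq_1.{u}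
theorem pe_eq_1' : type_of% @pe.eq_1.{u} := @pe.eq_1.{u}

theorem tr_add (i : Fin 5) (a b : M) : tr i (a + b) = tr i a + tr i b := by
  simp only [tr, smul_add, Finset.sum_add_distrib]

theorem pe_add (a b : M) : pe (a + b) = pe a + pe b := by
  simp only [pe, tr_add, Finset.sum_add_distrib]

theorem smul_tr (h : A5) (i : Fin 5) (m : M) : h • tr i m = tr ((h : S5) i) (h • m) := by
  rw [tr, tr, Finset.smul_sum]
  refine Finset.sum_equiv (MulAut.conj h).toEquiv (fun g => ?_) (fun g _ => ?_)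
  · simp [st]
  · simp [smul_smul]

theorem tr_smul {x : A5} {i : Fin 5} (hx : (x : S5) i = i) (m : M) : tr i (x • m) = tr i m := by
  refine Finset.sum_equiv (Equiv.mulRight x) (fun g => ?_) (fun g _ => ?_)
  · simp [st, hx]
  · simp [smul_smul]

theorem fb_tr (i : Fin 5) (m : M) : FB i (tr i m) := fun g hg => by
  rw [smul_tr, hg, tr_smul hg]

theorem smul_pe (h : A5) (m : M) : h • pe m = pe (h • m) := by
  rw [pe, pe, Finset.smul_sum]
  exact Finset.sum_equiv (h : S5) (fun _ => by simp) (fun i _ => smul_tr h i m)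

theorem fb {z : Fin 5 → M} (hz : Fam5 z) (i : Fin 5) : FB i (z i) := fun g hg => by
  rw [hz, hg]

theorem fb_add {i : Fin 5} {a b : M} (ha : FB i a) (hb : FB i b) : FB i (a + b) := fun g hg => by
  rw [smul_add, ha g hg, hb g hg]

theorem fam (i : Fin 5) (m : M) (hm : FB i m) : ∃ z : Fin 5 → M, Fam5 z ∧ z i = m := by
  choose g hg using tr1 i
  refine ⟨fun j => g j • m, fun h j => ?_, hm _ (hg i)⟩
  have := hm ((g ((h : S5) j))⁻¹ * h * g j) (by
    simp only [Subgroup.coe_mul, Subgroup.coe_inv, Equiv.Perm.mul_apply, hg]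
    rw [Equiv.Perm.inv_eq_iff_eq, hg])
  show h • g j • m = g _ • m
  rw [← inv_smul_eq_iff, smul_smul, smul_smul, this]

theorem oSm (g : A5) (m : M) (hm : InO m) : InO (g • m) := by
  refine (AddSubgroup.closure_le ((AddSubgroup.closure {o : M | ∃ i, FB i o}).comap
    (DistribSMul.toAddMonoidHom M g))).2 ?_ hm
  rintro o ⟨i, ho⟩
  obtain ⟨z, hz, rfl⟩ := fam i o ho
  refine AddSubgroup.subset_closure ⟨(g : S5) i, ?_⟩
  show FB _ (g • z i)
  rw [hz]
  exact fb hz _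

theorem nAdd (m m' : M) (h : InN m) (h' : InN m') : InN (m + m') := fun g hg => by
  rw [smul_add, smul_add, ← add_zero 0]
  nth_rewrite 1 [← h g hg]
  rw [← h' g hg]
  abel

theorem nSm (g : A5) (m : M) (h : InN m) : InN (g • m) := fun x hx => by
  have o : orderOf (g⁻¹ * x * g) = 3 :=
    (SemiconjBy.orderOf_eq g (show g * (g⁻¹ * x * g) = x * g by group)).trans hx
  have := congrArg (g • ·) (h _ o)
  simpa [smul_smul, mul_assoc] using this

theorem pe_O (m : M) : InO (pe m) :=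
  AddSubgroup.sum_mem _ fun i _ => AddSubgroup.subset_closure ⟨i, fb_tr i m⟩

variable (h : M5 A5 M)
include h

theorem can {a b : M} (e : a + b = 0) : a = b := by
  rw [← add_zero a, ← h.two b, ← add_assoc, e, zero_add]

theorem pe_N {n : M} (hn : InN n) : pe n = 0 := by
  refine Finset.sum_eq_zero fun i _ => ?_
  obtain ⟨x, ox, xi⟩ := fx3 i
  have := congrArg (tr i) (hn x (ord3 ox))
  rw [tr_add, tr_add, tr_smul xi, tr_smul xi, tr_smul xi, h.two, zero_add] at this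
  rw [this]
  simp [tr]

theorem nl_sum {q : A5 × A5} (hq : q.1 ^ 5 = 1 ∧ q.1 ≠ 1) (m : M) :
    ((nl q).map (· • m)).sum = 0 := by
  refine h.fp _ (ord5 hq) _ ?_
  have e : q.1 * (q.1 * (q.1 * (q.1 * (q.1 * q.2)))) = q.2 := by
    calc _ = q.1 ^ 5 * q.2 := by simp only [pow_succ, pow_zero, one_mul, mul_assoc]
      _ = _ := by rw [hq.1, one_mul]
  simp only [nl, List.map_cons, List.map_nil, List.sum_cons, List.sum_nil, smul_add, smul_smul, e,
    add_zero]
  abel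

theorem cert {K : Type} [DecidableEq K] (κ : A5 → K) (m : M)
    (hκ : ∀ g g', κ g = κ g' → g • m = g' • m) (N : List (A5 × A5))
    (hN : ∀ q ∈ N, q.1 ^ 5 = 1 ∧ q.1 ≠ 1)
    (hc : ∀ k, 2 ∣ ((1 ::ₘ ee + (N.flatMap nl : List A5)).map κ).count k) : pe m = m := by
  classical
  let w : K → M := fun k => if e : ∃ g, κ g = k then e.choose • m else 0
  have hw : ∀ g, w (κ g) = g • m := fun g => by
    have e : ∃ g', κ g' = κ g := ⟨g, rfl⟩
    simp only [w, dif_pos e]
    exact hκ _ _ e.choose_spec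
  have s0 : (((1 ::ₘ ee + (N.flatMap nl : List A5)).map κ).map w).sum = 0 := by
    rw [Finset.sum_multiset_map_count]
    refine Finset.sum_eq_zero fun k _ => ?_
    obtain ⟨c, e⟩ := hc k
    rw [show Multiset.count k _ = 2 * c by convert e, mul_nsmul, two_nsmul, h.two, nsmul_zero]
  have s1 : ((N.flatMap nl).map (· • m)).sum = 0 := by
    clear s0 hc
    induction N with
    | nil => rfl
    | cons q N ih =>
      rw [List.flatMap_cons, List.map_append, List.sum_append, nl_sum h (hN q (by simp)),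
        ih fun q hq => hN q (by simp [hq]), add_zero]
  have s2 : (ee.map (· • m)).sum = pe m := by
    rw [ee, Multiset.map_bind, Multiset.sum_bind]
    rfl
  rw [Multiset.map_map, show w ∘ κ = (· • m) from funext hw, Multiset.map_add, Multiset.sum_add,
    Multiset.map_cons, Multiset.sum_cons, s2, Multiset.map_coe, Multiset.sum_coe, s1, add_zero,
    one_smul] at s0
  exact (can h s0).symm

theorem pe_fb {j : Fin 5} {o : M} (ho : FB j o) : pe o = o :=
  cert h (fun g => (g : S5) j) o (fun g g' e => by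
    rw [← inv_smul_eq_iff.1 ((smul_smul g'⁻¹ g o).trans (ho _ ?_))]
    simp only [Subgroup.coe_mul, Subgroup.coe_inv, Equiv.Perm.mul_apply]
    rw [Equiv.Perm.inv_eq_iff_eq]
    exact e) n1 o1 (c1 j)

theorem pe_o {o : M} (ho : InO o) : pe o = o := by
  induction ho using AddSubgroup.closure_induction with
  | mem x hx => exact hx.elim fun _ => pe_fb h
  | zero => simp [pe, tr]
  | add x y _ _ a b => rw [pe_add, a, b]
  | neg x _ a => rw [neg_eq_of_add_eq_zero_right (h.two x), a]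

theorem pe_x {m : M} (hm : x0 • m = m) : pe m = m :=
  cert h (fun g => ((g : S5) 0, (g : S5) 4)) m (fun g g' e => by
    have k : (g'⁻¹ * g) • m = m := by
      have a : ∀ i, (g : S5) i = (g' : S5) i → ((g'⁻¹ * g : A5) : S5) i = i := fun i e => by
        simp only [Subgroup.coe_mul, Subgroup.coe_inv, Equiv.Perm.mul_apply]
        rw [Equiv.Perm.inv_eq_iff_eq]
        exact e
      rcases stab (g'⁻¹ * g) (a 0 (congrArg Prod.fst e)) (a 4 (congrArg Prod.snd e)) with k | k | k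
      · rw [k, one_smul]
      · rw [k, hm]
      · rw [k, mul_smul, hm, hm]
    rw [← inv_smul_eq_iff, smul_smul, k]) n2 o2 c2

theorem n_pe (m : M) : InN (m + pe m) := fun x hx => by
  obtain ⟨n, hn⟩ : ∃ n, n = m + pe m := ⟨_, rfl⟩
  have e0 : pe n = 0 := by rw [hn, pe_add, pe_o h (pe_O m), h.two]
  rw [← hn]
  have x3 : x ^ 3 = 1 := hx ▸ pow_orderOf_eq_one x
  obtain ⟨g, hg⟩ := cj3 x x3 (by rintro rfl; simp at hx)
  have fx : x • (n + x • n + x • x • n) = n + x • n + x • x • n := by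
    rw [smul_add, smul_add, smul_smul x x (x • n), smul_smul (x * x), ← pow_three', x3, one_smul]
    abel
  have := pe_x h (m := g • (n + x • n + x • x • n)) (by rw [smul_smul, ← hg, mul_smul, fx])
  rw [← smul_pe, smul_left_cancel_iff, pe_add, pe_add, ← smul_pe, ← smul_pe, ← smul_pe, e0] at this
  rw [← this]
  simp

theorem sum (z : Fin 5 → M) (hz : Fam5 z) : ∑ i, z i = 0 := by
  obtain ⟨g, hg⟩ := g5
  refine h.fp _ (ord5 hg) _ ?_
  rw [Finset.smul_sum]
  exact Finset.sum_equiv (_ : S5) (fun _ => by simp) (fun i _ => hz _ i)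

theorem quad {n : M} (hn : InN n) {s : A5} (s2 : s * s = 1) (s4' : (s : S5) 4 = 4) (s1 : s ≠ 1)
    (e : s • n = n) : FS n := by
  obtain ⟨a, b⟩ := s4 s s2 s4' s1
  have e1 := hn _ (ord3 a)
  rw [mul_smul, mul_smul, e, ← hn x0 x0_ord, add_right_inj, smul_left_cancel_iff] at e1
  have e2 : (x0⁻¹ * s * x0) • n = n := by rw [mul_smul, mul_smul, e1, inv_smul_smul]
  intro t t2 t4
  rcases b t t2 t4 with k | k | k | k
  · rw [k, one_smul]
  · rw [k, e]
  · rw [k, e2]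
  · rw [k, mul_smul, e2, e]

end MAH

open MAH

theorem ma : StMA.{u} := by
  intro M _ _ _ h
  have dk : ∀ m : M, m = m + pe m + pe m := fun m => by rw [add_assoc, h.two, add_zero]
  refine ⟨h, fun m => ⟨_, _, n_pe h m, pe_O m, dk m⟩, fun m a b => ?_, nAdd, nSm, oSm, ?_, ?_,
    fam, sum h, ?_, ?_, ?_, ?_⟩
  · rw [← pe_o h b, pe_N h a]
  · intro n o hn ho hS
    have e : pe (n + o) = o := by rw [pe_add, pe_N h hn, pe_o h ho, zero_add]
    have oS : FS o := fun g g2 g4 => by rw [← e, smul_pe, hS g g2 g4]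
    refine ⟨fun g g2 g4 => ?_, ?_⟩
    · have := hS g g2 g4
      rwa [smul_add, oS g g2 g4, add_left_inj] at this
    obtain ⟨z, hz, z0⟩ := fam 0 _ (fb_tr 0 o)
    have zi : ∀ i, i ≠ 4 → tr i o = z i := fun i hi => by
      obtain ⟨s, s2, s4, s0⟩ := r4 i hi
      rw [← s0, ← hz, z0, smul_tr, oS s s2 s4]
    have k := sum h z hz
    rw [Fin.sum_univ_five] at k
    rw [← pe_o h ho, pe, Fin.sum_univ_five, zi 0 (by decide), zi 1 (by decide), zi 2 (by decide),
      zi 3 (by decide), can h k]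
    exact fb_add (fb hz 4) (fb_tr 4 o)
  · intro K hK m hm
    have t : ∀ i, tr i m ∈ K := fun i => K.sum_mem fun g _ => hK g m hm
    exact ⟨_, K.add_mem hm (K.sum_mem fun i _ => t i), n_pe h m, _,
      AddSubgroup.sum_mem _ fun i _ => AddSubgroup.subset_closure ⟨t i, i, fb_tr i m⟩, dk m⟩
  · intro z hz z0 s hs
    rcases sw s with k | k | ⟨i, hi, j, hj, g, k⟩
    · exact Or.inl k
    · exact Or.inr k
    exfalso
    have e1 : ∑ l ∈ s.image (g : S5), z l = 0 := by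
      rw [Finset.sum_image (fun _ _ _ _ e => (g : S5).injective e)]
      simp only [← hz g]
      rw [← Finset.smul_sum, hs, smul_zero]
    rw [k, Finset.sum_insert (fun e => hj (Finset.mem_of_mem_erase e)), ← hs,
      ← Finset.add_sum_erase s z hi, add_left_inj] at e1
    obtain ⟨a, b, b5, a0, a1⟩ := tr2 i j (fun e => hj (e ▸ hi))
    refine z0 (h.fp b (ord5 b5) _ ?_)
    rw [hz, ← a1, ← hz, e1, hz, a0]
  · intro m hm
    obtain ⟨z, hz, z1⟩ := fam 1 _ (fb_tr 1 m)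
    have z2 : z 2 = tr 2 m := by rw [← x0_1, ← hz, z1, smul_tr, hm]
    have z3 : z 3 = tr 3 m := by rw [← x0_2, ← hz, z2, smul_tr, hm]
    refine ⟨tr 0 m + z 0, tr 4 m + z 4, fb_add (fb_tr 0 m) (fb hz 0), fb_add (fb_tr 4 m) (fb hz 4), ?_⟩
    have k := sum h z hz
    rw [Fin.sum_univ_five] at k
    have e := pe_x h hm
    rw [pe, Fin.sum_univ_five, ← z1, ← z2, ← z3] at e
    have k' : z 1 + z 2 + z 3 = z 0 + z 4 := can h (by rw [← k]; abel)
    calc m = tr 0 m + (z 1 + z 2 + z 3) + tr 4 m := by rw [← add_assoc, ← add_assoc, e]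
      _ = _ := by rw [k']; abel
  · intro m hm s s2 s4
    refine ⟨?_, quad h hm s2 s4⟩
    by_cases s1 : s = 1
    · rw [s1, one_smul, h.two]
      exact fun g _ _ => smul_zero g
    · refine quad h (nAdd _ _ hm (nSm s m hm)) s2 s4 s1 ?_
      rw [smul_add, smul_smul, s2, one_smul, add_comm]
  · intro hc m
    obtain ⟨g, hg⟩ := g5
    let f : {m : M // x0 • m = m} × {m : M // x0 • m = m} → M := fun q => q.1.1 + g • q.2.1
    have inj : Function.Injective f := fun q r e => by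
      have e1 : q.1.1 + r.1.1 = g • (q.2.1 + r.2.1) := can h (by
        calc _ = f q + f r := by simp only [f, smul_add]; abel
          _ = 0 := by rw [e, h.two])
      have e2 : q.1.1 + r.1.1 = 0 := h.fp _ (ord5 hg) _ (by
        rw [mul_smul]
        nth_rewrite 1 [e1]
        rw [mul_smul, mul_smul, inv_smul_smul, smul_add x0, q.2.2, r.2.2, ← e1, smul_add, q.1.2,
          r.1.2])
      rw [e2, eq_comm, smul_eq_zero_iff_eq] at e1
      exact Prod.ext (Subtype.ext (can h e2)) (Subtype.ext (can h e1))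
    obtain ⟨q, rfl⟩ := ((Nat.bijective_iff_injective_and_card f).2
      ⟨inj, by rw [Nat.card_prod, ← hc, sq]⟩).2 m
    exact AddSubgroup.add_mem _ (pe_x h q.1.2 ▸ pe_O q.1.1) (oSm g _ (pe_x h q.2.2 ▸ pe_O q.2.1))

end Cfsg.Lib.K35
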