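import Cfsg.Agent.K35.Loc

/-!
# Simple groups of order `2 ^ b * 3 ^ a * 5`: equivariant biadditive maps for `A₅`
-/

set_option autoImplicit false

namespace Cfsg.Lib.K35

open Cfsg Subgroup Cfsg.Lib.Trans Cfsg.Lib.Gold
open Cfsg.Lib.P8 (A5 A6 S5 O2 Om Jt Phi EA SR4 Ch E9 Pj Ty Sec SecOK Mx)
open scoped commutatorElement

universe u

namespace MB

open Equiv

/-- A product of two transpositions. -/
def sw (a b c d : Fin 5) (h : a ≠ b ∧ c ≠ d := by decide) : A5 :=
  ⟨swap a b * swap c d, Perm.mem_alternatingGroup.2 (by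
    rw [map_mul, Perm.sign_swap h.1, Perm.sign_swap h.2]; decide)⟩

theorem sw_eq_1' : type_of% @sw.eq_1 := @sw.eq_1

theorem four : ∀ g : S5, g 4 = 4 → g * g = 1 → Perm.sign g = 1 → g = 1 ∨ g = (sw 0 1 2 3).1 ∨
    g = (sw 0 2 1 3).1 ∨ g = (sw 0 2 1 3).1 * (sw 0 1 2 3).1 := by decide +kernel

theorem tr2 : ∀ i j : Fin 5, i ≠ j → ∃ a b c d : Fin 5, (a ≠ b ∧ c ≠ d) ∧
    (swap a b * swap c d) 4 = i ∧ (swap a b * swap c d) 0 = j := by decide +kernel

theorem tr1 : ∀ i : Fin 5, ∃ a b c d : Fin 5, (a ≠ b ∧ c ≠ d) ∧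
    (swap a b * swap c d) i = 4 := by decide +kernel

theorem fx3 : ∀ i j : Fin 5, ∃ a b c : Fin 5, (a ≠ b ∧ b ≠ c) ∧ (swap a b * swap b c) ^ 3 = 1 ∧
    swap a b * swap b c ≠ 1 ∧ (swap a b * swap b c) i = i ∧ (swap a b * swap b c) j = j := by
  decide +kernel

theorem o3 {g : A5} (h1 : (g : S5) ^ 3 = 1) (h2 : (g : S5) ≠ 1) : orderOf g = 3 :=
  have := Fact.mk Nat.prime_three
  orderOf_eq_prime (Subtype.ext h1) fun e => h2 (congrArg Subtype.val e)

theorem o5 : orderOf (sw 1 2 3 4 * sw 0 1 2 3) = 5 :=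
  have := Fact.mk Nat.prime_five
  orderOf_eq_prime (by decide +kernel) (by decide +kernel)

section One

variable {M : Type u} [AddCommGroup M] [DistribMulAction A5 M]

theorem eq_of (h : MA M) {a b : M} (e : a + b = 0) : a = b := by
  rw [← add_zero a, ← h.m5.two b, ← add_assoc, e, zero_add]

theorem n0 : InN (0 : M) := fun g _ => by simp

theorem fs_of {m : M} (h1 : sw 0 1 2 3 • m = m) (h2 : sw 0 2 1 3 • m = m) : FS m := fun g e e' => by
  rcases four g e' (congrArg Subtype.val e) (Perm.mem_alternatingGroup.1 g.2) with k | k | k | k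
  · rw [show g = 1 from Subtype.ext k, one_smul]
  · rw [show g = _ from Subtype.ext k, h1]
  · rw [show g = _ from Subtype.ext k, h2]
  · rw [show g = sw 0 2 1 3 * sw 0 1 2 3 from Subtype.ext k, mul_smul, h1, h2]

theorem fb_smul {i : Fin 5} {m : M} (h : FB i m) (g : A5) : FB ((g : S5) i) (g • m) := fun k e => by
  have := h (g⁻¹ * k * g) (by
    change ((g : S5)⁻¹ * k * g) i = i
    rw [Perm.mul_apply, Perm.mul_apply, e]; exact (g : S5).symm_apply_apply i)
  rwa [mul_smul, mul_smul, inv_smul_eq_iff] at this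

theorem fam_fb {z : Fin 5 → M} (h : Fam5 z) (i : Fin 5) : FB i (z i) := fun g e => by rw [h, e]

theorem o_fb {i : Fin 5} {m : M} (h : FB i m) : InO m := AddSubgroup.subset_closure ⟨i, h⟩

theorem n_fix (h : MA M) {m : M} (hm : InN m) {x : A5} (o : orderOf x = 3) (e : x • m = m) :
    m = 0 := by
  have := hm x o
  rwa [e, e, h.m5.two, zero_add] at this

theorem five (h : MA M) {m : M} (h1 : sw 1 2 3 4 • m = m) (h2 : sw 0 1 2 3 • m = m) : m = 0 :=
  h.m5.fp _ o5 m (by rw [mul_smul, h2, h1])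

theorem pr (h : MA M) : ∃ p : M →+ M, (∀ m, InN (p m)) ∧ (∀ m, InO (m + p m)) ∧
    ∀ (g : A5) m, p (g • m) = g • p m := by
  choose n o hn ho e using h.dec
  have u : ∀ m n' o', InN n' → InO o' → m = n' + o' → n m = n' := fun m n' o' k1 k2 k3 => by
    refine eq_of h (h.dis _ (h.nAdd _ _ (hn m) k1) ?_)
    have : n m + n' = o m + o' := eq_of h (by
      calc n m + n' + (o m + o') = n m + o m + (n' + o') := by abel
        _ = 0 := by rw [← e, ← k3, h.m5.two])
    rw [this]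
    exact AddSubgroup.add_mem _ (ho m) k2
  refine ⟨AddMonoidHom.mk' n fun a b => u _ _ (o a + o b) (h.nAdd _ _ (hn a) (hn b))
    (AddSubgroup.add_mem _ (ho a) (ho b)) ?_, hn, fun m => ?_,
    fun g m => u _ _ (g • o m) (h.nSm g _ (hn m)) (h.oSm g _ (ho m)) ?_⟩
  · rw [add_add_add_comm, ← e, ← e]
  · have : m + n m = o m := by
      calc m + n m = n m + o m + n m := by rw [← e]
        _ = o m + (n m + n m) := by abel
        _ = o m := by rw [h.m5.two, add_zero]
    exact this ▸ ho m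
  · exact (congrArg (g • ·) (e m)).trans (smul_add g _ _)

theorem trS (h : MA M) {z : Fin 5 → M} (hz : Fam5 z) :
    z 4 = z 0 + sw 0 1 2 3 • z 0 + sw 0 2 1 3 • (z 0 + sw 0 1 2 3 • z 0) := by
  have := h.sum z hz
  rw [Fin.sum_univ_five] at this
  rw [← eq_of h this, smul_add, hz, hz, hz, ← add_assoc]
  rfl

theorem fam0 {z : Fin 5 → M} (hz : Fam5 z) (e : z 4 = 0) : z 0 = 0 := by
  have := hz (sw 0 4 1 2) 4
  rw [e, smul_zero] at this
  exact this.symm

end One

variable {A B C : Type u} [AddCommGroup A] [AddCommGroup B] [AddCommGroup C]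
  [DistribMulAction A5 A] [DistribMulAction A5 B] [DistribMulAction A5 C] {β : A →+ B →+ C}

theorem flip (e : Eqv A5 β) : Eqv A5 β.flip := fun g b a => e g a b

theorem nn' (hA : MA A) (hB : MA B) (hC : MA C) (e : Eqv A5 β) {a : A} {b : B} (ha : InN a)
    (hb : InN b) : InO (β a b) := by
  obtain ⟨p, p1, p2, p3⟩ := pr hC
  have k1 : ∀ x : A5, orderOf x = 3 → ∀ a b, InN a → InN b →
      p (β (x • a) b) = p (β a (x • b)) := fun x o a b ha hb => by
    have e1 := p1 (β a b) x o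
    rw [← p3, ← p3, ← e, ← e, ← eq_of hA (ha x o), ← eq_of hB (hb x o)] at e1
    simp only [map_add, AddMonoidHom.add_apply] at e1
    refine eq_of hC ?_
    calc _ = p (β a b) + p (β a b) + (p (β (x • a) (x • b)) + p (β (x • a) (x • b))) +
          (p (β (x • a) b) + p (β a (x • b))) := by rw [hC.m5.two, hC.m5.two, zero_add, zero_add]
      _ = _ := by rw [← e1]; abel
  have k2 : ∀ x : A5, orderOf x = 3 → ∀ a, InN a → x • p (β a b) = p (β (x⁻¹ • a) b) :=
    fun x o a ha => by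
    have e3 : x⁻¹ = x * x := inv_eq_of_mul_eq_one_right (by
      rw [← pow_three, ← o, pow_orderOf_eq_one])
    rw [← p3, ← e, ← k1 x o _ _ (hA.nSm x a ha) hb, e3, mul_smul]
  have k3 : ∀ x y : A5, orderOf x = 3 → orderOf y = 3 → orderOf (x * y) = 3 →
      ((y * x)⁻¹ * (x * y)) • p (β a b) = p (β a b) := fun x y o1 o2 o3 => by
    rw [mul_smul, inv_smul_eq_iff, k2 _ o3 a ha, mul_smul, k2 x o1 a ha,
      k2 y o2 _ (hA.nSm _ a ha), mul_inv_rev, mul_smul]
  have k4 := k3 (sw 1 2 2 3) (sw 2 4 4 3) (o3 (by decide) (by decide)) (o3 (by decide) (by decide))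
    (o3 (by decide) (by decide))
  have k5 := k3 (sw 0 1 1 2) (sw 1 3 3 2) (o3 (by decide) (by decide)) (o3 (by decide) (by decide))
    (o3 (by decide) (by decide))
  rw [show (sw 2 4 4 3 * sw 1 2 2 3)⁻¹ * (sw 1 2 2 3 * sw 2 4 4 3) = sw 1 2 3 4 by
    decide +kernel] at k4
  rw [show (sw 1 3 3 2 * sw 0 1 1 2)⁻¹ * (sw 0 1 1 2 * sw 1 3 3 2) = sw 0 1 2 3 by
    decide +kernel] at k5
  have := p2 (β a b)
  rwa [five hC k4 k5, add_zero] at this

theorem oo' (hC : MA C) (e : Eqv A5 β) {a : A} {b : B} (ha : InO a) (hb : InO b) :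
    InO (β a b) := by
  obtain ⟨p, p1, p2, p3⟩ := pr hC
  induction ha using AddSubgroup.closure_induction with
  | zero => rw [map_zero]; exact AddSubgroup.zero_mem _
  | add _ _ _ _ h1 h2 => rw [map_add]; exact AddSubgroup.add_mem _ h1 h2
  | neg _ _ h1 => rw [map_neg]; exact AddSubgroup.neg_mem _ h1
  | mem a ha =>
    induction hb using AddSubgroup.closure_induction with
    | zero => rw [map_zero]; exact AddSubgroup.zero_mem _
    | add _ _ _ _ h1 h2 => rw [map_add]; exact AddSubgroup.add_mem _ h1 h2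
    | neg _ _ h1 => rw [map_neg]; exact AddSubgroup.neg_mem _ h1
    | mem b hb =>
      obtain ⟨i, hi⟩ := ha
      obtain ⟨j, hj⟩ := hb
      obtain ⟨c, d, f, h, h1, h2, h3, h4⟩ := fx3 i j
      have := p2 (β a b)
      rwa [n_fix hC (p1 _) (o3 (g := sw c d d f h) h1 h2) (by
        rw [← p3, ← e, hi _ h3, hj _ h4]), add_zero] at this

theorem on4 (hB : MA B) (hC : MA C) (e : Eqv A5 β) {a : A} {b : B} (ha : FB 4 a) (hb : InN b) :
    InN (β a b) := by
  obtain ⟨p, p1, p2, p3⟩ := pr hC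
  have q1 : ∀ g : A5, (g : S5) 4 = 4 → ∀ b, g • (β a b + p (β a b)) =
      β a (g • b) + p (β a (g • b)) := fun g hg b => by
    rw [smul_add, ← p3, ← e, ha g hg]
  have q2 : ∀ b b', β a b + p (β a b) + (β a b' + p (β a b')) =
      β a (b + b') + p (β a (b + b')) := fun b b' => by
    rw [map_add, map_add, add_add_add_comm]
  have k1 : ∀ b, InN b → FS (β a b + p (β a b)) → β a b + p (β a b) = 0 := fun b hb k => by
    have o : orderOf x0 = 3 := o3 (by decide) (by decide)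
    have f := (hC.decS 0 _ n0 (p2 _) (by rwa [zero_add])).2 x0 (by decide)
    have e1 : β a b + p (β a b) + x0 • (β a b + p (β a b)) + x0 • x0 • (β a b + p (β a b)) = 0 := by
      rw [q1 x0 (by decide), q1 x0 (by decide), q2, q2, hb x0 o, map_zero, map_zero, add_zero]
    rwa [f, f, hC.m5.two, zero_add] at e1
  have sq : ∀ s : A5, s * s = 1 → ∀ v : C, s • (v + s • v) = v + s • v := fun s h v => by
    rw [smul_add, ← mul_smul, h, one_smul, add_comm]
  have k2 : ∀ b, InN b → sw 0 1 2 3 • (β a b + p (β a b)) = β a b + p (β a b) →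
      β a b + p (β a b) = 0 := fun b hb k => by
    refine k1 b hb (fs_of k (eq_of hC ?_).symm)
    have := k1 _ (hB.nAdd _ _ hb (hB.nSm (sw 0 2 1 3) b hb))
    rw [← q2, ← q1 _ (by decide)] at this
    refine this (fs_of ?_ (sq _ (by decide) _))
    rw [smul_add _ _ (sw 0 2 1 3 • _), ← mul_smul,
      show sw 0 1 2 3 * sw 0 2 1 3 = sw 0 2 1 3 * sw 0 1 2 3 by decide, mul_smul, k]
  have := k2 _ (hB.nAdd _ _ hb (hB.nSm (sw 0 1 2 3) b hb))
  rw [← q2, ← q1 _ (by decide)] at this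
  rw [eq_of hC (k2 b hb (eq_of hC (this (sq _ (by decide) _))).symm)]
  exact p1 _

theorem on' (hB : MA B) (hC : MA C) (e : Eqv A5 β) {a : A} {b : B} (ha : InO a) (hb : InN b) :
    InN (β a b) := by
  induction ha using AddSubgroup.closure_induction with
  | zero => rw [map_zero]; exact n0
  | add _ _ _ _ h1 h2 => rw [map_add]; exact hC.nAdd _ _ h1 h2
  | neg _ _ h1 =>
    rwa [map_neg, AddMonoidHom.neg_apply, neg_eq_of_add_eq_zero_left (hC.m5.two _)]
  | mem a ha =>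
    obtain ⟨i, hi⟩ := ha
    obtain ⟨c, d, f, k, h, h1⟩ := tr1 i
    have h2 := fb_smul hi (sw c d f k h)
    rw [show ((sw c d f k h : A5) : S5) i = 4 from h1] at h2
    have := hC.nSm (sw c d f k h)⁻¹ _ (on4 hB hC e h2 (hB.nSm (sw c d f k h) b hb))
    rwa [e, inv_smul_smul] at this

theorem key (hA : MA A) (hB : MA B) (hC : MA C) (e : Eqv A5 β) {a : A} {b : B} (ha : FB 4 a)
    (hb : InN b) (hs : FS b) : β a b = 0 := by
  obtain ⟨z, hz, rfl⟩ := hA.fam 4 a ha
  have f : ∀ s : A5, s * s = 1 → (s : S5) 4 = 4 → ∀ a, β (s • a) b = s • β a b :=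
    fun s h1 h2 a => by rw [← e, hs s h1 h2]
  have := (hC.quad _ (on' hB hC e (o_fb (fam_fb hz 0)) hb) (sw 0 1 2 3) (by decide) (by decide)).1
    (sw 0 2 1 3) (by decide) (by decide)
  rw [trS hA hz, map_add, AddMonoidHom.add_apply, f _ (by decide) (by decide), map_add,
    AddMonoidHom.add_apply, f _ (by decide) (by decide), this, hC.m5.two]

theorem o4' (hA : MA A) (hB : MA B) (hC : MA C) (e : Eqv A5 β) {a : A} {b : B} (ha : FB 4 a)
    (hb : InN b) : FS (β a b) := fun s h1 h2 => by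
  have := key hA hB hC e ha (hB.nAdd _ _ hb (hB.nSm s b hb)) (hB.quad b hb s h1 h2).1
  rw [map_add] at this
  rw [← e, ha s h2, ← eq_of hC this]

theorem n4' (hA : MA A) (hB : MA B) (hC : MA C) (e : Eqv A5 β) {a : A} {z : Fin 5 → B}
    (hs : FS a) (ha : InN a) (hz : Fam5 z) (h : ∀ i, FS (β a (z i))) (i : Fin 5) :
    β a (z i) = 0 := by
  have k0 : β a (z 0) = 0 := by
    refine five hC ?_ (h 0 _ (by decide) (by decide))
    have g1 := hA.nSm (sw 0 4 1 2) a ha
    have := key hB hA hC (flip e) (fam_fb hz 4) (hA.nAdd _ _ g1 (hA.nSm (sw 1 2 3 0) _ g1))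
      (hA.quad _ g1 _ (by decide) (by decide)).1
    rw [← mul_smul, show sw 1 2 3 0 * sw 0 4 1 2 = sw 0 4 1 2 * sw 1 2 3 4 by decide, mul_smul,
      ← smul_add, AddMonoidHom.flip_apply, show z 4 = sw 0 4 1 2 • z 0 from (hz (sw 0 4 1 2) 0).symm, e,
      smul_eq_zero_iff_eq, map_add, AddMonoidHom.add_apply] at this
    rw [← e, hz]
    exact (eq_of hC this).symm
  have k : ∀ s : A5, s * s = 1 → (s : S5) 4 = 4 → β a (z ((s : S5) 0)) = 0 := fun s h1 h2 => by
    rw [← hz, ← hs s h1 h2, e, k0, smul_zero]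
  fin_cases i
  exacts [k0, k (sw 0 1 2 3) (by decide) (by decide), k (sw 0 2 1 3) (by decide) (by decide),
    k (sw 0 3 1 2) (by decide) (by decide), key hB hA hC (flip e) (fam_fb hz 4) ha hs]

theorem oo4 (hB : MA B) (hC : MA C) (e : Eqv A5 β) {z : Fin 5 → A} {z' : Fin 5 → B}
    (hz : Fam5 z) (hz' : Fam5 z') (h : β (z 4) (z' 4) = 0) : FB 4 (β (z 4) (z' 0)) := by
  have f : ∀ s : A5, (s : S5) 4 = 4 → ∀ b, β (z 4) (s • b) = s • β (z 4) b :=
    fun s h2 b => by rw [← e, fam_fb hz 4 s h2]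
  obtain ⟨p, q, hp, hq, k⟩ := hC.cx (β (z 4) (z' 0)) (by
    rw [← f _ (by decide), fam_fb hz' 0 _ (by decide)])
  obtain ⟨y, hy, rfl⟩ := hC.fam 0 p hp
  rw [trS hB hz', map_add, f _ (by decide), map_add, f _ (by decide), k, smul_add,
    hq _ (by decide), add_add_add_comm, hC.m5.two, add_zero, ← trS hC hy] at h
  rwa [k, fam0 hy h, zero_add]

theorem ooo' (hA : MA A) (hB : MA B) (hC : MA C) (e : Eqv A5 β) {z : Fin 5 → A} {z' : Fin 5 → B}
    (hz : Fam5 z) (hz' : Fam5 z') (h : β (z 4) (z' 4) = 0) (i j : Fin 5) : β (z i) (z' j) = 0 := by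
  by_cases ij : i = j
  · subst ij
    obtain ⟨c, d, f, k, h0, h1⟩ := tr1 i
    have := e (sw c d f k h0) (z i) (z' i)
    rw [hz, hz', show ((sw c d f k h0 : A5) : S5) i = 4 from h1, h] at this
    exact (smul_eq_zero_iff_eq _).1 this.symm
  have k1 := fb_smul (oo4 hA hC (flip e) hz' hz h) (sw 0 4 1 2)
  rw [AddMonoidHom.flip_apply, ← e, hz, hz'] at k1
  have k2 : β (z 4) (z' 0) = 0 :=
    five hC (k1 _ (by decide)) (oo4 hB hC e hz hz' h _ (by decide))
  obtain ⟨c, d, f, k, h0, h1, h2⟩ := tr2 i j ij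
  have := e (sw c d f k h0) (z 4) (z' 0)
  rwa [hz, hz', show ((sw c d f k h0 : A5) : S5) 4 = i from h1,
    show ((sw c d f k h0 : A5) : S5) 0 = j from h2, k2, smul_zero] at this

end MB

theorem mb : StMB.{u} := fun _ _ _ _ _ _ _ _ _ _ hA hB hC e =>
  ⟨fun _ _ => MB.nn' hA hB hC e, fun _ _ => MB.on' hB hC e,
    fun _ _ ha hb => MB.on' hA hC (MB.flip e) hb ha, fun _ _ => MB.oo' hC e,
    fun _ _ => MB.o4' hA hB hC e, fun _ _ => MB.n4' hA hB hC e, fun _ _ => MB.ooo' hA hB hC e⟩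

end Cfsg.Lib.K35
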