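import Cfsg.Agent.K35.Loc
import Cfsg.Agent.AltC.Bad

/-! Simple groups of order `2 ^ b * 3 ^ a * 5`: the outer automorphism of S6. -/

set_option autoImplicit false
set_option linter.unusedSectionVars false
set_option linter.unusedVariables false

namespace Cfsg.Lib.K35

open Cfsg Subgroup Cfsg.Lib.Trans Cfsg.Lib.Gold
open Cfsg.Lib.P8 (A5 A6 S5 O2 Om Jt Phi EA SR4 Ch E9 Pj Ty Sec SecOK Mx)
open scoped commutatorElement

universe u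

namespace Out
open Equiv

theorem c3 : ∀ σ : S6, σ * σ * σ = 1 → σ ≠ 1 → (∃ i, σ i = i) →
    ∃ a b c : Fin 6, a ≠ b ∧ b ≠ c ∧ σ = swap a b * swap b c := by decide +kernel

theorem cj : ∀ a b : Fin 6, a ≠ b → ∃ g : S6, swap a b = g * swap 4 5 * g⁻¹ := by decide +kernel

theorem tt : ∀ g : S6, (g * (swap 0 1 * swap 2 3 * swap 4 5) * g⁻¹) *
    (g * (swap 0 1 * swap 2 3 * swap 4 5) * g⁻¹) = 1 ∧
      ∀ i, (g * (swap 0 1 * swap 2 3 * swap 4 5) * g⁻¹ : S6) i ≠ i := by decide +kernel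

theorem pr : ∀ x : S6, (x * x = 1 ∧ ∀ i, x i ≠ i) → ∀ y : S6, (y * y = 1 ∧ ∀ i, y i ≠ i) →
    x * y * (x * y) * (x * y) = 1 → x * y ≠ 1 → ∀ i, (x * y) i ≠ i := by decide +kernel

theorem cnt1 : (Finset.univ.filter fun σ : S6 => σ * σ * σ = 1 ∧ σ ≠ 1 ∧ ∃ i, σ i = i).card = 40 := by
  decide +kernel

theorem cnt2 : (Finset.univ.filter fun σ : S6 => σ * σ * σ = 1 ∧ σ ≠ 1 ∧ ∀ i, σ i ≠ i).card = 40 := by
  decide +kernel

end Out

open Out Equiv in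
theorem out : StOut := by
  obtain ⟨β, hb, -, h45⟩ := Cfsg.Lib.AltZ.exists_out6
  have h3 : ∀ σ : S6, σ * σ * σ = 1 → σ ≠ 1 → β σ * β σ * β σ = 1 ∧ β σ ≠ 1 := fun σ h1 h2 =>
    ⟨by rw [← map_mul, ← map_mul, h1, map_one], fun e => h2 (hb.1 (e.trans (map_one β).symm))⟩
  have hs : ∀ a b : Fin 6, a ≠ b → β (swap a b) * β (swap a b) = 1 ∧ ∀ i, β (swap a b) i ≠ i := by
    intro a b hab
    obtain ⟨g, hg⟩ := Out.cj a b hab
    rw [hg, map_mul, map_mul, map_inv, h45]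
    exact tt _
  have h1 : ∀ σ : S6, σ * σ * σ = 1 → σ ≠ 1 → (∃ i, σ i = i) → ∀ i, β σ i ≠ i := by
    intro σ e1 e2 e3
    obtain ⟨k1, k2⟩ := h3 σ e1 e2
    obtain ⟨a, b, c, hab, hbc, rfl⟩ := c3 σ e1 e2 e3
    rw [map_mul] at k1 k2 ⊢
    exact pr _ (hs a b hab) _ (hs b c hbc) k1 k2
  refine ⟨MulEquiv.ofBijective β hb, fun σ ho => ?_⟩
  have e1 : σ * σ * σ = 1 := by rw [← pow_three', ← ho, pow_orderOf_eq_one]
  have e2 : σ ≠ 1 := by rintro rfl; simp at ho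
  refine ⟨h1 σ e1 e2, fun h => ?_⟩
  obtain ⟨k1, k2⟩ := h3 σ e1 e2
  obtain ⟨τ, hτ, e⟩ := Finset.surj_on_of_inj_on_of_card_le
    (s := Finset.univ.filter fun σ : S6 => σ * σ * σ = 1 ∧ σ ≠ 1 ∧ ∃ i, σ i = i)
    (t := Finset.univ.filter fun σ : S6 => σ * σ * σ = 1 ∧ σ ≠ 1 ∧ ∀ i, σ i ≠ i)
    (fun a _ => β a) (fun a ha => by
      simp only [Finset.mem_filter, Finset.mem_univ, true_and] at ha ⊢
      exact ⟨(h3 a ha.1 ha.2.1).1, (h3 a ha.1 ha.2.1).2, h1 a ha.1 ha.2.1 ha.2.2⟩)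
    (fun a b _ _ e => hb.1 e) (by rw [cnt1, cnt2]) (β σ) (by
      simp only [Finset.mem_filter, Finset.mem_univ, true_and]
      exact ⟨k1, k2, h⟩)
  simp only [Finset.mem_filter, Finset.mem_univ, true_and] at hτ
  rw [hb.1 e]
  exact hτ.2.2

end Cfsg.Lib.K35
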