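import Cfsg.Agent.K35.P4

/-!
# Degrees `2 ^ i` and `q`
-/

set_option autoImplicit false

namespace Cfsg.Lib.K35

open Cfsg Subgroup Cfsg.Lib.Char

universe u

theorem p1 (h1 : StR2.{u}) (h2 : StDZ.{u}) (hv : StVan.{u}) (h3 : StP1a.{u}) (h4 : StP1b.{u})
    (h5 : StL3223.{u}) : StP1.{u} := by
  intro G _ _ _ q hq h7 hO hF χ ψ x i hB hx
  have hG := P4.nc hO
  obtain ⟨a, b, hn⟩ := id hO
  have : Fact q.Prime := ⟨hq⟩
  have : Fact (Nat.Prime 3) := ⟨Nat.prime_three⟩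
  have x2 := hB.two_le
  obtain ⟨η, θ, σ, e1, e2, e3, e5, e6, e7, e8, e9, e0⟩ : ∃ (η θ : IrrCharacter G) (σ : ℤ),
      (η : G → ℂ) ≠ (fun _ => 1) ∧ (η : G → ℂ) 1 = q ∧ Rat (η : G → ℂ) ∧
      (θ : G → ℂ) ≠ (fun _ => 1) ∧ (θ : G → ℂ) 1 = (2 ^ i : ℕ) ∧ 2 ^ i ∣ Nat.card G ∧
      (σ = 1 ∨ σ = -1) ∧ (∀ g, 3 ∣ orderOf g → (θ : G → ℂ) g = σ) ∧ x * (x + 1) = 2 ^ i * q := by
    rcases hx with ⟨e, rfl⟩ | ⟨rfl, e⟩
    · exact ⟨ψ, χ, 1, hB.ne₂, by simpa using hB.deg₂, hB.rat₂, hB.ne₁, e ▸ hB.deg₁, e ▸ hB.dvd₁,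
        .inl rfl, fun g hg => by simpa using (hB.sing g hg).1, by rw [← e]⟩
    · exact ⟨χ, ψ, -1, hB.ne₁, hB.deg₁, hB.rat₁, hB.ne₂, by rw [← e]; simpa using hB.deg₂,
        e ▸ hB.dvd₂, .inr rfl, fun g hg => by simpa using (hB.sing g hg).2, by rw [← e, mul_comm]⟩
  have i0 : i ≠ 0 := by
    rintro rfl
    omega
  have d2 : 2 ∣ Nat.card G := (dvd_pow_self 2 i0).trans e7
  have n2 := (h1 G η q q e1 e2 e3 hq (by omega)).2 (by omega)
  obtain ⟨S⟩ : Nonempty (Sylow 2 G) := inferInstance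
  obtain ⟨s, hs, hsS, hSs⟩ : ∃ s : G, orderOf s = 2 ∧ s ∈ (S : Subgroup G) ∧
      (S : Subgroup G) ≤ centralizer {s} := by
    have h2 : 2 ∣ Nat.card S := S.dvd_card_of_dvd_card d2
    have : Nontrivial S := Finite.one_lt_card_iff_nontrivial.1 (Nat.le_of_dvd Nat.card_pos h2)
    have := S.isPGroup'.center_nontrivial
    obtain ⟨k, k0, hk⟩ := (S.isPGroup'.to_subgroup (center S)).nontrivial_iff_card.1 this
    obtain ⟨⟨⟨z, z1⟩, z2⟩, h3⟩ := exists_prime_orderOf_dvd_card' (G := center S) 2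
      (hk ▸ dvd_pow_self 2 k0.ne')
    rw [orderOf_mk, orderOf_mk] at h3
    exact ⟨z, h3, z1, fun x hx => mem_centralizer_singleton_iff.2
      (congrArg Subtype.val (mem_center_iff.1 z2 ⟨x, hx⟩))⟩
  have s0 : (θ : G → ℂ) s = 0 := (hv G hG θ e5).1 _ s e6 (fun e => by simp [e] at hs)
    (Nat.Coprime.pow_right i (Nat.prime_two.coprime_iff_not_dvd.2 fun e =>
      S.not_dvd_index (e.trans (index_dvd_of_le hSs))).symm)
  have k3 : ¬ 3 ∣ Nat.card (centralizer ({s} : Set G)) := fun h => by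
    obtain ⟨⟨g, g1⟩, g2⟩ := exists_prime_orderOf_dvd_card' 3 h
    rw [orderOf_mk] at g2
    have g3 := mem_centralizer_singleton_iff.1 g1
    have := (hv G hG θ e5).2.1 3 g s σ 0 Nat.prime_three g2 g3 (e9 _ (by
      rw [Commute.orderOf_mul_eq_mul_orderOf_of_coprime g3 (by rw [g2, hs]; norm_num), g2]
      exact dvd_mul_right _ _)) (by simpa using s0)
    omega
  have kq : ¬ q ∣ Nat.card (centralizer ({s} : Set G)) := fun h => by
    obtain ⟨⟨g, g1⟩, g2⟩ := exists_prime_orderOf_dvd_card' q h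
    rw [orderOf_mk] at g2
    have g3 := orderOf_dvd_of_mem_zpowers ((h2 G hG η q hq e2 n2 g g2).le
      (mem_centralizer_singleton_iff.2 (mem_centralizer_singleton_iff.1 g1).symm))
    rw [hs, g2, Nat.prime_dvd_prime_iff_eq Nat.prime_two hq] at g3
    omega
  have k5 := h4 G q hq h7 hO (h3 G χ ψ x hB (hn ▸ P1b.not_sq hq h7 (.inl rfl))
    ⟨2 ^ a * 3 * q ^ b, by rw [hn]; ring⟩ (hn ▸ P1b.not_sq hq h7 (.inr rfl)) (fun e => by
      rw [e0, Nat.prime_five.dvd_mul, Nat.prime_dvd_prime_iff_eq Nat.prime_five hq] at e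
      rcases e with e | e
      · have := Nat.prime_five.dvd_of_dvd_pow e
        omega
      · omega) d2) s ⟨hs, S, hsS, fun y hy => mem_centralizer_singleton_iff.1 (hSs hy)⟩
  refine h5 G hG hF s S hs hSs ((S.is_maximal' (IsPGroup.iff_card.2
    ⟨_, Nat.eq_prime_pow_of_unique_prime_dvd Nat.card_pos.ne' fun {r} hr h => ?_⟩) hSs).le.trans
      le_normalizer)
  have h6 := h.trans (card_subgroup_dvd_card _)
  rw [hn, hr.dvd_mul, hr.dvd_mul, hr.dvd_mul] at h6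
  rcases h6 with ((h6 | h6) | h6) | h6
  · exact (Nat.prime_dvd_prime_iff_eq hr Nat.prime_two).1 (hr.dvd_of_dvd_pow h6)
  · exact (k3 ((Nat.prime_dvd_prime_iff_eq hr Nat.prime_three).1 h6 ▸ h)).elim
  · exact (k5 ((Nat.prime_dvd_prime_iff_eq hr Nat.prime_five).1 h6 ▸ h)).elim
  · exact (kq ((Nat.prime_dvd_prime_iff_eq hr hq).1 (hr.dvd_of_dvd_pow h6) ▸ h)).elim

end Cfsg.Lib.K35
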