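import Cfsg.Agent.K35.Defs
import Cfsg.Agent.Spor.MoIT
import Cfsg.Agent.PrimeOne.DegP

/-!
# Counting pairs of involutions: an element of order fifteen
-/

set_option autoImplicit false

namespace Cfsg.Lib.K35

open Cfsg Subgroup Cfsg.Lib.Char Cfsg.Lib.PrimeOne Cfsg.Lib.Block Cfsg.Lib.Block.Princ
open Cfsg.Lib.Spor.Mo

universe u

namespace P1a

theorem num {A r n : ℕ} (hA : A ≠ 0) (hr : ¬ 5 ∣ r) (h : A ^ 2 = 5 * r * n ^ 2) : False := by
  have : Fact (Nat.Prime 5) := ⟨Nat.prime_five⟩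
  have h0 : 5 * r * n ^ 2 ≠ 0 := h ▸ pow_ne_zero 2 hA
  have h1 := left_ne_zero_of_mul h0
  have h2 := right_ne_zero_of_mul h0
  have h3 := congrArg (padicValNat 5) h
  rw [padicValNat.pow, padicValNat.mul h1 h2, padicValNat.mul (by norm_num)
    (right_ne_zero_of_mul h1), padicValNat.pow, padicValNat_self,
    padicValNat.eq_zero_of_not_dvd hr] at h3
  omega

end P1a

theorem p1a : StP1a.{u} := by
  intro G _ _ _ χ ψ x h h9 h5 h25 hx h2
  classical
  have := Fintype.ofFinite G
  have : Fact (Nat.Prime 3) := ⟨Nat.prime_three⟩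
  have : Fact (Nat.Prime 5) := ⟨Nat.prime_five⟩
  have hf : (3 : ℂ) • (fun g : G => if 3 ∣ orderOf g then (1 : ℂ) else 0) =
      (triv G : G → ℂ) + χ - ψ := funext fun g => by
    simp only [Pi.smul_apply, Pi.sub_apply, Pi.add_apply, triv_apply, smul_eq_mul]
    split_ifs with hg
    · rw [(h.sing g hg).1, (h.sing g hg).2]; norm_num
    · rw [h.reg g hg, mul_zero]
  have h3 : 3 ∣ Nat.card G := by
    by_contra h3
    have h4 := congrArg (classInner · (triv G : G → ℂ)) hf
    simp only [classInner_sub_left, classInner_add_left, classInner_irr, if_true,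
      show ∀ g : G, ¬ 3 ∣ orderOf g from fun g hg => h3 (hg.trans (orderOf_dvd_natCard g)),
      if_false, show χ ≠ triv G from fun e => h.ne₁ (eq_triv_iff.1 e),
      show ψ ≠ triv G from fun e => h.ne₂ (eq_triv_iff.1 e)] at h4
    simp [classInner] at h4
  obtain ⟨P⟩ : Nonempty (Sylow 3 G) := inferInstance
  have hP := PS.card_sylow_eq h3 h9 P
  obtain ⟨⟨y, hyP⟩, hy⟩ := exists_prime_orderOf_dvd_card' (G := P) 3 hP.symm.dvd
  rw [orderOf_mk] at hy
  by_cases hc : 5 ∣ Nat.card (centralizer ((P : Subgroup G) : Set G))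
  · obtain ⟨⟨z, hzP⟩, hz⟩ := exists_prime_orderOf_dvd_card' 5 hc
    rw [orderOf_mk] at hz
    exact ⟨y * z, by
      rw [Commute.orderOf_mul_eq_mul_orderOf_of_coprime (mem_centralizer_iff.1 hzP y hyP)
        (by rw [hy, hz]; norm_num), hy, hz]⟩
  exfalso
  obtain ⟨s, hs⟩ := exists_prime_orderOf_dvd_card' (G := G) 2 h2
  have hs2 : s * s = 1 := by rw [← sq, ← hs, pow_orderOf_eq_one]
  have h1 := pairSum_singular P hP (by norm_num) hs2 hs2 hy
  obtain ⟨c, hc1⟩ := h.rat₁ s
  have hc2 : (ψ : G → ℂ) s = 1 + c := by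
    rw [← hc1]; linear_combination -h.reg s (by rw [hs]; norm_num)
  have hc3 : c ≠ x := fun e => by
    have := χ.2.eq_one_of_apply_eq_of_isSimpleGroup h.ne₁ (g := s)
      (by rw [hc1, h.deg₁, e, Int.cast_natCast])
    rw [this, orderOf_one] at hs
    omega
  rw [← pairSum_smul, Nat.cast_ofNat, hf, pairSum_sub, pairSum_add, pairSum_irr s s (triv G).2,
    pairSum_irr s s χ.2, pairSum_irr s s ψ.2, hc1, hc2, h.deg₁, h.deg₂] at h1
  have h6 := card_mul_index (centralizer ((P : Subgroup G) : Set G))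
  have h7 := (Nat.dvd_prime Nat.prime_two).1 (PS.relIndex_dvd P hP)
  rw [index_centralizer] at h6
  have h8 : Nat.card (Sylow 3 G) ∣ Nat.card G := h6 ▸ (dvd_mul_left _ _).mul_left _
  obtain ⟨r, hr⟩ : 5 ∣ Nat.card (Sylow 3 G) := by
    rw [← h6] at h5
    have := ((Nat.Prime.dvd_mul Nat.prime_five).1 h5).resolve_left hc
    rcases h7 with e | e <;> rw [e] at this <;> omega
  have k0 : (centralizer ({s} : Set G)).index ≠ 0 := index_ne_zero_of_finite
  generalize (centralizer ({s} : Set G)).index = K at h1 k0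
  generalize (invSet s y).card = n at h1
  rw [hr] at h1 h8
  have x0 : (x : ℂ) ≠ 0 := Nat.cast_ne_zero.2 (by have := h.two_le; omega)
  have x1 : (x : ℂ) + 1 ≠ 0 := by exact_mod_cast Nat.succ_ne_zero x
  refine P1a.num (A := K * (c - x).natAbs) (r := 2 * r * (x * (x + 1))) (n := n)
    (mul_ne_zero k0 (by omega)) (fun h10 => ?_) ?_
  · rcases (Nat.Prime.dvd_mul Nat.prime_five).1 h10 with h11 | h11
    · exact h25 (Dvd.dvd.trans (by omega) h8)
    · exact hx h11
  · zify
    rw [mul_pow, sq_abs]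
    apply Int.cast_injective (α := ℂ)
    simp only [triv_apply] at h1
    push_cast at h1 ⊢
    field_simp at h1
    linear_combination h1

end Cfsg.Lib.K35
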