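import Cfsg.Agent.K35.Defs
import Cfsg.Agent.PrimeOne.DegP
import Cfsg.Agent.Block.DefectNum
import Cfsg.Agent.Block.PrimeSylow

/-!
# The principal 5-block: a 2-central involution centralizes no element of order five
-/

set_option autoImplicit false

namespace Cfsg.Lib.K35

open Cfsg Subgroup Cfsg.Lib.Char Cfsg.Lib.PrimeOne Cfsg.Lib.Block Cfsg.Lib.Block.Princ

universe u

namespace P1b

variable {G : Type u} [Group G] [Finite G]

theorem dvd_sub {p : ℕ} [hp : Fact p.Prime] {x y : G} (hx : orderOf x = p) (hy : ¬ p ∣ orderOf y)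
    (h : Commute y x) {Ψ : G → ℂ} (hΨ : IsCharacter G Ψ) {a σ : ℤ} (ha : Ψ y = a)
    (hσ : ∀ g, p ∣ orderOf g → Ψ g = σ) : (p : ℤ) ∣ a - σ := by
  classical
  have := Fintype.ofFinite (zpowers x)
  have hP : Nat.card (zpowers x) = p := by rw [Nat.card_zpowers, hx]
  have h1 := isIntegral_avg_char hΨ (x := y) (P := zpowers x)
    (zpowers_le.2 (mem_centralizer_singleton_iff.2 h.symm))
  rw [← Finset.add_sum_erase _ _ (Finset.mem_univ 1), Finset.sum_congr rfl fun u hu => hσ _ ?_,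
    Finset.sum_const, Finset.card_erase_of_mem (Finset.mem_univ _), Finset.card_univ,
    ← Nat.card_eq_fintype_card, hP, nsmul_eq_mul, Nat.cast_sub hp.out.one_le, OneMemClass.coe_one,
    mul_one, ha] at h1
  · obtain ⟨k, hk⟩ := int_dvd_of_isIntegral_div (a := a + (p - 1) * σ) (b := p)
      (Nat.cast_ne_zero.2 hp.out.ne_zero) (by simpa [div_eq_inv_mul] using h1)
    exact ⟨k - σ, by linarith⟩
  have h5 := PS.orderOf_eq_of_card hP u.2 (by simpa using hu)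
  refine (dvd_of_eq ?_).trans (orderOf_pow_dvd (orderOf y))
  obtain ⟨k, hk⟩ := u.2
  rw [(show Commute y u from hk ▸ h.zpow_right k).mul_pow, pow_orderOf_eq_one, one_mul,
    Nat.Coprime.orderOf_pow, h5]
  rwa [h5, hp.out.coprime_iff_not_dvd]

theorem not_sq {a b q p : ℕ} (hq : q.Prime) (h7 : 7 ≤ q) (hp : p = 3 ∨ p = 5) :
    ¬ p ^ 2 ∣ 2 ^ a * 3 * 5 * q ^ b := fun h => by
  have h0 : p.Prime := by rcases hp with rfl | rfl <;> norm_num
  have h1 := ((Nat.coprime_primes h0 hq).2 (by omega)).pow 2 b |>.dvd_of_dvd_mul_right h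
  rw [mul_assoc] at h1
  have h2 := ((Nat.coprime_primes h0 Nat.prime_two).2 (by omega)).pow 2 a |>.dvd_of_dvd_mul_left h1
  rcases hp with rfl | rfl <;> omega

end P1b

theorem p1b (hv : StVan.{u}) : StP1b.{u} := by
  rintro G _ _ _ q hq h7 ⟨a, b, hn⟩ ⟨w, hw⟩ s ⟨hs, S, -, hS⟩ h5
  classical
  have : Fact (Nat.Prime 5) := ⟨Nat.prime_five⟩
  have hG : ¬ IsMulCommutative G := fun h => by
    let _ : CommGroup G := { (inferInstance : Group G) with mul_comm := h.is_comm.comm }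
    have h1 := orderOf_dvd_natCard w
    rcases (Nat.dvd_prime IsSimpleGroup.prime_card).1 h1 with e | e
    · omega
    · have := IsSimpleGroup.prime_card (α := G)
      rw [← e, hw] at this
      norm_num at this
  have n9 : ¬ 3 ^ 2 ∣ Nat.card G := hn ▸ P1b.not_sq hq h7 (.inl rfl)
  have n25 : ¬ 5 ^ 2 ∣ Nat.card G := hn ▸ P1b.not_sq hq h7 (.inr rfl)
  obtain ⟨⟨y, hys⟩, hy⟩ := exists_prime_orderOf_dvd_card' 5 h5
  rw [orderOf_mk] at hy
  obtain ⟨P⟩ : Nonempty (Sylow 5 G) := inferInstance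
  have hP := PS.card_sylow_eq (hy ▸ orderOf_dvd_natCard y) n25 P
  obtain ⟨I, hI⟩ := exists_isPModular Nat.prime_five
  obtain ⟨t, X, Y, δ, ε, h⟩ := exists_B0 hI P hP
  obtain ⟨θ, hθ⟩ := h.Y_nonempty
  have w5 : 5 ∣ orderOf w := by rw [hw]; norm_num
  have hK : ¬ 2 ∣ (centralizer ({s} : Set G)).index := fun e => S.not_dvd_index
    (e.trans (index_dvd_of_le fun x hx => mem_centralizer_singleton_iff.2 (hS x hx)))
  have k0 : ∀ ξ : IrrCharacter G, ξ ≠ triv G → (3 ∣ deg ξ ∨ 5 ∣ deg ξ) → (ξ : G → ℂ) w = 0 :=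
    fun ξ h1 h2 => by
      have h3 := (hv G hG ξ fun e => h1 (eq_triv_iff.2 e)).2.2
      rcases h2 with h2 | h2
      · exact h3 3 _ w Nat.prime_three (deg_cast ξ).symm h2 n9 (by rw [hw]; norm_num)
      · exact h3 5 _ w Nat.prime_five (deg_cast ξ).symm h2 n25 w5
  have k1 : ∀ ξ : IrrCharacter G, ξ ≠ triv G → ¬ (3 ∣ deg ξ ∨ 5 ∣ deg ξ) → ¬ q ∣ deg ξ →
      (ξ : G → ℂ) s = 0 := fun ξ h1 h2 h3 => by
    obtain ⟨h4, h6⟩ := not_or.1 h2
    have h8 := deg_dvd_card ξ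
    rw [hn] at h8
    obtain ⟨k, -, hk⟩ := (Nat.dvd_prime_pow Nat.prime_two).1
      ((Nat.prime_three.coprime_iff_not_dvd.2 h4).symm.dvd_of_dvd_mul_right
        ((Nat.prime_five.coprime_iff_not_dvd.2 h6).symm.dvd_of_dvd_mul_right
          (((hq.coprime_iff_not_dvd.2 h3).symm.pow_right b).dvd_of_dvd_mul_right h8)))
    exact (hv G hG ξ fun e => h1 (eq_triv_iff.2 e)).1 _ s (deg_cast ξ).symm
      (fun e => by simp [e] at hs)
      (hk ▸ (Nat.prime_two.coprime_iff_not_dvd.2 hK).symm.pow_right k)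
  have k2 : ∀ {Ψ : G → ℂ} {σ : ℤ}, IsCharacter G Ψ → (σ = 1 ∨ σ = -1) → Ψ s = 0 →
      (∀ g, 5 ∣ orderOf g → Ψ g = σ) → False := fun {Ψ σ} h1 h2 h3 h4 => by
    have := P1b.dvd_sub hy (by rw [hs]; norm_num) (mem_centralizer_singleton_iff.1 hys).symm h1
      (a := 0) (by simpa using h3) h4
    omega
  have k3 : q ∣ deg θ := by
    by_contra h1
    have h2 : ¬ (3 ∣ deg θ ∨ 5 ∣ deg θ) := fun h2 => by
      have h3 := h.sum_Y w w5
      rw [Finset.sum_eq_zero fun ψ hψ => k0 ψ (h.ne_triv hψ) (h.deg_Y_eq hψ hθ ▸ h2)] at h3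
      rcases h.sign with rfl | rfl <;> simp at h3
    refine k2 (isCharacter_sum Y fun ψ _ => ψ.2.isCharacter) (σ := -ε)
      (by rcases h.sign with rfl | rfl <;> simp) ?_ fun g hg => ?_
    · rw [Finset.sum_apply]
      exact Finset.sum_eq_zero fun ψ hψ => k1 ψ (h.ne_triv hψ) (h.deg_Y_eq hψ hθ ▸ h2)
        (h.deg_Y_eq hψ hθ ▸ h1)
    · rw [Finset.sum_apply, h.sum_Y g hg, Int.cast_neg]
  have k4 : ∀ χ ∈ X.erase (triv G), (q : ℤ) ∣ δ χ * deg χ := fun χ hχ => by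
    obtain ⟨h1, h2⟩ := Finset.mem_erase.1 hχ
    refine (Int.natCast_dvd_natCast.2 (not_not.1 fun h3 => k2 χ.2.isCharacter (h.sign_X χ h2)
      (k1 χ h1 (fun h4 => ?_) h3) (h.val_X χ h2))).mul_left _
    have h6 := (h.val_X χ h2 w w5).symm.trans (k0 χ h1 h4)
    rcases h.sign_X χ h2 with e | e <;> simp [e] at h6
  have k5 := h.deg_rel hθ
  rw [← Finset.add_sum_erase _ _ h.triv_mem, h.δ_triv, deg_triv] at k5
  have k6 := (dvd_add_left (Finset.dvd_sum k4)).1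
    (k5 ▸ (Int.natCast_dvd_natCast.2 k3).mul_left ε)
  have := Int.le_of_dvd (by norm_num) k6
  omega

end Cfsg.Lib.K35
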