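import Cfsg.Agent.K35.ChK
import Cfsg.Agent.Solv.PSolvable
import Cfsg.Agent.Solv.CoprimeAbelian
import Cfsg.Agent.Local.InvolCount

/-!
# Degrees 64 and 65
-/

set_option autoImplicit false

namespace Cfsg.Lib.K35

open Cfsg Subgroup Cfsg.Lib.Char Cfsg.Lib.Solv
open scoped commutatorElement

universe u

namespace P3

theorem isP {Y : Type u} [Group Y] [Finite Y]
    (hpr : ∀ r : ℕ, r.Prime → r ∣ Nat.card Y → r = 2 ∨ r = 13) (h : (Nat.card Y).Coprime 2) :
    IsPGroup 13 Y := by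
  have : Fact (Nat.Prime 13) := ⟨by norm_num⟩
  refine IsPGroup.iff_card.2 ⟨_, Nat.eq_prime_pow_of_unique_prime_dvd Nat.card_pos.ne'
    fun {r} h1 h2 => (hpr r h1 h2).resolve_left fun e => ?_⟩
  exact Nat.prime_two.coprime_iff_not_dvd.1 h.symm (e ▸ h2)

/-- The central involutions of a subgroup. -/
def om {Y : Type u} [Group Y] (T : Subgroup Y) : Subgroup Y where
  carrier := {z | z ∈ T ∧ z * z = 1 ∧ ∀ t ∈ T, z * t = t * z}
  one_mem' := ⟨T.one_mem, mul_one _, fun t _ => by simp⟩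
  mul_mem' := by
    rintro a b ⟨a1, a2, a3⟩ ⟨b1, b2, b3⟩
    refine ⟨T.mul_mem a1 b1, ?_, fun t ht => ?_⟩
    · rw [mul_assoc, ← mul_assoc b, ← a3 b b1, mul_assoc, b2, mul_one, a2]
    · rw [mul_assoc, b3 t ht, ← mul_assoc, a3 t ht, mul_assoc]
  inv_mem' := by
    rintro a ⟨a1, a2, a3⟩
    rw [inv_eq_of_mul_eq_one_right a2]
    exact ⟨a1, a2, a3⟩

theorem om_normal {Y : Type u} [Group Y] (T : Subgroup Y) [hT : T.Normal] : (om T).Normal := by
  refine ⟨fun z ⟨a1, a2, a3⟩ g => ⟨hT.conj_mem z a1 g, ?_, fun t ht => ?_⟩⟩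
  · rw [show g * z * g⁻¹ * (g * z * g⁻¹) = g * (z * z) * g⁻¹ by group, a2]
    simp
  · have := a3 _ (hT.conj_mem' t ht g)
    calc g * z * g⁻¹ * t = g * (z * (g⁻¹ * t * g)) * g⁻¹ := by group
      _ = t * (g * z * g⁻¹) := by rw [this]; group

theorem core (hb : StP3b.{u}) (hc : StP3c.{u}) (hd : StP3d.{u}) {Y : Type u} [Group Y] [Finite Y]
    {χ : Y → ℂ} (hχ : IsCharacter Y χ) (h64 : χ 1 = 64) (hf : ∀ g, ‖χ g‖ = 64 → g = 1)
    (hpr : ∀ r : ℕ, r.Prime → r ∣ Nat.card Y → r = 2 ∨ r = 13) (h13 : 13 ∣ Nat.card Y)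
    (hel : ∀ Q : Subgroup Y, IsPGroup 13 Q → IsElementaryAbelian 13 Q)
    (hO : ∀ N : Subgroup Y, N.Normal → IsPGroup 13 N → N = ⊥) (S : Subgroup Y)
    (hS : IsPGroup 2 S) (hz : ∀ z ∈ centralizer (S : Set Y), z ≠ 1 → χ z = 0) : False := by
  have : Fact (Nat.Prime 13) := ⟨by norm_num⟩
  have : Group.IsSolvable Y := isSolvable_of_prime_dvd_card Nat.prime_two (by norm_num) Y hpr
  have hps := IsPSolvable.of_isSolvable 2 Y
  have := pCore_characteristic 2 Y
  have hC := hps.centralizer_pCore_le (pPrimeCore_eq_bot_iff.2 fun N h1 h2 =>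
    hO N h1 (isP (fun r h3 h4 => hpr r h3 (h4.trans (card_subgroup_dvd_card N))) h2))
  have hT := pCore_isPGroup 2 Y
  have hq := pCore_quotient_pCore 2 Y
  set T := pCore 2 Y
  obtain ⟨Q⟩ : Nonempty (Sylow 13 Y) := inferInstance
  have hQ := hel Q Q.isPGroup'
  have hN : ((Q : Subgroup Y) ⊔ T).Normal := by
    have h1 := (hps.quotient T).centralizer_pPrimeCore_le hq
    have := pPrimeCore_characteristic 2 (Y ⧸ T)
    have h2 : IsPGroup 13 (pPrimeCore 2 (Y ⧸ T)) := isP (fun r h3 h4 => hpr r h3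
      (h4.trans ((card_subgroup_dvd_card _).trans (card_quotient_dvd_card T))))
      (coprime_card_pPrimeCore _ _)
    have h3 : pPrimeCore 2 (Y ⧸ T) ≤ (Q : Subgroup Y).map (QuotientGroup.mk' T) :=
      (le_pCore inferInstance h2).trans
        (pCore_le_sylow (Q.mapSurjective (QuotientGroup.mk'_surjective T)))
    have h4 : (Q : Subgroup Y).map (QuotientGroup.mk' T) = pPrimeCore 2 (Y ⧸ T) := by
      refine le_antisymm (le_trans ?_ h1) h3
      rintro _ ⟨x, hx, rfl⟩ y hy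
      obtain ⟨w, hw, rfl⟩ := h3 hy
      rw [← map_mul, ← map_mul]
      exact congrArg _ (congrArg Subtype.val (hQ.1.is_comm.comm ⟨w, hw⟩ ⟨x, hx⟩))
    rw [← QuotientGroup.ker_mk' T, ← comap_map_eq, h4]
    infer_instance
  have := om_normal T
  have hVc : IsMulCommutative (om T) := ⟨⟨fun a b => Subtype.ext (a.2.2.2 b b.2.1)⟩⟩
  have hE : ⁅om T, (Q : Subgroup Y) ⊔ T⁆ = ⁅om T, (Q : Subgroup Y)⁆ := by
    refine le_antisymm (commutator_le.2 fun v hv n hn => ?_) (commutator_mono le_rfl le_sup_left)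
    obtain ⟨q, hq, t, ht, rfl⟩ := mem_sup_of_normal_right.1 hn
    have : ⁅v, q * t⁆ = ⁅v, q⁆ := by
      rw [commutatorElement_def, commutatorElement_def]
      calc v * (q * t) * v⁻¹ * (q * t)⁻¹ = v * q * (t * v⁻¹) * t⁻¹ * q⁻¹ := by group
        _ = _ := by rw [← ((om T).inv_mem hv).2.2 t ht]; group
    rw [this]
    exact commutator_mem_commutator hv hq
  have hEn : (⁅om T, (Q : Subgroup Y)⁆).Normal := hE ▸ inferInstance
  have hEV : ⁅om T, (Q : Subgroup Y)⁆ ≤ om T := commutator_le_left _ _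
  have hEe : IsElementaryAbelian 2 ⁅om T, (Q : Subgroup Y)⁆ :=
    ⟨⟨⟨fun a b => Subtype.ext ((hEV a.2).2.2 b (hEV b.2).1)⟩⟩, fun a ha => by
      rw [sq]; exact (hEV ha).2.1⟩
  have hE0 : ⁅om T, (Q : Subgroup Y)⁆ ⊓ centralizer (Q : Set Y) = ⊥ := by
    have h1 := Coprime.centralizer_inf_commutator_eq_bot (A := (Q : Subgroup Y)) (V := om T)
      le_normalizer_of_normal (IsPGroup.coprime_card_of_ne 13 2 (by norm_num) _ _ Q.isPGroup'
        (hT.to_le fun z hz => hz.1))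
    exact eq_bot_iff.2 fun z hz => h1.le ⟨⟨hEV hz.1, hz.2⟩, hz.1⟩
  have hE1 : ⁅om T, (Q : Subgroup Y)⁆ ≠ ⊥ := fun e => by
    obtain ⟨⟨x, hx⟩, h1⟩ := exists_prime_orderOf_dvd_card' 13 (Q.dvd_card_of_dvd_card h13)
    rw [orderOf_mk] at h1
    have h2 := hb Y χ hχ h64 hf T x hT h1 (le_normalizer_of_normal (mem_top x) )
      fun z z1 z2 z3 => (commutatorElement_eq_one_iff_mul_comm.1
        (e.le (commutator_mem_commutator (show z ∈ om T from ⟨z1, z2, z3⟩) hx))).symm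
    obtain ⟨k, hk⟩ := IsPGroup.iff_orderOf.1 hT ⟨x, hC fun t ht => (h2 t ht).symm⟩
    rw [orderOf_mk, h1] at hk
    have := (by norm_num : Nat.Prime 13).dvd_of_dvd_pow hk.dvd
    omega
  have hsup : (Q : Subgroup Y) ⊔ centralizer ((⁅om T, (Q : Subgroup Y)⁆ : Subgroup Y) : Set Y) =
      ((Q : Subgroup Y) ⊔ T) ⊔ centralizer ((⁅om T, (Q : Subgroup Y)⁆ : Subgroup Y) : Set Y) := by
    rw [sup_assoc, sup_eq_right.2 (show T ≤ centralizer _ from
      fun t ht z hz => (hEV hz).2.2 t ht)]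
  have h8 := hc Y _ Q S hEe hE1 hQ hS le_normalizer_of_normal le_normalizer_of_normal
    (by rw [hsup]; exact le_normalizer_of_normal) hE0
  exact h8.not_gt (hd Y χ hχ h64 _ Q _ hEe Q.isPGroup' le_normalizer_of_normal hE0 inf_le_left
    fun z h1 => hz z h1.2)

end P3

theorem p3 (hv : StVan.{u}) (h1 : StL3223.{u}) (ha : StP3a.{u}) (hb : StP3b.{u}) (hc : StP3c.{u})
    (hd : StP3d.{u}) : StP3.{u} := by
  rintro G _ _ _ ⟨a, b, hn⟩ hF χ ψ hB
  have p13 : Nat.Prime 13 := by norm_num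
  have : Fact (Nat.Prime 13) := ⟨p13⟩
  have hG : ¬ IsMulCommutative G := fun h => by
    let _ : CommGroup G := { (inferInstance : Group G) with mul_comm := h.is_comm.comm }
    rcases (Nat.dvd_prime IsSimpleGroup.prime_card).1 hB.dvd₁ with e | e
    · omega
    · have := IsSimpleGroup.prime_card (α := G)
      rw [← e] at this
      norm_num at this
  obtain ⟨S⟩ : Nonempty (Sylow 2 G) := inferInstance
  obtain ⟨s, hs, hSs⟩ : ∃ s : G, orderOf s = 2 ∧ (S : Subgroup G) ≤ centralizer {s} := by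
    have h2 : 2 ∣ Nat.card S := S.dvd_card_of_dvd_card ((by norm_num : 2 ∣ 64).trans hB.dvd₁)
    have : Nontrivial S := Finite.one_lt_card_iff_nontrivial.1 (Nat.le_of_dvd Nat.card_pos h2)
    have := S.isPGroup'.center_nontrivial
    obtain ⟨k, k0, hk⟩ := (S.isPGroup'.to_subgroup (center S)).nontrivial_iff_card.1 this
    obtain ⟨⟨⟨z, z1⟩, z2⟩, h3⟩ := exists_prime_orderOf_dvd_card' (G := center S) 2
      (hk ▸ dvd_pow_self 2 k0.ne')
    rw [orderOf_mk, orderOf_mk] at h3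
    exact ⟨z, h3, fun x hx => mem_centralizer_singleton_iff.2
      (congrArg Subtype.val (mem_center_iff.1 z2 ⟨x, hx⟩))⟩
  have h64 : (χ : G → ℂ) 1 = 64 := by simpa using hB.deg₁
  have hz : ∀ z : G, (S : Subgroup G) ≤ centralizer {z} → z ≠ 1 → (χ : G → ℂ) z = 0 :=
    fun z h2 h3 => (hv G hG χ hB.ne₁).1 64 z hB.deg₁ h3 (Nat.Coprime.pow_right 6
      (Nat.prime_two.coprime_iff_not_dvd.2 fun e =>
        S.not_dvd_index (e.trans (index_dvd_of_le h2))).symm)
  have s0 : (χ : G → ℂ) s = 0 := hz s hSs fun e => by simp [e] at hs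
  have s1 : (ψ : G → ℂ) s = 1 := by
    have := hB.reg s (by rw [hs]; norm_num)
    rw [s0, add_zero, sub_eq_zero] at this
    exact this.symm
  have k0 : ∀ p : ℕ, p.Prime → p ≠ 2 → p ∣ Nat.card (centralizer ({s} : Set G)) →
      ∃ g : G, orderOf g = p ∧ g * s = s * g ∧ p ∣ orderOf (g * s) := fun p hp h2 h3 => by
    have : Fact p.Prime := ⟨hp⟩
    obtain ⟨⟨g, g1⟩, g2⟩ := exists_prime_orderOf_dvd_card' p h3
    rw [orderOf_mk] at g2
    have g3 := mem_centralizer_singleton_iff.1 g1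
    refine ⟨g, g2, g3, ?_⟩
    rw [Commute.orderOf_mul_eq_mul_orderOf_of_coprime g3
      (by rw [g2, hs]; exact (Nat.coprime_primes hp Nat.prime_two).2 h2), g2]
    exact dvd_mul_right _ _
  have k3 : ¬ 3 ∣ Nat.card (centralizer ({s} : Set G)) := fun h => by
    obtain ⟨g, g1, g2, g3⟩ := k0 3 Nat.prime_three (by norm_num) h
    have := (hv G hG χ hB.ne₁).2.1 3 g s 1 0 Nat.prime_three g1 g2
      (by simpa using (hB.sing _ g3).1) (by simpa using s0)
    omega
  have k5 : ∀ p : ℕ, p = 5 ∨ p = 13 → p ∣ Nat.card (centralizer ({s} : Set G)) →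
      p ^ 2 ∣ Nat.card G := fun p hp h => by
    have h2 : p.Prime := by rcases hp with rfl | rfl <;> norm_num
    obtain ⟨g, g1, g2, g3⟩ := k0 p h2 (by omega) h
    by_contra h3
    have := (hv G hG ψ hB.ne₂).2.1 p g s 0 1 h2 g1 g2
      (by simpa using ((hv G hG ψ hB.ne₂).2.2 p 65 _ h2 (by rw [hB.deg₂]; norm_num)
        (by rcases hp with rfl | rfl <;> norm_num) h3 g3)) (by simpa using s1)
    rcases hp with rfl | rfl <;> omega
  have hpr : ∀ r : ℕ, r.Prime → r ∣ Nat.card (centralizer ({s} : Set G)) → r = 2 ∨ r = 13 :=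
    fun r hr h => by
      have h2 := h.trans (card_subgroup_dvd_card _)
      rw [hn, hr.dvd_mul, hr.dvd_mul, hr.dvd_mul] at h2
      rcases h2 with ((h2 | h2) | h2) | h2
      · exact .inl ((Nat.prime_dvd_prime_iff_eq hr Nat.prime_two).1 (hr.dvd_of_dvd_pow h2))
      · exact (k3 ((Nat.prime_dvd_prime_iff_eq hr Nat.prime_three).1 h2 ▸ h)).elim
      · have h3 := k5 5 (.inl rfl) ((Nat.prime_dvd_prime_iff_eq hr Nat.prime_five).1 h2 ▸ h)
        rw [hn] at h3
        have h4 := (Nat.Coprime.pow 2 b (by norm_num : Nat.Coprime 5 13)).dvd_of_dvd_mul_right h3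
        rw [mul_assoc] at h4
        have := (Nat.Coprime.pow 2 a (by norm_num : Nat.Coprime 5 2)).dvd_of_dvd_mul_left h4
        omega
      · exact .inr ((Nat.prime_dvd_prime_iff_eq hr p13).1 (hr.dvd_of_dvd_pow h2))
  by_cases h13 : 13 ∣ Nat.card (centralizer ({s} : Set G))
  swap
  · refine h1 G hG hF s S hs hSs ((S.is_maximal' (IsPGroup.iff_card.2
      ⟨_, Nat.eq_prime_pow_of_unique_prime_dvd Nat.card_pos.ne' fun {r} h2 h3 =>
        (hpr r h2 h3).resolve_right fun e => h13 (e ▸ h3)⟩) hSs).le.trans le_normalizer)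
  have hf : ∀ g, ‖(χ : G → ℂ) g‖ = 64 → g = 1 := fun g hg =>
    ChK.eq_one_of_norm hG χ.2 hB.ne₁ (by rw [hg, h64]; simp)
  have hel := ha G χ χ.2.isCharacter h64 hB.rat₁ fun g hg => hf g (by rw [hg, h64]; simp)
  refine (P3.core hb hc hd (χ.2.isCharacter.res (centralizer ({s} : Set G))) h64
    (fun g hg => Subtype.ext (hf g hg)) hpr h13 (fun Q hQ => ?_) (fun N hN h2 => ?_)
    ((S : Subgroup G).subgroupOf _) (S.isPGroup'.comap_subtype) fun z h2 h3 =>
      hz z (fun x hx => mem_centralizer_singleton_iff.2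
        (congrArg Subtype.val (h2 ⟨x, hSs hx⟩ hx))) fun e => h3 (Subtype.ext e)).elim
  · obtain ⟨h2, h3⟩ := hel _ (hQ.map (Subgroup.subtype _))
    refine ⟨⟨⟨fun x y => ?_⟩⟩, fun x hx => Subtype.ext (h3 _ (mem_map_of_mem _ hx))⟩
    have := congrArg Subtype.val (h2.is_comm.comm
      ⟨_, mem_map_of_mem _ x.2⟩ ⟨_, mem_map_of_mem _ y.2⟩)
    exact Subtype.ext (Subtype.ext this)
  · by_contra h0
    obtain ⟨R, hR⟩ := (h2.map (Subgroup.subtype _)).exists_le_sylow
    have h3 : centralizer ({s} : Set G) ≤ normalizer (N.map (Subgroup.subtype _) : Set G) := by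
      have := le_normalizer_map (H := N) (centralizer ({s} : Set G)).subtype
      rwa [normalizer_eq_top, ← MonoidHom.range_eq_map, range_subtype] at this
    have h4 : (R : Subgroup G) ≤ normalizer (N.map (Subgroup.subtype _) : Set G) :=
      le_trans (show _ ≤ centralizer _ from fun x hx y hy => congrArg Subtype.val
        ((hel R R.isPGroup').1.is_comm.comm ⟨y, hR hy⟩ ⟨x, hx⟩)) (centralizer_le_normalizer _)
    have h5 : normalizer (N.map (centralizer ({s} : Set G)).subtype : Set G) ≠ ⊤ := fun e => by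
      rcases (normalizer_eq_top_iff.1 e).eq_bot_or_eq_top with e | e
      · exact h0 ((map_eq_bot_iff_of_injective _ (subtype_injective _)).1 e)
      · obtain ⟨k, hk⟩ := IsPGroup.iff_card.1 (h2.map (Subgroup.subtype _))
        rw [e, card_top] at hk
        have := Nat.prime_two.dvd_of_dvd_pow (hk ▸ (by norm_num : 2 ∣ 64).trans hB.dvd₁)
        omega
    have h6 := (k5 13 (.inr rfl) h13).trans (Local.card_dvd_factorial_index h5)
    have h7 := index_dvd_card (normalizer (N.map (centralizer ({s} : Set G)).subtype : Set G))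
    rw [hn] at h7
    have h8 := (Nat.Coprime.pow_right b (p13.coprime_iff_not_dvd.2 fun e =>
      R.not_dvd_index (e.trans (index_dvd_of_le h4))).symm).dvd_of_dvd_mul_right h7
    rw [mul_assoc] at h8
    have h9 := (Nat.Coprime.pow_right a (Nat.prime_two.coprime_iff_not_dvd.2 fun e =>
      S.not_dvd_index (e.trans (index_dvd_of_le (hSs.trans h3)))).symm).dvd_of_dvd_mul_left h8
    have := h6.trans (Nat.factorial_dvd_factorial (Nat.le_of_dvd (by norm_num) h9))
    norm_num [Nat.factorial] at this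

end Cfsg.Lib.K35
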