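import Cfsg.Agent.K35.Defs
import Cfsg.Agent.K35.ChK
import Cfsg.Agent.Solv.CoprimeAbelian
import Cfsg.Agent.Solv.CardModEq
import Cfsg.Agent.Solv.PGroupNormal

/-! Simple groups of order `2 ^ a * 3 * 5 * q ^ b`: a 13-element acting on a 2-group in degree 64. -/

set_option autoImplicit false
set_option linter.unusedSectionVars false
set_option linter.unusedVariables false

namespace Cfsg.Lib.K35

open Cfsg Subgroup Cfsg.Lib.Char
open scoped commutatorElement ComplexConjugate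

universe u

namespace P3b

open Cfsg.Lib.Solv Cfsg.Lib.Solv.Coprime

variable {G : Type u} [Group G] [Finite G]

theorem cardE (X C : Subgroup G) : Nat.card ↥(X ⊓ C) * C.relIndex X = Nat.card X := by
  rw [← (C.subgroupOf X).card_mul_index, ← inf_subgroupOf_left, Coprime.card_subgroupOf inf_le_left,
    inf_subgroupOf_left]
  rfl

theorem twelve {a : ℕ} (h : 2 ^ a ≡ 1 [MOD 13]) : 12 ∣ a := by
  have h1 : 2 ^ a ≡ 2 ^ (a % 12) [MOD 13] := by
    conv_lhs => rw [← Nat.div_add_mod a 12, pow_add, pow_mul]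
    have : (2 ^ 12) ^ (a / 12) ≡ 1 ^ (a / 12) [MOD 13] := Nat.ModEq.pow _ (by decide)
    simpa using this.mul_right (2 ^ (a % 12))
  have h2 := h1.symm.trans h
  have h3 : a % 12 < 12 := Nat.mod_lt _ (by norm_num)
  refine Nat.dvd_of_mod_eq_zero ?_
  generalize a % 12 = r at *
  interval_cases r <;> first | rfl | exact absurd h2 (by decide)

theorem rel {U X : Subgroup G} (hU : IsPGroup 13 U) (hX : IsPGroup 2 X)
    (n : U ≤ normalizer (X : Set G)) :
    ∃ a, (centralizer (U : Set G)).relIndex X = 2 ^ (12 * a) := by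
  have := Fact.mk (by norm_num : Nat.Prime 13)
  obtain ⟨k, hk⟩ := hX.exists_card_eq
  have e := cardE X (centralizer (U : Set G))
  obtain ⟨a, -, ha⟩ := (Nat.dvd_prime_pow Nat.prime_two).1 (hk ▸ Dvd.intro_left _ e)
  obtain ⟨c, -, hc⟩ := (Nat.dvd_prime_pow Nat.prime_two).1 (hk ▸ Dvd.intro _ e)
  have m := card_modEq_card_inf_centralizer hU n
  rw [← e, ha, hc] at m
  have m2 : 2 ^ a ≡ 1 [MOD 13] :=
    Nat.ModEq.cancel_left_of_coprime (c := 2 ^ c) (Nat.Coprime.pow_right c (by norm_num))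
      (by rwa [mul_one])
  obtain ⟨s, rfl⟩ := twelve m2
  exact ⟨s, ha⟩

theorem idx {U X0 X1 : Subgroup G} (hU : IsPGroup 13 U) (hX : IsPGroup 2 X1) (le : X0 ≤ X1)
    (n0 : U ≤ normalizer (X0 : Set G)) (n1 : U ≤ normalizer (X1 : Set G)) (hc : ⁅X1, U⁆ = X1)
    (ne : ¬ X1 ≤ X0) : 4096 * Nat.card X0 ≤ Nat.card X1 := by
  obtain ⟨a, ha⟩ := rel hU hX n1
  obtain ⟨b, hb⟩ := rel hU (hX.to_le le) n0
  have h1 : 2 ^ (12 * b) ≤ 2 ^ (12 * a) := by
    rw [← ha, ← hb]
    exact relIndex_le_of_le_right le (by rw [ha]; positivity)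
  have h2 : b ≤ a := by
    have := (Nat.pow_le_pow_iff_right (by norm_num)).1 h1
    omega
  have h3 : b ≠ a := by
    rintro rfl
    have bij := (quotientSubgroupOfEmbeddingOfLE (centralizer (U : Set G)) le).injective.bijective_of_nat_card_le
      (ha.trans hb.symm).le
    refine ne (hc.ge.trans ((commutator_le_of_mul_centralizer (X := X0) fun k hk => ?_).trans
      (commutator_le_left_of_le_normalizer n0)))
    obtain ⟨x, hx⟩ := bij.2 (QuotientGroup.mk ⟨k, hk⟩)
    obtain ⟨x, rfl⟩ := QuotientGroup.mk_surjective x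
    rw [quotientSubgroupOfEmbeddingOfLE_apply_mk, QuotientGroup.eq] at hx
    exact ⟨x, x.2, _, hx, by simp⟩
  rw [← cardE X0 (centralizer (U : Set G)), ← cardE X1 (centralizer (U : Set G)), ha, hb]
  have h4 : Nat.card ↥(X0 ⊓ centralizer (U : Set G)) ≤ Nat.card ↥(X1 ⊓ centralizer (U : Set G)) :=
    card_le_of_le (inf_le_inf_right _ le)
  have h5 : 4096 * 2 ^ (12 * b) ≤ 2 ^ (12 * a) := by
    rw [show 4096 = 2 ^ 12 by norm_num, ← pow_add]
    exact Nat.pow_le_pow_right (by norm_num) (by omega)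
  calc _ = Nat.card ↥(X0 ⊓ centralizer (U : Set G)) * (4096 * 2 ^ (12 * b)) := by ring
    _ ≤ _ := Nat.mul_le_mul h4 h5

theorem deg {H : Type u} [Group H] [Finite H] {φ : H → ℂ} (hφ : IsIrrCharacter H φ) {Y : Subgroup H}
    (cen : ∀ y ∈ Y, ∀ t : H, ⁅t, y⁆ ∈ center H) {d : ℕ} (hd : φ 1 = d) :
    Nat.card Y ≤ Nat.card ↥(Y ⊓ charCenter φ) * d ^ 2 := by
  classical
  have := Fintype.ofFinite Y
  have hr := hφ.isCharacter.res Y
  obtain ⟨n, hn⟩ := hr.exists_nat_classInner hr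
  have n0 : n ≠ 0 := by
    rintro rfl
    have := congrFun (classInner_self_eq_zero.1 (hn.trans Nat.cast_zero)) 1
    exact hφ.apply_one_ne_zero this
  rw [classInner_self_eq] at hn
  have h1 : (Nat.card Y : ℝ)⁻¹ * ∑ y : Y, ‖φ y‖ ^ 2 = n := by exact_mod_cast hn
  have h2 : ∀ y : Y, ‖φ y‖ ^ 2 = if (y : H) ∈ charCenter φ then (d : ℝ) ^ 2 else 0 := fun y => by
    split_ifs with e
    · rw [hφ.mem_charCenter_iff.1 e, hd, Complex.norm_natCast]
    · rw [hφ.mem_charCenter_iff_commutator] at e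
      push Not at e
      obtain ⟨t, ht⟩ := e
      rw [hφ.isClassFunction.apply_eq_zero_of_commutator (x := t)
        (hφ.center_le_charCenter (cen y y.2 t)) fun h => ht (by simpa using inv_mem h)]
      simp
  have h3 : (Finset.univ.filter fun y : Y => (y : H) ∈ charCenter φ).card =
      Nat.card ↥(Y ⊓ charCenter φ) := by
    rw [← Coprime.card_subgroupOf (inf_le_left : Y ⊓ charCenter φ ≤ Y), inf_subgroupOf_left,
      Nat.card_eq_fintype_card, Fintype.card_subtype]
    congr 1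
  simp only [h2, ← Finset.sum_filter, Finset.sum_const, nsmul_eq_mul, h3] at h1
  have p : (0 : ℝ) < Nat.card Y := by exact_mod_cast Nat.card_pos
  have n1 : (1 : ℝ) ≤ n := by exact_mod_cast Nat.one_le_iff_ne_zero.2 n0
  rw [inv_mul_eq_iff_eq_mul₀ p.ne'] at h1
  have : (Nat.card Y : ℝ) ≤ Nat.card ↥(Y ⊓ charCenter φ) * (d : ℝ) ^ 2 := by
    rw [h1]; nlinarith
  exact_mod_cast this

end P3b

open P3b Cfsg.Lib.Solv Cfsg.Lib.Solv.Coprime in
theorem p3b : StP3b.{u} := by
  classical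
  intro G _ _ χ hχ h64 hf T u hT hu uT hz
  have := Fact.mk (by norm_num : Nat.Prime 13)
  have hU : IsPGroup 13 (zpowers u) := IsPGroup.of_card (n := 1) (by rw [Nat.card_zpowers, hu, pow_one])
  have UT : zpowers u ≤ normalizer (T : Set G) := zpowers_le.2 uT
  have cop : ∀ X ≤ T, (Nat.card (zpowers u)).Coprime (Nat.card X) := fun X hX =>
    IsPGroup.coprime_card_of_ne 13 2 (by norm_num) _ _ hU (hT.to_le hX)
  suffices h : zpowers u ≤ centralizer (T : Set G) from
    fun t ht => (mem_centralizer_iff.1 (h (mem_zpowers u)) t ht).symm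
  set U := zpowers u with hUd
  by_contra hne
  obtain ⟨X, ⟨XT, TX, UX, nX⟩, hmin⟩ := (wellFounded_lt (α := Subgroup G)).has_min
    {X | X ≤ T ∧ T ≤ normalizer (X : Set G) ∧ U ≤ normalizer (X : Set G) ∧
      ¬ U ≤ centralizer (X : Set G)} ⟨T, le_rfl, le_normalizer, UT, hne⟩
  have X0 : X ≠ ⊥ := fun e => nX (by rw [e]; simp [centralizer_eq_top_iff_subset.2])
  have lt : ⁅X, T⁆ < X := PG.commutator_lt hT (hT.to_le XT) TX X0
  have UR : U ≤ centralizer ((⁅X, T⁆ : Subgroup G) : Set G) := by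
    by_contra h
    exact hmin _ ⟨lt.le.trans XT, right_le_normalizer_commutator _ _,
      le_normalizer_commutator UX UT, h⟩ lt
  have T1R : ⁅T, U⁆ ≤ centralizer ((⁅X, T⁆ : Subgroup G) : Set G) :=
    commutator_le_centralizer_of_le_centralizer (right_le_normalizer_commutator _ _) UR
  have T1T : ⁅T, U⁆ ≤ T := commutator_le_left_of_le_normalizer UT
  have X1X : ⁅X, U⁆ ≤ X := commutator_le_left_of_le_normalizer UX
  have X1T1 : ⁅X, U⁆ ≤ ⁅T, U⁆ := commutator_mono XT le_rfl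
  have X1c : ⁅⁅X, U⁆, U⁆ = ⁅X, U⁆ := commutator_commutator UX (cop X XT)
  have X1n : ⁅X, U⁆ ≠ ⊥ := fun e => nX (le_centralizer_iff.1 (commutator_eq_bot_iff_le_centralizer.1 e))
  have mR : ∀ x ∈ ⁅X, U⁆, ∀ t ∈ ⁅T, U⁆, ⁅x, t⁆ ∈ ⁅X, T⁆ := fun x hx t ht =>
    commutator_mem_commutator (X1X hx) (T1T ht)
  by_cases hc : ⁅X, U⁆ ≤ centralizer ((⁅T, U⁆ : Subgroup G) : Set G)
  · have : IsMulCommutative (⁅X, U⁆ : Subgroup G) := ⟨⟨fun a b =>
      Subtype.ext (mem_centralizer_iff.1 (hc b.2) a (X1T1 a.2))⟩⟩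
    have bot := commutator_inf_centralizer_eq_bot UX (cop X XT)
    have TN : T ≤ normalizer ((⁅X, U⁆ : Subgroup G) : Set G) := by
      rw [← commutator_sup_centralizer UT (cop T le_rfl) (.inl (isSolvable_zpowers u))]
      exact sup_le ((le_centralizer_iff.1 hc).trans (centralizer_le_normalizer _))
        (le_normalizer_commutator (inf_le_left.trans TX)
          (inf_le_right.trans (centralizer_le_normalizer _)))
    obtain ⟨z, z1, z2, -, z3⟩ := PG.exists_mem_centralizer_orderOf_eq hT (hT.to_le (X1X.trans XT)) TN X1n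
    have z4 : u * z = z * u := hz z (XT (X1X z1)) (by rw [← sq, ← z3, pow_orderOf_eq_one])
      fun t ht => (mem_centralizer_iff.1 z2 t ht).symm
    have z5 : z ∈ centralizer (U : Set G) :=
      le_centralizer_iff.1 (zpowers_le.2 (show u ∈ centralizer ((zpowers z : Subgroup G) : Set G) from
        le_centralizer_iff.1 (zpowers_le.2 (mem_centralizer_iff.2 fun y hy => by
          obtain ⟨k, rfl⟩ := hy
          exact ((show Commute u z from z4).zpow_left k).eq)) (mem_zpowers u))) (mem_zpowers z)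
    have : z ∈ (⊥ : Subgroup G) := bot ▸ ⟨z1, z5⟩
    rw [mem_bot.1 this, orderOf_one] at z3
    omega
  · obtain ⟨x, hx, hx'⟩ := SetLike.not_le_iff_exists.1 hc
    rw [mem_centralizer_iff] at hx'
    push Not at hx'
    obtain ⟨t, ht, hxt⟩ := hx'
    have := Fintype.ofFinite (⁅T, U⁆ : Subgroup G)
    have hr := hχ.res ⁅T, U⁆
    let x' : (⁅T, U⁆ : Subgroup G) := ⟨x, X1T1 hx⟩
    let t' : (⁅T, U⁆ : Subgroup G) := ⟨t, ht⟩
    have r1 : ⁅x, t⁆ ≠ 1 := fun e => hxt (commutatorElement_eq_one_iff_mul_comm.1 e).symm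
    have nk : ⁅x', t'⁆ ∉ charKer fun a : (⁅T, U⁆ : Subgroup G) => χ a := fun e => r1 (hf _ (by
      have : χ ⁅x, t⁆ = χ 1 := hr.mem_charKer_iff.1 e
      rw [this, h64]; simp))
    rw [hr.mem_charKer_iff_forall] at nk
    push Not at nk
    obtain ⟨φ, hφ, ne, nk⟩ := nk
    obtain ⟨d, hd⟩ := hφ.isCharacter.exists_nat_degree
    have cen : ∀ y ∈ (⁅X, U⁆ : Subgroup G).subgroupOf ⁅T, U⁆, ∀ s : (⁅T, U⁆ : Subgroup G), ⁅y, s⁆ ∈ center (⁅T, U⁆ : Subgroup G) :=
      fun y hy s => mem_center_iff.2 fun w =>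
        Subtype.ext (mem_centralizer_iff.1 (T1R w.2) _ (mR y hy s s.2)).symm
    have h1 := deg hφ (Y := (⁅X, U⁆ : Subgroup G).subgroupOf ⁅T, U⁆)
      (fun y hy s => by simpa using inv_mem (cen y hy s)) hd
    have h2 := idx (X0 := ((⁅X, U⁆ : Subgroup G).subgroupOf ⁅T, U⁆ ⊓ charCenter φ).map
      (⁅T, U⁆ : Subgroup G).subtype) hU (hT.to_le (X1X.trans XT))
      (by rintro _ ⟨y, hy, rfl⟩; exact hy.1) ?_ (right_le_normalizer_commutator _ _) X1c ?_
    · rw [card_map_of_injective (subtype_injective _)] at h2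
      rw [Coprime.card_subgroupOf X1T1] at h1
      have p := Nat.card_pos (α := ↥((⁅X, U⁆ : Subgroup G).subgroupOf ⁅T, U⁆ ⊓ charCenter φ))
      have d1 : 64 ≤ d := by
        by_contra h
        have : d ^ 2 < 4096 := by nlinarith
        nlinarith
      have d2 := hr.degree_le_of_classInner_ne_zero hφ ne
      simp only [coe_one, h64, hd, Complex.natCast_re] at d2
      have d3 : d ≤ 64 := by
        have : (d : ℝ) ≤ 64 := by simpa using d2
        exact_mod_cast this
      obtain rfl : d = 64 := le_antisymm d3 d1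
      have e := hr.eq_of_classInner_ne_zero_of_degree hφ ne (by simp [h64, hd])
      refine r1 (hf _ ?_)
      have := hφ.mem_charCenter_iff.1 (hφ.center_le_charCenter (cen x' hx t'))
      rw [hd, ← e] at this
      exact this.trans (by simp)
    · refine le_normalizer_iff.2 fun w hw => ?_
      rintro _ ⟨y, ⟨y1, y2⟩, rfl⟩
      have n1 := right_le_normalizer_commutator T U
      have n2 := right_le_normalizer_commutator X U
      refine ⟨⟨w * y * w⁻¹, conj_mem n1 hw y.2⟩, ⟨conj_mem n2 hw y1, ?_⟩, rfl⟩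
      refine hφ.mem_charCenter_iff_commutator.2 fun s => ?_
      have := hφ.mem_charCenter_iff_commutator.1 y2 ⟨w⁻¹ * s * w, conj_mem' n1 hw s.2⟩
      convert this using 1
      refine Subtype.ext ?_
      have c := mem_centralizer_iff.1 (UR hw) _ (mR y y1 _ (conj_mem' n1 hw s.2))
      change ⁅w * y * w⁻¹, (s : G)⁆ = ⁅(y : G), w⁻¹ * s * w⁆
      rw [← mul_inv_eq_iff_eq_mul.2 c.symm]
      simp only [commutatorElement_def]
      group
    · intro h
      obtain ⟨y, ⟨-, y2⟩, e⟩ := h hx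
      obtain rfl : y = x' := Subtype.ext e
      exact nk (hφ.mem_charCenter_iff_commutator.1 y2 t')

end Cfsg.Lib.K35
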