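import Cfsg.Agent.K35.Defs
import Cfsg.Agent.Trans.Connected
import Cfsg.Agent.Solv.CoprimeGen
import Cfsg.Agent.Solv.CardModEq
import Cfsg.Agent.Solv.PGroupNormal
import Mathlib.RingTheory.ZMod.UnitsCyclic

/-!
# Fixed points of a 2-group on a module for an elementary abelian 13-group
-/

set_option autoImplicit false

namespace Cfsg.Lib.K35

open Cfsg Subgroup Cfsg.Lib.Solv
open scoped Pointwise

universe u

namespace P3c

variable {G : Type u} [Group G] [Finite G]

omit [Finite G] in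
theorem isP {p : ℕ} {A : Subgroup G} (h : ∀ a ∈ A, a ^ p = 1) : IsPGroup p A :=
  fun a => ⟨1, Subtype.ext (by simpa using h a a.2)⟩

omit [Finite G] in
theorem ea_le {p : ℕ} {A B : Subgroup G} (h : IsElementaryAbelian p A) (e : B ≤ A) :
    IsElementaryAbelian p B :=
  ⟨⟨⟨fun a b => by
    have := congrArg Subtype.val (h.1.is_comm.comm ⟨a, e a.2⟩ ⟨b, e b.2⟩)
    exact Subtype.ext this⟩⟩, fun a ha => h.2 a (e ha)⟩

theorem norm_inf {W T : Subgroup G} {x : G} (h1 : x ∈ normalizer (W : Set G))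
    (h2 : ∀ t ∈ T, x⁻¹ * t * x ∈ T) : x ∈ normalizer ((W ⊓ centralizer (T : Set G) : Subgroup G) : Set G) :=
  mem_normalizer_fintype fun w hw => ⟨(mem_normalizer_iff.1 h1 w).1 hw.1, fun t ht => by
    have := hw.2 _ (h2 t ht)
    calc t * (x * w * x⁻¹) = x * (x⁻¹ * t * x * w) * x⁻¹ := by group
      _ = _ := by rw [this]; group⟩

theorem one {W S : Subgroup G} {a : G} (hW : IsElementaryAbelian 2 W) (h0 : W ≠ ⊥)
    (ha : a ^ 13 = 1) (haW : a ∈ normalizer (W : Set G)) (hf : W ⊓ centralizer {a} = ⊥)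
    (hS : IsPGroup 2 S) (hSW : S ≤ normalizer (W : Set G))
    (hc : ∀ s ∈ S, s * a * s⁻¹ ∈ zpowers a ⊔ centralizer (W : Set G)) :
    8 ≤ Nat.card ↥(W ⊓ centralizer (S : Set G)) := by
  have p13 : Nat.Prime 13 := by norm_num
  have : Fact (Nat.Prime 13) := ⟨p13⟩
  let φ := W.normalizerMonoidHom
  let v := φ ⟨a, haW⟩
  have hφ : ∀ (x : normalizer (W : Set G)) (w : W), (φ x w : G) = x * w * (x : G)⁻¹ := fun _ _ => rfl
  have hv : orderOf v = 13 := orderOf_eq_prime
    (by rw [← map_pow, show (⟨a, haW⟩ : normalizer (W : Set G)) ^ 13 = 1 from Subtype.ext ha, map_one])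
    fun e => h0 (eq_bot_iff.2 fun w hw => hf.le ⟨hw, mem_centralizer_singleton_iff.2
      (mul_inv_eq_iff_eq_mul.1 ((hφ ⟨a, haW⟩ ⟨w, hw⟩).symm.trans
        (congrArg (fun g : MulAut W => (g ⟨w, hw⟩ : G)) e))).symm⟩)
  let f : S →* MulAut W := φ.comp (inclusion hSW)
  have h1 : zpowers a ⊔ centralizer (W : Set G) ≤ ((zpowers v).comap φ).map (Subgroup.subtype _) :=
    sup_le (zpowers_le.2 ⟨⟨a, haW⟩, mem_zpowers v, rfl⟩) fun c hc =>
      ⟨⟨c, centralizer_le_normalizer _ hc⟩, by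
        have : φ ⟨c, centralizer_le_normalizer _ hc⟩ = 1 := by
          rw [← MonoidHom.mem_ker, normalizerMonoidHom_ker]
          exact hc
        rw [SetLike.mem_coe, mem_comap, this]
        exact one_mem _, rfl⟩
  have hn : ∀ s : S, f s ∈ normalizer (zpowers v : Set (MulAut W)) := fun s =>
    mem_normalizer_fintype (by
      rintro _ ⟨n, rfl⟩
      obtain ⟨y, h2, h3⟩ := h1 (hc s s.2)
      have h4 : f s * v * (f s)⁻¹ = φ y := by
        rw [show y = inclusion hSW s * ⟨a, haW⟩ * (inclusion hSW s)⁻¹ from Subtype.ext h3, map_mul,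
          map_mul, map_inv]
        rfl
      simp only
      rw [← conj_zpow, h4]
      exact zpow_mem (show φ y ∈ zpowers v from h2) n)
  let ψ : S →* MulAut (zpowers v) := (zpowers v).normalizerMonoidHom.comp (f.codRestrict _ hn)
  have hcv : Nat.card (zpowers v) = 13 := by rw [Nat.card_zpowers, hv]
  have : IsCyclic (MulAut (zpowers v)) :=
    (IsCyclic.mulAutMulEquiv (zpowers v)).isCyclic.2 (by rw [hcv]; exact ZMod.isCyclic_units_prime p13)
  obtain ⟨⟨_, σ, rfl⟩, hσ⟩ := IsCyclic.exists_generator (α := ψ.range)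
  have h4 : σ ^ 4 ∈ ψ.ker := by
    obtain ⟨k, hk⟩ := hS σ
    have e1 : orderOf (ψ σ) ∣ 2 ^ k := orderOf_dvd_of_pow_eq_one (by rw [← map_pow, hk, map_one])
    have e2 : orderOf (ψ σ) ∣ 4 * 3 := by
      have := orderOf_dvd_natCard (ψ σ)
      rwa [IsCyclic.card_mulAut, hcv, Nat.totient_prime p13] at this
    rw [MonoidHom.mem_ker, map_pow, ← orderOf_dvd_iff_pow_eq_one]
    exact (Nat.Coprime.coprime_dvd_left e1 (Nat.Coprime.pow_left k (by norm_num))).dvd_of_dvd_mul_right e2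
  set T := ψ.ker.map S.subtype
  have hT : T ≤ S := map_subtype_le _
  have hD : ∀ s ∈ S, s ∈ normalizer ((W ⊓ centralizer (T : Set G) : Subgroup G) : Set G) :=
    fun s hs => norm_inf (hSW hs) (by
      rintro _ ⟨t, ht, rfl⟩
      exact ⟨_, (MonoidHom.normal_ker ψ).conj_mem' t ht ⟨s, hs⟩, rfl⟩)
  have haD : a ∈ normalizer ((W ⊓ centralizer (T : Set G) : Subgroup G) : Set G) :=
    mem_normalizer_fintype fun d hd => ⟨(mem_normalizer_iff.1 haW d).1 hd.1, by
      rintro _ ⟨t, ht, rfl⟩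
      have e1 : f t * v * (f t)⁻¹ = v :=
        congrArg (fun g : MulAut (zpowers v) => (g ⟨v, mem_zpowers v⟩ : MulAut W)) ht
      have e2 : (t : G) * (a * d * a⁻¹) * (t : G)⁻¹ = a * (t * d * (t : G)⁻¹) * a⁻¹ :=
        congrArg (fun g : MulAut W => (g ⟨d, hd.1⟩ : G)) (mul_inv_eq_iff_eq_mul.1 e1)
      rw [show (t : G) * d = d * t from hd.2 t ⟨t, ht, rfl⟩, mul_inv_cancel_right] at e2
      exact mul_inv_eq_iff_eq_mul.1 e2⟩
  set D := W ⊓ centralizer (T : Set G)
  have hDe := ea_le hW (inf_le_left : D ≤ W)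
  have e1 : 4096 ≤ Nat.card D := by
    obtain ⟨m, hm⟩ := IsPGroup.iff_card.1 (isP hDe.2)
    have e2 := card_modEq_card_inf_centralizer (q := 13) (Q := zpowers a) (L := D)
      (isP (by rintro _ ⟨n, rfl⟩; simp only; rw [← zpow_natCast, ← zpow_mul, mul_comm, zpow_mul,
        zpow_natCast, ha, one_zpow])) (zpowers_le.2 haD)
    rw [eq_bot_iff.2 (show D ⊓ centralizer (zpowers a : Set G) ≤ ⊥ from fun x hx =>
      hf.le ⟨hx.1.1, fun y hy => hx.2 y (hy ▸ mem_zpowers a)⟩), card_bot, hm] at e2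
    have e3 : m ≠ 0 := by
      rintro rfl
      exact PG.inf_centralizer_ne_bot (hS.to_le hT) (isP hW.2) (hT.trans hSW) h0
        (card_eq_one.1 hm)
    rw [hm]
    by_contra e4
    have : m < 12 := (Nat.pow_lt_pow_iff_right (a := 2) (by norm_num)).1 (by omega)
    interval_cases m <;> simp [Nat.ModEq] at e2 e3
  have e2 := Trans.card_le_card_inf_centralizer_pow hDe (x := (σ : G) ^ 2) (hD _ (pow_mem σ.2 2))
    fun d hd => (hd.2 _ ⟨σ ^ 4, h4, by rw [← pow_mul]; rfl⟩).symm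
  have e3 := Trans.card_le_card_inf_centralizer_pow
    (ea_le hDe (inf_le_left : D ⊓ centralizer {(σ : G) ^ 2} ≤ D)) (x := σ)
    (mem_normalizer_fintype fun d hd => ⟨(mem_normalizer_iff.1 (hD _ σ.2) d).1 hd.1,
      mem_centralizer_singleton_iff.2 (by
        have := mem_centralizer_singleton_iff.1 hd.2
        calc σ * d * (σ : G)⁻¹ * σ ^ 2 = σ * (d * σ ^ 2) * (σ : G)⁻¹ := by group
          _ = _ := by rw [this]; group)⟩)
    fun d hd => mem_centralizer_singleton_iff.1 hd.2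
  have e4 := card_le_of_le (show D ⊓ centralizer {(σ : G) ^ 2} ⊓ centralizer {(σ : G)} ≤
      W ⊓ centralizer (S : Set G) from fun d hd => ⟨hd.1.1.1, fun s hs => by
    obtain ⟨n, hn⟩ := hσ ⟨ψ ⟨s, hs⟩, ⟨s, hs⟩, rfl⟩
    have e5 : ⟨s, hs⟩ * (σ ^ n)⁻¹ ∈ ψ.ker := by
      rw [MonoidHom.mem_ker, map_mul, map_inv, map_zpow, mul_inv_eq_one]
      exact (congrArg Subtype.val hn).symm
    have e6 : s ∈ centralizer {d} := by
      have := mul_mem (show s * ((σ : G) ^ n)⁻¹ ∈ centralizer {d} from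
        mem_centralizer_singleton_iff.2 (hd.1.1.2 _ ⟨_, e5, rfl⟩)) (zpow_mem
          (mem_centralizer_singleton_iff.2 (mem_centralizer_singleton_iff.1 hd.2).symm) n)
      rwa [inv_mul_cancel_right] at this
    exact mem_centralizer_singleton_iff.1 e6⟩)
  by_contra e5
  have e6 : Nat.card ↥(D ⊓ centralizer {(σ : G) ^ 2}) ≤ 7 ^ 2 :=
    e3.trans (Nat.pow_le_pow_left (by omega) 2)
  exact absurd (e1.trans (e2.trans (Nat.pow_le_pow_left e6 2))) (by norm_num)

theorem tr {E B W S : Subgroup G} (hE : IsElementaryAbelian 2 E) (hB : Odd (Nat.card B))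
    (hW : W = E ⊓ centralizer (B : Set G)) (hBE : B ≤ normalizer (E : Set G))
    (hSE : S ≤ normalizer (E : Set G))
    (hM : ∀ s ∈ S, ∀ b ∈ B, s⁻¹ * b * s ∈ normalizer (W : Set G))
    (hT : ∀ s ∈ S, ∀ x ∈ W, s⁻¹ * x * s ∈ W → x = 1 ∨ s ∈ normalizer (W : Set G)) :
    Nat.card ↥(W ⊓ centralizer ((S ⊓ normalizer (W : Set G) : Subgroup G) : Set G)) ≤
      Nat.card ↥(E ⊓ centralizer (S : Set G)) := by
  classical
  let _ : CommGroup E := { (inferInstance : Group E) with mul_comm := hE.1.is_comm.comm }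
  have := Fintype.ofFinite B
  let ρ := E.normalizerMonoidHom
  let _ : MulAction S E := MulAction.compHom E (ρ.comp (inclusion hSE))
  have hs : ∀ (s : S) (e : E), s • e = ρ (inclusion hSE s) e := fun _ _ => rfl
  have hρ : ∀ (x : normalizer (E : Set G)) (w : E), (ρ x w : G) = x * w * (x : G)⁻¹ := fun _ _ => rfl
  let π : E → E := fun e => ∏ b : B, ρ (inclusion hBE b) e
  have π1 : ∀ e, (π e : G) ∈ W := fun e => hW ▸ ⟨(π e).2, fun b hb => by
    have : ρ (inclusion hBE ⟨b, hb⟩) (π e) = π e := by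
      rw [map_prod]
      exact Fintype.prod_equiv (Equiv.mulLeft ⟨b, hb⟩) _ _ fun c => by
        rw [Equiv.coe_mulLeft, map_mul, map_mul, MulAut.mul_apply]
    exact mul_inv_eq_iff_eq_mul.1 (congrArg Subtype.val this)⟩
  have π2 : ∀ e : E, (e : G) ∈ W → π e = e := fun e he => by
    have : ∀ b : B, ρ (inclusion hBE b) e = e := fun b =>
      Subtype.ext (mul_inv_eq_iff_eq_mul.2 ((hW ▸ he).2 b b.2))
    obtain ⟨k, hk⟩ := hB
    simp only [π, this, Finset.prod_const, Finset.card_univ, ← Nat.card_eq_fintype_card, hk]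
    rw [pow_succ, pow_mul, show e ^ 2 = 1 from Subtype.ext (hE.2 e e.2), one_pow, one_mul]
  have hWE : W ≤ E := hW ▸ inf_le_left
  have fo : ∀ e : E, Fintype (MulAction.orbit S e) := fun e => Fintype.ofFinite _
  let t : E → E := fun e => ∏ w : MulAction.orbit S e, (w : E)
  have t1 : ∀ e, (t e : G) ∈ centralizer (S : Set G) := fun e s hs' => by
    have : ρ (inclusion hSE ⟨s, hs'⟩) (t e) = t e := by
      rw [map_prod]
      exact Fintype.prod_equiv (MulAction.toPerm (⟨s, hs'⟩ : S)) _ _ fun c => rfl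
    exact mul_inv_eq_iff_eq_mul.1 (congrArg Subtype.val this)
  have t2 : ∀ e : E, (e : G) ∈ W ⊓ centralizer ((S ⊓ normalizer (W : Set G) : Subgroup G) : Set G) →
      π (t e) = e := fun e he => by
    simp only [π, t, map_prod]
    rw [Finset.prod_comm, Finset.prod_eq_single ⟨e, MulAction.mem_orbit_self e⟩ ?_ (by simp)]
    · exact π2 e he.1
    rintro ⟨_, s, rfl⟩ - hne
    refine Subtype.ext ((hT s s.2 _ (π1 (s • e)) ?_).resolve_right fun h => hne (Subtype.ext
      (Subtype.ext (mul_inv_eq_iff_eq_mul.2 (he.2 s ⟨s.2, h⟩)))))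
    have : π (s • e) ∈ (W.comap (MulAut.conj (s : G)⁻¹).toMonoidHom).subgroupOf E :=
      prod_mem fun b _ => by
        have := (mem_normalizer_iff.1 (hM s s.2 b b.2) e).1 he.1
        change (s : G)⁻¹ * (b * (s * e * (s : G)⁻¹) * (b : G)⁻¹) * (s : G)⁻¹⁻¹ ∈ W
        convert this using 1
        group
    simpa [mem_subgroupOf] using this
  refine Nat.card_le_card_of_injective (fun x => ⟨t ⟨x, hWE x.2.1⟩, (t _).2, t1 _⟩) fun x y e => ?_
  have e1 : t ⟨x, hWE x.2.1⟩ = t ⟨y, hWE y.2.1⟩ := Subtype.ext (congrArg Subtype.val e :)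
  have e2 := (t2 _ x.2).symm.trans ((congrArg π e1).trans (t2 _ y.2))
  exact Subtype.ext (congrArg Subtype.val e2 :)

end P3c

theorem p3c : StP3c.{u} := by
  intro G _ _ E Q S hE h0 hQ hS hQE hSE hSM hf
  have p13 : Nat.Prime 13 := by norm_num
  have : Fact (Nat.Prime 13) := ⟨p13⟩
  have := hQ.1
  obtain ⟨B, hB, ⟨a, ha, hBa⟩, hW0⟩ : ∃ B ≤ Q, (∃ a ∈ Q, B ⊔ zpowers a = Q) ∧
      E ⊓ centralizer (B : Set G) ≠ ⊥ := by
    by_contra h
    push Not at h
    exact h0 (eq_bot_iff.2 (Coprime.le_of_forall_cocyclic hQE (IsPGroup.coprime_card_of_ne 13 2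
      (by norm_num) _ _ (P3c.isP hQ.2) (P3c.isP hE.2)) fun B h1 h2 => (h B h1 h2).le))
  have haW : a ∈ normalizer ((E ⊓ centralizer (B : Set G) : Subgroup G) : Set G) :=
    P3c.norm_inf (hQE ha) fun b hb => by
      have : b * a = a * b := congrArg Subtype.val (hQ.1.is_comm.comm ⟨b, hB hb⟩ ⟨a, ha⟩)
      rwa [mul_assoc, this, inv_mul_cancel_left]
  obtain ⟨W, hW⟩ : ∃ W, W = E ⊓ centralizer (B : Set G) := ⟨_, rfl⟩
  rw [← hW] at haW hW0
  have hWE : W ≤ E := hW ▸ inf_le_left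
  have hBW : B ≤ centralizer (W : Set G) := fun b hb w hw => ((hW ▸ hw).2 b hb).symm
  have hfa : W ⊓ centralizer {a} = ⊥ := eq_bot_iff.2 fun w hw => hf.le ⟨hWE hw.1, fun q hq =>
    mem_centralizer_singleton_iff.1 ((hBa.ge.trans (sup_le
      (fun b hb => mem_centralizer_singleton_iff.2 (hBW hb w hw.1).symm) (zpowers_le.2
        (mem_centralizer_singleton_iff.2 (mem_centralizer_singleton_iff.1 hw.2).symm)))) hq)⟩
  have hM : ∀ s ∈ S, ∀ q ∈ Q, s * q * s⁻¹ ∈ zpowers a ⊔ centralizer (W : Set G) :=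
    fun s hs q hq => (sup_le (hBa.ge.trans (sup_le (hBW.trans le_sup_right) le_sup_left))
      ((centralizer_le hWE).trans le_sup_right) :
        Q ⊔ centralizer (E : Set G) ≤ _) ((mem_normalizer_iff.1 (hSM hs) q).1 (mem_sup_left hq))
  refine (P3c.one (P3c.ea_le hE hWE) hW0 (hQ.2 a ha) haW hfa (hS.to_le inf_le_left) inf_le_right
    fun s hs => hM s hs.1 a ha).trans (P3c.tr hE ?_ hW (hB.trans hQE) hSE
      (fun s hs b hb => ?_) fun s hs x hx h => ?_)
  · obtain ⟨k, hk⟩ := IsPGroup.iff_card.1 ((P3c.isP hQ.2).to_le hB)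
    rw [hk]
    exact Odd.pow (by decide)
  · have := hM _ (inv_mem hs) b (hB hb)
    rw [inv_inv] at this
    exact sup_le (zpowers_le.2 haW) (centralizer_le_normalizer _) this
  · refine or_iff_not_imp_left.2 fun x1 => (inv_mem_iff).1 (mem_normalizer_fintype fun w hw => ?_)
    have k : ∀ {y b : G}, b * (s⁻¹ * y * s) = s⁻¹ * y * s * b ↔ y * (s * b * s⁻¹) = s * b * s⁻¹ * y :=
      fun {y b} => ⟨fun e => by
        calc y * (s * b * s⁻¹) = s * (s⁻¹ * y * s * b) * s⁻¹ := by group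
          _ = _ := by rw [← e]; group, fun e => by
        calc b * (s⁻¹ * y * s) = s⁻¹ * (s * b * s⁻¹ * y) * s := by group
          _ = _ := by rw [← e]; group⟩
    rw [inv_inv, SetLike.mem_coe, hW]
    refine ⟨(mem_normalizer_iff''.1 (hSE hs) w).1 (hWE hw), fun b hb => k.2 ?_⟩
    have h1 : s * b * s⁻¹ ∈ (zpowers a : Set G) * (centralizer (W : Set G) : Set G) := by
      rw [← coe_mul_of_left_le_normalizer_right _ _
        ((zpowers_le.2 haW).trans (normalizer_le_normalizer_centralizer _))]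
      exact hM s hs b (hB hb)
    obtain ⟨y, hy, c, hc, e⟩ := h1
    have h2 : y ∈ centralizer {x} := by
      have := mul_mem (mem_centralizer_singleton_iff.2 (k.1 ((hW ▸ h).2 b hb)).symm)
        (inv_mem (mem_centralizer_singleton_iff.2 (hc x hx).symm))
      rwa [← e, mul_inv_cancel_right] at this
    have h3 : y = 1 := by
      by_contra h3
      have h4 : Nat.card (zpowers a) = 13 := by
        rw [Nat.card_zpowers]
        exact orderOf_eq_prime (hQ.2 a ha) fun e => h3 (by simpa [e] using hy)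
      have h5 := mem_zpowers_of_prime_card h4 (g := ⟨y, hy⟩) (g' := ⟨a, mem_zpowers a⟩)
        fun e => h3 (congrArg Subtype.val e)
      obtain ⟨n, hn⟩ := h5
      have h6 : a ∈ centralizer {x} := (show y ^ n = a from congrArg Subtype.val hn) ▸ zpow_mem h2 n
      exact x1 (hfa.le ⟨hx, mem_centralizer_singleton_iff.2 (mem_centralizer_singleton_iff.1 h6).symm⟩)
    rw [← e, h3]
    simpa using hc w hw

end Cfsg.Lib.K35
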