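import Cfsg.Agent.K35.ChK
import Cfsg.Agent.Block.BrauerMap

/-! Simple groups of order `2 ^ a * 3 * 5 * q ^ b`: a fixed space count in degree 64. -/

set_option autoImplicit false
set_option linter.unusedSectionVars false
set_option linter.unusedVariables false

namespace Cfsg.Lib.K35

open Cfsg Subgroup Cfsg.Lib.Char

universe u

namespace P3d

variable {G : Type u} [Group G] [Finite G]

/-- conjugation action on a normalised subgroup -/
@[reducible] def act (E Q : Subgroup G) (h : Q ≤ normalizer (E : Set G)) : MulAction Q E where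
  smul q e := ⟨q * e * (q : G)⁻¹, (mem_normalizer_iff.1 (h q.2) e).1 e.2⟩
  one_smul e := Subtype.ext (by change ((1 : Q) : G) * e * ((1 : Q) : G)⁻¹ = e; simp)
  mul_smul a b e := Subtype.ext (by
    change ((a * b : Q) : G) * e * ((a * b : Q) : G)⁻¹ = a * (b * e * (b : G)⁻¹) * (a : G)⁻¹
    simp [mul_assoc])

theorem sum_mod {E Q : Subgroup G} [Fintype E] (hQ : IsPGroup 13 Q) (h : Q ≤ normalizer (E : Set G))
    (hf : E ⊓ centralizer (Q : Set G) = ⊥) (f : G → ℤ) (hc : ∀ g x, f (g * x * g⁻¹) = f x) :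
    (13 : ℤ) ∣ ∑ e : E, f e - f 1 := by
  classical
  have : Fact (Nat.Prime 13) := ⟨by norm_num⟩
  let := act E Q h
  have key := Block.sum_eq_sum_fixedPoints (k := ZMod 13) (X := E) hQ (by decide)
    (fun e => (f e : ZMod 13)) (fun q e => congrArg _ (hc q e))
  have h1 : ∀ e : E, e ∈ MulAction.fixedPoints Q E ↔ e = 1 := fun e => by
    constructor
    · intro he
      have : (e : G) ∈ E ⊓ centralizer (Q : Set G) := ⟨e.2, mem_centralizer_iff.2 fun q hq => by
        have := congrArg Subtype.val (he ⟨q, hq⟩)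
        exact mul_inv_eq_iff_eq_mul.1 this⟩
      rw [hf] at this
      exact Subtype.ext this
    · rintro rfl q
      exact Subtype.ext (by change (q : G) * ((1 : E) : G) * (q : G)⁻¹ = ((1 : E) : G); simp)
  simp only [h1, Finset.sum_ite_eq', Finset.mem_univ, if_true] at key
  refine (ZMod.intCast_zmod_eq_zero_iff_dvd _ 13).1 ?_
  push_cast
  rw [key]
  simp

end P3d

theorem p3d : StP3d.{u} := by
  intro G _ _ χ hχ h1 E Q Z hE hQ hn hf hZ h0
  classical
  have := Fintype.ofFinite E
  have := Fintype.ofFinite Z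
  have hA : ∀ a b : E, a * b = b * a := fun a b => hE.1.1.1 a b
  obtain ⟨ι, _, lam, hl⟩ := ChK.exists_lin hχ E hA
  have hint : ∀ g ∈ E, ∃ n : ℤ, χ g = n := fun g hg =>
    (hχ.isGeneralizedCharacter.exists_int_iff g).2 fun m hm => by
      have h2 : g ^ 2 = 1 := hE.2 g hg
      rcases (Nat.dvd_prime Nat.prime_two).1 (orderOf_dvd_of_pow_eq_one h2) with h | h
      · rw [orderOf_eq_one_iff.1 h, one_pow]
      · rw [h] at hm
        obtain ⟨k, rfl⟩ := (Nat.coprime_two_right.1 hm)
        rw [pow_succ, pow_mul, h2, one_pow, one_mul]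
  let f : G → ℤ := fun g => ⌊(χ g).re⌋
  have hf1 : ∀ g ∈ E, (f g : ℂ) = χ g := fun g hg => by
    obtain ⟨n, hn⟩ := hint g hg
    simp [f, hn]
  have d1 := P3d.sum_mod hQ hn hf f fun g x => by simp only [f]; rw [hχ.isClassFunction]
  have d2 := P3d.sum_mod hQ hn hf (fun _ => 1) fun _ _ => rfl
  set n0 := (Finset.univ.filter fun i => lam i = 1).card with hn0
  set n1 := (Finset.univ.filter fun i => (lam i).comp (inclusion hZ) = 1).card with hn1
  have le : n0 ≤ n1 := Finset.card_le_card fun i hi => by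
    simp only [Finset.mem_filter, Finset.mem_univ, true_and] at hi ⊢
    rw [hi]; rfl
  have e0 : ∑ e : E, χ e = Fintype.card E * n0 := by
    rw [Finset.sum_congr rfl fun e _ => hl e, Finset.sum_comm]
    have : ∀ i, ∑ e : E, (lam i e : ℂ) = if lam i = 1 then (Fintype.card E : ℂ) else 0 := fun i => by
      split_ifs with h
      · simp [h]
      · exact sum_hom_units_eq_zero ((Units.coeHom ℂ).comp (lam i)) fun h' => h (by
          ext e; exact DFunLike.congr_fun h' e)
    rw [Finset.sum_congr rfl fun i _ => this i, ← Finset.sum_filter]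
    simp [hn0, mul_comm]
  have e1 : ∑ z : Z, χ z = Fintype.card Z * n1 := by
    have hl' : ∀ z : Z, χ z = ∑ i, (lam i (inclusion hZ z) : ℂ) := fun z => hl (inclusion hZ z)
    rw [Finset.sum_congr rfl fun z _ => hl' z, Finset.sum_comm]
    have : ∀ i, ∑ z : Z, (lam i (inclusion hZ z) : ℂ) =
        if (lam i).comp (inclusion hZ) = 1 then (Fintype.card Z : ℂ) else 0 := fun i => by
      split_ifs with h
      · have : ∀ z, lam i (inclusion hZ z) = 1 := fun z => DFunLike.congr_fun h z
        simp [this]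
      · exact sum_hom_units_eq_zero ((Units.coeHom ℂ).comp ((lam i).comp (inclusion hZ)))
          fun h' => h (by ext e; exact DFunLike.congr_fun h' e)
    rw [Finset.sum_congr rfl fun i _ => this i, ← Finset.sum_filter]
    simp [hn1, mul_comm]
  have e2 : ∑ z : Z, χ z = 64 := by
    rw [Finset.sum_eq_single (1 : Z) (fun z _ hz => h0 z z.2 fun h => hz (Subtype.ext h)) (by simp)]
    exact h1
  have e3 : ∑ e : E, f e = Fintype.card E * n0 := by
    have : ((∑ e : E, f e : ℤ) : ℂ) = ((Fintype.card E * n0 : ℤ) : ℂ) := by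
      push_cast
      rw [← e0]
      exact Finset.sum_congr rfl fun e _ => hf1 e e.2
    exact_mod_cast this
  have e4 : f 1 = 64 := by
    have := (hf1 1 E.one_mem).trans h1
    exact_mod_cast this
  have e5 : Fintype.card Z * n1 = 64 := by exact_mod_cast e1.symm.trans e2
  rw [e3, e4] at d1
  simp only [Finset.sum_const, Finset.card_univ, nsmul_eq_mul, mul_one] at d2
  obtain ⟨t, ht⟩ := d2
  have d3 : (13 : ℤ) ∣ n0 - 64 := by
    have : (n0 : ℤ) - 64 = (Fintype.card E * n0 - 64) - 13 * (t * n0) := by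
      linear_combination (-(n0 : ℤ)) * ht
    rw [this]
    exact dvd_sub d1 (Dvd.intro _ rfl)
  have h12 : 12 ≤ n1 := by omega
  rw [Nat.card_eq_fintype_card]
  by_contra hge
  have := Nat.mul_le_mul (not_lt.1 hge) h12
  omega

end Cfsg.Lib.K35
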