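import Cfsg.Agent.K35.ChK
import Cfsg.Agent.K35.P1b

/-!
# Degrees `5 * 2 ^ i` and `q`
-/

set_option autoImplicit false

namespace Cfsg.Lib.K35

open Cfsg Subgroup Cfsg.Lib.Char

universe u

namespace P4

theorem nc {G : Type u} [Group G] [Finite G] [IsSimpleGroup G] {q : ℕ} (h : Ord G q) :
    ¬ IsMulCommutative G := fun hc => by
  obtain ⟨a, b, hn⟩ := h
  let _ : CommGroup G := { (inferInstance : Group G) with mul_comm := hc.is_comm.comm }
  have h1 : 15 ∣ Nat.card G := ⟨2 ^ a * q ^ b, by rw [hn]; ring⟩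
  rcases (Nat.dvd_prime IsSimpleGroup.prime_card).1 h1 with e | e
  · omega
  · have := IsSimpleGroup.prime_card (α := G)
    rw [← e] at this
    norm_num at this

end P4

theorem p4 (h1 : StR2.{u}) (h2 : StDZ.{u}) (hv : StVan.{u}) (h3 : StL4904.{u}) (h4 : StP4a.{u}) :
    StP4.{u} := by
  intro G _ _ _ q hq h7 hO hF χ ψ x i hB hx
  have hG := P4.nc hO
  obtain ⟨a, b, hn⟩ := hO
  have : Fact q.Prime := ⟨hq⟩
  obtain ⟨η, e1, e2, e3, e4⟩ : ∃ η : IrrCharacter G, (η : G → ℂ) ≠ (fun _ => 1) ∧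
      (η : G → ℂ) 1 = q ∧ Rat (η : G → ℂ) ∧ q ∣ Nat.card G := by
    rcases hx with ⟨-, rfl⟩ | ⟨rfl, -⟩
    · exact ⟨ψ, hB.ne₂, by simpa using hB.deg₂, hB.rat₂, hB.dvd₂⟩
    · exact ⟨χ, hB.ne₁, hB.deg₁, hB.rat₁, hB.dvd₁⟩
  have n2 := (h1 G η q q e1 e2 e3 hq (by omega)).2 (by omega)
  obtain ⟨w, hw⟩ := exists_prime_orderOf_dvd_card' q e4
  obtain ⟨ξ, d, k1, k2, k3, k4, k5⟩ := exists_irr_ne_one_not_dvd_ne_zero Nat.prime_two (g := w)
    fun e => by rw [e, orderOf_one] at hw; omega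
  have k6 : ¬ q ∣ d := fun e => k5 ((hv G hG ⟨ξ, k1⟩ k2).2.2 q d w hq k3 e n2 hw.symm.dvd)
  have k7 : d ∣ 2 ^ a * (3 * 5) * q ^ b := by
    rw [← mul_assoc, ← hn]
    exact irr_degree_dvd_card k1 k3
  have k8 := ((Nat.prime_two.coprime_iff_not_dvd.2 k4).symm.pow_right a).dvd_of_dvd_mul_left
    (((hq.coprime_iff_not_dvd.2 k6).symm.pow_right b).dvd_of_dvd_mul_right k7)
  have k9 := Nat.le_of_dvd (by norm_num) k8
  by_cases h5 : d + 1 < q
  · exact h3 G hG hF ⟨ξ, k1⟩ d q k2 k3 (by omega) hq h5 e4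
  exfalso
  obtain rfl : d = 15 := by
    have : 6 ≤ d := by omega
    interval_cases d <;> omega
  rcases hx with ⟨e5, e6⟩ | ⟨e5, e6⟩
  · rcases (show q = 11 ∨ q = 16 by omega) with rfl | rfl
    · obtain rfl : x = 10 := by omega
      refine h4 G χ ⟨ξ, k1⟩ w hw (h2 G hG η 11 hq e2 n2 w hw) (by simpa using hB.deg₁)
        (fun k hk => ?_) (by simpa using k3)
      have h6 : orderOf (w ^ k) = 11 := by
        rw [Nat.Coprime.orderOf_pow (by rw [hw]; exact hq.coprime_iff_not_dvd.2 hk), hw]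
      have := hB.reg (w ^ k) (by rw [h6]; norm_num)
      rw [(hv G hG ψ hB.ne₂).2.2 11 11 _ hq (by rw [hB.deg₂]; norm_num) dvd_rfl n2 h6.symm.dvd]
        at this
      linear_combination this
    · norm_num at hq
  · rcases (show q = 9 ∨ q = 14 by omega) with rfl | rfl <;> norm_num at hq

end Cfsg.Lib.K35
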