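import Cfsg.Agent.K35.Defs
import Cfsg.Agent.K35.ChK
import Cfsg.Agent.Block.OneBlock

/-! Simple groups of order `2 ^ a * 3 * 5 * q ^ b`: no character of degree fifteen. -/

set_option autoImplicit false
set_option linter.unusedSectionVars false
set_option linter.unusedVariables false

namespace Cfsg.Lib.K35

open Cfsg Subgroup Cfsg.Lib.Char
open scoped commutatorElement ComplexConjugate

universe u

namespace P4a

open ChK

variable {G : Type u} [Group G] [Finite G] {u : G}

open Classical in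
/-- the sum of the squared norms over the non-identity powers of `u` -/
noncomputable def W (u : G) [Fintype (zpowers u)] (ζ : G → ℂ) : ℝ :=
  ∑ a ∈ Finset.univ.erase (1 : zpowers u), ‖ζ a‖ ^ 2

variable [Fintype (zpowers u)]

theorem W_const (hu : orderOf u = 11) {ζ : G → ℂ} {c : ℝ}
    (h : ∀ k : ℕ, ¬ 11 ∣ k → ‖ζ (u ^ k)‖ ^ 2 = c) : W u ζ = 10 * c := by
  classical
  have cd : Fintype.card (zpowers u) = 11 := by rw [← Nat.card_eq_fintype_card, Nat.card_zpowers, hu]
  rw [W, Finset.sum_congr rfl (g := fun _ => c), Finset.sum_const,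
    Finset.card_erase_of_mem (Finset.mem_univ _), Finset.card_univ, cd]
  · simp
  · rintro ⟨a, ha⟩ h1
    obtain ⟨k, rfl⟩ := mem_powers_iff_mem_zpowers.2 ha
    exact h k fun e => (Finset.mem_erase.1 h1).1
      (Subtype.ext (orderOf_dvd_iff_pow_eq_one.1 (hu ▸ e)))

theorem W_ge (hu : orderOf u = 11) {ζ : G → ℂ} (hζ : IsCharacter G ζ) (hd : ζ 1 = 15) :
    28 ≤ W u ζ := by
  classical
  have cd : Nat.card (zpowers u) = 11 := by rw [Nat.card_zpowers, hu]
  have cm : ∀ a b : zpowers u, a * b = b * a := fun a b => by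
    obtain ⟨_, i, rfl⟩ := a
    obtain ⟨_, j, rfl⟩ := b
    exact Subtype.ext (zpow_mul_comm u i j)
  have l1 : ∀ ψ : IrrCharacter (zpowers u), (ψ : zpowers u → ℂ) 1 = 1 := fun ψ => by
    obtain ⟨lam, e⟩ := ψ.2.exists_monoidHom_of_comm cm
    simp [e]
  obtain ⟨c, hc⟩ := (hζ.res (zpowers u)).exists_nat_coeff
  have h1 : ∑ ψ, (c ψ : ℤ) = 15 := by
    have := congrFun hc 1
    simp only [Finset.sum_apply, Pi.smul_apply, smul_eq_mul, l1, mul_one, coe_one, hd] at this
    exact_mod_cast this.symm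
  have h2 : ∑ _ψ : IrrCharacter (zpowers u), (1 : ℤ) = 11 := by
    have := sum_irr_degree_sq (G := zpowers u)
    simp only [l1, one_pow, cd] at this
    exact_mod_cast this
  have h3 : (23 : ℤ) ≤ ∑ ψ, (c ψ : ℤ) * c ψ := by
    have : ∑ ψ, (3 * (c ψ : ℤ) - 2 * 1) ≤ ∑ ψ, (c ψ : ℤ) * c ψ :=
      Finset.sum_le_sum fun ψ _ => by
        rcases le_or_gt (c ψ : ℤ) 1 with h | h <;> nlinarith
    rwa [Finset.sum_sub_distrib, ← Finset.mul_sum, ← Finset.mul_sum, h1, h2] at this
  have h4 := classInner_sum_int_coeff (G := zpowers u) (fun ψ => (c ψ : ℤ)) fun ψ => (c ψ : ℤ)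
  simp only [Int.cast_natCast] at h4
  rw [← hc, classInner_self_eq, cd] at h4
  have h5 : ((11 : ℕ) : ℝ)⁻¹ * ∑ a : zpowers u, ‖ζ a‖ ^ 2 = ((∑ ψ, (c ψ : ℤ) * c ψ : ℤ) : ℝ) := by
    exact_mod_cast h4
  have h6 : W u ζ + ‖ζ (1 : zpowers u)‖ ^ 2 = ∑ a : zpowers u, ‖ζ a‖ ^ 2 :=
    Finset.sum_erase_add _ (fun a : zpowers u => ‖ζ a‖ ^ 2) (Finset.mem_univ _)
  have h7 : (23 : ℝ) ≤ ((∑ ψ, (c ψ : ℤ) * c ψ : ℤ) : ℝ) := by exact_mod_cast h3
  rw [coe_one, hd] at h6
  norm_num at h5 h6 h7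
  linarith

theorem bound (hu : orderOf u = 11) (hC : centralizer ({u} : Set G) = zpowers u)
    {χ : IrrCharacter G} (h1 : (χ : G → ℂ) 1 = 10)
    (h2 : ∀ k : ℕ, ¬ 11 ∣ k → (χ : G → ℂ) (u ^ k) = -1) (s : Finset (IrrCharacter G))
    (hs : ∀ ζ ∈ s, (ζ : G → ℂ) 1 = 15) : ∑ ζ ∈ s, W u ζ ≤ 90 := by
  classical
  have cd : Fintype.card (zpowers u) = 11 := by rw [← Nat.card_eq_fintype_card, Nat.card_zpowers, hu]
  have tot : ∑ ζ : IrrCharacter G, W u ζ = 110 := by
    simp only [W]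
    rw [Finset.sum_comm, Finset.sum_congr rfl (g := fun _ => (11 : ℝ)), Finset.sum_const,
      Finset.card_erase_of_mem (Finset.mem_univ _), Finset.card_univ, cd]
    · norm_num
    · intro a ha
      have a1 := (Finset.mem_erase.1 ha).1
      have := Fact.mk (by norm_num : Nat.Prime 11)
      have m : (⟨u, mem_zpowers u⟩ : zpowers u) ∈ zpowers a :=
        mem_zpowers_of_prime_card (p := 11) (by rw [Nat.card_zpowers, hu]) a1
      obtain ⟨k, hk⟩ := m
      have hk' : (a : G) ^ k = u := congrArg Subtype.val hk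
      have e : centralizer ({(a : G)} : Set G) = zpowers u := by
        refine le_antisymm (fun x hx => ?_) fun x hx => ?_
        · rw [← hC]
          refine mem_centralizer_iff.2 fun y hy => ?_
          rw [Set.mem_singleton_iff.1 hy, ← hk']
          exact ((show Commute (a : G) x from mem_centralizer_iff.1 hx a rfl).zpow_left k).eq
        · refine mem_centralizer_iff.2 fun y hy => ?_
          rw [Set.mem_singleton_iff.1 hy]
          obtain ⟨_, i, rfl⟩ := a
          obtain ⟨j, rfl⟩ := hx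
          exact zpow_mul_comm u i j
      rw [sum_irr_normSq, e, Nat.card_zpowers, hu]
      norm_num
  let t : IrrCharacter G := ⟨fun _ => 1, isIrrCharacter_one⟩
  have n1 : t ≠ χ := fun e => by
    have : (1 : ℂ) = 10 := (congrFun (congrArg Subtype.val e) 1).trans h1
    norm_num at this
  have n2 : χ ∉ s := fun e => by
    have := h1.symm.trans (hs χ e)
    norm_num at this
  have n3 : t ∉ s := fun e => by
    have : (1 : ℂ) = 15 := hs t e
    norm_num at this
  have w1 : W u t = 10 * 1 := W_const hu fun k _ => by simp [t]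
  have w2 : W u χ = 10 * 1 := W_const hu fun k hk => by simp [h2 k hk]
  have le : ∑ ζ ∈ insert t (insert χ s), W u ζ ≤ ∑ ζ : IrrCharacter G, W u ζ :=
    Finset.sum_le_sum_of_subset_of_nonneg (Finset.subset_univ _) fun ζ _ _ =>
      Finset.sum_nonneg fun _ _ => by positivity
  rw [Finset.sum_insert (by simp [n1, n3]), Finset.sum_insert n2, w1, w2, tot] at le
  linarith

end P4a

open ChK P4a in
theorem p4a : StP4a.{u} := by
  classical
  intro G _ _ χ ξ u hu hC h1 h2 hd
  have := Fintype.ofFinite (zpowers u)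
  have bd := bound hu hC h1 h2
  have u11 : u ^ 11 = 1 := hu ▸ pow_orderOf_eq_one u
  by_cases hA : ∀ k : ℕ, (ξ : G → ℂ) (u ^ (k * 3)) = (ξ : G → ℂ) (u ^ k)
  · have md : ∀ k : ℕ, u ^ k = u ^ (k % 11) := fun k => by rw [← hu, pow_mod_orderOf]
    have iv : ∀ k : ℕ, k ≤ 11 → (ξ : G → ℂ) (u ^ (11 - k)) = conj ((ξ : G → ℂ) (u ^ k)) := fun k hk => by
      rw [← IsCharacter_inv ξ.2.isCharacter, show u ^ (11 - k) = (u ^ k)⁻¹ by
        rw [eq_inv_iff_mul_eq_one, ← pow_add, Nat.sub_add_cancel hk, u11]]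
    have f1 : (ξ : G → ℂ) (u ^ 1) = (ξ : G → ℂ) u := by rw [pow_one]
    have f3 : (ξ : G → ℂ) (u ^ 3) = (ξ : G → ℂ) u := (hA 1).trans f1
    have f9 : (ξ : G → ℂ) (u ^ 9) = (ξ : G → ℂ) u := (hA 3).trans f3
    have f5 : (ξ : G → ℂ) (u ^ 5) = (ξ : G → ℂ) u := by rw [← f9, ← hA 9, md (9 * 3)]
    have f4 : (ξ : G → ℂ) (u ^ 4) = (ξ : G → ℂ) u := by rw [← f5, ← hA 5, md (5 * 3)]
    have val : ∀ k : ℕ, ¬ 11 ∣ k → (ξ : G → ℂ) (u ^ k) = (ξ : G → ℂ) u ∨
        (ξ : G → ℂ) (u ^ k) = conj ((ξ : G → ℂ) u) := fun k hk => by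
      rw [md k]
      have : k % 11 < 11 := Nat.mod_lt _ (by norm_num)
      have : k % 11 ≠ 0 := by omega
      generalize k % 11 = j at *
      interval_cases j
      · omega
      exacts [.inl f1, .inr (f9 ▸ iv 9 (by norm_num)), .inl f3, .inl f4, .inl f5,
        .inr (f5 ▸ iv 5 (by norm_num)), .inr (f4 ▸ iv 4 (by norm_num)), .inr (f3 ▸ iv 3 (by norm_num)),
        .inl f9, .inr (f1 ▸ iv 1 (by norm_num))]
    have nm : ∀ k : ℕ, ¬ 11 ∣ k → ‖(ξ : G → ℂ) (u ^ k)‖ = ‖(ξ : G → ℂ) u‖ := fun k hk => by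
      rcases val k hk with e | e <;> simp [e]
    obtain ⟨N, hN, hN'⟩ := Block.exists_nat_normSq_modEq ξ.2.isCharacter (a := 15) (r := 11)
      (by rw [hd]; norm_num) (by norm_num) hu fun j hj j0 => nm j (by omega)
    have w : W u ξ = 10 * N := W_const hu fun k hk => by rw [nm k hk, hN]
    have b1 := bd {ξ} (by simpa using hd)
    rw [Finset.sum_singleton, w] at b1
    have N9 : N ≤ 9 := by
      have : (N : ℝ) ≤ 9 := by linarith
      exact_mod_cast this
    obtain rfl : N = 5 := by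
      unfold Nat.ModEq at hN'
      omega
    let ξ' : IrrCharacter G := ⟨fun g => conj ((ξ : G → ℂ) g), ξ.2.ringHom_comp (starRingEnd ℂ)⟩
    by_cases e : ξ = ξ'
    · have e1 : (ξ : G → ℂ) u = conj ((ξ : G → ℂ) u) := congrFun (congrArg Subtype.val e) u
      obtain ⟨c, hc⟩ := (ξ.2.isGeneralizedCharacter.exists_int_iff u).2 fun m hm => by
        rw [hu] at hm
        rcases val m ((Nat.Prime.coprime_iff_not_dvd (by norm_num)).1 hm.symm) with h | h
        exacts [h, h.trans e1.symm]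
      rw [hc, Complex.norm_intCast, sq_abs] at hN
      have h5 : c ^ 2 = 5 := by exact_mod_cast hN
      have : -3 < c ∧ c < 3 := by constructor <;> nlinarith
      obtain ⟨a, b⟩ := this
      interval_cases c <;> omega
    · have w' : W u ξ' = 10 * (5 : ℕ) := W_const hu fun k hk => by
        simp only [ξ', RCLike.norm_conj]
        rw [nm k hk, hN]
      have b2 := bd {ξ, ξ'} (by simp [hd, ξ', map_ofNat])
      rw [Finset.sum_pair e, w, w'] at b2
      norm_num at b2
  · obtain ⟨σ, hσ⟩ := exists_ringEquiv_pow (n := 11) (m := 3) (by norm_num) (by norm_num)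
    let π := galoisPerm G σ
    have p1 : ∀ (i : ℕ) (k : ℕ), ((π ^ i) ξ : G → ℂ) (u ^ k) = (ξ : G → ℂ) (u ^ (k * 3 ^ i)) := by
      intro i
      induction i with
      | zero => simp
      | succ i ih =>
        intro k
        rw [pow_succ', Equiv.Perm.mul_apply, galoisPerm_apply]
        refine (((π ^ i) ξ).2.isGeneralizedCharacter.ringHom_pow (u ^ k) (n := 11) (m := 3) (by norm_num)
          (by rw [← pow_mul, mul_comm, pow_mul, u11, one_pow]) (σ : ℂ →+* ℂ) hσ).trans ?_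
        rw [← pow_mul, ih, pow_succ', mul_assoc]
    have p2 : ∀ i : ℕ, ((π ^ i) ξ : G → ℂ) 1 = 15 := fun i => by simpa [hd] using p1 i 0
    have p3 : ∀ i j : ℕ, i < j → j < 4 → (π ^ i) ξ ≠ (π ^ j) ξ := fun i j hij hj e => hA fun k => by
      obtain ⟨r, rfl⟩ := Nat.exists_eq_add_of_lt hij
      rw [add_assoc, pow_add, Equiv.Perm.mul_apply] at e
      have e1 := (π ^ i).injective e
      obtain ⟨t, ht⟩ : r + 1 ∣ 6 := by
        have : r < 3 := by omega
        interval_cases r <;> norm_num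
      have e2 : (π ^ 6) ξ = ξ := by
        rw [ht, pow_mul]
        exact Equiv.Perm.pow_apply_eq_self_of_apply_eq_self e1.symm t
      have := p1 6 k
      rw [e2] at this
      rw [this]
      congr 1
      rw [show k * 3 ^ 6 = k * 3 + 11 * (66 * k) by ring, pow_add, pow_mul u 11, u11, one_pow, mul_one]
    have inj : Set.InjOn (fun i => (π ^ i) ξ) (Finset.range 4 : Finset ℕ) := fun i hi j hj e => by
      have hi' := Finset.mem_range.1 (Finset.mem_coe.1 hi)
      have hj' := Finset.mem_range.1 (Finset.mem_coe.1 hj)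
      rcases lt_trichotomy i j with h | h | h
      exacts [(p3 i j h hj' e).elim, h, (p3 j i h hi' e.symm).elim]
    have b1 := bd ((Finset.range 4).image fun i => (π ^ i) ξ) (by
      intro ζ hζ
      obtain ⟨i, -, rfl⟩ := Finset.mem_image.1 hζ
      exact p2 i)
    rw [Finset.sum_image inj] at b1
    have b2 : ∑ i ∈ Finset.range 4, (28 : ℝ) ≤ ∑ i ∈ Finset.range 4, W u ((π ^ i) ξ : IrrCharacter G) :=
      Finset.sum_le_sum fun i _ => W_ge hu ((π ^ i) ξ).2.isCharacter (p2 i)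
    norm_num at b2
    linarith

end Cfsg.Lib.K35
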