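import Cfsg.Agent.K35.Defs

/-!
# Simple groups of order `2 ^ a * 3 * 5 * q ^ b`: assembly of the case `q ≠ 3`
-/

set_option autoImplicit false

namespace Cfsg.Lib.K35

open Cfsg Subgroup

universe u

namespace Q

theorem noncomm {G : Type u} [Group G] [Finite G] [IsSimpleGroup G] (h : 15 ∣ Nat.card G) :
    ¬ IsMulCommutative G := by
  intro hc
  letI : CommGroup G := { (inferInstance : Group G) with mul_comm := hc.is_comm.comm }
  have hp : (Nat.card G).Prime := IsSimpleGroup.prime_card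
  have h3 : 3 ∣ Nat.card G := dvd_trans (by norm_num) h
  have h5 : 5 ∣ Nat.card G := dvd_trans (by norm_num) h
  have e3 := (Nat.prime_dvd_prime_iff_eq Nat.prime_three hp).1 h3
  have e5 := (Nat.prime_dvd_prime_iff_eq Nat.prime_five hp).1 h5
  omega

theorem not_nine {a b q : ℕ} (hq : q.Prime) (h3 : q ≠ 3) : ¬ 9 ∣ 2 ^ a * 3 * 5 * q ^ b := by
  intro h
  have e : 2 ^ a * 3 * 5 * q ^ b = 3 * (2 ^ a * 5 * q ^ b) := by ring
  rw [e] at h
  have h' : 3 ∣ 2 ^ a * 5 * q ^ b :=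
    Nat.dvd_of_mul_dvd_mul_left (by norm_num : 0 < 3) (by simpa using h)
  rcases (Nat.Prime.dvd_mul Nat.prime_three).1 h' with h1 | h1
  · rcases (Nat.Prime.dvd_mul Nat.prime_three).1 h1 with h2 | h2
    · have := Nat.prime_three.dvd_of_dvd_pow h2
      omega
    · omega
  · have := Nat.prime_three.dvd_of_dvd_pow h1
    exact h3 ((Nat.prime_dvd_prime_iff_eq Nat.prime_three hq).1 this).symm

end Q

theorem stq (h0 : StL4501.{u}) (hb : StB3.{u}) (hd : StDeg) (hr : StR2.{u}) (h1 : StP1.{u})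
    (h4 : StP4.{u}) (h3 : StP3.{u}) : StQ.{u} := by
  intro G _ _ _ q hq hq3 hO hF
  obtain ⟨a, b, hc⟩ := hO
  by_cases hq2 : q = 2
  · subst hq2
    exact h0 G hF (a + b) (by rw [hc]; ring)
  have hq5 : 5 ≤ q := hq.five_le_of_ne_two_of_ne_three hq2 hq3
  have h15 : 15 ∣ Nat.card G := ⟨2 ^ a * q ^ b, by rw [hc]; ring⟩
  obtain ⟨χ, ψ, x, hB⟩ := hb G (Q.noncomm h15) (dvd_trans (by norm_num) h15)
    (by rw [hc]; exact Q.not_nine hq hq3)
  rcases hd a b q x hq hq5 hB.two_le hB.mod (hc ▸ hB.dvd₁) (hc ▸ hB.dvd₂) with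
    hx | ⟨hq7, ⟨i, hi⟩ | ⟨i, hi⟩ | ⟨hx, hq13⟩⟩
  · subst hx
    have hb0 : b = 0 := by
      by_contra hb0
      obtain ⟨b', rfl⟩ : ∃ b', b = b' + 1 := ⟨b - 1, by omega⟩
      obtain ⟨r1, r2⟩ := hr G χ 4 q hB.ne₁ hB.deg₁ hB.rat₁ hq hq2
      by_cases h5 : q = 5
      · subst h5
        exact r2 (by norm_num) ⟨2 ^ a * 3 * 5 ^ b', by rw [hc]; ring⟩
      · exact r1 (by omega) ⟨2 ^ a * 3 * 5 * q ^ b', by rw [hc]; ring⟩
    subst hb0
    exact h0 G hF a (by rw [hc]; ring)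
  · exact h1 G q hq hq7 ⟨a, b, hc⟩ hF χ ψ x i hB hi
  · exact h4 G q hq hq7 ⟨a, b, hc⟩ hF χ ψ x i hB hi
  · subst hx; subst hq13
    exact h3 G ⟨a, b, hc⟩ hF χ ψ hB

end Cfsg.Lib.K35
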