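import Cfsg.Agent.K35.Loc

/-!
# Simple groups of order `2 ^ b * 3 ^ a * 5`: the module argument for the type `3² : SL₂(3)`
-/

set_option autoImplicit false

namespace Cfsg.Lib.K35

open Cfsg Subgroup Cfsg.Lib.Trans Cfsg.Lib.Gold
open Cfsg.Lib.P8 (A5 A6 S5 O2 Om Jt Phi EA SR4 Ch E9 Pj Ty Sec SecOK Mx)
open scoped commutatorElement

universe u

namespace QM

open Equiv in
theorem four : ∃ s₁ s₂ s₃ : A5, (s₁ * s₁ = 1 ∧ (s₁ : S5) 4 = 4 ∧ (s₁ : S5) 0 = 1) ∧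
    (s₂ * s₂ = 1 ∧ (s₂ : S5) 4 = 4 ∧ (s₂ : S5) 0 = 2) ∧
    (s₃ * s₃ = 1 ∧ (s₃ : S5) 4 = 4 ∧ (s₃ : S5) 0 = 3) ∧ s₂ * s₁ = s₃ ∧
    s₂ * x0 = x0 * s₁ ∧ s₃ * x0 = x0 * s₂ ∧ s₁ * x0 = x0 * s₃ :=
  ⟨⟨swap 0 1 * swap 2 3, Perm.mem_alternatingGroup.2 (by decide)⟩,
    ⟨swap 0 2 * swap 1 3, Perm.mem_alternatingGroup.2 (by decide)⟩,
    ⟨swap 0 3 * swap 1 2, Perm.mem_alternatingGroup.2 (by decide)⟩, by decide +kernel⟩

theorem x0_facts : x0 * (x0 * x0) = 1 ∧ x0 ≠ 1 ∧ (x0 : S5) 4 = 4 ∧ (x0 : S5) 0 = 0 := by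
  decide +kernel

theorem x0_ord : orderOf x0 = 3 :=
  haveI : Fact (Nat.Prime 3) := ⟨Nat.prime_three⟩
  orderOf_eq_prime (by rw [pow_three, x0_facts.1]) x0_facts.2.1

variable {A B C : Type u} [AddCommGroup A] [AddCommGroup B] [AddCommGroup C]
  [DistribMulAction A5 A] [DistribMulAction A5 B] [DistribMulAction A5 C] {β : A →+ B →+ C}

theorem x3 (m : A) : x0 • x0 • x0 • m = m := by rw [smul_smul, smul_smul, mul_assoc, x0_facts.1, one_smul]

theorem conj_fix {g t : A5} {i j : Fin 5} (hg : (g : S5) i = j) (ht : (t : S5) j = j) :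
    ((g⁻¹ * t * g : A5) : S5) i = i := by
  rw [coe_mul, coe_mul, coe_inv, Equiv.Perm.mul_apply, Equiv.Perm.mul_apply, hg, ht, ← hg]
  simp

theorem fs_smul {g : A5} (hg : (g : S5) 4 = 4) {m : A} (h : FS m) : FS (g • m) := fun t t2 t4 => by
  have := h (g⁻¹ * t * g) (by
    rw [show g⁻¹ * t * g * (g⁻¹ * t * g) = g⁻¹ * (t * t) * g by group, t2]; group) (conj_fix hg t4)
  rwa [mul_smul, mul_smul, inv_smul_eq_iff] at this

theorem eq_add (h : MA A) {a b c : A} (e : a + b + c = 0) : c = a + b := by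
  rw [← add_zero c, ← h.m5.two (a + b), ← add_assoc, add_comm c, e, zero_add]

theorem x2 (h : MA A) {m : A} (hm : InN m) : x0 • x0 • m = m + x0 • m := eq_add h (hm x0 x0_ord)

theorem tr (hB : MA B) (hC : MA C) (e : Eqv A5 β) {a : A} {b : B} (ha : FS a) (hb : InN b) :
    FS (β a b + x0 • β a b + x0 • x0 • β a b) := by
  obtain ⟨s₁, s₂, s₃, ⟨a1, a2, a3⟩, ⟨b1, b2, b3⟩, ⟨c1, c2, c3⟩, e0, e1, e2, e3⟩ := four
  let N : C →+ C := AddMonoidHom.mk' (fun c => c + s₁ • c + (s₂ • c + s₃ • c)) fun c d => by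
    simp only [smul_add]; abel
  have hN : ∀ c, N c = c + s₁ • c + (s₂ • c + s₃ • c) := fun _ => rfl
  have n1 : ∀ c, N (x0 • c) = x0 • N c := fun c => by
    simp only [hN, smul_add, smul_smul, e1, e2, e3]; abel
  have n2 : N (β a b) = 0 := by
    have k : β a b + s₁ • β a b = β a (b + s₁ • b) := by rw [← e, ha _ a1 a2, map_add]
    rw [hN, ← e0, mul_smul, ← smul_add, k, ← e, ha _ b1 b2, (hB.quad b hb _ a1 a2).1 _ b1 b2, hC.m5.two]
  obtain ⟨p, q, hp, hq, k⟩ := hC.cx (β a b + x0 • β a b + x0 • x0 • β a b) (by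
    rw [smul_add, smul_add, x3]; abel)
  have n3 : N p = 0 := by
    have := congrArg N k
    rw [map_add, map_add, n1, n1, n1, n2, map_add, hN q, hq _ a2, hq _ b2, hq _ c2, hC.m5.two] at this
    simpa using this.symm
  obtain ⟨z, hz, rfl⟩ := hC.fam 0 p hp
  have z0 : z 0 = 0 := by_contra fun h => by
    rw [hN, hz, hz, hz, a3, b3, c3] at n3
    have := hC.ind z hz h {0, 1, 2, 3} (by
      rw [Finset.sum_insert (by decide), Finset.sum_insert (by decide), Finset.sum_pair (by decide),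
        ← add_assoc, n3])
    revert this; decide
  rw [k, z0, zero_add]
  exact fun g _ g4 => hq g g4

theorem key (hA : MA A) (hB : MA B) (hC : MA C) (e : Eqv A5 β) {a : A} {b : B} (ha : FS a)
    (ha' : InN a) (hb : InN b) : FS (β a (x0 • b) + β (x0 • a) b) := by
  have := tr hB hC e ha hb
  rw [← e, ← e, x2 hA ha', x2 hB hb] at this
  simp only [map_add, AddMonoidHom.add_apply] at this
  convert this using 1
  rw [← add_zero (_ + _), ← hC.m5.two (β a b + β (x0 • a) (x0 • b))]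
  abel

theorem O_le {H : AddSubgroup B} (hB : MA B) (h4 : Inv4 H) (fp : ∀ τ, τ + x0 • τ ∈ H → τ ∈ H) {o : B}
    (ho : InO o) : o ∈ H := by
  refine (AddSubgroup.closure_le H).2 ?_ ho
  rintro o ⟨i, hi⟩
  have k : ∀ o : B, x0 • o = o → o ∈ H := fun o e => fp o (by rw [e, hB.m5.two]; exact H.zero_mem)
  have k' : ∀ g : A5, (g : S5) 4 = 4 → (g : S5) 0 = i → o ∈ H := fun g g4 g0 => by
    have := h4 g g4 _ (k (g⁻¹ • o) (by
      rw [eq_inv_smul_iff, smul_smul, smul_smul]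
      have := conj_fix (g := g⁻¹) (t := x0) (i := i) (j := 0)
        (by rw [← g0, coe_inv]; simp) x0_facts.2.2.2
      rw [inv_inv] at this
      exact hi _ this))
    rwa [smul_inv_smul] at this
  obtain ⟨s₁, s₂, s₃, ⟨-, a2, a3⟩, ⟨-, b2, b3⟩, ⟨-, c2, c3⟩, -⟩ := four
  fin_cases i
  exacts [k' 1 rfl rfl, k' _ a2 a3, k' _ b2 b3, k' _ c2 c3, k o (hi _ x0_facts.2.2.1)]

end QM

open QM in
theorem qm : StQM.{u} := by
  intro A B C _ _ _ _ _ _ _ _ _ β hA hB hC e hβ w H₁ H₃ C₀ le i3 _ h4 fp c4 cS hw h3 τ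
  have x4 := x0_facts.2.2.1
  obtain ⟨τ, o', hτ, ho', rfl⟩ := hB.dec τ
  rw [map_add]
  refine C₀.add_mem ?_ (h3 _ (le (O_le hB h4 fp ho')))
  obtain ⟨n, o, hn, ho, rfl⟩ := hA.dec w
  obtain ⟨n1, o1⟩ := hA.decS n o hn ho hw
  have sub : ∀ {a b : C}, a + b ∈ C₀ → b ∈ C₀ → a ∈ C₀ := fun h k => (C₀.add_mem_cancel_right k).1 h
  have h3' : ∀ b ∈ H₃, InN b → β n b ∈ C₀ := fun b hb k =>
    sub (by simpa using h3 b hb) (cS _ (hβ.o4 o b o1 k))
  rw [map_add, AddMonoidHom.add_apply]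
  refine C₀.add_mem ?_ (cS _ (hβ.o4 o τ o1 hτ))
  by_cases k0 : τ ∈ H₃
  · exact h3' τ k0 hτ
  have t1 := hB.nSm x0 τ hτ
  have t2 := hB.nSm x0 _ t1
  by_cases k1 : x0 • τ ∈ H₃
  · have := cS _ (key hA hB hC e n1 hn t2)
    rw [x3, e] at this
    exact sub this (c4 _ x4 _ (h3' _ k1 t1))
  · have k2 : x0 • x0 • τ ∈ H₃ := by
      rw [x2 hB hτ, AddSubgroup.add_mem_iff_of_index_two i3]
      exact iff_of_false k0 k1
    have := cS _ (key hA hB hC e (fs_smul x4 (fs_smul x4 n1)) (hA.nSm x0 _ (hA.nSm x0 _ hn)) hτ)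
    rw [x3, ← x3 (x0 • τ), e, e, add_comm] at this
    exact sub this (c4 _ x4 _ (c4 _ x4 _ (h3' _ k2 t2)))

end Cfsg.Lib.K35
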