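import Cfsg.Agent.K35.Defs
import Cfsg.Agent.K35.ChK
import Cfsg.Agent.Spor.CharKit

/-! Simple groups of order `2 ^ a * 3 * 5 * q ^ b`: rational characters of small degree. -/

set_option autoImplicit false
set_option linter.unusedSectionVars false
set_option linter.unusedVariables false

namespace Cfsg.Lib.K35

open Cfsg Subgroup Cfsg.Lib.Char
open scoped commutatorElement ComplexConjugate

universe u

namespace R2

open ChK

variable {G : Type u} [Group G] [Finite G] {χ : G → ℂ}

theorem prime_val (hχ : IsCharacter G χ) (hr : Rat χ) (hf : ∀ g, χ g = χ 1 → g = 1) {d q : ℕ}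
    (hd : χ 1 = d) (hq : q.Prime) {u : G} (hu : orderOf u = q) :
    ∃ m m₀ : ℕ, 1 ≤ m ∧ (d : ℤ) = (q - 1) * m + m₀ ∧ χ u = ((m₀ - m : ℤ) : ℂ) := by
  classical
  have := Fintype.ofFinite (zpowers u)
  obtain ⟨c, hc⟩ := hr u
  obtain ⟨m₀, h0⟩ := Spor.CKit.exists_nat_sum hχ (zpowers u)
  have u1 : u ≠ 1 := fun e => hq.one_lt.ne (by rw [← hu, e, orderOf_one])
  have cd : Fintype.card (zpowers u) = q := by rw [← Nat.card_eq_fintype_card, Nat.card_zpowers, hu]
  have cst : ∀ a : zpowers u, χ a = c + if a = 1 then ((d : ℂ) - c) else 0 := by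
    rintro ⟨a, ha⟩
    obtain ⟨k, rfl⟩ := mem_powers_iff_mem_zpowers.2 ha
    split_ifs with e
    · rw [e, coe_one, hd]; ring
    · rw [add_zero, ← hc]
      refine (hχ.isGeneralizedCharacter.exists_int_iff u).1 ⟨c, hc⟩ k ?_
      rw [hu]
      refine ((Nat.Prime.coprime_iff_not_dvd hq).2 fun h => e (Subtype.ext ?_)).symm
      exact orderOf_dvd_iff_pow_eq_one.1 (hu ▸ h)
  simp only [cst, Finset.sum_add_distrib, Finset.sum_const, Finset.card_univ, cd, nsmul_eq_mul,
    Finset.sum_ite_eq', Finset.mem_univ, if_true, Nat.card_zpowers, hu] at h0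
  have h1 : (q : ℤ) * c + (d - c) = m₀ * q := by exact_mod_cast h0
  have h2 : c < d := by
    have := hχ.re_lt_re_of_ne (g := u) fun e => u1 (hf u e)
    rw [hc, hd] at this
    exact_mod_cast this
  have h3 : (0 : ℤ) < m₀ - c := by
    have q0 : (0 : ℤ) < q := by exact_mod_cast hq.pos
    by_contra h
    nlinarith
  obtain ⟨m, hm⟩ := Int.eq_ofNat_of_zero_le h3.le
  refine ⟨m, m₀, by omega, ?_, ?_⟩
  · rw [← hm]; linear_combination h1
  · rw [hc]; congr 1; omega

end R2

open ChK R2 in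
theorem r2 : StR2.{u} := by
  classical
  intro G _ _ _ ξ d q h1 hd hr hq q2
  have := Fact.mk hq
  have hχ := ξ.2.isCharacter
  have hf : ∀ g, (ξ : G → ℂ) g = (ξ : G → ℂ) 1 → g = 1 := fun g e =>
    ξ.2.eq_one_of_apply_eq_of_isSimpleGroup h1 e
  have q1 : (1 : ℤ) < q := by exact_mod_cast hq.one_lt
  refine ⟨fun hlt hdv => ?_, fun hlt hdv => ?_⟩
  · obtain ⟨u, hu⟩ := exists_prime_orderOf_dvd_card' q hdv
    obtain ⟨m, m₀, m1, e, -⟩ := prime_val hχ hr hf hd hq hu
    have : (d : ℤ) + 1 < q := by exact_mod_cast hlt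
    have : (1 : ℤ) ≤ m := by exact_mod_cast m1
    nlinarith
  · have val : ∀ u : G, u ^ q = 1 → u ≠ 1 → (ξ : G → ℂ) u = ((d - q : ℤ) : ℂ) := fun u a b => by
      obtain ⟨m, m₀, m1, e, e'⟩ := prime_val hχ hr hf hd hq (orderOf_eq_prime a b)
      have : (d : ℤ) + 2 < 2 * q := by exact_mod_cast hlt
      obtain rfl : m = 1 := by
        by_contra h
        have : (2 : ℤ) ≤ m := by omega
        nlinarith
      rw [e']; congr 1; push_cast at e ⊢; omega
    obtain ⟨A, hA⟩ := Sylow.exists_subgroup_card_pow_prime q hdv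
    have := Fintype.ofFinite A
    have pw : ∀ a : A, (a : G) ^ q ^ 2 = 1 := fun a => by
      rw [← hA, ← SubmonoidClass.coe_pow, pow_card_eq_one', coe_one]
    obtain ⟨c, hc, hc'⟩ : ∃ c : ℤ, (q : ℤ) ∣ c - d ∧ ∀ a : A, a ^ q ≠ 1 → (ξ : G → ℂ) a = c := by
      by_cases ex : ∃ v : A, v ^ q ≠ 1
      · obtain ⟨v, hv⟩ := ex
        obtain ⟨c, hc⟩ := hr v
        refine ⟨c, cong hχ hq (pw v) (h := 1) (by simp) (by rw [mul_one, hc]) (by rw [hd]; simp),
          fun a ha => ?_⟩
        have ov : orderOf v = q ^ 2 := orderOf_eq_prime_pow (n := 1) (by rwa [pow_one])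
          (Subtype.ext (pw v))
        have top : zpowers v = ⊤ := eq_top_of_card_eq _ (by rw [Nat.card_zpowers, ov, hA])
        obtain ⟨k, rfl⟩ := mem_powers_iff_mem_zpowers.2 (top ▸ mem_top a : a ∈ zpowers v)
        rw [← hc]
        refine (hχ.isGeneralizedCharacter.exists_int_iff (v : G)).1 ⟨c, hc⟩ k ?_
        rw [orderOf_coe, ov]
        refine Nat.Coprime.pow_right 2 ((Nat.Prime.coprime_iff_not_dvd hq).2 fun h => ha ?_).symm
        obtain ⟨j, rfl⟩ := h
        change (v ^ (q * j)) ^ q = 1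
        rw [← pow_mul, show q * j * q = q ^ 2 * j by ring, pow_mul, ← ov, pow_orderOf_eq_one, one_pow]
      · exact ⟨d, by simp, fun a ha => (ex ⟨a, ha⟩).elim⟩
    letI : CommGroup A := IsPGroup.commGroupOfCardEqPrimeSq hA
    obtain ⟨N, hN⟩ : q ∣ (Finset.univ.filter fun a : A => a ^ q = 1).card := by
      obtain ⟨w, hw⟩ := exists_prime_orderOf_dvd_card' (G := A) q (hA ▸ dvd_pow_self q two_ne_zero)
      have e : (Finset.univ.filter fun a : A => a ^ q = 1).card =
          Nat.card (powMonoidHom q : A →* A).ker := by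
        rw [Nat.card_eq_fintype_card, Fintype.card_subtype]
        congr 1
        ext a
        simp only [Finset.mem_filter, MonoidHom.mem_ker, powMonoidHom_apply]
      rw [e, ← hw]
      refine Subgroup.orderOf_dvd_natCard _ ?_
      rw [MonoidHom.mem_ker, powMonoidHom_apply, pow_orderOf_eq_one]
    obtain ⟨n, hn⟩ := Spor.CKit.exists_nat_sum hχ A
    have cst : ∀ a : A, (ξ : G → ℂ) a =
        c + (if a ^ q = 1 then ((d : ℂ) - q - c) else 0) + if a = 1 then (q : ℂ) else 0 := fun a => by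
      by_cases e : a = 1
      · simp [e, hd]
      · by_cases e' : a ^ q = 1
        · rw [val a (congrArg Subtype.val e') fun h => e (Subtype.ext h)]
          simp [e, e']
        · simp [e, e', hc' a e']
    simp only [cst, Finset.sum_add_distrib, Finset.sum_const, Finset.card_univ, nsmul_eq_mul,
      Finset.sum_ite_eq', Finset.mem_univ, if_true, ← Finset.sum_filter, hN,
      ← Nat.card_eq_fintype_card, hA] at hn
    have h2 : (q : ℤ) ^ 2 * c + q * N * (d - q - c) + q = n * q ^ 2 := by exact_mod_cast hn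
    obtain ⟨j, hj⟩ := hc
    have h3 : (q : ℤ) * (q * (n - c + N * (j + 1))) = q * 1 := by
      linear_combination -h2 - (q * N) * hj
    have h4 := mul_left_cancel₀ (by omega) h3
    have := Int.eq_one_of_mul_eq_one_right (by omega) h4
    omega

end Cfsg.Lib.K35
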