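import Cfsg.Agent.K35.Loc
import Cfsg.Agent.LX.O6a

/-!
# A subgroup of index `27` in a group with socle `U₄(2)`
-/

set_option autoImplicit false

namespace Cfsg.Lib.K35

open Cfsg Subgroup Cfsg.Lib.Trans Cfsg.Lib.Gold
open Cfsg.Lib.P8 (A5 A6 S5 O2 Om Jt Phi EA SR4 Ch E9 Pj Ty Sec SecOK Mx)
open scoped commutatorElement

universe u

namespace U27

open Cfsg.Lib.LX.O6 MulAction

theorem cert : ∀ y ∈ L64, q6 y = 0 → y ≠ 0 → ∃ a ∈ L64, q6 a = 1 ∧ ∃ c ∈ L64, q6 c = 1 ∧
    ev [a, c] ((1, 0), (1, 0), 0) = y := by decide +kernel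

theorem count : ({y : Y6 | q6 y = 0 ∧ y ≠ 0} : Set Y6).ncard = 27 := by
  have : ({y : Y6 | q6 y = 0 ∧ y ≠ 0} : Set Y6) =
      ((Finset.univ.filter fun y : Y6 => q6 y = 0 ∧ y ≠ 0 : Finset Y6) : Set Y6) := by
    ext y; simp
  rw [this, Set.ncard_coe_finset]
  decide +kernel

theorem comm_le {W : Type*} [Group W] {R : Subgroup W} (h : R.index ∣ 2) : commutator W ≤ R := by
  rcases (Nat.dvd_prime Nat.prime_two).1 h with h | h
  · rw [index_eq_one.1 h]; exact le_top
  · refine commutator_le.2 fun a _ b _ => ?_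
    rw [commutatorElement_def, mul_mem_iff_of_index_two h, mul_mem_iff_of_index_two h,
      mul_mem_iff_of_index_two h, inv_mem_iff, inv_mem_iff]
    tauto

theorem fix {X : Type u} [Group X] [Finite X] (f : X →* W6) (hf : commutator W6 ≤ f.range)
    (S : Subgroup X) (hS : IsPGroup 2 S) : ∃ Y : Subgroup X, S ≤ Y ∧ Y.index = 27 := by
  let _ : MulAction X Y6 := MulAction.compHom Y6 f
  have sm : ∀ (x : X) (y : Y6), x • y = (f x).1 y := fun _ _ => rfl
  have ho : orbit X (((1, 0), (1, 0), 0) : Y6) = {y : Y6 | q6 y = 0 ∧ y ≠ 0} := by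
    ext y
    constructor
    · rintro ⟨x, rfl⟩
      refine ⟨?_, ?_⟩
      · change q6 ((f x).1 _) = 0
        rw [q_ap]; decide
      · change (f x).1 _ ≠ 0
        rw [Ne, LinearEquiv.map_eq_zero_iff]; decide
    · rintro ⟨h1, h2⟩
      obtain ⟨a, -, ha, c, -, hc, e⟩ := cert y (mem64 y) h1 h2
      obtain ⟨x, hx⟩ := hf (inner2 ha hc)
      exact ⟨x, by change (f x).1 _ = y; rw [hx, wd_ap, e]⟩
  have hc : Nat.card (orbit X (((1, 0), (1, 0), 0) : Y6)) = 27 := by
    rw [Nat.card_coe_set_eq, ho, count]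
  have : Fact (Nat.Prime 2) := ⟨Nat.prime_two⟩
  obtain ⟨y, hy⟩ := hS.nonempty_fixed_point_of_prime_not_dvd_card
    (orbit X (((1, 0), (1, 0), 0) : Y6)) (by rw [hc]; decide)
  refine ⟨stabilizer X (y : Y6), fun s hs => ?_, ?_⟩
  · exact congrArg Subtype.val (hy ⟨s, hs⟩)
  · rw [index_stabilizer, orbit_eq_iff.2 y.2, ho, count]

end U27

theorem u27 : StU27.{u} := by
  intro X _ _ L S hL hC ⟨F, _, _, hF, ⟨e⟩⟩ hS
  obtain ⟨g⟩ := Cfsg.Agent.S0822.result hF (ZMod.card 3)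
  obtain ⟨w⟩ := LX.O6.eW
  have hk : Function.Injective (MulAut.conjNormal (H := L)) := by
    rw [← MonoidHom.ker_eq_bot_iff, eq_bot_iff, ← hC]
    intro x hx
    rw [mem_centralizer_iff]
    intro y hy
    have := congrArg (fun a : MulAut L => (a ⟨y, hy⟩ : X)) (MonoidHom.mem_ker.1 hx)
    simp only [MulAut.conjNormal_apply, MulAut.one_apply] at this
    rw [← mul_inv_eq_iff_eq_mul.1 this]
  let f : X →* LX.O6.W6 := (((MulAut.congr (e.trans g)).trans w.symm).toMonoidHom).comp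
    (MulAut.conjNormal (H := L))
  have hf : Function.Injective f := ((MulAut.congr (e.trans g)).trans w.symm).injective.comp hk
  have c1 : Nat.card L = 25920 := (Nat.card_congr (e.trans g).toEquiv).trans LX.card_P3
  have c2 : Nat.card f.range = Nat.card X := (Nat.card_congr (MonoidHom.ofInjective hf).toEquiv).symm
  have c3 := f.range.card_mul_index
  rw [c2, LX.O6.card6] at c3
  have c4 : 25920 ∣ Nat.card X := c1 ▸ L.card_subgroup_dvd_card
  refine ⟨Dvd.intro _ c3, c4, U27.fix f (U27.comm_le ?_) S hS⟩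
  obtain ⟨k, hk⟩ := c4
  rw [hk, mul_assoc] at c3
  exact Dvd.intro_left k (by omega)

end Cfsg.Lib.K35
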