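import Cfsg.Agent.K35.Defs
import Cfsg.Agent.K35.ChK

/-! Simple groups of order `2 ^ a * 3 * 5 * q ^ b`: vanishing and congruences. -/

set_option autoImplicit false
set_option linter.unusedSectionVars false
set_option linter.unusedVariables false

namespace Cfsg.Lib.K35

open Cfsg Subgroup Cfsg.Lib.Char
open scoped commutatorElement ComplexConjugate

universe u

open ChK in
theorem van : StVan.{u} := by
  intro G _ _ _ hna ξ h1
  refine ⟨fun d g hd hg hc => ?_, fun p g h m n hp hg e hm hn => ?_, fun p d g hp hd hpd h2 hg => ?_⟩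
  · refine (irr_eq_zero_or_norm_eq_of_coprime ξ.2 hd g hc.symm).resolve_right fun e => hg ?_
    exact eq_one_of_norm hna ξ.2 h1 (by rw [e, hd, Complex.norm_natCast])
  · exact cong ξ.2.isCharacter (k := 1) hp (by rw [pow_one, ← hg, pow_orderOf_eq_one]) e hm hn
  · exact defect_zero ξ.2 hp hd hpd h2 hg

end Cfsg.Lib.K35
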