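import Cfsg.Agent.K35.Loc

/-!
# The module argument for the type `3 × S₃`
-/

set_option autoImplicit false
set_option maxHeartbeats 400000

namespace Cfsg.Lib.K35

open Cfsg Subgroup Cfsg.Lib.Trans Cfsg.Lib.Gold
open Cfsg.Lib.P8 (A5 A6 S5 O2 Om Jt Phi EA SR4 Ch E9 Pj Ty Sec SecOK Mx)
open scoped commutatorElement

universe u

namespace ZM

theorem x0_ord : orderOf x0 = 3 :=
  haveI : Fact (Nat.Prime 3) := ⟨by decide⟩
  orderOf_eq_prime (by decide +kernel) (by decide +kernel)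

theorem x0_4 : (x0 : S5) 4 = 4 := by decide +kernel

theorem x0_cube : x0 * x0 * x0 = 1 := by decide +kernel

theorem tr4 : ∀ i j k l : Fin 5, i ≠ 4 → j ≠ 4 → k ≠ 4 → l ≠ 4 → i ≠ j → k ≠ l →
    ∃ g : A5, (g : S5) 4 = 4 ∧ (g : S5) i = k ∧ (g : S5) j = l := by decide +kernel

theorem tr41 : ∀ i k : Fin 5, i ≠ 4 → k ≠ 4 → ∃ g : A5, (g : S5) 4 = 4 ∧ (g : S5) i = k := by
  decide +kernel

theorem tr1 : ∀ i k : Fin 5, ∃ g : A5, (g : S5) i = k := by decide +kernel

theorem c4 : Fintype.card {s : A5 // s * s = 1 ∧ (s : S5) 4 = 4} = 4 := by decide +kernel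

theorem mul4 : ∀ s : A5, s * s = 1 → (s : S5) 4 = 4 → (s : S5) 0 ≠ 4 ∧
    ∀ t : A5, t * t = 1 → (t : S5) 4 = 4 → s * t * (s * t) = 1 ∧ ((s * t : A5) : S5) 4 = 4 := by
  decide +kernel

variable {B : Type u} [AddCommGroup B] [DistribMulAction A5 B]

theorem fb {z : Fin 5 → B} (hz : Fam5 z) (i : Fin 5) : FB i (z i) := fun g hg => by
  rw [hz, hg]

theorem ino {z : Fin 5 → B} (hz : Fam5 z) (i : Fin 5) : InO (z i) :=
  AddSubgroup.subset_closure ⟨i, fb hz i⟩

theorem z4 (h : MA B) {z : Fin 5 → B} (hz : Fam5 z) : z 4 = z 0 + z 1 + z 2 + z 3 := by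
  have := h.sum z hz
  rw [Fin.sum_univ_five] at this
  rw [← add_zero (z 4), ← this, add_comm _ (z 4), ← add_assoc, h.m5.two, zero_add]

theorem memH {H : AddSubgroup B} (hH : Inv4 H) {z : Fin 5 → B} (hz : Fam5 z) {i k : Fin 5}
    (hi : i ≠ 4) (hk : k ≠ 4) (h : z i ∈ H) : z k ∈ H := by
  obtain ⟨g, g4, gi⟩ := tr41 i k hi hk
  have := hH g g4 _ h
  rwa [hz, gi] at this

theorem core (h : MA B) {H : AddSubgroup B} (h2 : H.index = 2) (hH : Inv4 H) :
    ∃ z : Fin 5 → B, Fam5 z ∧ z 4 ∈ H ∧ ∀ i, i ≠ 4 → z i ∉ H := by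
  have a2 : ∀ a b : B, a + b ∈ H ↔ (a ∈ H ↔ b ∈ H) := fun a b =>
    AddSubgroup.add_mem_iff_of_index_two h2
  have hN : ∀ n, InN n → n ∈ H := fun n hn => by
    by_contra h0
    have k : ∀ m : B, x0 • m ∈ H → m ∈ H := fun m hm => by
      have := hH x0 x0_4 _ (hH x0 x0_4 _ hm)
      rwa [smul_smul, smul_smul, x0_cube, one_smul] at this
    have h1 : x0 • n ∉ H := fun e => h0 (k _ e)
    have h3 : x0 • x0 • n ∉ H := fun e => h1 (k _ e)
    have := H.zero_mem
    rw [← hn x0 x0_ord, a2, a2] at this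
    tauto
  have h4 : ∀ z : Fin 5 → B, Fam5 z → z 4 ∈ H := fun z hz => by
    have e : ∀ i, i ≠ 4 → (z i ∈ H ↔ z 0 ∈ H) := fun i hi =>
      ⟨memH hH hz hi (by decide), memH hH hz (by decide) hi⟩
    rw [z4 h hz, a2, a2, a2, e 1 (by decide), e 2 (by decide), e 3 (by decide)]
    tauto
  by_contra hn
  have hO : ∀ o, InO o → o ∈ H := fun o ho => by
    refine (AddSubgroup.closure_le H).2 ?_ ho
    rintro p ⟨i, hp⟩
    obtain ⟨z, hz, rfl⟩ := h.fam i p hp
    by_cases hi : i = 4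
    · exact hi ▸ h4 z hz
    · by_contra h0
      exact hn ⟨z, hz, h4 z hz, fun k hk e => h0 (memH hH hz hk hi e)⟩
  have : H = ⊤ := eq_top_iff.2 fun m _ => by
    obtain ⟨n, o, a, b, rfl⟩ := h.dec m
    exact H.add_mem (hN n a) (hO o b)
  rw [this, AddSubgroup.index_top] at h2
  exact absurd h2 (by decide)

end ZM

open ZM

theorem zm : StZM.{u} := by
  intro A B C _ _ _ _ _ _ _ _ _ β hA hB hC eq mb Ψ H C₀ h2 hH hC0 hΨ hout hle
  obtain ⟨z', hz', z'4, z'n⟩ := core hB h2 hH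
  have a2 : ∀ i j, i ≠ 4 → j ≠ 4 → z' i + z' j ∈ H := fun i j hi hj =>
    (AddSubgroup.add_mem_iff_of_index_two h2).2 (iff_of_false (z'n i hi) (z'n j hj))
  have can : ∀ {a b : C}, a + b = 0 → a = b := fun {a b} e => by
    rw [← add_zero a, ← hC.m5.two b, ← add_assoc, e, zero_add]
  have s1 : ∀ w ∈ Ψ, x0 • w = w → w = 0 := by
    intro w hw hx
    by_contra w0
    obtain ⟨n, o, hn, ho, rfl⟩ := hA.dec w
    obtain ⟨-, f4⟩ := hA.decS n o hn ho (hΨ _ hw).1
    have n0 : n = 0 := by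
      rw [smul_add, f4 x0 x0_4, add_left_inj] at hx
      have := hn x0 x0_ord
      rwa [hx, hx, hA.m5.two, zero_add] at this
    rw [n0, zero_add] at hw w0
    obtain ⟨z, hz, rfl⟩ := hA.fam 4 o f4
    have d0 : β (z 4) (z' 4) ≠ 0 := fun e =>
      hout _ hw w0 _ (z'n 0 (by decide)) (mb.ooo z z' hz hz' e 4 0 ▸ C₀.zero_mem)
    obtain ⟨c, hc⟩ : ∃ c : Fin 5 → C, c = fun i => β (z 4) (z' i) := ⟨_, rfl⟩
    have c4 : c 4 = c 0 + c 1 + c 2 + c 3 := by
      simp only [hc]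
      rw [z4 hB hz', map_add, map_add, map_add]
    have ne : ∀ i j, i ≠ 4 → j ≠ 4 → i ≠ j → c i ≠ c j := fun i j hi hj hij e => by
      have k : ∀ l, l ≠ 4 → 0 ≠ l → c 0 = c l := fun l hl h0 => by
        obtain ⟨g, g4, gi, gj⟩ := tr4 i j 0 l hi hj (by decide) hl hij h0
        have := congrArg (g • ·) e
        simp only [hc] at this ⊢
        rwa [← eq, ← eq, hz, hz', hz', g4, gi, gj] at this
      refine d0 ((congrFun hc 4).symm.trans ?_)
      rw [c4, ← k 1 (by decide) (by decide), ← k 2 (by decide) (by decide),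
        ← k 3 (by decide) (by decide), hC.m5.two, zero_add, hC.m5.two]
    have ne' : ∀ i j, i ≠ 4 → j ≠ 4 → i ≠ j → c i + c j ≠ 0 := fun i j hi hj hij e =>
      ne i j hi hj hij (can e)
    have mem : ∀ i, i ≠ 4 → c 0 + c i ∈ H.map (β (z 4)) := fun i hi =>
      ⟨_, a2 0 i (by decide) hi, by rw [map_add, hc]⟩
    have m4 : c 4 ∈ H.map (β (z 4)) := ⟨_, z'4, by rw [hc]⟩
    have d0' : c 4 ≠ 0 := by rw [hc]; exact d0
    have q1 : c 0 + c 1 ≠ c 4 := fun e => ne' 2 3 (by decide) (by decide) (by decide) (by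
      rw [c4, add_assoc] at e; exact left_eq_add.1 e)
    have q2 : c 0 + c 2 ≠ c 4 := fun e => ne' 1 3 (by decide) (by decide) (by decide) (by
      rw [c4, add_right_comm (c 0), add_assoc] at e; exact left_eq_add.1 e)
    have q3 : c 0 + c 3 ≠ c 4 := fun e => ne' 1 2 (by decide) (by decide) (by decide) (by
      rw [c4, add_assoc (c 0), add_right_comm (c 0)] at e; exact left_eq_add.1 e)
    have r : ∀ i j, i ≠ 4 → j ≠ 4 → i ≠ j → c 0 + c i ≠ c 0 + c j := fun i j hi hj hij e =>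
      ne i j hi hj hij (add_left_cancel e)
    have r12 := r 1 2 (by decide) (by decide) (by decide)
    have r13 := r 1 3 (by decide) (by decide) (by decide)
    have r23 := r 2 3 (by decide) (by decide) (by decide)
    have p1 := ne' 0 1 (by decide) (by decide) (by decide)
    have p2 := ne' 0 2 (by decide) (by decide) (by decide)
    have p3 := ne' 0 3 (by decide) (by decide) (by decide)
    let f : Fin 5 → H.map (β (z 4)) := ![0, ⟨_, mem 1 (by decide)⟩, ⟨_, mem 2 (by decide)⟩,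
      ⟨_, mem 3 (by decide)⟩, ⟨_, m4⟩]
    have inj : Function.Injective f := fun i j e => by
      have e' := congrArg Subtype.val e
      fin_cases i <;> fin_cases j <;>
        first | rfl | (exfalso; first | contradiction | exact absurd e'.symm (by assumption) | exact absurd e' (by assumption))
    have := (Nat.card_le_card_of_injective f inj).trans (hle _ hw)
    simp at this
  have s2 : ∀ w ∈ Ψ, InN w := by
    intro w hw
    have e := s1 (w + x0 • w + x0 • x0 • w)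
      (Ψ.add_mem (Ψ.add_mem hw (hΨ _ hw).2) (hΨ _ (hΨ _ hw).2).2) (by
        rw [smul_add, smul_add, smul_smul x0 x0 (x0 • w), smul_smul (x0 * x0), x0_cube, one_smul]
        abel)
    obtain ⟨n, o, hn, ho, rfl⟩ := hA.dec w
    obtain ⟨-, f4⟩ := hA.decS n o hn ho (hΨ _ hw).1
    have o0 : o = 0 := by
      have e1 := hn x0 x0_ord
      rw [smul_add, f4 x0 x0_4, smul_add, f4 x0 x0_4] at e
      calc o = (n + x0 • n + x0 • x0 • n) + (o + o) + o := by rw [e1, hA.m5.two]; simp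
        _ = _ := by rw [← e]; abel
    rw [o0, add_zero]
    exact hn
  intro w hw w0
  have wN := s2 w hw
  have wS := (hΨ w hw).1
  obtain ⟨v, hv⟩ : ∃ v, v = β w (z' 0) := ⟨_, rfl⟩
  have vN : InN v := hv ▸ mb.no _ _ wN (ino hz' 0)
  have vS : ¬ FS v := fun e => hout w hw w0 _ (z'n 0 (by decide)) (hv ▸ hC0 v e)
  let f : {s : A5 // s * s = 1 ∧ (s : S5) 4 = 4} → H.map (β w) := fun s =>
    ⟨v + s.1 • v, _, a2 0 _ (by decide) (mul4 s.1 s.2.1 s.2.2).1, by
      rw [map_add, hv, ← eq, wS s.1 s.2.1 s.2.2, hz']⟩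
  have inj : Function.Injective f := fun s t e => by
    have e1 : s.1 • v = t.1 • v := add_left_cancel (congrArg Subtype.val e)
    obtain ⟨a, b⟩ := (mul4 s.1 s.2.1 s.2.2).2 t.1 t.2.1 t.2.2
    by_contra hne
    refine vS ((hC.quad v vN _ a b).2 (fun e2 => hne (Subtype.ext ?_)) ?_)
    · calc s.1 = s.1 * t.1 * t.1 := by rw [mul_assoc, t.2.1, mul_one]
        _ = t.1 := by rw [e2, one_mul]
    · rw [mul_smul, ← e1, smul_smul, s.2.1, one_smul]
  have cS : Nat.card {s : A5 // s * s = 1 ∧ (s : S5) 4 = 4} = 4 := by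
    rw [Nat.card_eq_fintype_card, c4]
  have c : Nat.card (H.map (β w)) = 4 :=
    le_antisymm (hle w hw) (cS ▸ Nat.card_le_card_of_injective f inj)
  have sur := ((Nat.bijective_iff_injective_and_card f).2 ⟨inj, cS.trans c.symm⟩).2
  have im : ∀ τ ∈ H, InN (β w τ) ∧ FS (β w τ) := fun τ hτ => by
    obtain ⟨s, hs⟩ := sur ⟨β w τ, τ, hτ, rfl⟩
    have e : v + s.1 • v = β w τ := congrArg Subtype.val hs
    rw [← e]
    exact ⟨hC.nAdd _ _ vN (hC.nSm _ _ vN), (hC.quad v vN _ s.2.1 s.2.2).1⟩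
  refine ⟨c, fun τ hτ => ?_⟩
  let K : AddSubgroup B :=
    { carrier := {τ | ∀ g : A5, g • τ ∈ H}
      zero_mem' := fun g => by rw [smul_zero]; exact H.zero_mem
      add_mem' := fun ha hb g => by rw [smul_add]; exact H.add_mem (ha g) (hb g)
      neg_mem' := fun ha g => by rw [smul_neg]; exact H.neg_mem (ha g) }
  obtain ⟨n, nK, hn, o, ho, rfl⟩ := hB.decK K
    (fun g m hm k => by rw [smul_smul]; exact hm _) τ hτ
  have e1 : β w n = 0 := hC.dis _ (im n (one_smul A5 n ▸ nK 1)).1 (mb.nn _ _ wN hn)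
  have e2 : o ∈ (β w).ker := by
    refine (AddSubgroup.closure_le _).2 ?_ ho
    rintro p ⟨pK, i, hp⟩
    obtain ⟨z, hz, rfl⟩ := hB.fam i p hp
    refine mb.n4 w z wS wN hz (fun j => (im _ ?_).2) i
    obtain ⟨g, hg⟩ := tr1 i j
    have := pK g
    rwa [hz, hg] at this
  rw [map_add, e1, zero_add]
  exact e2

end Cfsg.Lib.K35
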